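import Cfsg.Agent.Lib.OrthEightRecog.Module

/-!
The tensor basis of the module.
-/

set_option autoImplicit false

namespace CfsgLib.OrthEightRecog.Md

variable {V : Type*} [AddCommGroup V] [Finite V] (M : Md V)
include M

theorem p_self (i : Fin 3) (v : V) : M.e i v + M.e i (M.e i v) = v := M.p_eq_self (M.q_zero i v)

theorem decomp (i : Fin 3) (v : V) :
    ∃ h₀ h₁, v = h₀ + M.e i h₁ ∧ M.x i h₀ = h₀ ∧ M.x i h₁ = h₁ ∧
      ∀ j, j ≠ i → M.x j v = v → M.x j h₀ = h₀ ∧ M.x j h₁ = h₁ := by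
  set h := v + M.x i v with hh
  refine ⟨v + M.e i h, h, by rw [add_assoc, M.two, add_zero], ?_, by rw [hh, map_add, M.xx, add_comm], ?_⟩
  · have hxh : M.x i h = h := by rw [hh, map_add, M.xx, add_comm]
    rw [map_add, M.xe, hxh]
    have hp := M.p_self i h
    calc M.x i v + M.e i (M.e i h) = (v + v) + M.x i v + (M.e i h + M.e i h) + M.e i (M.e i h) := by
          rw [M.two, M.two]; abel
      _ = v + (v + M.x i v) + M.e i h + (M.e i h + M.e i (M.e i h)) := by abel
      _ = v + h + M.e i h + h := by rw [hp]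
      _ = v + M.e i h + (h + h) := by abel
      _ = v + M.e i h := by rw [M.two, add_zero]
  · intro j hj hv
    have h2 : M.x j h = h := by rw [hh, map_add, M.xc j i, hv]
    exact ⟨by rw [map_add, M.xec j i hj, h2, hv], h2⟩

/-- The common fixed vectors. -/
theorem fixed_eq {v : V} (hv : ∀ i, M.x i v = v) : v = 0 ∨ v = M.a := by
  by_contra hcon
  push Not at hcon
  have ha : M.a ≠ 0 := fun e => M.move 0 (by rw [e, map_zero])
  let H : AddSubgroup V :=
    { carrier := {u | ∀ i, M.x i u = u}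
      add_mem' := fun {p q} hp hq i => by rw [map_add, hp i, hq i]
      zero_mem' := fun i => map_zero _
      neg_mem' := fun {p} hp i => by rw [map_neg, hp i] }
  have h3 : 3 ≤ Nat.card H := by
    refine le_trans (le_of_eq (by simp)) (Nat.card_le_card_of_injective
      (fun b : Fin 3 => (⟨![0, M.a, v] b, by
        intro i
        fin_cases b
        · simp
        · exact M.fix i
        · exact hv i⟩ : H)) ?_)
    intro b b' h
    have h' := congrArg Subtype.val h
    fin_cases b <;> fin_cases b' <;> simp at h' ⊢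
    · exact ha h'.symm
    · exact hcon.1 h'.symm
    · exact ha h'
    · exact hcon.2 h'.symm
    · exact hcon.1 h'
    · exact hcon.2 h'
  have step : ∀ (i : Fin 3) (K : AddSubgroup V), (∀ h ∈ K, M.x i h = h) →
      ∃ K' : AddSubgroup V, Nat.card K * Nat.card K ≤ Nat.card K' ∧
        ∀ j, j ≠ i → (∀ h ∈ K, M.x j h = h) → ∀ h ∈ K', M.x j h = h := by
    intro i K hx
    let F : K × K →+ V := ((K.subtype).comp (AddMonoidHom.fst K K)) +
      ((M.e i).comp (K.subtype.comp (AddMonoidHom.snd K K)))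
    refine ⟨F.range, ?_, ?_⟩
    · rw [← Nat.card_prod]
      exact Nat.card_le_card_of_injective (fun c => (⟨F c, c, rfl⟩ : F.range))
        fun c d h => M.double_inj hx (fun h _ => M.q_zero i h) (congrArg Subtype.val h)
    · rintro j hj hxj _ ⟨c, rfl⟩
      show M.x j ((c.1 : V) + M.e i c.2) = c.1 + M.e i c.2
      rw [map_add, M.xec j i hj, hxj _ c.1.2, hxj _ c.2.2]
  have hxH : ∀ j, ∀ h ∈ H, M.x j h = h := fun j h hh => hh j
  obtain ⟨K₁, c1, x1⟩ := step 2 H (hxH 2)
  obtain ⟨K₂, c2, x2⟩ := step 1 K₁ (x1 1 (by decide) (hxH 1))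
  obtain ⟨K₃, c3, -⟩ := step 0 K₂ (x2 0 (by decide) (x1 0 (by decide) (hxH 0)))
  have a1 : 9 ≤ Nat.card K₁ := le_trans (Nat.mul_le_mul h3 h3) c1
  have a2 : 81 ≤ Nat.card K₂ := le_trans (Nat.mul_le_mul a1 a1) c2
  have a3 : 6561 ≤ Nat.card K₃ := le_trans (Nat.mul_le_mul a2 a2) c3
  have a4 := Nat.card_le_card_of_injective _ (Subtype.val_injective (p := (· ∈ K₃)))
  rw [M.card] at a4
  omega

/-- The tensor basis. -/
def c (S : Fin 8) : V :=
  (if S.val.testBit 0 then ⇑(M.e 0) else id) ((if S.val.testBit 1 then ⇑(M.e 1) else id)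
    ((if S.val.testBit 2 then ⇑(M.e 2) else id) M.a))

/-- A form vanishing on the basis vanishes. -/
theorem ext_zero {v : V} (h : ∀ S : Fin 8, M.B v (M.c S) = 0) : v = 0 := by
  refine M.nd v fun w => ?_
  obtain ⟨w₀, w₁, rfl, a0, a1, a2⟩ := M.decomp 0 w
  have key : ∀ u, M.x 0 u = u → (∀ T : Fin 4, M.B v ((if T.val.testBit 0 then ⇑(M.e 1) else id)
      ((if T.val.testBit 1 then ⇑(M.e 2) else id) M.a)) = 0) → M.B v u = 0 := by
    intro u hu hT
    obtain ⟨u₀, u₁, rfl, b0, b1, b2⟩ := M.decomp 1 u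
    have key2 : ∀ z, M.x 0 z = z → M.x 1 z = z → (M.B v M.a = 0) → M.B v (M.e 2 M.a) = 0 → M.B v z = 0 := by
      intro z hz0 hz1 hA hB
      obtain ⟨z₀, z₁, rfl, d0, d1, d2⟩ := M.decomp 2 z
      have e0 := d2 0 (by decide) hz0
      have e1 := d2 1 (by decide) hz1
      rcases M.fixed_eq (v := z₀) (fun i => by fin_cases i; exacts [e0.1, e1.1, d0]) with rfl | rfl <;>
        rcases M.fixed_eq (v := z₁) (fun i => by fin_cases i; exacts [e0.2, e1.2, d1]) with rfl | rfl <;>
        simp [M.add_right, M.zero_right, hA, hB]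
    obtain ⟨b00, b10⟩ := b2 0 (by decide) hu
    rw [M.add_right, key2 u₀ b00 b0 (by simpa [Nat.testBit] using hT 0) (by simpa [Nat.testBit] using hT 2), zero_add,
      M.symm, M.B_e_move, M.symm]
    have hv' : ∀ z, M.x 0 z = z → M.x 1 z = z → M.B v (M.e 1 z) = 0 := by
      intro z hz0 hz1
      obtain ⟨z₀, z₁, rfl, d0, d1, d2⟩ := M.decomp 2 z
      have e0 := d2 0 (by decide) hz0
      have e1 := d2 1 (by decide) hz1
      have hA : M.B v (M.e 1 M.a) = 0 := by simpa [Nat.testBit] using hT 1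
      have hB : M.B v (M.e 1 (M.e 2 M.a)) = 0 := by simpa [Nat.testBit] using hT 3
      rcases M.fixed_eq (v := z₀) (fun i => by fin_cases i; exacts [e0.1, e1.1, d0]) with rfl | rfl <;>
        rcases M.fixed_eq (v := z₁) (fun i => by fin_cases i; exacts [e0.2, e1.2, d1]) with rfl | rfl <;>
        simp [M.add_right, M.zero_right, hA, hB]
    have := hv' u₁ b10 b1
    rw [M.symm, M.B_e_move, M.symm] at this
    exact this
  have h1 : M.B v w₀ = 0 := key w₀ a0 fun T => by
    fin_cases T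
    · simpa [c, Nat.testBit] using h 0
    · simpa [c, Nat.testBit] using h 2
    · simpa [c, Nat.testBit] using h 4
    · simpa [c, Nat.testBit] using h 6
  rw [M.add_right, h1, zero_add, M.symm, M.B_e_move, M.symm]
  obtain ⟨u₀, u₁, e, b0, b1, b2⟩ := M.decomp 1 w₁
  obtain ⟨b00, b10⟩ := b2 0 (by decide) a1
  obtain ⟨p₀, p₁, ep, p0, p1, p2⟩ := M.decomp 2 u₀
  obtain ⟨q₀, q₁, eq, q0, q1, q2⟩ := M.decomp 2 u₁
  have f0 := p2 0 (by decide) b00
  have f1 := p2 1 (by decide) b0
  have g0 := q2 0 (by decide) b10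
  have g1 := q2 1 (by decide) b1
  have h2 : M.B v (M.e 0 w₁) = 0 := by
    rw [e, ep, eq]
    have v1 : M.B v (M.e 0 M.a) = 0 := by simpa [c, Nat.testBit] using h 1
    have v3 : M.B v (M.e 0 (M.e 1 M.a)) = 0 := by simpa [c, Nat.testBit] using h 3
    have v5 : M.B v (M.e 0 (M.e 2 M.a)) = 0 := by simpa [c, Nat.testBit] using h 5
    have v7 : M.B v (M.e 0 (M.e 1 (M.e 2 M.a))) = 0 := by simpa [c, Nat.testBit] using h 7
    rcases M.fixed_eq (v := p₀) (fun i => by fin_cases i; exacts [f0.1, f1.1, p0]) with rfl | rfl <;>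
      rcases M.fixed_eq (v := p₁) (fun i => by fin_cases i; exacts [f0.2, f1.2, p1]) with rfl | rfl <;>
      rcases M.fixed_eq (v := q₀) (fun i => by fin_cases i; exacts [g0.1, g1.1, q0]) with rfl | rfl <;>
      rcases M.fixed_eq (v := q₁) (fun i => by fin_cases i; exacts [g0.2, g1.2, q1]) with rfl | rfl <;>
      simp [M.add_right, M.zero_right, v1, v3, v5, v7]
  rw [M.symm, M.B_e_move, M.symm] at h2
  exact h2

theorem ext_basis {v w : V} (h : ∀ S : Fin 8, M.B v (M.c S) = M.B w (M.c S)) : v = w :=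
  M.eq_of_add (M.ext_zero fun S => by rw [M.add_left, h S]; exact CharTwo.add_self_eq_zero _)

theorem B_fixed_move (i : Fin 3) {u w : V} (hu : M.x i u = u) (hw : M.x i w = w) : M.B u w = 0 := by
  have h1 : M.B u (M.e i w) = M.B u (M.e i (M.e i w)) := by
    rw [← M.Bx i u (M.e i w), hu, M.xe, hw]
  rw [← M.p_self i w, M.add_right, h1]
  exact CharTwo.add_self_eq_zero _

theorem B_flip (i : Fin 3) {u w : V} (hu : M.x i u = u) (hw : M.x i w = w) :
    M.B u (M.e i (M.e i w)) = M.B u (M.e i w) := by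
  rw [← M.Bx i u (M.e i w), hu, M.xe, hw]

/-- One rotation inside the form. -/
theorem tab (i : Fin 3) (s t : Bool) {u w : V} (hu : M.x i u = u) (hw : M.x i w = w) :
    M.B ((if s then ⇑(M.e i) else id) u) ((if t then ⇑(M.e i) else id) w) =
      (if (s != t) = true then 1 else 0) * M.B u (M.e i w) := by
  cases s <;> cases t <;> simp [M.B_fixed_move i hu hw, M.Be]
  rw [M.B_e_move, M.B_flip i hu hw]

theorem x_pow (i j : Fin 3) (h : i ≠ j) (s : Bool) {u : V} (hu : M.x i u = u) :
    M.x i ((if s then ⇑(M.e j) else id) u) = (if s then ⇑(M.e j) else id) u := by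
  cases s <;> simp [M.xec i j h, hu]

theorem pow_comm (i j : Fin 3) (s : Bool) (u : V) :
    M.e i ((if s then ⇑(M.e j) else id) u) = (if s then ⇑(M.e j) else id) (M.e i u) := by
  cases s <;> simp [M.ee i j]

/-- The values of the form on the basis. -/
theorem B_c (S T : Fin 8) : M.B (M.c S) (M.c T) = if S.val + T.val = 7 then 1 else 0 := by
  have val : ∀ S T : Fin 8, M.B (M.c S) (M.c T) =
      (if (S.val.testBit 0 != T.val.testBit 0) = true then 1 else 0) *
        ((if (S.val.testBit 1 != T.val.testBit 1) = true then 1 else 0) *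
          ((if (S.val.testBit 2 != T.val.testBit 2) = true then 1 else 0) *
            M.B M.a (M.e 2 (M.e 1 (M.e 0 M.a))))) := by
    intro S T
    rw [c, c, M.tab 0 _ _ (M.x_pow 0 1 (by decide) _ (M.x_pow 0 2 (by decide) _ (M.fix 0)))
        (M.x_pow 0 1 (by decide) _ (M.x_pow 0 2 (by decide) _ (M.fix 0))),
      M.pow_comm 0 1, M.pow_comm 0 2,
      M.tab 1 _ _ (M.x_pow 1 2 (by decide) _ (M.fix 1))
        (M.x_pow 1 2 (by decide) _ (by rw [M.xec 1 0 (by decide), M.fix])),
      M.pow_comm 1 2,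
      M.tab 2 _ _ (M.fix 2) (by rw [M.xec 2 1 (by decide), M.xec 2 0 (by decide), M.fix])]
  have h01 : ∀ z : ZMod 2, z ≠ 1 → z = 0 := by decide
  have top : M.B M.a (M.e 2 (M.e 1 (M.e 0 M.a))) = 1 := by
    by_contra hne
    refine M.move 0 ?_
    have hz : M.a = 0 := M.ext_zero fun U => by
      have h : M.B (M.c 0) (M.c U) = 0 := by rw [val, h01 _ hne, mul_zero, mul_zero, mul_zero]
      simpa [c, Nat.testBit] using h
    rw [hz, map_zero]
  rw [val, top]
  revert S T
  decide

/-- Flipping one bit. -/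
def flipBit (j : Fin 3) (S : Fin 8) : Fin 8 := ⟨(S.val ^^^ 2 ^ j.val) % 8, Nat.mod_lt _ (by omega)⟩

theorem x_c_fix (j : Fin 3) (S : Fin 8) (h : S.val.testBit j.val = false) : M.x j (M.c S) = M.c S := by
  have x01 := fun v => M.xec 0 1 (by decide) v
  have x02 := fun v => M.xec 0 2 (by decide) v
  have x10 := fun v => M.xec 1 0 (by decide) v
  have x12 := fun v => M.xec 1 2 (by decide) v
  have x20 := fun v => M.xec 2 0 (by decide) v
  have x21 := fun v => M.xec 2 1 (by decide) v
  fin_cases j <;> fin_cases S <;> simp [c, Nat.testBit] at h ⊢ <;>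
    simp only [x01, x02, x10, x12, x20, x21, M.fix]

theorem c_eq_e (j : Fin 3) (S : Fin 8) (h : S.val.testBit j.val = true) :
    M.c S = M.e j (M.c (flipBit j S)) := by
  have e10 := fun v => M.ee 1 0 v
  have e20 := fun v => M.ee 2 0 v
  have e21 := fun v => M.ee 2 1 v
  fin_cases j <;> fin_cases S <;> simp [c, flipBit, Nat.testBit] at h ⊢ <;>
    simp only [e10, e20, e21]

/-- The reflections on the basis. -/
theorem x_c (j : Fin 3) (S : Fin 8) :
    M.x j (M.c S) = if S.val.testBit j.val then M.c S + M.c (flipBit j S) else M.c S := by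
  by_cases h : S.val.testBit j.val = true
  · rw [if_pos h]
    have hb : ∀ j : Fin 3, ∀ S : Fin 8, S.val.testBit j.val = true → (flipBit j S).val.testBit j.val = false := by
      decide
    have hfix := M.x_c_fix j _ (hb j S h)
    rw [M.c_eq_e j S h, M.xe, hfix]
    set z := M.c (flipBit j S)
    have hp := M.p_self j z
    calc M.e j (M.e j z) = (M.e j z + M.e j z) + M.e j (M.e j z) := by rw [M.two, zero_add]
      _ = M.e j z + z := by rw [add_assoc, hp]
  · rw [if_neg h]
    exact M.x_c_fix j S (by simpa using h)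

/-- The vectors moved by every reflection into the line of the distinguished vector. -/
theorem low_mem {v : V} (hv : ∀ j, M.x j v + v = 0 ∨ M.x j v + v = M.a) (U : Fin 8)
    (hU : U = 0 ∨ U = 1 ∨ U = 2 ∨ U = 4) : M.B v (M.c U) = 0 := by
  have ha : M.a = M.c 0 := by simp [c]
  have pick : ∀ U : Fin 8, (U = 0 ∨ U = 1 ∨ U = 2 ∨ U = 4) → ∃ j : Fin 3, ∃ T : Fin 8,
      T.val.testBit j.val = true ∧ flipBit j T = U ∧ T ≠ 7 := by decide
  obtain ⟨j, T, hT, hflip, h7⟩ := pick U hU
  have h1 : M.B (M.x j v + v) (M.c T) = 0 := by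
    rcases hv j with h | h <;> rw [h]
    · rw [M.symm, M.zero_right]
    · have hne : (0 : Fin 8).val + T.val ≠ 7 := fun e => h7 (Fin.ext (by simpa using e))
      rw [ha, M.B_c, if_neg hne]
  have h2 : M.B (M.x j v) (M.c T) = M.B v (M.c T) + M.B v (M.c U) := by
    rw [← M.Bx j (M.x j v) (M.c T), M.xx, M.x_c, if_pos hT, hflip, M.add_right]
  rw [M.add_left, h2] at h1
  have key : ∀ p q : ZMod 2, p + q + p = 0 → q = 0 := by decide
  exact key _ _ h1

end CfsgLib.OrthEightRecog.Md
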