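import Mathlib

/-!
Square matrices of size eight over the field with two elements, encoded by their columns in one natural number.
-/

set_option autoImplicit false

namespace CfsgLib.OrthEightRecog

local notation "IX" => Fin 4 ⊕ Fin 4

/-- The position of an index. -/
def pos : IX → ℕ
  | Sum.inl i => i.val
  | Sum.inr i => 4 + i.val

/-- A column of a code. -/
def col (a k : ℕ) : ℕ := (a >>> (8 * k)) &&& 255

/-- A column, if the bit of the vector is set. -/
def pick (a v k : ℕ) : ℕ := if v.testBit k then col a k else 0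

/-- A matrix applied to a vector. -/
def bapp (a v : ℕ) : ℕ :=
  pick a v 0 ^^^ pick a v 1 ^^^ pick a v 2 ^^^ pick a v 3 ^^^ pick a v 4 ^^^ pick a v 5 ^^^ pick a v 6 ^^^ pick a v 7

/-- A column of a product, shifted. -/
def pcol (a b j : ℕ) : ℕ := bapp a (col b j) <<< (8 * j)

/-- The product of two codes. -/
def bmul (a b : ℕ) : ℕ :=
  pcol a b 0 ||| pcol a b 1 ||| pcol a b 2 ||| pcol a b 3 ||| pcol a b 4 ||| pcol a b 5 ||| pcol a b 6 ||| pcol a b 7

/-- The code of the identity. -/
def bone : ℕ := 9241421688590303745

/-- An entry. -/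
def ent (a : ℕ) (i j : IX) : Bool := a.testBit (8 * pos j + pos i)

/-- The matrix of a code. -/
def toMat (a : ℕ) : Matrix IX IX (ZMod 2) := fun i j => if ent a i j then 1 else 0

theorem testBit_col (a k i : ℕ) : (col a k).testBit i = (a.testBit (8 * k + i) && decide (i < 8)) := by
  unfold col
  rw [Nat.testBit_and, Nat.testBit_shiftRight, show (255 : ℕ) = 2 ^ 8 - 1 from rfl, Nat.testBit_two_pow_sub_one]

theorem testBit_pick (a v k i : ℕ) :
    (pick a v k).testBit i = (v.testBit k && a.testBit (8 * k + i) && decide (i < 8)) := by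
  unfold pick
  split_ifs with h <;> simp [testBit_col, h]

theorem testBit_bapp_high (a v : ℕ) {i : ℕ} (h : 8 ≤ i) : (bapp a v).testBit i = false := by
  simp [bapp, Nat.testBit_xor, testBit_pick, show ¬ i < 8 by omega]

theorem testBit_pcol (a b k j i : ℕ) (hi : i < 8) :
    (pcol a b k).testBit (8 * j + i) = (decide (k = j) && (bapp a (col b j)).testBit i) := by
  unfold pcol
  rw [Nat.testBit_shiftLeft]
  rcases lt_trichotomy k j with h | rfl | h
  · rw [show decide (k = j) = false from decide_eq_false (by omega), Bool.false_and,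
      testBit_bapp_high _ _ (show 8 ≤ 8 * j + i - 8 * k by omega)]
    simp
  · simp
  · rw [show decide (k = j) = false from decide_eq_false (by omega)]
    simp [show ¬ 8 * k ≤ 8 * j + i by omega]

theorem testBit_bmul (a b : ℕ) (i j : IX) :
    ent (bmul a b) i j = (bapp a (col b (pos j))).testBit (pos i) := by
  have hi : pos i < 8 := by rcases i with i | i <;> simp [pos] <;> omega
  have hj : pos j < 8 := by rcases j with j | j <;> simp [pos] <;> omega
  simp only [ent, bmul, Nat.testBit_or, testBit_pcol _ _ _ _ _ hi]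
  generalize pos j = q at hj ⊢
  interval_cases q <;> simp

theorem toMat_bmul (a b : ℕ) : toMat (bmul a b) = toMat a * toMat b := by
  have hx : ∀ x y : Bool, ((if (x ^^ y) then 1 else 0) : ZMod 2) = (if x then 1 else 0) + (if y then 1 else 0) := by
    decide
  have ha : ∀ x y : Bool, ((if (x && y) then 1 else 0) : ZMod 2) = (if x then 1 else 0) * (if y then 1 else 0) := by
    decide
  ext i j
  have hi : pos i < 8 := by rcases i with i | i <;> simp [pos] <;> omega
  rw [Matrix.mul_apply, Fintype.sum_sum_type]
  simp only [Fin.sum_univ_four, toMat]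
  rw [testBit_bmul]
  simp only [bapp, Nat.testBit_xor, testBit_pick, testBit_col, ent, show pos (Sum.inl 0) = 0 from rfl,
    show pos (Sum.inl 1) = 1 from rfl, show pos (Sum.inl 2) = 2 from rfl, show pos (Sum.inl 3) = 3 from rfl,
    show pos (Sum.inr 0) = 4 from rfl, show pos (Sum.inr 1) = 5 from rfl, show pos (Sum.inr 2) = 6 from rfl,
    show pos (Sum.inr 3) = 7 from rfl]
  simp only [hi, Nat.reduceLT, decide_true, Bool.and_true, hx, ha]
  ring

theorem toMat_bone : toMat bone = 1 := by decide +kernel

/-- Two codes differ inside the eight columns. -/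
def bne' (a b : ℕ) : Bool := (a ^^^ b) % 18446744073709551616 != 0

theorem toMat_ne {a b : ℕ} (h : bne' a b = true) : toMat a ≠ toMat b := by
  intro e
  have hb : ∀ i j : IX, ent a i j = ent b i j := by
    intro i j
    have h2 := congrFun (congrFun e i) j
    simp only [toMat] at h2
    cases ha : ent a i j <;> cases hb : ent b i j <;> simp [ha, hb] at h2 ⊢
  have hz : (a ^^^ b) % 2 ^ 64 = 0 := by
    apply Nat.eq_of_testBit_eq
    intro q
    rw [Nat.testBit_mod_two_pow, Nat.zero_testBit]
    by_cases hq : q < 64
    · have key : ∀ k : ℕ, k < 8 → ∃ i : IX, pos i = k := by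
        intro k hk
        by_cases h4 : k < 4
        · exact ⟨Sum.inl ⟨k, h4⟩, rfl⟩
        · exact ⟨Sum.inr ⟨k - 4, by omega⟩, by show 4 + (k - 4) = k; omega⟩
      obtain ⟨i, hi⟩ := key (q % 8) (by omega)
      obtain ⟨j, hj⟩ := key (q / 8) (by omega)
      have := hb i j
      simp only [ent, hi, hj] at this
      rw [show 8 * (q / 8) + q % 8 = q by omega] at this
      simp [Nat.testBit_xor, this]
    · simp [hq]
  simp [bne', show (18446744073709551616 : ℕ) = 2 ^ 64 by norm_num] at h
  exact h hz

end CfsgLib.OrthEightRecog
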