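import Cfsg.Agent.Lib.OrthEightRecog.Rel

/-!
The longest element and the double coset decomposition of a group with the relations of type `D₄`.
-/

set_option autoImplicit false

namespace CfsgLib.OrthEightRecog

variable {Γ : Type*} [Group Γ]

/-- Words `(u, chain, v, chain, chain)` exhibiting the longest element as `i u` and as `v i` with `u = v`. -/
def longData : Fin 4 → List (Fin 4) × List (ℕ × ℕ) × List (Fin 4) × List (ℕ × ℕ) × List (ℕ × ℕ)
  | 0 => ([1, 2, 3, 0, 1, 2, 3, 0, 1, 2, 3], [], [1, 2, 3, 0, 2, 3, 1, 3, 2, 0, 3],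
      [(0, 2), (1, 2), (2, 3), (5, 2), (8, 2), (6, 3), (4, 3), (6, 2), (9, 2), (7, 3), (9, 3)],
      [(4, 2), (7, 2), (5, 3), (8, 2)])
  | 1 => ([0, 2, 3, 0, 1, 2, 3, 0, 1, 2, 3], [(0, 2)], [0, 2, 3, 1, 2, 3, 0, 3, 2, 1, 3],
      [(1, 2), (4, 2), (2, 3), (5, 2), (6, 3), (4, 3), (6, 2), (9, 2), (7, 3), (9, 3)],
      [(3, 2), (4, 2), (5, 3), (8, 2)])
  | 2 => ([0, 1, 3, 0, 1, 2, 3, 0, 1, 2, 3], [(1, 2), (0, 2)], [0, 1, 3, 2, 1, 3, 0, 3, 1, 2, 3],
      [(4, 2), (5, 2), (4, 2), (2, 3), (6, 3), (4, 3), (6, 2), (7, 3), (9, 3)],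
      [(3, 2), (4, 2), (3, 2), (5, 3)])
  | 3 => ([0, 3, 1, 2, 3, 0, 2, 3, 1, 3, 2],
      [(4, 2), (5, 2), (4, 2), (2, 3), (6, 3), (4, 3), (3, 2), (1, 3), (3, 3), (6, 2), (5, 2), (7, 3), (9, 3),
        (8, 2), (6, 3), (4, 3), (3, 2), (2, 2), (0, 3)],
      [0, 1, 2, 3, 0, 1, 2, 3, 0, 1, 2], [],
      [(5, 2), (3, 3), (1, 3), (3, 2), (7, 3), (6, 2), (4, 3), (2, 3), (4, 2), (6, 3), (5, 2), (4, 2)])

theorem longData_ok : ∀ i : Fin 4,
    moves longWord (longData i).2.1 = some (i :: (longData i).1) ∧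
      moves longWord (longData i).2.2.2.1 = some ((longData i).2.2.1 ++ [i]) ∧
      moves (longData i).1 (longData i).2.2.2.2 = some (longData i).2.2.1 ∧
      actRoot (longData i).1 (simp4 i) = some (simp4 i) ∧
      actRoot (longData i).2.2.1.reverse (simp4 i) = some (simp4 i) := by
  decide +kernel

/-- The root element of a signed root: `(false, b)` is positive, `(true, b)` negative. -/
def sroot (s : Sys Γ) (r : Bool × Fin 12) : Γ :=
  if r.1 then nprod s longWord * s.x r.2 * (nprod s longWord)⁻¹ else s.x r.2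

namespace Rel

variable {s : Sys Γ} (R : Rel s)
include R

theorem nprod_reverse (w : List (Fin 4)) : nprod s w.reverse = (nprod s w)⁻¹ := by
  induction w with
  | nil => simp [nprod]
  | cons i w ih =>
    rw [List.reverse_cons, nprod_append, nprod_cons, nprod_cons, mul_inv_rev, R.n_inv, ih]
    simp [nprod]

theorem long_left (i : Fin 4) : nprod s longWord = s.n i * nprod s (longData i).1 := by
  rw [← nprod_cons, R.nprod_moves _ (longData_ok i).1]

theorem long_right (i : Fin 4) : nprod s longWord = nprod s (longData i).2.2.1 * s.n i := by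
  have h := R.nprod_moves _ (longData_ok i).2.1
  rw [nprod_append] at h
  rw [← h]
  simp [nprod]

theorem long_comm (i : Fin 4) : nprod s longWord * s.n i = s.n i * nprod s longWord := by
  conv_lhs => rw [R.long_right i, mul_assoc, R.nn, mul_one, R.nprod_moves _ (longData_ok i).2.2.1]
  rw [R.long_left i, ← mul_assoc, R.nn, one_mul]

theorem neg_simple (i : Fin 4) : sroot s (true, simp4 i) = s.n i * s.x (simp4 i) * s.n i := by
  show nprod s longWord * s.x (simp4 i) * (nprod s longWord)⁻¹ = _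
  rw [R.long_left i, mul_inv_rev, R.n_inv]
  have h := R.conj_word _ (longData_ok i).2.2.2.1
  calc s.n i * nprod s (longData i).1 * s.x (simp4 i) * ((nprod s (longData i).1)⁻¹ * s.n i)
      = s.n i * (nprod s (longData i).1 * s.x (simp4 i) * (nprod s (longData i).1)⁻¹) * s.n i := by group
    _ = _ := by rw [h]

theorem neg_simple' (i : Fin 4) :
    (nprod s longWord)⁻¹ * s.x (simp4 i) * nprod s longWord = s.n i * s.x (simp4 i) * s.n i := by
  have h := R.conj_word _ (longData_ok i).2.2.2.2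
  rw [R.nprod_reverse, inv_inv] at h
  rw [R.long_right i, mul_inv_rev, R.n_inv]
  calc s.n i * (nprod s (longData i).2.2.1)⁻¹ * s.x (simp4 i) * (nprod s (longData i).2.2.1 * s.n i)
      = s.n i * ((nprod s (longData i).2.2.1)⁻¹ * s.x (simp4 i) * nprod s (longData i).2.2.1) * s.n i := by group
    _ = _ := by rw [h]

/-- A reflection permutes the signed root elements. -/
theorem conj_sroot (i : Fin 4) (r : Bool × Fin 12) :
    s.n i * sroot s r * s.n i =
      sroot s (if r.2 = simp4 i then (!r.1, r.2) else (r.1, refl4 i r.2)) := by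
  obtain ⟨σ, b⟩ := r
  dsimp only
  by_cases hb : b = simp4 i
  · subst hb
    rw [if_pos rfl]
    cases σ
    · exact (R.neg_simple i).symm
    · rw [R.neg_simple]
      show s.n i * (s.n i * s.x (simp4 i) * s.n i) * s.n i = s.x (simp4 i)
      rw [← mul_assoc, ← mul_assoc, R.nn, one_mul, mul_assoc, R.nn, mul_one]
  · rw [if_neg hb]
    cases σ
    · exact R.nx i b hb
    · show s.n i * (nprod s longWord * s.x b * (nprod s longWord)⁻¹) * s.n i =
        nprod s longWord * s.x (refl4 i b) * (nprod s longWord)⁻¹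
      have hc := R.long_comm i
      have hc' : (nprod s longWord)⁻¹ * s.n i = s.n i * (nprod s longWord)⁻¹ := by
        rw [eq_mul_inv_iff_mul_eq, mul_assoc, ← hc, inv_mul_cancel_left]
      rw [← R.nx i b hb]
      simp only [← mul_assoc, ← hc]
      rw [mul_assoc (nprod s longWord * s.n i * s.x b) _ (s.n i), hc', ← mul_assoc]

end Rel

/-- The subgroup generated by the root elements of level at least `k`. -/
def lvl (s : Sys Γ) (k : ℕ) : Subgroup Γ := Subgroup.closure (s.x '' {b | k ≤ b.val})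

/-- The subgroup generated by the reflections. -/
def ngp (s : Sys Γ) : Subgroup Γ := Subgroup.closure (Set.range s.n)

/-- The generated group. -/
def gen (s : Sys Γ) : Subgroup Γ := Subgroup.closure (Set.range s.x ∪ Set.range s.n)

theorem sum_gt : ∀ a b c : Fin 12, rootSum a b = some c → a < c ∧ b < c := by decide +kernel

theorem rootSum_simp : ∀ a b : Fin 12, ∀ i : Fin 4, rootSum a b ≠ some (simp4 i) := by decide +kernel

theorem refl4_ne : ∀ i : Fin 4, ∀ b : Fin 12, b ≠ simp4 i → refl4 i b ≠ simp4 i := by decide +kernel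

namespace Rel

variable {s : Sys Γ} (R : Rel s)
include R

theorem xconj (a b : Fin 12) : s.x a * s.x b * s.x a = (rootSum a b).elim 1 s.x * s.x b := by
  rw [← R.comm a b, mul_assoc (s.x a * s.x b * s.x a) (s.x b) (s.x b), R.xx, mul_one]

/-- Splitting off one root element from a subgroup generated by root elements. -/
theorem split (k : Fin 12) {S : Set (Fin 12)} (hS : ∀ b ∈ S, b ≠ k → ∀ c, rootSum k b = some c → c ∈ S ∧ c ≠ k)
    {u : Γ} (hu : u ∈ Subgroup.closure (s.x '' S)) :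
    ∃ v ∈ Subgroup.closure (s.x '' {b | b ∈ S ∧ b ≠ k}), u = v ∨ u = s.x k * v := by
  set V := Subgroup.closure (s.x '' {b | b ∈ S ∧ b ≠ k})
  have hmem : ∀ b ∈ S, b ≠ k → s.x b ∈ V := fun b hb hbk => Subgroup.subset_closure ⟨b, ⟨hb, hbk⟩, rfl⟩
  have step : ∀ b ∈ S, ∀ y : Γ, (∃ v ∈ V, y = v ∨ y = s.x k * v) →
      ∃ v ∈ V, s.x b * y = v ∨ s.x b * y = s.x k * v := by
    rintro b hb y ⟨v, hv, rfl | rfl⟩
    · by_cases hbk : b = k
      · exact ⟨_, hv, Or.inr (by rw [hbk])⟩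
      · exact ⟨_, mul_mem (hmem b hb hbk) hv, Or.inl rfl⟩
    · by_cases hbk : b = k
      · exact ⟨v, hv, Or.inl (by rw [hbk, ← mul_assoc, R.xx, one_mul])⟩
      · refine ⟨(s.x k * s.x b * s.x k) * v, mul_mem ?_ hv, Or.inr ?_⟩
        · rw [R.xconj]
          refine mul_mem ?_ (hmem b hb hbk)
          cases hc : rootSum k b with
          | none => exact one_mem _
          | some c => exact hmem c (hS b hb hbk c hc).1 (hS b hb hbk c hc).2
        · simp only [← mul_assoc, R.xx, one_mul]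
  refine Subgroup.closure_induction_left (p := fun y _ => ∃ v ∈ V, y = v ∨ y = s.x k * v)
    ⟨1, one_mem _, Or.inl rfl⟩ ?_ ?_ hu
  · rintro _ ⟨b, hb, rfl⟩ y _ hy
    exact step b hb y hy
  · rintro _ ⟨b, hb, rfl⟩ y _ hy
    rw [R.x_inv]
    exact step b hb y hy

theorem ngp_sroot {m : Γ} (hm : m ∈ ngp s) :
    ∀ b : Fin 12, ∃ (c : Fin 12) (σ : Bool), m * s.x c * m⁻¹ = sroot s (σ, b) := by
  have step : ∀ i : Fin 4, ∀ y : Γ, (∀ b : Fin 12, ∃ (c : Fin 12) (σ : Bool), y * s.x c * y⁻¹ = sroot s (σ, b)) →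
      ∀ b : Fin 12, ∃ (c : Fin 12) (σ : Bool), (s.n i * y) * s.x c * (s.n i * y)⁻¹ = sroot s (σ, b) := by
    intro i y hy b
    by_cases hb : b = simp4 i
    · obtain ⟨c, σ, e⟩ := hy b
      refine ⟨c, !σ, ?_⟩
      rw [mul_inv_rev, R.n_inv, show s.n i * y * s.x c * (y⁻¹ * s.n i) = s.n i * (y * s.x c * y⁻¹) * s.n i by group,
        e, R.conj_sroot, if_pos hb]
    · obtain ⟨c, σ, e⟩ := hy (refl4 i b)
      refine ⟨c, σ, ?_⟩
      have hinv : ∀ j : Fin 4, ∀ d : Fin 12, refl4 j (refl4 j d) = d := by decide +kernel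
      rw [mul_inv_rev, R.n_inv, show s.n i * y * s.x c * (y⁻¹ * s.n i) = s.n i * (y * s.x c * y⁻¹) * s.n i by group,
        e, R.conj_sroot, if_neg (refl4_ne i b hb), hinv]
  refine Subgroup.closure_induction_left (p := fun y _ => ∀ b : Fin 12, ∃ (c : Fin 12) (σ : Bool),
    y * s.x c * y⁻¹ = sroot s (σ, b)) (fun b => ⟨b, false, by simp [sroot]⟩) ?_ ?_ hm
  · rintro _ ⟨i, rfl⟩ y _ hy
    exact step i y hy
  · rintro _ ⟨i, rfl⟩ y _ hy
    rw [R.n_inv]
    exact step i y hy

theorem lvl_conj (i : Fin 4) {v : Γ} (hv : v ∈ Subgroup.closure (s.x '' {b | b ∈ Set.univ ∧ b ≠ simp4 i})) :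
    s.n i * v * s.n i ∈ lvl s 0 ∧ s.x (simp4 i) * v * s.x (simp4 i) ∈
      Subgroup.closure (s.x '' {b | b ∈ Set.univ ∧ b ≠ simp4 i}) := by
  set V := Subgroup.closure (s.x '' {b | b ∈ Set.univ ∧ b ≠ simp4 i})
  have h1 : V ≤ (lvl s 0).comap (MulAut.conj (s.n i)).toMonoidHom := by
    rw [Subgroup.closure_le]
    rintro _ ⟨b, ⟨-, hb⟩, rfl⟩
    show s.n i * s.x b * (s.n i)⁻¹ ∈ lvl s 0
    rw [R.n_inv, R.nx i b hb]
    exact Subgroup.subset_closure ⟨_, Nat.zero_le _, rfl⟩
  have h2 : V ≤ V.comap (MulAut.conj (s.x (simp4 i))).toMonoidHom := by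
    rw [Subgroup.closure_le]
    rintro _ ⟨b, ⟨-, hb⟩, rfl⟩
    show s.x (simp4 i) * s.x b * (s.x (simp4 i))⁻¹ ∈ V
    rw [R.x_inv, R.xconj]
    refine mul_mem ?_ (Subgroup.subset_closure ⟨b, ⟨trivial, hb⟩, rfl⟩)
    cases hc : rootSum (simp4 i) b with
    | none => exact one_mem _
    | some c => exact Subgroup.subset_closure ⟨c, ⟨trivial, fun e => rootSum_simp _ _ i (e ▸ hc)⟩, rfl⟩
  have e1 := h1 hv
  have e2 := h2 hv
  simp only [Subgroup.mem_comap, MulEquiv.coe_toMonoidHom, MulAut.conj_apply, R.n_inv, R.x_inv] at e1 e2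
  exact ⟨e1, e2⟩

/-- The generated group consists of the double cosets of the reflection products. -/
theorem cells {g : Γ} (hg : g ∈ gen s) :
    ∃ u ∈ lvl s 0, ∃ m ∈ ngp s, ∃ u' ∈ lvl s 0, g = u * m * u' := by
  let P : Γ → Prop := fun g => ∃ u ∈ lvl s 0, ∃ m ∈ ngp s, ∃ u' ∈ lvl s 0, g = u * m * u'
  have hx : ∀ b, s.x b ∈ lvl s 0 := fun b => Subgroup.subset_closure ⟨b, Nat.zero_le _, rfl⟩
  have stepX : ∀ b y, P y → P (s.x b * y) := by
    rintro b _ ⟨u, hu, m, hm, u', hu', rfl⟩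
    exact ⟨s.x b * u, mul_mem (hx b) hu, m, hm, u', hu', by group⟩
  have stepN : ∀ i y, P y → P (s.n i * y) := by
    rintro i _ ⟨u, hu, m, hm, u', hu', rfl⟩
    have hn : s.n i ∈ ngp s := Subgroup.subset_closure ⟨i, rfl⟩
    have hu2 : u ∈ Subgroup.closure (s.x '' Set.univ) := by simpa [lvl] using hu
    obtain ⟨v, hv, rfl | rfl⟩ := R.split (simp4 i) (S := Set.univ)
      (fun b _ _ c hc => ⟨trivial, fun e => rootSum_simp _ _ i (e ▸ hc)⟩) hu2
    · exact ⟨_, (R.lvl_conj i hv).1, s.n i * m, mul_mem hn hm, u', hu', by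
        simp only [← mul_assoc]; rw [mul_assoc (s.n i * u) (s.n i) (s.n i), R.nn, mul_one]⟩
    obtain ⟨hv1, hv2⟩ := R.lvl_conj i hv
    set X := s.x (simp4 i)
    set N := s.n i
    set v' := X * v * X
    have hv' := (R.lvl_conj i hv2).1
    have e0 : N * (X * v * m * u') = (N * v' * N) * (N * X * m) * u' := by
      simp only [v', ← mul_assoc]
      rw [mul_assoc (N * X * v * X) N N, R.nn, mul_one, mul_assoc (N * X * v) X X, R.xx, mul_one]
    obtain ⟨c, σ, e⟩ := R.ngp_sroot hm (simp4 i)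
    cases σ
    · have e' : m * s.x c * m⁻¹ = X := e
      refine ⟨_, hv', N * m, mul_mem hn hm, s.x c * u', mul_mem (hx c) hu', ?_⟩
      have h : X * m = m * s.x c := by rw [← e']; group
      rw [e0, mul_assoc N X m, h]
      simp only [N, mul_assoc]
    · rw [R.neg_simple] at e
      refine ⟨(N * v' * N) * X, mul_mem hv' (hx _), m, hm, s.x c * u', mul_mem (hx c) hu', ?_⟩
      have e3 : N * X = X * (N * X * N) := by
        rw [R.xn i]
        show N * X = X * (X * N * X)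
        simp only [← mul_assoc, X, R.xx, one_mul]
      have h : N * X * N * m = m * s.x c := by rw [← e]; group
      rw [e0, e3, mul_assoc X _ m, h]
      group
  have h0 : P 1 := ⟨1, one_mem _, 1, one_mem _, 1, one_mem _, by simp⟩
  show P g
  refine Subgroup.closure_induction_left (p := fun y _ => P y) h0 ?_ ?_ hg
  · rintro _ (⟨b, rfl⟩ | ⟨i, rfl⟩) y _ hy
    · exact stepX b y hy
    · exact stepN i y hy
  · rintro _ (⟨b, rfl⟩ | ⟨i, rfl⟩) y _ hy
    · rw [R.x_inv]; exact stepX b y hy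
    · rw [R.n_inv]; exact stepN i y hy

end Rel

end CfsgLib.OrthEightRecog
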