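import Cfsg.Agent.Lib.OrthEightRecog.Model

/-!
A group with a centre-free system of type `D₄` over the field with two elements receives the orthogonal group
injectively.
-/

set_option autoImplicit false

namespace CfsgLib.OrthEightRecog

local notation "IX" => Fin 4 ⊕ Fin 4
local notation "F2" => ZMod 2

variable {G : Type*} [Group G]

/-- The pair of a system and the model. -/
noncomputable def psys (s : Sys G) : Sys (G × ↥Om) := ⟨fun b => (s.x b, mx b), fun i => (s.n i, mn i)⟩

theorem psys_rel {s : Sys G} (R : Rel s) : Rel (psys s) where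
  xx b := Prod.ext (R.xx b) (model_rel.xx b)
  comm a b := by
    refine Prod.ext ((R.comm a b).trans ?_) ((model_rel.comm a b).trans ?_) <;> cases rootSum a b <;> rfl
  nn i := Prod.ext (R.nn i) (model_rel.nn i)
  nx i b h := Prod.ext (R.nx i b h) (model_rel.nx i b h)
  xn i := Prod.ext (R.xn i) (model_rel.xn i)
  nc i j hi hj := Prod.ext (R.nc i j hi hj) (model_rel.nc i j hi hj)
  br i hi := Prod.ext (R.br i hi) (model_rel.br i hi)

/-- The codes of the products of root elements of level at least `12 - k`. -/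
def nf : ℕ → List ℕ
  | 0 => [bone]
  | k + 1 => nf k ++ (nf k).map (bmul (mxc ⟨11 - k, by omega⟩))

theorem nf_ok : ∀ k : Fin 12, ((nf k.val).map (bmul (mxc ⟨11 - k.val, by omega⟩))).all (fun c => bne' c bone) =
    true := by decide +kernel

/-- Codes of the signed root elements. -/
def srcode (r : Bool × Fin 12) : List (Fin 12 ⊕ Fin 4) :=
  if r.1 then (longWord.map Sum.inr) ++ Sum.inl r.2 :: (longWord.reverse.map Sum.inr) else [Sum.inl r.2]

theorem srcode_ne : ∀ c b : Fin 12, ∀ σ : Bool, (c ≠ b ∨ σ = true) →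
    bne' (wcode [Sum.inl c]) (wcode (srcode (σ, b))) = true := by decide +kernel

theorem sroot_msys (r : Bool × Fin 12) : sroot msys r = wval msys (srcode r) := by
  obtain ⟨σ, b⟩ := r
  cases σ
  · simp [sroot, srcode, wval]
  · show nprod msys longWord * msys.x b * (nprod msys longWord)⁻¹ = _
    rw [← model_rel.nprod_reverse]
    simp [srcode, wval, nprod, mul_assoc, List.map_map, Function.comp_def]

/-- A permutation matrix. -/
def IsPerm (M : Matrix IX IX F2) : Prop := ∃ σ : Equiv.Perm IX, ∀ u w, M u w = if σ u = w then 1 else 0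

theorem IsPerm.mul {M N : Matrix IX IX F2} (hM : IsPerm M) (hN : IsPerm N) : IsPerm (M * N) := by
  obtain ⟨σ, hσ⟩ := hM
  obtain ⟨τ, hτ⟩ := hN
  refine ⟨σ.trans τ, fun u w => ?_⟩
  rw [Matrix.mul_apply, Finset.sum_eq_single (σ u)]
  · rw [hσ, if_pos rfl, one_mul, hτ]; rfl
  · intro x _ hx; rw [hσ, if_neg (Ne.symm hx), zero_mul]
  · simp

open CfsgLib.SectRank.CT in
theorem perm_ut {M : Matrix IX IX F2} (hP : IsPerm M) (hU : UT (m := 1) M) : M = 1 := by
  obtain ⟨σ, hσ⟩ := hP
  have h : ∀ u, σ u = u := by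
    intro u
    by_contra h
    have h1 := hU u u le_rfl
    rw [if_pos rfl, hσ, if_neg h] at h1
    exact zero_ne_one h1
  ext u w
  rw [hσ, h, Matrix.one_apply]

theorem mn_perm (i : Fin 4) : IsPerm (toMat (mnc i)) := by
  have key : ∀ (c : ℕ) (σ : Equiv.Perm IX), (∀ u w : IX, ent c u w = decide (σ u = w)) → IsPerm (toMat c) :=
    fun c σ h => ⟨σ, fun u w => by simp [toMat, h]⟩
  match i with
  | 0 => exact key _ (Equiv.swap (Sum.inl 0) (Sum.inl 1) * Equiv.swap (Sum.inr 0) (Sum.inr 1)) (by decide +kernel)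
  | 1 => exact key _ (Equiv.swap (Sum.inl 2) (Sum.inl 3) * Equiv.swap (Sum.inr 2) (Sum.inr 3)) (by decide +kernel)
  | 2 => exact key _ (Equiv.swap (Sum.inl 2) (Sum.inr 3) * Equiv.swap (Sum.inl 3) (Sum.inr 2)) (by decide +kernel)
  | 3 => exact key _ (Equiv.swap (Sum.inl 1) (Sum.inl 2) * Equiv.swap (Sum.inr 1) (Sum.inr 2)) (by decide +kernel)

theorem mx_ut (b : Fin 12) : CfsgLib.SectRank.CT.UT (m := 1) (toMat (mxc b)) := by
  have h : ∀ b : Fin 12, ∀ u w : IX, CfsgLib.SectRank.CT.rk (m := 1) w ≤ CfsgLib.SectRank.CT.rk (m := 1) u →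
      ent (mxc b) u w = decide (u = w) := by decide +kernel
  intro u w huw
  simp [toMat, h b u w huw]

/-- The inverse image of the matrices with a property. -/
theorem matHom_closure {Γ : Type*} [Group Γ] (f : Γ →* ↥Om) {S : Set Γ} (P : Matrix IX IX F2 → Prop)
    (h1 : P 1) (hm : ∀ M N, P M → P N → P (M * N)) (hS : ∀ g ∈ S, P (matHom (f g)))
    (hi : ∀ g ∈ S, g⁻¹ = g) {g : Γ} (hg : g ∈ Subgroup.closure S) : P (matHom (f g)) := by
  refine Subgroup.closure_induction_left (p := fun y _ => P (matHom (f y))) (by rw [map_one, map_one]; exact h1)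
    ?_ ?_ hg
  · intro x hx y _ hy
    rw [map_mul, map_mul]
    exact hm _ _ (hS x hx) hy
  · intro x hx y _ hy
    rw [hi x hx, map_mul, map_mul]
    exact hm _ _ (hS x hx) hy

namespace Rel

variable {s : Sys G} (R : Rel s)
include R

theorem lvl_injective : ∀ k : ℕ, k ≤ 12 → ∀ g ∈ lvl (psys s) (12 - k),
    ∃ c ∈ nf k, matHom g.2 = toMat c ∧ (g.2 = 1 → g = 1) := by
  intro k
  induction k with
  | zero =>
    intro _ g hg
    have e : g = 1 := by
      have h : lvl (psys s) (12 - 0) = ⊥ := by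
        unfold lvl
        rw [show {b : Fin 12 | 12 - 0 ≤ b.val} = ∅ by ext b; have := b.isLt; simp, Set.image_empty,
          Subgroup.closure_empty]
      rw [h] at hg
      exact hg
    subst e
    exact ⟨bone, List.mem_singleton.2 rfl, by simp [toMat_bone], fun _ => rfl⟩
  | succ k ih =>
    intro hk g hg
    set q : Fin 12 := ⟨11 - k, by omega⟩ with hq
    have hS : ∀ b ∈ {b : Fin 12 | 12 - (k + 1) ≤ b.val}, b ≠ q → ∀ c, rootSum q b = some c →
        c ∈ {b : Fin 12 | 12 - (k + 1) ≤ b.val} ∧ c ≠ q := by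
      intro b _ _ c hc
      obtain ⟨h1, -⟩ := sum_gt _ _ _ hc
      have h2 : q.val < c.val := h1
      exact ⟨by show 12 - (k + 1) ≤ c.val; rw [hq] at h2; simp at h2; omega, fun e => by rw [e] at h2; omega⟩
    obtain ⟨v, hv, he⟩ := (psys_rel R).split q hS hg
    have hv' : v ∈ lvl (psys s) (12 - k) := by
      refine Subgroup.closure_mono (Set.image_mono ?_) hv
      rintro b ⟨hb1, hb2⟩
      have hb3 : b.val ≠ 11 - k := fun e => hb2 (Fin.ext e)
      show 12 - k ≤ b.val
      have : 12 - (k + 1) ≤ b.val := hb1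
      omega
    obtain ⟨c, hc, hcm, hc1⟩ := ih (by omega) v hv'
    rcases he with rfl | rfl
    · exact ⟨c, List.mem_append_left _ hc, hcm, hc1⟩
    · have hm : matHom ((psys s).x q * v).2 = toMat (bmul (mxc q) c) := by
        show matHom (mx q * v.2) = _
        rw [map_mul, matHom_mx, hcm, toMat_bmul]
      refine ⟨_, List.mem_append_right _ (List.mem_map_of_mem hc), hm, fun h1 => absurd ?_ (toMat_ne (a := bmul
        (mxc q) c) (b := bone) ?_)⟩
      · rw [← hm, h1, map_one, toMat_bone]
      · exact List.all_eq_true.1 (nf_ok ⟨k, by omega⟩) _ (List.mem_map_of_mem hc)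

theorem kernel_trivial (hZ : ∀ g ∈ gen s, (∀ b, g * s.x b = s.x b * g) → (∀ i, g * s.n i = s.n i * g) → g = 1)
    {g : G × ↥Om} (hg : g ∈ gen (psys s)) (h1 : g.2 = 1) : g = 1 := by
  have RP := psys_rel R
  obtain ⟨u, hu, m, hm, u', hu', rfl⟩ := RP.cells hg
  let f : G × ↥Om →* ↥Om := MonoidHom.snd G ↥Om
  have hP : IsPerm (matHom m.2) := matHom_closure f IsPerm ⟨1, fun u w => Matrix.one_apply⟩
    (fun M N => IsPerm.mul) (by rintro _ ⟨i, rfl⟩; exact (matHom_mn i).symm ▸ mn_perm i)
    (by rintro _ ⟨i, rfl⟩; exact RP.n_inv i) hm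
  have hUT : ∀ v ∈ lvl (psys s) 0, CfsgLib.SectRank.CT.UT (m := 1) (matHom v.2) := fun v hv =>
    matHom_closure f _ CfsgLib.SectRank.CT.UT_one (fun M N => CfsgLib.SectRank.CT.UT.mul)
      (by rintro _ ⟨b, -, rfl⟩; exact (matHom_mx b).symm ▸ mx_ut b)
      (by rintro _ ⟨b, -, rfl⟩; exact RP.x_inv b) hv
  have hm2 : m.2 = u.2⁻¹ * u'.2⁻¹ := by
    have h : u.2 * m.2 * u'.2 = 1 := h1
    calc m.2 = u.2⁻¹ * (u.2 * m.2 * u'.2) * u'.2⁻¹ := by group
      _ = _ := by rw [h, mul_one]
  have hm1 : m.2 = 1 := by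
    refine matHom_inj ?_
    rw [map_one]
    refine perm_ut hP ?_
    rw [hm2, map_mul]
    exact CfsgLib.SectRank.CT.UT.mul (hUT _ (inv_mem hu)) (hUT _ (inv_mem hu'))
  -- elements of the reflection group over the identity centralise the root elements
  have hfix : ∀ m' ∈ ngp (psys s), m'.2 = 1 → ∀ b, m' * (psys s).x b = (psys s).x b * m' := by
    intro m' hm' h1' b
    obtain ⟨c, σ, e⟩ := RP.ngp_sroot hm' b
    have e2 : mx c = sroot msys (σ, b) := by
      have h := congrArg Prod.snd e
      rw [Prod.snd_mul, Prod.snd_mul, Prod.snd_inv, h1', one_mul, inv_one, mul_one] at h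
      rw [show mx c = ((psys s).x c).2 from rfl, h]
      have hn : ∀ w, (nprod (psys s) w).2 = nprod msys w := by
        intro w
        induction w with
        | nil => rfl
        | cons i w ih => rw [nprod_cons, nprod_cons, Prod.snd_mul, ih]; rfl
      cases σ
      · rfl
      · show (nprod (psys s) longWord).2 * mx b * (nprod (psys s) longWord).2⁻¹ = _
        rw [hn]
        rfl
    have hcb : c = b ∧ σ = false := by
      by_contra h
      have h' : c ≠ b ∨ σ = true := by
        cases σ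
        · exact Or.inl fun e => h ⟨e, rfl⟩
        · exact Or.inr rfl
      refine toMat_ne (srcode_ne c b σ h') ?_
      rw [← matHom_wval, ← matHom_wval, ← sroot_msys, ← e2]
      simp [wval, msys]
    obtain ⟨rfl, rfl⟩ := hcb
    have e' : m' * (psys s).x c * m'⁻¹ = (psys s).x c := e
    exact mul_inv_eq_iff_eq_mul.1 e'
  have hcx := hfix m hm hm1
  have hcn : ∀ i, m * (psys s).n i = (psys s).n i * m := by
    intro i
    have hni : (psys s).n i ∈ ngp (psys s) := Subgroup.subset_closure ⟨i, rfl⟩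
    have h := hfix _ (mul_mem (mul_mem hni hm) hni)
      (show mn i * m.2 * mn i = 1 by rw [hm1, mul_one]; exact model_rel.nn i) (simp4 i)
    set n := (psys s).n i
    set X := (psys s).x (simp4 i)
    have hnn : n * n = 1 := RP.nn i
    have h2 : m * (n * X * n) = (n * X * n) * m := by
      have h3 := congrArg (fun z => n * z * n) h
      calc m * (n * X * n) = (n * n) * m * (n * X * n) := by rw [hnn, one_mul]
        _ = n * ((n * m * n) * X) * n := by group
        _ = n * (X * (n * m * n)) * n := h3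
        _ = n * X * n * m * (n * n) := by group
        _ = _ := by rw [hnn, mul_one]
    have hnX : n = X * (n * X * n) * X := by
      rw [RP.xn i]
      show n = X * (X * n * X) * X
      simp only [← mul_assoc, show X * X = 1 from RP.xx _, one_mul]
      rw [mul_assoc, show X * X = 1 from RP.xx _, mul_one]
    rw [hnX]
    calc m * (X * (n * X * n) * X) = (m * X) * (n * X * n) * X := by group
      _ = X * (m * (n * X * n)) * X := by rw [show m * X = X * m from hcx _]; group
      _ = X * (n * X * n) * (m * X) := by rw [h2]; group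
      _ = X * (n * X * n) * X * m := by rw [show m * X = X * m from hcx _]; group
  have hN : ngp (psys s) ≤ (gen s).comap (MonoidHom.fst G ↥Om) := by
    rw [ngp, Subgroup.closure_le]
    rintro _ ⟨i, rfl⟩
    exact Subgroup.subset_closure (Or.inr ⟨i, rfl⟩)
  have hm0 : m = 1 := Prod.ext
    (hZ m.1 (hN hm) (fun b => congrArg Prod.fst (hcx b)) (fun i => congrArg Prod.fst (hcn i))) hm1
  subst hm0
  rw [mul_one] at h1 ⊢
  have huu : u * u' ∈ lvl (psys s) (12 - 12) := mul_mem hu hu'
  obtain ⟨c, -, -, hc⟩ := R.lvl_injective 12 le_rfl _ huu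
  exact hc h1

/-- The model maps injectively onto the generated group. -/
theorem exists_hom (hZ : ∀ g ∈ gen s, (∀ b, g * s.x b = s.x b * g) → (∀ i, g * s.n i = s.n i * g) → g = 1)
    (hne : s.x 11 ≠ 1) :
    ∃ φ : ↥Om →* G, Function.Injective φ ∧ φ.range = gen s ∧ (∀ b, φ (mx b) = s.x b) ∧
      ∀ i, φ (mn i) = s.n i := by
  set K := gen (psys s)
  let p : ↥K →* ↥Om := (MonoidHom.snd G ↥Om).comp K.subtype
  have hp : Function.Bijective p := by
    constructor
    · rw [injective_iff_map_eq_one]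
      intro x hx
      exact Subtype.ext (R.kernel_trivial hZ x.2 hx)
    · rw [← MonoidHom.range_eq_top, MonoidHom.range_comp, Subgroup.range_subtype]
      show (gen (psys s)).map _ = ⊤
      rw [← model_gen, gen, gen, MonoidHom.map_closure, Set.image_union, ← Set.range_comp, ← Set.range_comp]
      rfl
  let e := MulEquiv.ofBijective p hp
  let φ : ↥Om →* G := (MonoidHom.fst G ↥Om).comp (K.subtype.comp e.symm.toMonoidHom)
  have hval : ∀ y : G × ↥Om, y ∈ K → φ y.2 = y.1 := by
    intro y hy
    show (e.symm (p ⟨y, hy⟩)).1.1 = y.1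
    rw [show p ⟨y, hy⟩ = e ⟨y, hy⟩ from rfl, MulEquiv.symm_apply_apply]
  have hx : ∀ b, φ (mx b) = s.x b := fun b => hval ((psys s).x b) (Subgroup.subset_closure (Or.inl ⟨b, rfl⟩))
  have hn : ∀ i, φ (mn i) = s.n i := fun i => hval ((psys s).n i) (Subgroup.subset_closure (Or.inr ⟨i, rfl⟩))
  refine ⟨φ, ?_, ?_, hx, hn⟩
  · rw [← MonoidHom.ker_eq_bot_iff]
    have := model_simple
    rcases (MonoidHom.normal_ker φ).eq_bot_or_eq_top with h | h
    · exact h
    · exfalso
      exact hne ((hx 11).symm.trans (MonoidHom.mem_ker.1 (h.symm ▸ Subgroup.mem_top (mx 11))))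
  · rw [MonoidHom.range_eq_map, ← model_gen, gen, gen, MonoidHom.map_closure, Set.image_union, ← Set.range_comp,
      ← Set.range_comp]
    congr 2
    · exact congrArg Set.range (funext hx)
    · exact congrArg Set.range (funext hn)

end Rel

end CfsgLib.OrthEightRecog
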