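import Cfsg.Agent.Lib.OrthEightRecog.Data
import Cfsg.Agent.Lib.OrthEightRecog.Iso

/-!
Finite facts on the involutions of the orthogonal group of plus type in dimension eight over the field with two
elements, inside the centraliser of a root involution.
-/

set_option autoImplicit false

namespace CfsgLib.OrthEightRecog

/-- The letters: root elements, then reflections. -/
def gletter (i : Fin 16) : Fin 12 ⊕ Fin 4 :=
  if h : i.val < 12 then Sum.inl ⟨i.val, h⟩ else Sum.inr ⟨i.val - 12, by omega⟩

/-- Successive conjugation of a code. -/
def cconj : List (Fin 16) → ℕ → ℕ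
  | [], c => c
  | g :: w, c => cconj w (bmul (bmul (lcode (gletter g)) c) (lcode (gletter g)))

/-- The code of the central root involution. -/
def tcode : ℕ := mxc 11

/-- Commuting codes. -/
def ccomm (a b : ℕ) : Bool := bmul a b == bmul b a

/-- Membership in the list of root involutions of the centraliser. -/
def inT (c : ℕ) : Bool := tList.contains c

theorem tList_cert : (tList.all fun c => (tCert.find? fun e => e.1 == c).any fun e => cconj e.2 c == tcode) = true := by
  decide +kernel

theorem tList_closed : ∀ i : Fin 15,
    (tList.all fun c => inT (cconj [Fin.castLE (by omega) i] c)) = true := by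
  decide +kernel

theorem tList_special : inT tcode = true ∧ inT (mxc 10) = true := by decide +kernel

theorem repCode_words : ∀ i : Fin 5,
    repCode i = wcode (![[Sum.inl 11], [Sum.inl 8, Sum.inl 9], [Sum.inl 7, Sum.inl 9], [Sum.inl 7, Sum.inl 8],
      [Sum.inl 3, Sum.inl 7, Sum.inl 8]] i) := by
  decide +kernel

theorem repCode_facts : ∀ i : Fin 5, i ≠ 0 → inT (repCode i) = false ∧ inT (bmul tcode (repCode i)) = false ∧
    ccomm tcode (repCode i) = true ∧ bne' (repCode i) bone = true ∧ bmul (repCode i) (repCode i) = bone := by
  decide +kernel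

theorem decomposable_facts : inT (mxc 8) = true ∧ inT (mxc 9) = true ∧ inT (mxc 7) = true ∧
    ∀ i : Fin 5, i = 1 ∨ i = 2 ∨ i = 3 → ∃ b ∈ [mxc 7, mxc 8, mxc 9],
      ccomm b (repCode i) = true ∧ inT (bmul b (repCode i)) = true := by
  decide +kernel

theorem u_cert : ((nf 12).all fun c => bne' (bmul c c) bone || (c == bone) || inT c ||
    (uCert.find? fun e => e.1 == c).any fun e => cconj e.2.2 c == repCode e.2.1) = true := by
  decide +kernel

theorem u_center : ((nf 12).all fun c => (c == bone) || (c == tcode) ||
    !(ccomm c (mxc 0) && ccomm c (mxc 1) && ccomm c (mxc 2) && ccomm c (mxc 3))) = true := by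
  decide +kernel

/-- The condition on a representative and a root involution. -/
def hitGood (k y : ℕ) (h : List (Fin 16)) : Bool :=
  let z := bmul tcode y
  let k2 := cconj h k
  let z2 := cconj h z
  ccomm tcode k2 && ccomm tcode z2 && !inT (bmul tcode k2) && !inT (bmul tcode z2) &&
    !inT (bmul tcode (bmul k2 z2)) &&
    tList.all fun y2 => !(ccomm y2 k2 && ccomm y2 z2) ||
      (let q := bmul tcode y2
       q == bone || inT q || inT (bmul q k2) || inT (bmul q z2) || inT (bmul q (bmul k2 z2)))

theorem hit_cert : ∀ i : Fin 5, i ≠ 0 → (tList.all fun y =>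
    !(ccomm y (repCode i)) || (y == tcode) || inT (bmul tcode y) || inT (bmul (bmul tcode y) (repCode i)) ||
      (bmul tcode y == repCode i) ||
      (hitCert.find? fun e => e.1 == i && e.2.1 == y).any fun e => hitGood (repCode i) y e.2.2) = true := by
  decide +kernel

theorem wit_facts : inT witCode = true ∧ ccomm witCode (repCode 4) = true ∧
    cconj witWord (bmul witCode (repCode 4)) = repCode witClass ∧ (witClass = 1 ∨ witClass = 2 ∨ witClass = 3) ∧
    cconj tailWord (bmul tcode (repCode 4)) = repCode 4 := by
  decide +kernel

end CfsgLib.OrthEightRecog
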