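import Cfsg.Agent.Lib.OrthEightRecog.System
import Cfsg.Agent.Lib.OrthEightRecog.Finite

/-!
The involutions of the subgroup isomorphic to the orthogonal group, and their fusion in the whole group.
-/

set_option autoImplicit false
set_option linter.style.haveILetI false

namespace CfsgLib.OrthEightRecog

universe u v

/-- The letter elements of the model. -/
noncomputable def mlet (i : Fin 16) : ↥Om := Sum.elim mx mn (gletter i)

/-- Conjugation by a word in the model. -/
noncomputable def wordEl : List (Fin 16) → ↥Om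
  | [] => 1
  | g :: w => wordEl w * mlet g

theorem bmul_lt (x y : ℕ) : bmul x y < 2 ^ 64 := by
  have hb : ∀ z : ℕ, bapp x z < 2 ^ 8 := fun z => Nat.lt_pow_two_of_testBit _ fun i hi => testBit_bapp_high x z hi
  have hp : ∀ j, j < 8 → pcol x y j < 2 ^ 64 := by
    intro j hj
    rw [pcol, Nat.shiftLeft_eq]
    calc bapp x (col y j) * 2 ^ (8 * j) < 2 ^ 8 * 2 ^ (8 * j) := Nat.mul_lt_mul_of_pos_right (hb _) (by positivity)
      _ = 2 ^ (8 + 8 * j) := (pow_add 2 8 (8 * j)).symm
      _ ≤ 2 ^ 64 := Nat.pow_le_pow_right (by norm_num) (by omega)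
  unfold bmul
  refine Nat.or_lt_two_pow (Nat.or_lt_two_pow (Nat.or_lt_two_pow (Nat.or_lt_two_pow (Nat.or_lt_two_pow
    (Nat.or_lt_two_pow (Nat.or_lt_two_pow (hp 0 ?_) (hp 1 ?_)) (hp 2 ?_)) (hp 3 ?_)) (hp 4 ?_)) (hp 5 ?_)) (hp 6 ?_)) (hp 7 ?_) <;>
    norm_num

theorem code_eq {x y : ℕ} (hx : x < 2 ^ 64) (hy : y < 2 ^ 64) (h : toMat x = toMat y) : x = y := by
  by_contra hne
  refine toMat_ne (a := x) (b := y) ?_ h
  simp only [bne', bne_iff_ne]
  rw [show (18446744073709551616 : ℕ) = 2 ^ 64 by norm_num, Nat.mod_eq_of_lt (Nat.xor_lt_two_pow hx hy)]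
  exact fun e => hne (Nat.xor_eq_zero_iff.1 e)

theorem tList_lt : (tList.all fun c => decide (c < 2 ^ 64)) = true := by decide +kernel

theorem find_any {α : Type*} {l : List α} {p q : α → Bool} (h : (l.find? p).any q = true) :
    ∃ e ∈ l, p e = true ∧ q e = true := by
  cases hf : l.find? p with
  | none => simp [hf] at h
  | some e => exact ⟨e, List.mem_of_find?_eq_some hf, List.find?_some hf, by simpa [hf] using h⟩

theorem inT_lt {c : ℕ} (h : inT c = true) : c < 2 ^ 64 := by
  have := List.all_eq_true.1 tList_lt c (List.contains_iff_mem.1 h)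
  simpa using this

theorem mlet_inv (i : Fin 16) : (mlet i)⁻¹ = mlet i := by
  unfold mlet
  cases gletter i with
  | inl b => exact model_rel.x_inv b
  | inr j => exact model_rel.n_inv j

theorem matHom_mlet (i : Fin 16) : matHom (mlet i) = toMat (lcode (gletter i)) := by
  unfold mlet lcode
  cases gletter i with
  | inl b => exact matHom_mx b
  | inr j => exact matHom_mn j

theorem code_mul {x y : ↥Om} {c d : ℕ} (hx : matHom x = toMat c) (hy : matHom y = toMat d) :
    matHom (x * y) = toMat (bmul c d) := by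
  rw [map_mul, hx, hy, toMat_bmul]

theorem code_conj : ∀ (w : List (Fin 16)) {y : ↥Om} {c : ℕ}, matHom y = toMat c →
    matHom (wordEl w * y * (wordEl w)⁻¹) = toMat (cconj w c) := by
  intro w
  induction w with
  | nil => intro y c h; simpa [wordEl, cconj] using h
  | cons g w ih =>
    intro y c h
    have e : wordEl (g :: w) * y * (wordEl (g :: w))⁻¹ = wordEl w * (mlet g * y * mlet g) * (wordEl w)⁻¹ := by
      rw [wordEl, mul_inv_rev, mlet_inv]
      group
    rw [e]
    exact ih (code_mul (code_mul (matHom_mlet g) h) (matHom_mlet g))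

theorem commute_code {x y : ↥Om} {c d : ℕ} (hx : matHom x = toMat c) (hy : matHom y = toMat d) :
    ccomm c d = true ↔ x * y = y * x := by
  unfold ccomm
  rw [beq_iff_eq]
  constructor
  · intro h
    refine matHom_inj ?_
    rw [code_mul hx hy, code_mul hy hx, h]
  · intro h
    exact code_eq (bmul_lt _ _) (bmul_lt _ _) (by rw [← code_mul hx hy, ← code_mul hy hx, h])

variable {G : Type u} [Group G] [Finite G] {t : G} {Q : Subgroup G} {H : Hyp t Q} {g a : G}
  {V : Type v} [AddCommGroup V] [Finite V] {F : Fr H g a V} {R : Rts F}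

/-- An embedding of the model matching a system. -/
structure Emb (L : Levi R) where
  φ : ↥Om →* G
  inj : Function.Injective φ
  range : φ.range = gen (gsys L)
  mapx : ∀ b, φ (mx b) = (gsys L).x b
  mapn : ∀ i, φ (mn i) = (gsys L).n i

theorem exists_emb (L : Levi R) : Nonempty (Emb L) := by
  obtain ⟨φ, h1, h2, h3, h4⟩ := L.rel.exists_hom L.center_free H.data.z_ne
  exact ⟨⟨φ, h1, h2, h3, h4⟩⟩

namespace Emb

variable {L : Levi R} (E : Emb L)
include E

/-- An element with a code among the root involutions of the centraliser. -/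
def TC (z : G) : Prop := ∃ y c, inT c = true ∧ matHom y = toMat c ∧ E.φ y = z

theorem φt : E.φ (mx 11) = t := E.mapx 11

theorem TC_conj_t {z : G} (h : E.TC z) : ∃ w : ↥Om, E.φ w * z * (E.φ w)⁻¹ = t := by
  obtain ⟨y, c, hc, hy, rfl⟩ := h
  have h1 := List.all_eq_true.1 tList_cert c (List.contains_iff_mem.1 hc)
  obtain ⟨e, -, -, he⟩ := find_any h1
  rw [beq_iff_eq] at he
  refine ⟨wordEl e.2, ?_⟩
  rw [← map_inv, ← map_mul, ← map_mul]
  refine (congrArg E.φ (matHom_inj ?_)).trans E.φt
  rw [code_conj _ hy, he, matHom_mx]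
  rfl

theorem TC_isConj {z : G} (h : E.TC z) : IsConj t z := by
  obtain ⟨w, hw⟩ := E.TC_conj_t h
  exact (isConj_iff.2 ⟨E.φ w, hw⟩).symm

/-- The list is closed under conjugation in the centraliser. -/
theorem TC_conj {z c : G} (h : E.TC z) (hc : c * t = t * c) : E.TC (c * z * c⁻¹) := by
  have step : ∀ i : Fin 15, ∀ z, E.TC z →
      E.TC (E.φ (mlet (Fin.castLE (by omega) i)) * z * (E.φ (mlet (Fin.castLE (by omega) i)))⁻¹) := by
    rintro i _ ⟨y, d, hd, hy, rfl⟩
    refine ⟨_, _, List.all_eq_true.1 (tList_closed i) d (List.contains_iff_mem.1 hd), code_conj _ hy, ?_⟩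
    rw [show wordEl [Fin.castLE (by omega) i] = mlet (Fin.castLE (by omega) i) from one_mul _, map_mul, map_mul,
      map_inv]
  have hgen : ∀ s ∈ Set.range (gsys L).x ∪ Set.range fun i : Fin 3 => (gsys L).n (Fin.castSucc i),
      ∃ i : Fin 15, E.φ (mlet (Fin.castLE (by omega) i)) = s := by
    rintro _ (⟨b, rfl⟩ | ⟨i, rfl⟩)
    · refine ⟨Fin.castLE (by omega) b, ?_⟩
      rw [← E.mapx b]
      congr 1
      fin_cases b <;> rfl
    · refine ⟨⟨12 + i.val, by omega⟩, ?_⟩
      show _ = (gsys L).n (Fin.castSucc i)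
      rw [← E.mapn]
      congr 1
      fin_cases i <;> rfl
  refine Subgroup.closure_induction_left (p := fun c _ => ∀ z, E.TC z → E.TC (c * z * c⁻¹))
    (fun z hz => by simpa using hz) ?_ ?_ (L.centralizer_le_cGen hc) z h
  · intro s hs c _ ih z hz
    obtain ⟨i, rfl⟩ := hgen s hs
    have := step i _ (ih z hz)
    simpa [mul_assoc] using this
  · intro s hs c _ ih z hz
    obtain ⟨i, rfl⟩ := hgen s hs
    rw [← map_inv, mlet_inv]
    have := step i _ (ih z hz)
    simpa [mul_assoc] using this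

theorem φrep0 : E.φ (wval msys [Sum.inl 11]) = t :=
  (congrArg E.φ (by simp [wval, msys])).trans E.φt

theorem TC_t : E.TC t := ⟨mx 11, tcode, tList_special.1, matHom_mx 11, E.φt⟩

theorem TC_of_mem_Q {z : G} (hz : z ∈ Q) (hT : IsConj t z) : E.TC z := by
  by_cases hzt : z = t
  · rw [hzt]; exact E.TC_t
  obtain ⟨g', hg'⟩ := isConj_iff.1 hT
  obtain ⟨c, hct, hc⟩ := F.orbit hg' hz hzt
  have ha : E.TC a := ⟨mx 10, mxc 10, tList_special.2, matHom_mx 10, E.mapx 10⟩
  have := E.TC_conj ha (H.inv_comm hct)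
  have e : c⁻¹ * a * c⁻¹⁻¹ = z := by
    calc c⁻¹ * a * c⁻¹⁻¹ = c⁻¹ * (c * z * c⁻¹) * c⁻¹⁻¹ := by rw [hc]
      _ = z := by group
  rwa [e] at this

/-- The representatives. -/
noncomputable def rep (i : Fin 5) : ↥Om :=
  wval msys (![[Sum.inl 11], [Sum.inl 8, Sum.inl 9], [Sum.inl 7, Sum.inl 9], [Sum.inl 7, Sum.inl 8],
      [Sum.inl 3, Sum.inl 7, Sum.inl 8]] i)

omit E in
theorem rep_code (i : Fin 5) : matHom (rep i) = toMat (repCode i) := by
  rw [repCode_words, rep, matHom_wval]

omit E in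
theorem rep_lt (i : Fin 5) : repCode i < 2 ^ 64 := by revert i; decide +kernel

theorem rep_mem_Q (i : Fin 5) : E.φ (rep i) ∈ Q := by
  have key : ∀ w : List (Fin 12), (∀ b ∈ w, (gsys L).x b ∈ Q) → E.φ (wval msys (w.map Sum.inl)) ∈ Q := by
    intro w
    induction w with
    | nil => intro _; simp [wval, Q.one_mem]
    | cons b w ih =>
      intro h
      have e : wval msys ((b :: w).map Sum.inl) = mx b * wval msys (w.map Sum.inl) := by simp [wval, msys]
      rw [e, map_mul, E.mapx]
      exact Q.mul_mem (h b (by simp)) (ih fun c hc => h c (List.mem_cons_of_mem _ hc))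
  have hmem : ∀ b : Fin 12, b = 3 ∨ b = 7 ∨ b = 8 ∨ b = 9 ∨ b = 11 → (gsys L).x b ∈ Q := by
    rintro b (rfl | rfl | rfl | rfl | rfl)
    exacts [R.pQ, R.dQ 0, R.dQ 1, R.dQ 2, H.data.mem]
  unfold rep
  fin_cases i
  · exact key [11] (by simp [hmem])
  · exact key [8, 9] (by simp [hmem])
  · exact key [7, 9] (by simp [hmem])
  · exact key [7, 8] (by simp [hmem])
  · exact key [3, 7, 8] (by simp [hmem])

theorem rep_not_T {i : Fin 5} (hi : i ≠ 0) : ¬ IsConj t (E.φ (rep i)) := by
  intro hT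
  obtain ⟨y, c, hc, hy, he⟩ := E.TC_of_mem_Q (E.rep_mem_Q i) hT
  rw [E.inj he] at hy
  have := code_eq (inT_lt hc) (rep_lt i) (by rw [← hy, rep_code])
  rw [this, (repCode_facts i hi).1] at hc
  exact Bool.noConfusion hc

omit E in
theorem uCode {u : ↥Om} (hu : u ∈ lvl msys 0) : ∃ c ∈ nf 12, matHom u = toMat c := by
  have hu' : ((u, u) : ↥Om × ↥Om) ∈ lvl (psys msys) 0 := by
    have h : lvl msys 0 ≤ (lvl (psys msys) 0).comap ((MonoidHom.id ↥Om).prod (MonoidHom.id ↥Om)) := by
      rw [lvl, Subgroup.closure_le]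
      rintro _ ⟨b, hb, rfl⟩
      exact Subgroup.subset_closure ⟨b, hb, rfl⟩
    exact h hu
  obtain ⟨c, hc, hm, -⟩ := model_rel.lvl_injective 12 le_rfl (u, u) hu'
  exact ⟨c, hc, hm⟩

theorem uGen_eq : L.uGen = (lvl msys 0).map E.φ := by
  rw [Levi.uGen, lvl, MonoidHom.map_closure]
  congr 1
  ext z
  constructor
  · rintro ⟨b, rfl⟩; exact ⟨mx b, ⟨b, Nat.zero_le _, rfl⟩, E.mapx b⟩
  · rintro ⟨_, ⟨b, -, rfl⟩, rfl⟩; exact ⟨b, (E.mapx b).symm⟩

theorem uGen_le_C : L.uGen ≤ Subgroup.centralizer ({t} : Set G) := by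
  rw [Levi.uGen, Subgroup.closure_le]
  rintro _ ⟨b, rfl⟩
  exact H.mem_C.2 (L.x_comm b)

theorem card_uGen : Nat.card L.uGen = 4096 := by
  set C := Subgroup.centralizer ({t} : Set G)
  let f : L.uGen →* L3 := H.π.comp (Subgroup.inclusion E.uGen_le_C)
  have hker : Nat.card f.ker = 512 := by
    rw [← H.cardQ]
    exact Nat.card_congr ⟨fun c => ⟨((c : L.uGen) : G), (H.ker _).1 c.2⟩,
      fun q => ⟨⟨q, L.Q_le_uGen q q.2⟩, (H.ker _).2 q.2⟩, fun c => rfl, fun q => rfl⟩
  have hrange : f.range = stdP := by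
    apply le_antisymm
    · rintro _ ⟨⟨z, hz⟩, rfl⟩
      refine Subgroup.closure_induction (p := fun z hz => f ⟨z, hz⟩ ∈ stdP) ?_ ?_ ?_ ?_ hz
      · rintro _ ⟨b, rfl⟩; exact L.x_stdP b
      · exact (map_one f).symm ▸ one_mem _
      · intro x y hx hy h1 h2
        exact (map_mul f ⟨x, hx⟩ ⟨y, hy⟩).symm ▸ mul_mem h1 h2
      · intro x hx h
        exact (map_inv f ⟨x, hx⟩).symm ▸ inv_mem h
    · intro l hl
      have hgen : ∀ i, lref i ∈ f.range := fun i => by
        refine ⟨⟨R.x i, ?_⟩, R.π_x i⟩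
        fin_cases i
        exacts [Subgroup.subset_closure ⟨0, rfl⟩, Subgroup.subset_closure ⟨1, rfl⟩, Subgroup.subset_closure ⟨2, rfl⟩]
      obtain ⟨l0, l1, l2⟩ := l
      obtain ⟨h0, h1, h2⟩ := (mem_stdP.1 hl)
      have hin : ∀ i p, (p = 1 ∨ p = Equiv.swap 0 1) → inFactor p i ∈ f.range := by
        rintro i p (rfl | rfl)
        · rw [show inFactor 1 i = 1 by fin_cases i <;> rfl]; exact one_mem _
        · exact hgen i
      rw [show ((l0, l1, l2) : L3) = inFactor l0 0 * inFactor l1 1 * inFactor l2 2 by simp [inFactor]]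
      exact mul_mem (mul_mem (hin 0 _ h0) (hin 1 _ h1)) (hin 2 _ h2)
  have h := f.ker.card_mul_index
  rw [Subgroup.index_ker, hrange, card_stdP, hker] at h
  exact h.symm

/-- Every two-element of the centraliser is conjugate there into the root subgroup. -/
theorem conj_uGen {z : G} (hz : z * z = 1) (hzt : z * t = t * z) :
    ∃ c, c * t = t * c ∧ c * z * c⁻¹ ∈ L.uGen := by
  haveI := Fact.mk Nat.prime_two
  set C := Subgroup.centralizer ({t} : Set G) with hC
  have hU : IsPGroup 2 (L.uGen.subgroupOf C) := IsPGroup.of_card (n := 12) (by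
    rw [Nat.card_congr (Subgroup.subgroupOfEquivOfLe E.uGen_le_C).toEquiv, E.card_uGen]; norm_num)
  obtain ⟨P, hP⟩ := hU.exists_le_sylow
  have hCcard : Nat.card C = 512 * 216 := by
    have h := H.π.ker.card_mul_index
    rw [Subgroup.index_ker, MonoidHom.range_eq_top.2 H.surj, Subgroup.card_top] at h
    have hk : Nat.card H.π.ker = 512 := by
      rw [← H.cardQ]
      exact Nat.card_congr ⟨fun c => ⟨(c : C), (H.ker _).1 c.2⟩,
        fun q => ⟨⟨q, H.data.le q.2⟩, (H.ker _).2 q.2⟩, fun c => rfl, fun q => rfl⟩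
    rw [hk, show Nat.card L3 = 216 by simp only [Nat.card_prod, Nat.card_perm, Nat.card_fin]; rfl] at h
    exact h.symm
  have hPU : L.uGen.subgroupOf C = P.1 := Subgroup.eq_of_le_of_card_ge hP (by
    rw [Nat.card_congr (Subgroup.subgroupOfEquivOfLe E.uGen_le_C).toEquiv, E.card_uGen]
    show Nat.card P ≤ 4096
    rw [P.card_eq_multiplicity, hCcard, show (512 * 216 : ℕ).factorization 2 = 12 by
      rw [show (512 * 216 : ℕ) = 2 ^ 12 * 27 by norm_num, Nat.factorization_mul (by norm_num) (by norm_num),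
        Nat.prime_two.factorization_pow, Finsupp.add_apply, Finsupp.single_eq_same,
        Nat.factorization_eq_zero_of_not_dvd (by norm_num)]]
    norm_num)
  let zc : C := ⟨z, H.mem_C.2 hzt⟩
  have hzp : IsPGroup 2 (Subgroup.zpowers zc) := by
    rcases eq_or_ne zc 1 with h | h
    · rw [h, Subgroup.zpowers_one_eq_bot]; exact IsPGroup.of_bot
    · refine IsPGroup.of_card (n := 1) ?_
      rw [Nat.card_zpowers, pow_one]
      exact orderOf_eq_prime (by rw [pow_two]; exact Subtype.ext hz) h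
  obtain ⟨P', hP'⟩ := hzp.exists_le_sylow
  obtain ⟨c, hc⟩ := MulAction.exists_smul_eq C P' P
  refine ⟨c, Subgroup.mem_centralizer_singleton_iff.1 c.2, ?_⟩
  have hmem : c * zc * c⁻¹ ∈ P.1 := by
    rw [← hc, Sylow.coe_subgroup_smul, Subgroup.mem_pointwise_smul_iff_inv_smul_mem, ← MulAut.conj.map_inv,
      MulAut.smul_def, MulAut.conj_apply, inv_inv]
    simpa [mul_assoc] using hP' (Subgroup.mem_zpowers zc)
  rw [← hPU, Subgroup.mem_subgroupOf] at hmem
  exact hmem

/-- An involution of the root subgroup. -/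
theorem class_u {z : G} (hz : z * z = 1) (h1 : z ≠ 1) (hu : z ∈ L.uGen) :
    E.TC z ∨ ∃ i : Fin 5, ∃ w : ↥Om, E.φ w * z * (E.φ w)⁻¹ = E.φ (rep i) := by
  rw [E.uGen_eq] at hu
  obtain ⟨u, hu', rfl⟩ := hu
  obtain ⟨c, hc, hm⟩ := uCode hu'
  have huu : u * u = 1 := E.inj (by rw [map_mul, hz, map_one])
  have h := List.all_eq_true.1 u_cert c hc
  simp only [Bool.or_eq_true] at h
  rcases h with ((h | h) | h) | h
  · exfalso
    refine toMat_ne h ?_
    rw [toMat_bone, ← code_mul hm hm, huu, map_one]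
  · exfalso
    rw [beq_iff_eq] at h
    refine h1 ?_
    rw [show u = 1 from matHom_inj (by rw [hm, h, toMat_bone, map_one]), map_one]
  · exact Or.inl ⟨u, c, h, hm, rfl⟩
  · obtain ⟨e, -, -, he⟩ := find_any h
    rw [beq_iff_eq] at he
    refine Or.inr ⟨e.2.1, wordEl e.2.2, ?_⟩
    rw [← map_inv, ← map_mul, ← map_mul]
    refine congrArg E.φ (matHom_inj ?_)
    rw [code_conj _ hm, he, rep_code]

/-- A conjugate of the involution inside its centraliser is in the list. -/
theorem TC_of_comm {z : G} (hzt : z * t = t * z) (hT : IsConj t z) : E.TC z := by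
  have hz : z * z = 1 := by
    obtain ⟨x, hx⟩ := isConj_iff.1 hT
    calc z * z = x * (t * t) * x⁻¹ := by rw [← hx]; group
      _ = 1 := by rw [H.data.zz]; group
  have h1 : z ≠ 1 := fun e => by
    obtain ⟨x, hx⟩ := isConj_iff.1 hT
    refine H.data.z_ne ?_
    calc t = x⁻¹ * (x * t * x⁻¹) * x := by group
      _ = 1 := by rw [hx, e]; group
  obtain ⟨c, hct, hc⟩ := E.conj_uGen hz hzt
  have hz' : (c * z * c⁻¹) * (c * z * c⁻¹) = 1 := by
    rw [show c * z * c⁻¹ * (c * z * c⁻¹) = c * (z * z) * c⁻¹ by group, hz]; group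
  have h1' : c * z * c⁻¹ ≠ 1 := fun e => h1 (by
    calc z = c⁻¹ * (c * z * c⁻¹) * c := by group
      _ = 1 := by rw [e]; group)
  have back : ∀ y, E.TC y → y = c * z * c⁻¹ → E.TC z := by
    rintro y hy rfl
    have := E.TC_conj hy (H.inv_comm hct)
    rwa [show c⁻¹ * (c * z * c⁻¹) * c⁻¹⁻¹ = z by group] at this
  rcases E.class_u hz' h1' hc with h | ⟨i, w, hw⟩
  · exact back _ h rfl
  · have hTz : IsConj t (E.φ (rep i)) := by
      rw [← hw]
      refine hT.trans (isConj_iff.2 ⟨E.φ w * c, by group⟩)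
    by_cases hi : i = 0
    · subst hi
      -- conjugate to the central root element by the model
      have hr : E.φ (rep 0) = t := E.φrep0
      rw [hr] at hw
      have hu := hc
      rw [E.uGen_eq] at hu
      obtain ⟨u, hu', he⟩ := hu
      obtain ⟨d, hd, hm⟩ := uCode hu'
      have h := List.all_eq_true.1 u_cert d hd
      simp only [Bool.or_eq_true] at h
      rcases h with ((h | h) | h) | h
      · exfalso
        refine toMat_ne h ?_
        rw [toMat_bone, ← code_mul hm hm, show u * u = 1 from E.inj (by rw [map_mul, he, hz', map_one]), map_one]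
      · exfalso
        rw [beq_iff_eq] at h
        exact h1' (by rw [← he, show u = 1 from matHom_inj (by rw [hm, h, toMat_bone, map_one]), map_one])
      · exact back _ ⟨u, d, h, hm, he⟩ rfl
      · exfalso
        obtain ⟨e, hmem, -, he'⟩ := find_any h
        rw [beq_iff_eq] at he'
        have hne : (uCert.all fun e => e.2.1 != 0) = true := by decide +kernel
        have hi0 := List.all_eq_true.1 hne e hmem
        refine E.rep_not_T (i := e.2.1) (by simpa using hi0) ?_
        have hval : E.φ (wordEl e.2.2) * (c * z * c⁻¹) * (E.φ (wordEl e.2.2))⁻¹ = E.φ (rep e.2.1) := by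
          rw [← he, ← map_inv, ← map_mul, ← map_mul]
          refine congrArg E.φ (matHom_inj ?_)
          rw [code_conj _ hm, he', rep_code]
        rw [← hval]
        exact hT.trans (isConj_iff.2 ⟨E.φ (wordEl e.2.2) * c, by group⟩)
    · exact absurd hTz (E.rep_not_T hi)

/-- The root subgroup is a Sylow subgroup of the image, and every involution there is conjugate to a
representative. -/
theorem class_K {z : G} (hzK : z ∈ E.φ.range) (hz : z * z = 1) (h1 : z ≠ 1) :
    ∃ h ∈ E.φ.range, h * z * h⁻¹ = t ∨ ∃ i : Fin 5, i ≠ 0 ∧ h * z * h⁻¹ = E.φ (rep i) := by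
  haveI := Fact.mk Nat.prime_two
  set K := E.φ.range with hK
  set C := Subgroup.centralizer ({t} : Set G) with hC
  have hUK : L.uGen ≤ K := by
    rw [E.uGen_eq]
    exact Subgroup.map_le_range E.φ _
  have hCK : ∀ c, c * t = t * c → c ∈ K := fun c hc => by rw [hK, E.range]; exact L.centralizer_le hc
  have hUp : IsPGroup 2 (L.uGen.subgroupOf K) := IsPGroup.of_card (n := 12) (by
    rw [Nat.card_congr (Subgroup.subgroupOfEquivOfLe hUK).toEquiv, E.card_uGen]; norm_num)
  obtain ⟨S, hS⟩ := hUp.exists_le_sylow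
  have hSU : L.uGen.subgroupOf K = S.1 := by
    by_contra hne
    set U' := L.uGen.subgroupOf K
    -- a larger two-subgroup normalising the root subgroup
    have hlt : U'.subgroupOf S.1 < ⊤ := lt_top_iff_ne_top.2 fun e => hne (le_antisymm hS fun x hx => by
      have : (⟨x, hx⟩ : S.1) ∈ U'.subgroupOf S.1 := e ▸ Subgroup.mem_top _
      exact this)
    haveI : Group.IsNilpotent S.1 := S.2.isNilpotent
    have hnc := Group.normalizerCondition_of_isNilpotent (U'.subgroupOf S.1) hlt
    obtain ⟨n, hn, hnU⟩ := SetLike.exists_of_lt hnc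
    rw [Subgroup.mem_normalizer_iff] at hn
    set ν : G := ((n : K) : G)
    have hnormU : ∀ u, u ∈ L.uGen → ν * u * ν⁻¹ ∈ L.uGen := by
      intro u hu
      let u' : K := ⟨u, hUK hu⟩
      have hu' : u' ∈ U' := hu
      have := (hn ⟨u', hS hu'⟩).1 hu'
      exact this
    -- the centre of the root subgroup
    have hcentre : ∀ y ∈ L.uGen, (∀ u ∈ L.uGen, y * u = u * y) → y = 1 ∨ y = t := by
      intro y hy hyc
      rw [E.uGen_eq] at hy
      obtain ⟨u, hu, rfl⟩ := hy
      obtain ⟨c, hc, hm⟩ := uCode hu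
      have h := List.all_eq_true.1 u_center c hc
      simp only [Bool.or_eq_true] at h
      rcases h with (h | h) | h
      · rw [beq_iff_eq] at h
        left; rw [show u = 1 from matHom_inj (by rw [hm, h, toMat_bone, map_one]), map_one]
      · rw [beq_iff_eq] at h
        right; rw [show u = mx 11 from matHom_inj (by rw [hm, h, matHom_mx]; rfl), E.φt]
      · exfalso
        have hb : ∀ b : Fin 12, ccomm c (mxc b) = true := fun b => (commute_code hm (matHom_mx b)).2 (E.inj (by
          rw [map_mul, map_mul, E.mapx]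
          exact hyc _ (Subgroup.subset_closure ⟨b, rfl⟩)))
        simp [hb] at h
    have htU : t ∈ L.uGen := Subgroup.subset_closure ⟨11, rfl⟩
    have hνt : ν * t * ν⁻¹ = t := by
      have hm : ν * t * ν⁻¹ ∈ L.uGen := hnormU t htU
      rcases hcentre _ hm (fun u hu => by
        -- invert the conjugation on the finite subgroup
        have hinj : Function.Surjective fun w : L.uGen => (⟨ν * w * ν⁻¹, hnormU w w.2⟩ : L.uGen) :=
          Finite.surjective_of_injective fun w w' e => by
            have e' : ν * (w : G) * ν⁻¹ = ν * (w' : G) * ν⁻¹ := congrArg Subtype.val e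
            exact Subtype.ext (mul_left_cancel (mul_right_cancel e'))
        obtain ⟨w, hw⟩ := hinj ⟨u, hu⟩
        have hw' : ν * (w : G) * ν⁻¹ = u := congrArg Subtype.val hw
        have hwt : (w : G) * t = t * w := Subgroup.mem_centralizer_singleton_iff.1 (E.uGen_le_C w.2)
        rw [← hw']
        calc ν * t * ν⁻¹ * (ν * (w : G) * ν⁻¹) = ν * (t * w) * ν⁻¹ := by group
          _ = ν * (w * t) * ν⁻¹ := by rw [hwt]
          _ = _ := by group) with e | e
      · exfalso
        refine H.data.z_ne ?_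
        calc t = ν⁻¹ * (ν * t * ν⁻¹) * ν := by group
          _ = 1 := by rw [e]; group
      · exact e
    have hνC : ν * t = t * ν := mul_inv_eq_iff_eq_mul.1 hνt
    -- enlarge inside the centraliser
    let S' : Subgroup C := ((S.1.map K.subtype) ⊓ C).subgroupOf C
    have hS'p : IsPGroup 2 S' := by
      have h1 : IsPGroup 2 (S.1.map K.subtype) := S.2.map _
      exact (h1.to_le inf_le_left : IsPGroup 2 ↥((S.1.map K.subtype) ⊓ C)).comap_of_injective C.subtype
        C.subtype_injective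
    obtain ⟨P, hP⟩ := hS'p.exists_le_sylow
    have hCcard : Nat.card P ≤ 4096 := by
      rw [P.card_eq_multiplicity]
      have hk : Nat.card H.π.ker = 512 := by
        rw [← H.cardQ]
        exact Nat.card_congr ⟨fun c => ⟨(c : C), (H.ker _).1 c.2⟩,
          fun q => ⟨⟨q, H.data.le q.2⟩, (H.ker _).2 q.2⟩, fun c => rfl, fun q => rfl⟩
      have h := H.π.ker.card_mul_index
      rw [Subgroup.index_ker, MonoidHom.range_eq_top.2 H.surj, Subgroup.card_top, hk,
        show Nat.card L3 = 216 by simp only [Nat.card_prod, Nat.card_perm, Nat.card_fin]; rfl] at h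
      rw [← h, show (512 * 216 : ℕ).factorization 2 = 12 by
        rw [show (512 * 216 : ℕ) = 2 ^ 12 * 27 by norm_num, Nat.factorization_mul (by norm_num) (by norm_num),
          Nat.prime_two.factorization_pow, Finsupp.add_apply, Finsupp.single_eq_same,
          Nat.factorization_eq_zero_of_not_dvd (by norm_num)]]
      norm_num
    have hle : L.uGen.subgroupOf C ≤ P.1 := by
      refine le_trans ?_ hP
      intro x hx
      refine ⟨?_, x.2⟩
      exact ⟨⟨x, hUK hx⟩, hS (show (⟨(x : G), hUK hx⟩ : K) ∈ U' from hx), rfl⟩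
    have hνP : (⟨ν, H.mem_C.2 hνC⟩ : C) ∈ P.1 :=
      hP ⟨⟨n, n.2, rfl⟩, H.mem_C.2 hνC⟩
    have heq : L.uGen.subgroupOf C = P.1 := Subgroup.eq_of_le_of_card_ge hle (by
      rw [Nat.card_congr (Subgroup.subgroupOfEquivOfLe E.uGen_le_C).toEquiv, E.card_uGen]
      exact hCcard)
    rw [← heq] at hνP
    exact hnU hνP
  let zk : K := ⟨z, hzK⟩
  have hzp : IsPGroup 2 (Subgroup.zpowers zk) := by
    refine IsPGroup.of_card (n := 1) ?_
    rw [Nat.card_zpowers, pow_one]
    exact orderOf_eq_prime (by rw [pow_two]; exact Subtype.ext hz) fun e => h1 (congrArg Subtype.val e)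
  obtain ⟨P', hP'⟩ := hzp.exists_le_sylow
  obtain ⟨c, hc⟩ := MulAction.exists_smul_eq K P' S
  have hmem : c * zk * c⁻¹ ∈ L.uGen.subgroupOf K := by
    rw [hSU, ← hc, Sylow.coe_subgroup_smul, Subgroup.mem_pointwise_smul_iff_inv_smul_mem, ← MulAut.conj.map_inv,
      MulAut.smul_def, MulAut.conj_apply, inv_inv]
    simpa [mul_assoc] using hP' (Subgroup.mem_zpowers zk)
  rw [Subgroup.mem_subgroupOf] at hmem
  push_cast at hmem
  have hz' : (c : G) * z * (c : G)⁻¹ * ((c : G) * z * (c : G)⁻¹) = 1 := by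
    rw [show (c : G) * z * (c : G)⁻¹ * ((c : G) * z * (c : G)⁻¹) = (c : G) * (z * z) * (c : G)⁻¹ by group, hz]; group
  have h1' : (c : G) * z * (c : G)⁻¹ ≠ 1 := fun e => h1 (by
    calc z = (c : G)⁻¹ * ((c : G) * z * (c : G)⁻¹) * c := by group
      _ = 1 := by rw [e]; group)
  rcases E.class_u hz' h1' hmem with h | ⟨i, w, hw⟩
  · obtain ⟨w, hw⟩ := E.TC_conj_t h
    refine ⟨E.φ w * c, K.mul_mem ⟨w, rfl⟩ c.2, Or.inl (Eq.trans ?_ hw)⟩
    group
  · refine ⟨E.φ w * c, K.mul_mem ⟨w, rfl⟩ c.2, ?_⟩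
    by_cases hi : i = 0
    · left
      subst hi
      refine Eq.trans ?_ (hw.trans E.φrep0)
      group
    · right
      exact ⟨i, hi, Eq.trans (by group) hw⟩

end Emb

end CfsgLib.OrthEightRecog
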