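import Cfsg.Agent.Lib.OrthEightRecog.Classes

/-!
Every involution of the subgroup isomorphic to the orthogonal group fixes only one coset, so that subgroup is the
whole group.
-/

set_option autoImplicit false
set_option linter.style.haveILetI false

namespace CfsgLib.OrthEightRecog

universe u v

/-- Two involutions are conjugate by an element of the group they generate, or commute with a common involution. -/
theorem invol_pair {G : Type*} [Group G] [Finite G] {b c : G} (hb : b * b = 1) (hc : c * c = 1) :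
    (∃ x, x * c * x⁻¹ = b ∧ ∀ k, k * b = b * k → k * c = c * k → k * x = x * k) ∨
    ∃ z, z * z = 1 ∧ z ≠ 1 ∧ z * b = b * z ∧ z * c = c * z ∧
      (∀ k, k * b = b * k → k * c = c * k → k * z = z * k) ∧ (IsConj b (b * z) ∨ IsConj c (b * z)) := by
  set u := b * c with hu
  have hpow : ∀ (d : G), d * d = 1 → d * u * d = u⁻¹ → ∀ j : ℕ, u ^ j * d * u ^ j = d := by
    intro d hd hdu j
    induction j with
    | zero => simp
    | succ j ih =>
      have h1 : u * d * u = d := by
        calc u * d * u = u * d * u * (d * d) := by rw [hd, mul_one]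
          _ = u * (d * u * d) * d := by group
          _ = d := by rw [hdu]; group
      calc u ^ (j + 1) * d * u ^ (j + 1) = u ^ j * (u * d * u) * u ^ j := by
            rw [pow_succ u j, ← (Commute.self_pow u j).eq]; group
        _ = d := by rw [h1, ih]
  have hbu : b * u * b = u⁻¹ := by
    rw [hu, mul_inv_rev, inv_eq_of_mul_eq_one_left hb, inv_eq_of_mul_eq_one_left hc,
      show b * (b * c) * b = (b * b) * c * b by group, hb, one_mul]
  have hcu : c * u * c = u⁻¹ := by
    rw [hu, mul_inv_rev, inv_eq_of_mul_eq_one_left hb, inv_eq_of_mul_eq_one_left hc,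
      show c * (b * c) * c = c * b * (c * c) by group, hc, mul_one]
  have hconj : ∀ (d : G), d * d = 1 → d * u * d = u⁻¹ → ∀ j : ℕ, (u ^ j)⁻¹ * d * u ^ j = d * u ^ (2 * j) := by
    intro d hd hdu j
    have h := hpow d hd hdu j
    calc (u ^ j)⁻¹ * d * u ^ j = (u ^ j)⁻¹ * (u ^ j * d * u ^ j) * u ^ j := by rw [h]
      _ = d * u ^ (2 * j) := by rw [two_mul, pow_add]; group
  have hbu1 : b * u = c := by rw [hu, ← mul_assoc, hb, one_mul]
  have hcomm : ∀ k, k * b = b * k → k * c = c * k → ∀ j : ℕ, k * u ^ j = u ^ j * k := fun k h1 h2 j =>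
    ((Commute.mul_right (show Commute k b from h1) (show Commute k c from h2)).pow_right j).eq
  rcases Nat.even_or_odd (orderOf u) with ⟨m, hm⟩ | ⟨m, hm⟩
  · right
    have hpos : 0 < orderOf u := orderOf_pos u
    have hzz : u ^ m * u ^ m = 1 := by rw [← pow_add, ← hm, pow_orderOf_eq_one]
    have hzb : u ^ m * b = b * u ^ m := by
      calc u ^ m * b = u ^ m * b * (u ^ m * u ^ m) := by rw [hzz, mul_one]
        _ = (u ^ m * b * u ^ m) * u ^ m := by group
        _ = b * u ^ m := by rw [hpow b hb hbu]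
    refine ⟨u ^ m, hzz, ?_, hzb, ?_, fun k h1 h2 => hcomm k h1 h2 m, ?_⟩
    · intro e
      have := orderOf_le_of_pow_eq_one (by omega) e
      omega
    · rw [← hbu1, ← mul_assoc, hzb, mul_assoc, ← (Commute.self_pow u m).eq, ← mul_assoc]
    · rcases Nat.even_or_odd m with ⟨j, hj⟩ | ⟨j, hj⟩
      · left
        refine isConj_iff.2 ⟨(u ^ j)⁻¹, ?_⟩
        rw [inv_inv, hconj b hb hbu, hj, two_mul]
      · right
        refine isConj_iff.2 ⟨(u ^ j)⁻¹, ?_⟩
        rw [inv_inv, hconj c hc hcu, hj, pow_succ', ← mul_assoc, hbu1]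
  · left
    refine ⟨u ^ (m + 1), ?_, fun k h1 h2 => hcomm k h1 h2 _⟩
    have h2 : u ^ (2 * (m + 1)) = u := by
      rw [show 2 * (m + 1) = orderOf u + 1 by omega, pow_succ, pow_orderOf_eq_one, one_mul]
    calc u ^ (m + 1) * c * (u ^ (m + 1))⁻¹ = u ^ (m + 1) * (b * u ^ (2 * (m + 1))) * (u ^ (m + 1))⁻¹ := by
          rw [h2, hbu1]
      _ = u ^ (m + 1) * ((u ^ (m + 1))⁻¹ * b * u ^ (m + 1)) * (u ^ (m + 1))⁻¹ := by rw [hconj b hb hbu]
      _ = b := by group

theorem toMat_cconj : ∀ (w : List (Fin 16)) (c : ℕ),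
    toMat (cconj w c) = matHom (wordEl w) * toMat c * matHom (wordEl w)⁻¹ := by
  intro w
  induction w with
  | nil => intro c; simp [wordEl, cconj]
  | cons g w ih =>
    intro c
    rw [cconj, ih, toMat_bmul, toMat_bmul, ← matHom_mlet, wordEl, mul_inv_rev, mlet_inv, map_mul, map_mul]
    simp only [mul_assoc]

theorem tList_comm : (tList.all fun c => ccomm c tcode) = true := by decide +kernel

theorem exists_of_inT {c : ℕ} (h : inT c = true) : ∃ u : ↥Om, matHom u = toMat c := by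
  obtain ⟨e, -, -, he⟩ := find_any (List.all_eq_true.1 tList_cert c (List.contains_iff_mem.1 h))
  rw [beq_iff_eq] at he
  refine ⟨(wordEl e.2)⁻¹ * mx 11 * wordEl e.2, ?_⟩
  have h' := toMat_cconj e.2 c
  rw [he] at h'
  rw [map_mul, map_mul, show matHom (mx 11) = toMat tcode from matHom_mx 11, h', ← mul_assoc, ← mul_assoc, ← map_mul,
    inv_mul_cancel, map_one, one_mul, mul_assoc, ← map_mul, inv_mul_cancel, map_one, mul_one]

variable {G : Type u} [Group G] [Finite G] {t : G} {Q : Subgroup G} {H : Hyp t Q} {g a : G}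
  {V : Type v} [AddCommGroup V] [Finite V] {F : Fr H g a V} {R : Rts F}

omit [Finite G] in
theorem fix_conj {X : Type*} [MulAction G X] {x z : G} {p : X} (h : z • p = p) :
    (x * z * x⁻¹) • (x • p) = x • p := by
  rw [← mul_smul, inv_mul_cancel_right, mul_smul, h]

omit [Finite G] in
theorem isConj_conj {x z : G} (h : IsConj t z) : IsConj t (x * z * x⁻¹) :=
  h.trans (isConj_iff.2 ⟨x, rfl⟩)

namespace Emb

variable {L : Levi R} (E : Emb L)
include E

/-- The point fixed by the subgroup. -/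
def pt : G ⧸ E.φ.range := ((1 : G) : G ⧸ E.φ.range)

theorem fix_pt {z : G} : z • E.pt = E.pt ↔ z ∈ E.φ.range := by
  rw [← MulAction.mem_stabilizer_iff, pt, MulAction.stabilizer_quotient]

theorem exists_smul (p : G ⧸ E.φ.range) : ∃ x : G, p = x • E.pt := by
  induction p using QuotientGroup.induction_on with
  | _ x => exact ⟨x, by rw [pt, MulAction.Quotient.smul_coe, smul_eq_mul, mul_one]⟩

theorem mem_range_of_comm {c : G} (hc : c * t = t * c) : c ∈ E.φ.range := by
  rw [E.range]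
  exact L.centralizer_le hc

theorem t_mem : t ∈ E.φ.range := E.mem_range_of_comm rfl

theorem TC_comm {z : G} (h : E.TC z) : z * t = t * z := by
  obtain ⟨y, c, hc, hy, rfl⟩ := h
  have := List.all_eq_true.1 tList_comm c (List.contains_iff_mem.1 hc)
  have h2 := (commute_code hy (show matHom (mx 11) = toMat tcode from matHom_mx 11)).1 this
  calc E.φ y * t = E.φ y * E.φ (mx 11) := congrArg _ E.φt.symm
    _ = E.φ (mx 11) * E.φ y := by rw [← map_mul, h2, map_mul]
    _ = t * E.φ y := congrArg (· * E.φ y) E.φt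

/-- Conjugates of the involution, by codes. -/
theorem T_of_code {u : ↥Om} {d : ℕ} (hu : matHom u = toMat d) (hd : inT d = true) : IsConj t (E.φ u) :=
  E.TC_isConj ⟨u, d, hd, hu, rfl⟩

theorem code_of_T {u : ↥Om} {d : ℕ} (hu : matHom u = toMat d) (hd : d < 2 ^ 64) (hc : E.φ u * t = t * E.φ u)
    (hT : IsConj t (E.φ u)) : inT d = true := by
  obtain ⟨y, c, hc', hy, he⟩ := E.TC_of_comm hc hT
  rw [E.inj he, hu] at hy
  rwa [code_eq hd (inT_lt hc') hy]

theorem rep_comm (i : Fin 5) : E.φ (rep i) * t = t * E.φ (rep i) := by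
  by_cases hi : i = 0
  · subst hi
    have h : E.φ (rep 0) = t := E.φrep0
    calc E.φ (rep 0) * t = t * t := congrArg (· * t) h
      _ = t * E.φ (rep 0) := congrArg (t * ·) h.symm
  · have h2 := (commute_code (show matHom (mx 11) = toMat tcode from matHom_mx 11) (rep_code i)).1
      (repCode_facts i hi).2.2.1
    calc E.φ (rep i) * t = E.φ (rep i) * E.φ (mx 11) := congrArg _ E.φt.symm
      _ = E.φ (mx 11) * E.φ (rep i) := by rw [← map_mul, ← h2, map_mul]
      _ = t * E.φ (rep i) := congrArg (· * E.φ (rep i)) E.φt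

theorem rep_sq {i : Fin 5} (hi : i ≠ 0) : E.φ (rep i) * E.φ (rep i) = 1 := by
  rw [← map_mul, show rep i * rep i = 1 from matHom_inj (by
    rw [code_mul (rep_code i) (rep_code i), (repCode_facts i hi).2.2.2.2, toMat_bone, map_one]), map_one]

theorem rep_ne {i : Fin 5} (hi : i ≠ 0) : E.φ (rep i) ≠ 1 := fun e => by
  have h : rep i = 1 := E.inj (e.trans (map_one _).symm)
  exact toMat_ne (repCode_facts i hi).2.2.2.1 (by rw [← rep_code, h, map_one, toMat_bone])

theorem T_sq {z : G} (h : IsConj t z) : z * z = 1 ∧ z ≠ 1 := by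
  obtain ⟨x, hx⟩ := isConj_iff.1 h
  refine ⟨?_, fun e => H.data.z_ne ?_⟩
  · calc z * z = x * (t * t) * x⁻¹ := by rw [← hx]; group
      _ = 1 := by rw [H.data.zz]; group
  · calc t = x⁻¹ * (x * t * x⁻¹) * x := by group
      _ = 1 := by rw [hx, e]; group

/-- A conjugate of the involution fixes at most one point. -/
theorem T_unique {z : G} (hT : IsConj t z) {p q : G ⧸ E.φ.range} (hp : z • p = p) (hq : z • q = q) : p = q := by
  have key : ∀ p : G ⧸ E.φ.range, t • p = p → p = E.pt := by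
    intro p hp
    obtain ⟨x, rfl⟩ := E.exists_smul p
    have hk : x⁻¹ * t * x ∈ E.φ.range := by
      rw [← E.fix_pt, mul_smul, mul_smul, hp, inv_smul_smul]
    have hTk : IsConj t (x⁻¹ * t * x) := isConj_iff.2 ⟨x⁻¹, by rw [inv_inv]⟩
    obtain ⟨hsq, hne⟩ := E.T_sq hTk
    obtain ⟨h, hh, hcase⟩ := E.class_K hk hsq hne
    rcases hcase with e | ⟨i, hi, e⟩
    · have hc : (h * x⁻¹) * t = t * (h * x⁻¹) := by
        have e' : h * x⁻¹ * t * (h * x⁻¹)⁻¹ = t := Eq.trans (by group) e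
        exact mul_inv_eq_iff_eq_mul.1 e'
      have hx : x⁻¹ ∈ E.φ.range := by
        have := E.φ.range.mul_mem (E.φ.range.inv_mem hh) (E.mem_range_of_comm hc)
        rwa [inv_mul_cancel_left] at this
      exact E.fix_pt.2 (by simpa using hx)
    · exact absurd (e ▸ isConj_conj hTk) (E.rep_not_T hi)
  obtain ⟨x, hx⟩ := isConj_iff.1 hT
  have back : ∀ p : G ⧸ E.φ.range, z • p = p → p = x • E.pt := by
    intro p hp
    have h := key (x⁻¹ • p) (by
      have h' := fix_conj (x := x⁻¹) hp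
      rwa [show x⁻¹ * z * x⁻¹⁻¹ = t by rw [← hx]; group] at h')
    rw [← h, smul_inv_smul]
  rw [back p hp, back q hq]

theorem comm_fix {z c : G} (hT : IsConj t z) {p : G ⧸ E.φ.range} (hp : z • p = p) (hc : c * z = z * c) :
    c • p = p :=
  E.T_unique hT (by rw [← mul_smul, ← hc, mul_smul, hp]) hp

theorem t_fix : t • E.pt = E.pt := E.fix_pt.2 E.t_mem

/-- An involution fixing a point is conjugate to a representative, moving the point to the base point. -/
theorem reduce {k : G} (hk : k * k = 1) (h1 : k ≠ 1) {p : G ⧸ E.φ.range} (hp : k • p = p) :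
    ∃ y : G, y • p = E.pt ∧ (y * k * y⁻¹ = t ∨ ∃ i : Fin 5, i ≠ 0 ∧ y * k * y⁻¹ = E.φ (rep i)) := by
  obtain ⟨x, rfl⟩ := E.exists_smul p
  have hk' : x⁻¹ * k * x ∈ E.φ.range := by rw [← E.fix_pt, mul_smul, mul_smul, hp, inv_smul_smul]
  have hsq : x⁻¹ * k * x * (x⁻¹ * k * x) = 1 := by
    rw [show x⁻¹ * k * x * (x⁻¹ * k * x) = x⁻¹ * (k * k) * x by group, hk]; group
  have hne : x⁻¹ * k * x ≠ 1 := fun e => h1 (by
    calc k = x * (x⁻¹ * k * x) * x⁻¹ := by group
      _ = 1 := by rw [e]; group)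
  obtain ⟨h, hh, hcase⟩ := E.class_K hk' hsq hne
  refine ⟨h * x⁻¹, by rw [mul_smul, inv_smul_smul, E.fix_pt.2 hh], ?_⟩
  rcases hcase with e | ⟨i, hi, e⟩
  · exact Or.inl (Eq.trans (by group) e)
  · exact Or.inr ⟨i, hi, Eq.trans (by group) e⟩

/-- An involution fixing a point commutes with a conjugate of the involution fixing that point. -/
theorem exists_T {k : G} (hk : k * k = 1) (h1 : k ≠ 1) {p : G ⧸ E.φ.range} (hp : k • p = p) :
    ∃ c, IsConj t c ∧ c * k = k * c ∧ c • p = p := by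
  obtain ⟨y, hy, hcase⟩ := E.reduce hk h1 hp
  have hc : (y * k * y⁻¹) * t = t * (y * k * y⁻¹) := by
    rcases hcase with e | ⟨i, -, e⟩
    · exact (congrArg (· * t) e).trans (congrArg (t * ·) e.symm)
    · rw [e]; exact E.rep_comm i
  refine ⟨y⁻¹ * t * y, isConj_iff.2 ⟨y⁻¹, by rw [inv_inv]⟩, ?_, ?_⟩
  · calc y⁻¹ * t * y * k = y⁻¹ * (t * (y * k * y⁻¹)) * y := by group
      _ = y⁻¹ * (y * k * y⁻¹ * t) * y := by rw [hc]
      _ = _ := by group
  · rw [mul_smul, mul_smul, hy, E.t_fix, ← hy, inv_smul_smul]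

/-- A decomposition of `k` at `p` as a product of two commuting conjugates of the involution. -/
def Dec (p : G ⧸ E.φ.range) (k : G) : Prop :=
  ∃ b, IsConj t b ∧ b * k = k * b ∧ IsConj t (b * k) ∧ b • p = p

theorem conjT {b c z : G} (hb : IsConj t b) (hc : IsConj t c) (h : IsConj b (b * z) ∨ IsConj c (b * z)) :
    IsConj t (b * z) := h.elim hb.trans hc.trans

set_option maxHeartbeats 2000000 in
/-- A representative has no decomposition at a point other than the base point. -/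
theorem double {i : Fin 5} (hi : i ≠ 0) {q : G ⧸ E.φ.range} (hq : q ≠ E.pt)
    (hd : E.Dec q (E.φ (rep i))) : False := by
  obtain ⟨c, hcT, hck, hckT, hcq⟩ := hd
  set k := E.φ (rep i) with hkdef
  have hkt : k * t = t * k := E.rep_comm i
  have hkq : k • q = q := E.comm_fix hcT hcq hck.symm
  have hkp : k • E.pt = E.pt := E.fix_pt.2 ⟨rep i, rfl⟩
  have hTT : ∀ w, w • E.pt = E.pt → w • q = q → ¬ IsConj t w := fun w h1 h2 hT => hq (E.T_unique hT h2 h1)
  have htk : ¬ IsConj t (t * k) := by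
    intro hT
    have he : E.φ (mx 11 * rep i) = t * k := by rw [map_mul]; exact congrArg (· * k) E.φt
    have := E.code_of_T (code_mul (matHom_mx 11) (rep_code i)) (bmul_lt _ _)
      (by
        calc E.φ (mx 11 * rep i) * t = t * k * t := congrArg (· * t) he
          _ = t * (k * t) := mul_assoc _ _ _
          _ = t * (t * k) := congrArg (t * ·) hkt
          _ = t * E.φ (mx 11 * rep i) := congrArg (t * ·) he.symm)
      (he ▸ hT)
    rw [show mxc 11 = tcode from rfl, (repCode_facts i hi).2.1] at this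
    exact Bool.noConfusion this
  rcases invol_pair H.data.zz (E.T_sq hcT).1 with ⟨x, hx, hxk⟩ | ⟨z, hz2, hz1, hzt, hzc, hzk, hzT⟩
  · refine htk ?_
    have e : x * (c * k) * x⁻¹ = t * k := by
      calc x * (c * k) * x⁻¹ = (x * c * x⁻¹) * ((x * k) * x⁻¹) := by group
        _ = (x * c * x⁻¹) * k := by rw [← hxk k hkt hck.symm, mul_inv_cancel_right]
        _ = t * k := congrArg (· * k) hx
    exact e ▸ isConj_conj hckT
  have hTz : IsConj t (t * z) := E.conjT (IsConj.refl t) hcT hzT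
  have hzp : z • E.pt = E.pt := E.fix_pt.2 (E.mem_range_of_comm hzt)
  have hzq : z • q = q := E.comm_fix hcT hcq hzc
  have hkz : k * z = z * k := hzk k hkt hck.symm
  have htz : (t * z) * t = t * (t * z) := by rw [mul_assoc, hzt]
  obtain ⟨y, cy, hcy, hy, he⟩ := E.TC_of_comm htz hTz
  -- the involution `z` and its code
  set zu := mx 11 * y with hzudef
  have hzu : E.φ zu = z := by
    rw [hzudef, map_mul, he]
    calc E.φ (mx 11) * (t * z) = t * (t * z) := congrArg (· * (t * z)) E.φt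
      _ = z := by rw [← mul_assoc, H.data.zz, one_mul]
  have hzc' : matHom zu = toMat (bmul tcode cy) := code_mul (matHom_mx 11) hy
  have hcomm : ccomm cy (repCode i) = true := (commute_code hy (rep_code i)).2 (E.inj (by
    rw [map_mul, map_mul, he, ← hkdef, mul_assoc, ← hkz, ← mul_assoc, ← hkt, mul_assoc]))
  have hn1 : (cy == tcode) = false := by
    rw [beq_eq_false_iff_ne]
    intro e
    have : y = mx 11 := matHom_inj (by rw [hy, e, matHom_mx]; rfl)
    refine hz1 ?_
    have h' : t * z = t := he.symm.trans ((congrArg E.φ this).trans E.φt)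
    exact mul_left_cancel (a := t) (by rw [h', mul_one])
  have hn2 : inT (bmul tcode cy) = false := by
    rw [Bool.eq_false_iff]
    intro h
    exact hTT z hzp hzq (hzu ▸ E.T_of_code hzc' h)
  have hn3 : inT (bmul (bmul tcode cy) (repCode i)) = false := by
    rw [Bool.eq_false_iff]
    intro h
    have := E.T_of_code (code_mul hzc' (rep_code i)) h
    rw [map_mul, hzu] at this
    exact hTT (z * k) (by rw [mul_smul, hkp, hzp]) (by rw [mul_smul, hkq, hzq]) this
  have hn4 : (bmul tcode cy == repCode i) = false := by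
    rw [beq_eq_false_iff_ne]
    intro e
    have : zu = rep i := matHom_inj (by rw [hzc', e, rep_code])
    exact htk (by
      have hzk' : z = k := hzu.symm.trans (congrArg E.φ this)
      exact hzk' ▸ hTz)
  have hcert := List.all_eq_true.1 (hit_cert i hi) cy (List.contains_iff_mem.1 hcy)
  simp only [hcomm, hn1, hn2, hn3, hn4, Bool.not_true, Bool.false_or] at hcert
  obtain ⟨e, -, -, hgood⟩ := find_any hcert
  simp only [hitGood, Bool.and_eq_true, Bool.not_eq_true'] at hgood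
  obtain ⟨⟨⟨⟨⟨hc1, hc2⟩, hm1⟩, hm2⟩, hm3⟩, hall⟩ := hgood
  set w := wordEl e.2.2
  set h := E.φ w with hhdef
  obtain ⟨k2u, hk2u⟩ : ∃ s, s = w * rep i * w⁻¹ := ⟨_, rfl⟩
  obtain ⟨z2u, hz2u⟩ : ∃ s, s = w * zu * w⁻¹ := ⟨_, rfl⟩
  have hk2 : matHom k2u = toMat (cconj e.2.2 (repCode i)) := hk2u ▸ code_conj _ (rep_code i)
  have hz2' : matHom z2u = toMat (cconj e.2.2 (bmul tcode cy)) := hz2u ▸ code_conj _ hzc'
  have hk2φ : E.φ k2u = h * k * h⁻¹ := by rw [hk2u, map_mul, map_mul, map_inv]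
  have hz2φ : E.φ z2u = h * z * h⁻¹ := by rw [hz2u, map_mul, map_mul, map_inv, hzu]
  have hk2t : t * (h * k * h⁻¹) = (h * k * h⁻¹) * t := by
    have := congrArg E.φ ((commute_code (show matHom (mx 11) = toMat tcode from matHom_mx 11) hk2).1 hc1)
    rw [map_mul, map_mul, hk2φ] at this
    exact ((congrArg (· * (h * k * h⁻¹)) E.φt).symm.trans this).trans (congrArg ((h * k * h⁻¹) * ·) E.φt)
  have hz2t : t * (h * z * h⁻¹) = (h * z * h⁻¹) * t := by
    have := congrArg E.φ ((commute_code (show matHom (mx 11) = toMat tcode from matHom_mx 11) hz2').1 hc2)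
    rw [map_mul, map_mul, hz2φ] at this
    exact ((congrArg (· * (h * z * h⁻¹)) E.φt).symm.trans this).trans (congrArg ((h * z * h⁻¹) * ·) E.φt)
  set b2 := h⁻¹ * t * h with hb2
  have hb2k : k * b2 = b2 * k := by
    calc k * b2 = h⁻¹ * ((h * k * h⁻¹) * t) * h := by rw [hb2]; group
      _ = h⁻¹ * (t * (h * k * h⁻¹)) * h := by rw [hk2t]
      _ = b2 * k := by rw [hb2]; group
  have hb2z : z * b2 = b2 * z := by
    calc z * b2 = h⁻¹ * ((h * z * h⁻¹) * t) * h := by rw [hb2]; group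
      _ = h⁻¹ * (t * (h * z * h⁻¹)) * h := by rw [hz2t]
      _ = b2 * z := by rw [hb2]; group
  have hb2T : IsConj t b2 := isConj_iff.2 ⟨h⁻¹, by rw [inv_inv]⟩
  have hb2p : b2 • E.pt = E.pt := E.fix_pt.2 (E.φ.range.mul_mem (E.φ.range.mul_mem
    (E.φ.range.inv_mem ⟨w, rfl⟩) E.t_mem) ⟨w, rfl⟩)
  rcases invol_pair (E.T_sq hb2T).1 (E.T_sq hcT).1 with ⟨x, hx, hxk⟩ | ⟨z', -, hz'1, hz'b, hz'c, hz'k, hz'T⟩
  · have e' : x * (c * k) * x⁻¹ = b2 * k := by
      calc x * (c * k) * x⁻¹ = (x * c * x⁻¹) * ((x * k) * x⁻¹) := by group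
        _ = (x * c * x⁻¹) * k := by rw [← hxk k hb2k hck.symm, mul_inv_cancel_right]
        _ = b2 * k := by rw [hx]
    have hT2 : IsConj t (t * (h * k * h⁻¹)) := by
      have := isConj_conj (x := h) (e' ▸ isConj_conj hckT : IsConj t (b2 * k))
      rwa [show h * (b2 * k) * h⁻¹ = t * (h * k * h⁻¹) by rw [hb2]; group] at this
    have hu : E.φ (mx 11 * k2u) = t * (h * k * h⁻¹) := by
      rw [map_mul, hk2φ]; exact congrArg (· * (h * k * h⁻¹)) E.φt
    have := E.code_of_T (code_mul (matHom_mx 11) hk2) (bmul_lt _ _) (by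
      rw [hu]
      calc t * (h * k * h⁻¹) * t = t * ((h * k * h⁻¹) * t) := mul_assoc _ _ _
        _ = t * (t * (h * k * h⁻¹)) := by rw [hk2t]) (hu ▸ hT2)
    rw [show mxc 11 = tcode from rfl, hm1] at this
    exact Bool.noConfusion this
  have hz'p : z' • E.pt = E.pt := E.comm_fix hb2T hb2p hz'b
  have hz'q : z' • q = q := E.comm_fix hcT hcq hz'c
  have hkz' : k * z' = z' * k := hz'k k hb2k hck.symm
  have hzz' : z * z' = z' * z := hz'k z hb2z hzc
  set y2 := h * (b2 * z') * h⁻¹ with hy2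
  have hy2T : IsConj t y2 := isConj_conj (E.conjT hb2T hcT hz'T)
  have hy2' : y2 = t * (h * z' * h⁻¹) := by rw [hy2, hb2]; group
  have hz'2t : (h * z' * h⁻¹) * t = t * (h * z' * h⁻¹) := by
    calc (h * z' * h⁻¹) * t = h * (z' * b2) * h⁻¹ := by rw [hb2]; group
      _ = h * (b2 * z') * h⁻¹ := by rw [hz'b]
      _ = _ := by rw [hb2]; group
  obtain ⟨yu, c2, hc2mem, hyu, he2⟩ := E.TC_of_comm (by rw [hy2', mul_assoc, hz'2t]) hy2T
  have hk2y : y2 * (h * k * h⁻¹) = (h * k * h⁻¹) * y2 := by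
    calc y2 * (h * k * h⁻¹) = h * (b2 * z' * k) * h⁻¹ := by rw [hy2]; group
      _ = h * (k * (b2 * z')) * h⁻¹ := by
        rw [mul_assoc b2 z' k, ← hkz', ← mul_assoc b2 k z', ← hb2k, mul_assoc k b2 z']
      _ = _ := by rw [hy2]; group
  have hz2y : y2 * (h * z * h⁻¹) = (h * z * h⁻¹) * y2 := by
    calc y2 * (h * z * h⁻¹) = h * (b2 * z' * z) * h⁻¹ := by rw [hy2]; group
      _ = h * (z * (b2 * z')) * h⁻¹ := by
        rw [mul_assoc b2 z' z, ← hzz', ← mul_assoc b2 z z', ← hb2z, mul_assoc z b2 z']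
      _ = _ := by rw [hy2]; group
  have h1 : ccomm c2 (cconj e.2.2 (repCode i)) = true := (commute_code hyu hk2).2 (E.inj (by
    rw [map_mul, map_mul, hk2φ, he2, hk2y]))
  have h2 : ccomm c2 (cconj e.2.2 (bmul tcode cy)) = true := (commute_code hyu hz2').2 (E.inj (by
    rw [map_mul, map_mul, hz2φ, he2, hz2y]))
  have hfin := List.all_eq_true.1 hall c2 (List.contains_iff_mem.1 hc2mem)
  simp only [h1, h2, Bool.and_self, Bool.not_true, Bool.false_or, Bool.or_eq_true, beq_iff_eq] at hfin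
  set qu := mx 11 * yu with hqu
  have hq' : matHom qu = toMat (bmul tcode c2) := code_mul (matHom_mx 11) hyu
  have hquφ : E.φ qu = h * z' * h⁻¹ := by
    rw [hqu, map_mul, he2, hy2']
    calc E.φ (mx 11) * (t * (h * z' * h⁻¹)) = t * (t * (h * z' * h⁻¹)) :=
          congrArg (· * (t * (h * z' * h⁻¹))) E.φt
      _ = _ := by rw [← mul_assoc, H.data.zz, one_mul]
  have fin : ∀ (v : G) (vu : ↥Om) (d : ℕ), matHom vu = toMat d → E.φ vu = h * v * h⁻¹ → v • E.pt = E.pt →
      v • q = q → inT d = true → False := by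
    intro v vu d hv he hvp hvq hd
    refine hTT v hvp hvq ?_
    have := isConj_conj (x := h⁻¹) (he ▸ E.T_of_code hv hd : IsConj t (h * v * h⁻¹))
    rwa [show h⁻¹ * (h * v * h⁻¹) * h⁻¹⁻¹ = v by group] at this
  rcases hfin with (((e' | h') | h') | h') | h'
  · refine hz'1 ?_
    have : qu = 1 := matHom_inj (by rw [hq', e', toMat_bone, map_one])
    have h0 : h * z' * h⁻¹ = 1 := by rw [← hquφ, this, map_one]
    calc z' = h⁻¹ * (h * z' * h⁻¹) * h := by group
      _ = 1 := by rw [h0]; group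
  · exact fin z' qu _ hq' hquφ hz'p hz'q h'
  · exact fin (z' * k) (qu * k2u) _ (code_mul hq' hk2) (by rw [map_mul, hquφ, hk2φ]; group)
      (by rw [mul_smul, hkp, hz'p]) (by rw [mul_smul, hkq, hz'q]) h'
  · exact fin (z' * z) (qu * z2u) _ (code_mul hq' hz2') (by rw [map_mul, hquφ, hz2φ]; group)
      (by rw [mul_smul, hzp, hz'p]) (by rw [mul_smul, hzq, hz'q]) h'
  · exact fin (z' * (k * z)) (qu * (k2u * z2u)) _ (code_mul hq' (code_mul hk2 hz2'))
      (by rw [map_mul E.φ qu, map_mul E.φ k2u, hquφ, hk2φ, hz2φ]; group)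
      (by rw [mul_smul, mul_smul, hzp, hkp, hz'p]) (by rw [mul_smul, mul_smul, hzq, hkq, hz'q]) h'

/-- A decomposable involution fixes only the point of its decomposition. -/
theorem uniq {k : G} (hk : k * k = 1) (h1 : k ≠ 1) {p q : G ⧸ E.φ.range} (hd : E.Dec p k) (hq : k • q = q) :
    q = p := by
  obtain ⟨b, hbT, hbk, hbkT, hbp⟩ := hd
  have hkp : k • p = p := E.comm_fix hbT hbp hbk.symm
  by_contra hne
  obtain ⟨y, hy, hcase⟩ := E.reduce hk h1 hq
  rcases hcase with e | ⟨i, hi, e⟩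
  · have hT : IsConj t k := by
      refine (isConj_iff.2 ⟨y⁻¹, ?_⟩)
      calc y⁻¹ * t * y⁻¹⁻¹ = y⁻¹ * (y * k * y⁻¹) * y⁻¹⁻¹ := congrArg (fun s => y⁻¹ * s * y⁻¹⁻¹) e.symm
        _ = k := by group
    exact hne (E.T_unique hT hq hkp)
  · refine E.double hi (q := y • p) (fun h => hne ?_) ⟨y * b * y⁻¹, isConj_conj hbT, ?_, ?_, fix_conj hbp⟩
    · exact smul_left_cancel y (hy.trans h.symm)
    · rw [← e, show y * b * y⁻¹ * (y * k * y⁻¹) = y * (b * k) * y⁻¹ by group, hbk]; group
    · rw [← e, show y * b * y⁻¹ * (y * k * y⁻¹) = y * (b * k) * y⁻¹ by group]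
      exact isConj_conj hbkT

theorem dec_rep {i : Fin 5} (hi : i = 1 ∨ i = 2 ∨ i = 3) : E.Dec E.pt (E.φ (rep i)) := by
  obtain ⟨h8, h9, h7, hdec⟩ := decomposable_facts
  obtain ⟨c, hc, hcomm, hT⟩ := hdec i hi
  obtain ⟨b, rfl, hb⟩ : ∃ b : Fin 12, mxc b = c ∧ inT (mxc b) = true := by
    simp only [List.mem_cons, List.not_mem_nil, or_false] at hc
    rcases hc with rfl | rfl | rfl
    exacts [⟨7, rfl, h7⟩, ⟨8, rfl, h8⟩, ⟨9, rfl, h9⟩]
  refine ⟨E.φ (mx b), E.T_of_code (matHom_mx b) hb, ?_, ?_, E.fix_pt.2 ⟨mx b, rfl⟩⟩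
  · rw [← map_mul, (commute_code (matHom_mx b) (rep_code i)).1 hcomm, map_mul]
  · rw [← map_mul]
    exact E.T_of_code (code_mul (matHom_mx b) (rep_code i)) hT

/-- The last representative fixes only the base point. -/
theorem four {q : G ⧸ E.φ.range} (hkq : E.φ (rep 4) • q = q) : q = E.pt := by
  by_contra hne
  set k := E.φ (rep 4) with hkdef
  have h4 : (4 : Fin 5) ≠ 0 := by decide
  obtain ⟨c, hcT, hck, hcq⟩ := E.exists_T (E.rep_sq h4) (E.rep_ne h4) hkq
  obtain ⟨hwT, hwc, hwconj, hwcl, htail⟩ := wit_facts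
  obtain ⟨bu, hbu⟩ := exists_of_inT hwT
  set b := E.φ bu with hbdef
  have hbT : IsConj t b := E.T_of_code hbu hwT
  have hbk : b * k = k * b := by
    rw [hbdef, hkdef, ← map_mul, (commute_code hbu (rep_code 4)).1 hwc, map_mul]
  have hbp : b • E.pt = E.pt := E.fix_pt.2 ⟨bu, rfl⟩
  have odd : ∀ d, IsConj t d → d * k = k * d → d • E.pt = E.pt → ∃ x, x * c * x⁻¹ = d ∧ k * x = x * k := by
    intro d hdT hdk hdp
    rcases invol_pair (E.T_sq hdT).1 (E.T_sq hcT).1 with ⟨x, hx, hxk⟩ | ⟨z, hz2, hz1, hzd, hzc, -, hzT⟩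
    · exact ⟨x, hx, hxk k hdk.symm hck.symm⟩
    · exact absurd (E.uniq hz2 hz1 ⟨d, hdT, hzd.symm, E.conjT hdT hcT hzT, hdp⟩ (E.comm_fix hcT hcq hzc)) hne
  obtain ⟨x, hx, hxk⟩ := odd t (IsConj.refl t) (E.rep_comm 4).symm E.t_fix
  obtain ⟨x', hx', hxk'⟩ := odd b hbT hbk hbp
  set y := x' * x⁻¹ with hydef
  have hyk : y * k = k * y := (Commute.mul_left (show Commute x' k from hxk'.symm)
    (show Commute x k from hxk.symm).inv_left).eq
  have hyt : y * t * y⁻¹ = b := by
    calc y * t * y⁻¹ = y * (x * c * x⁻¹) * y⁻¹ := congrArg (fun s => y * s * y⁻¹) hx.symm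
      _ = x' * c * x'⁻¹ := by rw [hydef]; group
      _ = b := hx'
  have htk : y * (t * k) * y⁻¹ = b * k := by
    calc y * (t * k) * y⁻¹ = (y * t * y⁻¹) * ((y * k) * y⁻¹) := by group
      _ = (y * t * y⁻¹) * k := by rw [hyk, mul_inv_cancel_right]
      _ = b * k := congrArg (· * k) hyt
  set h := E.φ (wordEl tailWord) with hhdef
  have hh : h * (t * k) * h⁻¹ = k := by
    have e1 : E.φ (wordEl tailWord * (mx 11 * rep 4) * (wordEl tailWord)⁻¹) = k := by
      rw [hkdef]
      refine congrArg E.φ (matHom_inj ?_)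
      rw [code_conj _ (code_mul (matHom_mx 11) (rep_code 4)), rep_code]
      exact congrArg toMat htail
    rw [map_mul, map_mul, map_mul, map_inv] at e1
    exact (congrArg (fun s => h * (s * k) * h⁻¹) E.φt).symm.trans e1
  -- two fixed points of the product, moved to a decomposable representative
  set g' := E.φ (wordEl witWord) with hgdef
  have hgb : g' * (b * k) * g'⁻¹ = E.φ (rep witClass) := by
    rw [hgdef, hbdef, hkdef, ← map_mul, ← map_inv, ← map_mul, ← map_mul]
    refine congrArg E.φ (matHom_inj ?_)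
    rw [code_conj _ (code_mul hbu (rep_code 4)), hwconj, rep_code]
  have hfix : ∀ p : G ⧸ E.φ.range, k • p = p → g' • y • h⁻¹ • p = E.pt := by
    intro p hp
    have h1 : (t * k) • (h⁻¹ • p) = h⁻¹ • p := by
      have := fix_conj (x := h⁻¹) hp
      rwa [show h⁻¹ * k * h⁻¹⁻¹ = t * k from
        (congrArg (fun s => h⁻¹ * s * h⁻¹⁻¹) hh.symm).trans (by group)] at this
    have h2 := fix_conj (x := y) h1
    rw [htk] at h2
    have h3 := fix_conj (x := g') h2
    rw [hgb] at h3
    have hi : witClass ≠ 0 := by rcases hwcl with e | e | e <;> rw [e] <;> decide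
    exact E.uniq (E.rep_sq hi) (E.rep_ne hi) (E.dec_rep hwcl) h3
  have := (hfix q hkq).trans (hfix E.pt (E.fix_pt.2 ⟨rep 4, rfl⟩)).symm
  exact hne (smul_left_cancel h⁻¹ (smul_left_cancel y (smul_left_cancel g' this)))

/-- An involution fixes at most one point. -/
theorem single {k : G} (hk : k * k = 1) (h1 : k ≠ 1) {p q : G ⧸ E.φ.range} (hp : k • p = p) (hq : k • q = q) :
    q = p := by
  obtain ⟨y, hy, hcase⟩ := E.reduce hk h1 hp
  rcases hcase with e | ⟨i, hi, e⟩
  · refine E.T_unique ?_ hq hp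
    refine isConj_iff.2 ⟨y⁻¹, ?_⟩
    calc y⁻¹ * t * y⁻¹⁻¹ = y⁻¹ * (y * k * y⁻¹) * y⁻¹⁻¹ := congrArg (fun s => y⁻¹ * s * y⁻¹⁻¹) e.symm
      _ = k := by group
  · refine smul_left_cancel y ?_
    rw [hy]
    have hq' : E.φ (rep i) • (y • q) = y • q := e ▸ fix_conj hq
    have key : ∀ i : Fin 5, i ≠ 0 → i = 1 ∨ i = 2 ∨ i = 3 ∨ i = 4 := by decide
    have := key i hi
    rcases this with h | h | h | h
    · exact E.uniq (E.rep_sq hi) (E.rep_ne hi) (E.dec_rep (Or.inl h)) hq'
    · exact E.uniq (E.rep_sq hi) (E.rep_ne hi) (E.dec_rep (Or.inr (Or.inl h))) hq'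
    · exact E.uniq (E.rep_sq hi) (E.rep_ne hi) (E.dec_rep (Or.inr (Or.inr h))) hq'
    · subst h; exact E.four hq'

/-- The embedding is surjective. -/
theorem surjective : Function.Surjective E.φ := by
  intro x
  by_contra hcon
  have hx : x ∉ E.φ.range := hcon
  set q := x • E.pt with hqdef
  have hne : q ≠ E.pt := fun e => hx (E.fix_pt.1 e)
  set c := x * t * x⁻¹ with hcdef
  have hcT : IsConj t c := isConj_iff.2 ⟨x, rfl⟩
  have hcq : c • q = q := fix_conj E.t_fix
  have h1 : (1 : Fin 5) ≠ 0 := by decide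
  rcases invol_pair (E.rep_sq h1) (E.T_sq hcT).1 with ⟨y, hy, -⟩ | ⟨z, hz2, hz1, hzk, hzc, -, -⟩
  · exact E.rep_not_T h1 (hy ▸ isConj_conj hcT)
  · set k := E.φ (rep 1) with hkdef
    have hkp : k • E.pt = E.pt := E.fix_pt.2 ⟨rep 1, rfl⟩
    have hzp : z • E.pt = E.pt :=
      E.single (E.rep_sq h1) (E.rep_ne h1) hkp (by rw [← mul_smul, ← hzk, mul_smul, hkp])
    exact hne (E.single hz2 hz1 hzp (E.comm_fix hcT hcq hzc))

end Emb

/-- The group is the model. -/
theorem equiv_model {L : Levi R} (E : Emb L) : Nonempty (G ≃* ↥Om) :=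
  ⟨(MulEquiv.ofBijective E.φ ⟨E.inj, E.surjective⟩).symm⟩

end CfsgLib.OrthEightRecog
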