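import Cfsg.Agent.Lib.OrthEightRecog.Pair
import Cfsg.Agent.Lib.OrthEightRecog.Basis

/-!
The module of the extraspecial subgroup modulo its centre.
-/

set_option autoImplicit false
set_option linter.style.haveILetI false

namespace CfsgLib.OrthEightRecog

universe u

variable {G : Type u} [Group G] [Finite G] {t : G} {Q : Subgroup G}

/-- An element of one factor of the quotient. -/
def inFactor (p : Equiv.Perm (Fin 3)) : Fin 3 → L3 :=
  ![(p, 1, 1), (1, p, 1), (1, 1, p)]

/-- The rotation of a factor. -/
def lrot (i : Fin 3) : L3 := inFactor (finRotate 3) i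

/-- The reflection of a factor. -/
def lref (i : Fin 3) : L3 := inFactor (Equiv.swap 0 1) i

theorem lref_mem (i : Fin 3) : lref i ∈ stdP := by
  show inP (lref i)
  revert i
  unfold inP
  decide +kernel

namespace Hyp

variable (H : Hyp t Q)
include H

/-- The chosen pair in standard position. -/
structure Std (g a : G) : Prop where
  pair : H.PairData g a
  std : ∀ l, l ∈ stdP ↔ ∃ r : ↥(Subgroup.centralizer ({t} : Set G)), (r : G) ∈ H.conjQ g ∧ H.π r = l

variable {g a : G} (S : H.Std g a)
include S

theorem a_ne_one : a ≠ 1 := fun e => H.data.z_ne (by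
  calc t = g⁻¹ * (g * t * g⁻¹) * g := by group
    _ = 1 := by rw [S.pair.eq, e]; group)

theorem a_sq : a * a = 1 := by
  calc a * a = g * (t * t) * g⁻¹ := by rw [← S.pair.eq]; group
    _ = 1 := by rw [H.data.zz]; group

theorem a_t : a * t = t * a := H.Q_comm S.pair.mem

theorem exists_moving : ∃ q ∈ Q, q * a * q⁻¹ = a * t := by
  obtain ⟨q, hq, hne⟩ : ∃ q ∈ Q, q * a ≠ a * q := by
    by_contra hcon
    push Not at hcon
    rcases H.data.central_eq_or S.pair.mem fun y hy => (hcon y hy).symm with h | h
    · exact H.a_ne_one S h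
    · exact S.pair.ne h
  refine ⟨q, hq, ?_⟩
  rw [H.data.swap S.pair.mem hq hne, H.a_t S]
  group

/-- The stabiliser of the coset of `a`. -/
theorem stab {c : ↥(Subgroup.centralizer ({t} : Set G))}
    (h : (c : G) * a * (c : G)⁻¹ = a ∨ (c : G) * a * (c : G)⁻¹ = a * t) : H.π c ∈ stdP := by
  have main : ∀ d : ↥(Subgroup.centralizer ({t} : Set G)), (d : G) * a * (d : G)⁻¹ = a → H.π d ∈ stdP := by
    intro d hd
    refine norm_stdP fun p hp => ?_
    obtain ⟨r, hr, rfl⟩ := (S.std p).1 hp
    refine (S.std _).2 ⟨d * r * d⁻¹, ?_, by rw [map_mul, map_mul, map_inv]⟩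
    have hda : (d : G) * a = a * d := mul_inv_eq_iff_eq_mul.1 hd
    exact H.conjQ_normal S.pair.eq hda hr
  rcases h with h | h
  · exact main c h
  · obtain ⟨q, hq, hqa⟩ := H.exists_moving S
    have hqt := H.Q_comm hq
    let q' : ↥(Subgroup.centralizer ({t} : Set G)) := ⟨q, H.mem_C.2 hqt⟩
    have h1 : ((q' * c : _) : G) * a * ((q' * c : _) : G)⁻¹ = a := by
      show q * c * a * (q * (c : G))⁻¹ = a
      calc q * c * a * (q * (c : G))⁻¹ = q * ((c : G) * a * (c : G)⁻¹) * q⁻¹ := by group
        _ = (q * a * q⁻¹) * (q * t * q⁻¹) := by rw [h]; group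
        _ = a * t * t := by rw [hqa, H.conj_t hqt]
        _ = a := by rw [mul_assoc, H.data.zz, mul_one]
    have := main _ h1
    rwa [map_mul, (H.ker q').2 hq, one_mul] at this

theorem stdP_fix {c : ↥(Subgroup.centralizer ({t} : Set G))} (hc : H.π c ∈ stdP) :
    (c : G) * a * (c : G)⁻¹ = a ∨ (c : G) * a * (c : G)⁻¹ = a * t := by
  obtain ⟨r, hr, e⟩ := (S.std _).1 hc
  have hk : ((c * r⁻¹ : _) : G) ∈ Q := (H.ker _).1 (by rw [map_mul, map_inv, e, mul_inv_cancel])
  have hra : (r : G) * a = a * r := H.conjQ_comm S.pair.eq hr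
  have e2 : (c : G) * a * (c : G)⁻¹ = ((c * r⁻¹ : _) : G) * a * ((c * r⁻¹ : _) : G)⁻¹ := by
    push_cast
    calc (c : G) * a * (c : G)⁻¹ = c * (r : G)⁻¹ * ((r : G) * a) * (c : G)⁻¹ := by group
      _ = _ := by rw [hra]; group
  rw [e2]
  set q := ((c * r⁻¹ : _) : G)
  by_cases h : q * a = a * q
  · left; rw [h, mul_inv_cancel_right]
  · right
    rw [H.data.swap S.pair.mem hk h, H.a_t S]
    group

/-- The module. -/
theorem exists_module : ∃ (V : Type u) (_ : AddCommGroup V) (_ : Finite V) (M : Md V) (cl : G → V),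
    (∀ x ∈ Q, ∀ y ∈ Q, cl (x * y) = cl x + cl y) ∧
    (∀ x ∈ Q, ∀ y ∈ Q, cl x = cl y → y = x ∨ y = x * t) ∧ cl t = 0 ∧ (∀ v, ∃ x ∈ Q, cl x = v) ∧
    cl a = M.a ∧ (∀ x ∈ Q, ∀ y ∈ Q, (M.B (cl x) (cl y) = 0 ↔ x * y = y * x)) ∧
    (∀ i (c : ↥(Subgroup.centralizer ({t} : Set G))), H.π c = lrot i →
      ∀ q ∈ Q, cl ((c : G) * q * (c : G)⁻¹) = M.e i (cl q)) ∧
    (∀ i (c : ↥(Subgroup.centralizer ({t} : Set G))), H.π c = lref i →
      ∀ q ∈ Q, cl ((c : G) * q * (c : G)⁻¹) = M.x i (cl q)) := by
  classical
  let tQ : ↥Q := ⟨t, H.data.mem⟩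
  let Z : Subgroup ↥Q := Subgroup.zpowers tQ
  have hcen : ∀ q : ↥Q, q * tQ = tQ * q := fun q => Subtype.ext (H.Q_comm q.2)
  haveI : Z.Normal := ⟨fun n hn q => by
    obtain ⟨k, rfl⟩ := Subgroup.mem_zpowers_iff.1 hn
    have h : Commute q (tQ ^ k) := (show Commute q tQ from hcen q).zpow_right k
    rw [h.eq, mul_inv_cancel_right]
    exact Subgroup.zpow_mem _ (Subgroup.mem_zpowers tQ) k⟩
  have hZ : ∀ q : ↥Q, q ∈ Z ↔ (q : G) = 1 ∨ (q : G) = t := by
    intro q
    constructor
    · intro h
      obtain ⟨k, rfl⟩ := Subgroup.mem_zpowers_iff.1 h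
      rcases Int.even_or_odd k with ⟨m, rfl⟩ | ⟨m, rfl⟩
      · left
        have : (tQ * tQ) = 1 := Subtype.ext H.data.zz
        rw [show tQ ^ (m + m) = (tQ * tQ) ^ m by rw [zpow_add, (Commute.refl tQ).mul_zpow], this, one_zpow]
        rfl
      · right
        have : (tQ * tQ) = 1 := Subtype.ext H.data.zz
        rw [zpow_add, show tQ ^ (2 * m) = (tQ * tQ) ^ m by rw [two_mul, zpow_add, (Commute.refl tQ).mul_zpow],
          this, one_zpow, one_mul, zpow_one]
    · rintro (h | h)
      · rw [show q = 1 from Subtype.ext h]; exact one_mem _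
      · rw [show q = tQ from Subtype.ext h]; exact Subgroup.mem_zpowers _
  let U := ↥Q ⧸ Z
  letI : CommGroup U :=
    { (inferInstance : Group U) with
      mul_comm := by
        intro p q
        induction p using QuotientGroup.induction_on with
        | _ p =>
        induction q using QuotientGroup.induction_on with
        | _ q =>
        rw [← QuotientGroup.mk_mul, ← QuotientGroup.mk_mul, QuotientGroup.eq, hZ]
        push_cast
        rcases H.comm_or (Q.inv_mem q.2) (Q.inv_mem p.2) with h | h
        · left; simpa [mul_assoc] using h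
        · right; simpa [mul_assoc] using h }
  let V := Additive U
  let cl : G → V := fun x => if hx : x ∈ Q then Additive.ofMul (QuotientGroup.mk (⟨x, hx⟩ : ↥Q) : U) else 0
  have cl_def : ∀ x (hx : x ∈ Q), cl x = Additive.ofMul (QuotientGroup.mk (⟨x, hx⟩ : ↥Q) : U) :=
    fun x hx => dif_pos hx
  have cl_mul : ∀ x ∈ Q, ∀ y ∈ Q, cl (x * y) = cl x + cl y := by
    intro x hx y hy
    rw [cl_def _ (Q.mul_mem hx hy), cl_def _ hx, cl_def _ hy]
    rfl
  have cl_eq : ∀ x ∈ Q, ∀ y ∈ Q, cl x = cl y → y = x ∨ y = x * t := by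
    intro x hx y hy h
    rw [cl_def _ hx, cl_def _ hy] at h
    have h2 := QuotientGroup.eq.1 (Additive.ofMul.injective h)
    rcases (hZ _).1 h2 with e | e <;> simp only [Subgroup.coe_mul, Subgroup.coe_inv] at e
    · exact Or.inl (inv_mul_eq_one.1 e).symm
    · exact Or.inr (inv_mul_eq_iff_eq_mul.1 e)
  have cl_t : cl t = 0 := by
    rw [cl_def _ H.data.mem]
    show Additive.ofMul (QuotientGroup.mk tQ : U) = 0
    rw [(QuotientGroup.eq_one_iff tQ).2 (Subgroup.mem_zpowers tQ)]
    rfl
  have cl_surj : ∀ v, ∃ x ∈ Q, cl x = v := by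
    intro v
    obtain ⟨p, hp⟩ := QuotientGroup.mk_surjective (Additive.toMul v)
    exact ⟨p, p.2, by rw [cl_def _ p.2]; show Additive.ofMul (QuotientGroup.mk p : U) = v; rw [hp]; rfl⟩
  have cl_one : cl 1 = 0 := by
    have h := cl_mul 1 Q.one_mem 1 Q.one_mem
    rw [one_mul] at h
    simpa using h
  have cl_xt : ∀ x ∈ Q, cl (x * t) = cl x := fun x hx => by rw [cl_mul x hx t H.data.mem, cl_t, add_zero]
  have two : ∀ v : V, v + v = 0 := by
    intro v
    obtain ⟨x, hx, rfl⟩ := cl_surj v
    rw [← cl_mul x hx x hx]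
    rcases H.data.sq hx with e | e <;> rw [e]
    · exact cl_one
    · exact cl_t
  -- lifts
  choose rep hrep hrep' using cl_surj
  let B : V → V → ZMod 2 := fun v w => if rep v * rep w = rep w * rep v then 0 else 1
  have hBQ : ∀ x ∈ Q, ∀ y ∈ Q, B (cl x) (cl y) = if x * y = y * x then 0 else 1 := by
    intro x hx y hy
    have h1 : rep (cl x) = x ∨ rep (cl x) = x * t := cl_eq x hx _ (hrep _) (hrep' _).symm
    have h2 : rep (cl y) = y ∨ rep (cl y) = y * t := cl_eq y hy _ (hrep _) (hrep' _).symm
    show (if rep (cl x) * rep (cl y) = rep (cl y) * rep (cl x) then (0 : ZMod 2) else 1) = _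
    have hxt := H.Q_comm hx
    have hyt := H.Q_comm hy
    have key : rep (cl x) * rep (cl y) = rep (cl y) * rep (cl x) ↔ x * y = y * x := by
      have cx : ∀ z : G, z * t = t * z → ((x * t) * z = z * (x * t) ↔ x * z = z * x) := fun z hz => by
        constructor
        · intro h
          refine mul_right_cancel (b := t) ?_
          calc x * z * t = x * t * z := by rw [mul_assoc, hz, mul_assoc]
            _ = _ := by rw [h, mul_assoc]
        · intro h
          rw [mul_assoc, ← hz, ← mul_assoc, h, mul_assoc]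
      have cy : ∀ z : G, z * t = t * z → (z * (y * t) = (y * t) * z ↔ z * y = y * z) := fun z hz => by
        constructor
        · intro h
          refine mul_right_cancel (b := t) ?_
          calc z * y * t = z * (y * t) := mul_assoc _ _ _
            _ = y * t * z := h
            _ = y * z * t := by rw [mul_assoc, ← hz, mul_assoc]
        · intro h
          rw [← mul_assoc, h, mul_assoc, hz, mul_assoc]
      have hxtt : (x * t) * t = t * (x * t) := by rw [← mul_assoc t x, ← hxt]
      rcases h1 with e1 | e1 <;> rcases h2 with e2 | e2 <;> rw [e1, e2]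
      · exact cy x hxt
      · exact cx y hyt
      · exact (cy _ hxtt).trans (cx y hyt)
    simp only [key]
  have hadd : ∀ u v w, B (u + v) w = B u w + B v w := by
    intro u v w
    rw [← hrep' u, ← hrep' v, ← hrep' w, ← cl_mul _ (hrep u) _ (hrep v), hBQ _ (Q.mul_mem (hrep u) (hrep v)) _ (hrep w),
      hBQ _ (hrep u) _ (hrep w), hBQ _ (hrep v) _ (hrep w)]
    have hzt : ∀ z ∈ Q, z * t = t * z := fun z hz => H.Q_comm hz
    set x := rep u; set y := rep v; set z := rep w
    have hx := hrep u; have hy := hrep v; have hz := hrep w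
    by_cases h1 : x * z = z * x <;> by_cases h2 : y * z = z * y
    · rw [if_pos h1, if_pos h2, if_pos (by rw [mul_assoc, h2, ← mul_assoc, h1, mul_assoc]), add_zero]
    · rw [if_pos h1, if_neg h2, if_neg, zero_add]
      intro h
      refine h2 (mul_left_cancel (a := x) ?_)
      rw [← mul_assoc, h, ← mul_assoc, ← h1, mul_assoc]
    · rw [if_neg h1, if_pos h2, if_neg, add_zero]
      intro h
      refine h1 (mul_right_cancel (b := y) ?_)
      calc x * z * y = x * y * z := by rw [mul_assoc, ← h2, mul_assoc]
        _ = z * (x * y) := h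
        _ = z * x * y := by group
    · have e1 : x * z = t * (z * x) := H.data.swap hz hx h1
      have e2 : y * z = t * (z * y) := H.data.swap hz hy h2
      rw [if_neg h1, if_neg h2, if_pos]
      · decide
      · calc x * y * z = (x * t) * (z * y) := by rw [mul_assoc, e2, mul_assoc]
          _ = t * (x * z) * y := by rw [hzt x hx]; group
          _ = (t * t) * (z * (x * y)) := by rw [e1]; group
          _ = z * (x * y) := by rw [H.data.zz, one_mul]
  -- the action
  choose sec hsec using H.surj
  have hcc : ∀ c : ↥(Subgroup.centralizer ({t} : Set G)), ∀ x ∈ Q, (c : G) * x * (c : G)⁻¹ ∈ Q :=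
    fun c x hx => H.data.normal c c.2 x hx
  have hwd : ∀ c c' : ↥(Subgroup.centralizer ({t} : Set G)), H.π c = H.π c' → ∀ x ∈ Q,
      cl ((c : G) * x * (c : G)⁻¹) = cl ((c' : G) * x * (c' : G)⁻¹) := by
    intro c c' h x hx
    have hk : ((c * c'⁻¹ : _) : G) ∈ Q := (H.ker _).1 (by rw [map_mul, map_inv, h, mul_inv_cancel])
    set q := ((c * c'⁻¹ : _) : G) with hq
    set y := (c' : G) * x * (c' : G)⁻¹
    have e : (c : G) * x * (c : G)⁻¹ = q * y * q⁻¹ := by rw [hq]; push_cast; simp only [y]; group
    rw [e]
    rcases H.comm_or hk (hcc c' x hx) with e2 | e2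
    · rw [show q * y * q⁻¹ = (q * y * q⁻¹ * y⁻¹) * y by group, e2, one_mul]
    · rw [show q * y * q⁻¹ = (q * y * q⁻¹ * y⁻¹) * y by group, e2, cl_mul t H.data.mem y (hcc c' x hx), cl_t, zero_add]
  have hwd2 : ∀ (c : ↥(Subgroup.centralizer ({t} : Set G))) (x y : G), x ∈ Q → y ∈ Q → cl x = cl y →
      cl ((c : G) * x * (c : G)⁻¹) = cl ((c : G) * y * (c : G)⁻¹) := by
    intro c x y hx hy h
    rcases cl_eq x hx y hy h with rfl | rfl
    · rfl
    · rw [show (c : G) * (x * t) * (c : G)⁻¹ = ((c : G) * x * (c : G)⁻¹) * ((c : G) * t * (c : G)⁻¹) by group,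
        H.conj_t (Subgroup.mem_centralizer_singleton_iff.1 c.2), cl_xt _ (hcc c x hx)]
  let act : L3 → (V →+ V) := fun l => AddMonoidHom.mk' (fun v => cl ((sec l : G) * rep v * (sec l : G)⁻¹)) (by
    intro v w
    rw [← cl_mul _ (hcc _ _ (hrep v)) _ (hcc _ _ (hrep w)),
      show (sec l : G) * rep v * (sec l : G)⁻¹ * ((sec l : G) * rep w * (sec l : G)⁻¹) =
        (sec l : G) * (rep v * rep w) * (sec l : G)⁻¹ by group]
    exact hwd2 _ _ _ (hrep _) (Q.mul_mem (hrep v) (hrep w))
      (by rw [hrep', cl_mul _ (hrep v) _ (hrep w), hrep', hrep']))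
  have act_cl : ∀ (c : ↥(Subgroup.centralizer ({t} : Set G))) (x : G), x ∈ Q →
      cl ((c : G) * x * (c : G)⁻¹) = act (H.π c) (cl x) := by
    intro c x hx
    show _ = cl ((sec (H.π c) : G) * rep (cl x) * (sec (H.π c) : G)⁻¹)
    rw [← hwd c (sec (H.π c)) (hsec _).symm _ (hrep _)]
    exact hwd2 c x _ hx (hrep _) (hrep' _).symm
  have act_mul : ∀ l l' v, act (l * l') v = act l (act l' v) := by
    intro l l' v
    rw [← hsec l, ← hsec l', ← map_mul, ← hrep' v, ← act_cl _ _ (hrep v), ← act_cl _ _ (hrep v),
      ← act_cl _ _ (hcc _ _ (hrep v))]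
    refine congrArg cl ?_
    push_cast
    group
  have act_one : ∀ v, act 1 v = v := fun v => by
    rw [← hrep' v, ← map_one H.π, ← act_cl _ _ (hrep v)]
    simp
  have act_B : ∀ l v w, B (act l v) (act l w) = B v w := by
    intro l v w
    rw [← hrep' v, ← hrep' w, ← hsec l, ← act_cl _ _ (hrep v), ← act_cl _ _ (hrep w),
      hBQ _ (hcc _ _ (hrep v)) _ (hcc _ _ (hrep w)), hBQ _ (hrep v) _ (hrep w)]
    have key : (sec l : G) * rep v * (sec l : G)⁻¹ * ((sec l : G) * rep w * (sec l : G)⁻¹) =
        (sec l : G) * rep w * (sec l : G)⁻¹ * ((sec l : G) * rep v * (sec l : G)⁻¹) ↔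
        rep v * rep w = rep w * rep v := by
      constructor
      · intro h
        have h' := congrArg (fun z => (sec l : G)⁻¹ * z * (sec l : G)) h
        simpa [mul_assoc] using h'
      · intro h
        calc _ = (sec l : G) * (rep v * rep w) * (sec l : G)⁻¹ := by group
          _ = (sec l : G) * (rep w * rep v) * (sec l : G)⁻¹ := by rw [h]
          _ = _ := by group
    simp only [key]
  have act_comp : ∀ l l' m m' v, l * l' = m * m' → act l (act l' v) = act m (act m' v) := fun l l' m m' v h => by
    rw [← act_mul, ← act_mul, h]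
  -- a non-trivial element acts non-trivially
  have faithful : ∀ l, (∀ v, act l v = v) → l = 1 := by
    intro l hl
    rw [← hsec l, H.ker]
    set s := (sec l : G)
    have hst : s * t = t * s := Subgroup.mem_centralizer_singleton_iff.1 (sec l).2
    have hcl : ∀ x ∈ Q, s * x * s⁻¹ = x ∨ s * x * s⁻¹ = x * t := fun x hx =>
      cl_eq x hx _ (hcc _ _ hx) (by rw [act_cl _ _ hx, hsec, hl])
    -- the linear functional recording the moved elements is an inner one
    by_cases hall : ∀ x ∈ Q, s * x * s⁻¹ = x
    · exact H.data.cent (Subgroup.mem_centralizer_iff.2 fun x hx => (mul_inv_eq_iff_eq_mul.1 (hall x hx)).symm)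
    push Not at hall
    obtain ⟨x₁, hx₁, hne₁⟩ := hall
    have h₁ : s * x₁ * s⁻¹ = x₁ * t := (hcl x₁ hx₁).resolve_left hne₁
    let K : Subgroup G := Q ⊓ Subgroup.centralizer ({s} : Set G)
    have hK : ∀ x ∈ Q, x ∈ K ∨ x * x₁⁻¹ ∈ K := by
      intro x hx
      rcases hcl x hx with h | h
      · exact Or.inl ⟨hx, Subgroup.mem_centralizer_singleton_iff.2 (mul_inv_eq_iff_eq_mul.1 h).symm⟩
      · refine Or.inr ⟨Q.mul_mem hx (Q.inv_mem hx₁), Subgroup.mem_centralizer_singleton_iff.2 ?_⟩
        refine (mul_inv_eq_iff_eq_mul.1 ?_).symm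
        calc s * (x * x₁⁻¹) * s⁻¹ = (s * x * s⁻¹) * (s * x₁ * s⁻¹)⁻¹ := by group
          _ = x * t * (x₁ * t)⁻¹ := by rw [h, h₁]
          _ = x * x₁⁻¹ := by group
    -- some element of `Q` induces the same map
    obtain ⟨w, hw, hwc⟩ : ∃ w ∈ Q, ∀ y ∈ Q, (y * w = w * y ↔ y ∈ K) := by
      have hKn : ∀ x, x ∈ K → ∀ y ∈ Q, y ∈ K ↔ x * y ∈ K := fun x hx y _ => ⟨K.mul_mem hx, fun h => by
        simpa using K.mul_mem (K.inv_mem hx) h⟩
      have hx1K : x₁ ∉ K := fun h => hne₁ (by
        rw [Subgroup.mem_centralizer_singleton_iff.1 h.2 |>.symm, mul_inv_cancel_right])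
      by_contra hcon
      push Not at hcon
      -- the functional is linear, so it is a value of the form
      have hsurj : ∀ φ : V →+ ZMod 2, ∃ w, ∀ v, φ v = B w v := by
        let Φ : V → (V →+ ZMod 2) := fun w => AddMonoidHom.mk' (fun v => B w v) (fun p q => by
          have hsymm : ∀ p q, B p q = B q p := fun p q => by
            simp only [B]; exact if_congr ⟨Eq.symm, Eq.symm⟩ rfl rfl
          rw [hsymm, hadd, hsymm p, hsymm q])
        haveI : Finite V := inferInstanceAs (Finite U)
        haveI : Module (ZMod 2) V := AddCommGroup.zmodModule (fun v => by rw [two_nsmul]; exact two v)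
        haveI : Finite (V →+ ZMod 2) := Finite.of_injective _ DFunLike.coe_injective
        have hinj : Function.Injective Φ := by
          intro p q hpq
          have h : ∀ v, B (p + q) v = 0 := fun v => by
            have h2 : B p v = B q v := DFunLike.congr_fun hpq v
            rw [hadd, h2, CharTwo.add_self_eq_zero]
          obtain ⟨x, hx, e⟩ : ∃ x ∈ Q, cl x = p + q := ⟨rep (p + q), hrep _, hrep' _⟩
          have hc : ∀ y ∈ Q, x * y = y * x := fun y hy => by
            have h3 := h (cl y)
            rw [← e, hBQ x hx y hy] at h3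
            by_contra hne
            rw [if_neg hne] at h3
            exact one_ne_zero h3
          have : p + q = 0 := by
            rcases H.data.central_eq_or hx hc with rfl | rfl
            · rw [← e, cl_one]
            · rw [← e, cl_t]
          exact (add_eq_zero_iff_eq_neg.1 this).trans (neg_eq_of_add_eq_zero_left (two q))
        have hcard : Nat.card (V →+ ZMod 2) = Nat.card V := by
          let e1 : (V →+ ZMod 2) ≃ (V →ₗ[ZMod 2] ZMod 2) :=
            ⟨fun f => f.toZModLinearMap 2, fun f => f.toAddMonoidHom, fun f => rfl, fun f => rfl⟩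
          rw [Nat.card_congr e1]
          exact Nat.card_congr (Module.Free.chooseBasis (ZMod 2) V).toDualEquiv.symm.toEquiv
        intro φ
        obtain ⟨w, hw⟩ := (hinj.bijective_of_nat_card_le hcard.le).2 φ
        exact ⟨w, fun v => by rw [← hw]; rfl⟩
      let φ : V →+ ZMod 2 := AddMonoidHom.mk' (fun v => if rep v ∈ K then 0 else 1) (by
        intro p q
        have e : rep (p + q) ∈ K ↔ rep p * rep q ∈ K := by
          have htK : t ∈ K := ⟨H.data.mem, Subgroup.mem_centralizer_singleton_iff.2 hst.symm⟩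
          rcases cl_eq (rep p * rep q) (Q.mul_mem (hrep p) (hrep q)) _ (hrep (p + q))
              (by rw [cl_mul _ (hrep p) _ (hrep q), hrep', hrep', hrep']) with e | e <;> rw [e]
          exact ⟨fun h => by simpa [mul_assoc, H.data.zz] using K.mul_mem h htK, fun h => K.mul_mem h htK⟩
        simp only [e]
        by_cases h1 : rep p ∈ K
        · by_cases h2 : rep q ∈ K
          · rw [if_pos h1, if_pos h2, if_pos (K.mul_mem h1 h2), add_zero]
          · rw [if_pos h1, if_neg h2, if_neg (fun h => h2 ((hKn _ h1 _ (hrep q)).2 h)), zero_add]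
        · by_cases h2 : rep q ∈ K
          · rw [if_neg h1, if_pos h2, if_neg (fun h => h1 (by simpa using K.mul_mem h (K.inv_mem h2))), add_zero]
          · have k1 := (hK _ (hrep p)).resolve_left h1
            have k2 := (hK _ (hrep q)).resolve_left h2
            rw [if_neg h1, if_neg h2, if_pos]
            · decide
            · have h3 : x₁ * x₁ ∈ K := by
                have htK : t ∈ K := ⟨H.data.mem, Subgroup.mem_centralizer_singleton_iff.2 hst.symm⟩
                rcases H.data.sq hx₁ with e | e <;> rw [e]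
                exacts [K.one_mem, htK]
              have h4 : x₁ * rep q ∈ K := by
                rcases H.comm_or hx₁ (hrep q) with e | e
                · have e' : x₁ * rep q = (x₁ * rep q * x₁⁻¹ * (rep q)⁻¹) * (rep q * x₁⁻¹) * (x₁ * x₁) := by group
                  rw [e', e, one_mul]
                  exact K.mul_mem k2 h3
                · have e' : x₁ * rep q = (x₁ * rep q * x₁⁻¹ * (rep q)⁻¹) * (rep q * x₁⁻¹) * (x₁ * x₁) := by group
                  rw [e', e]
                  exact K.mul_mem (K.mul_mem ⟨H.data.mem, Subgroup.mem_centralizer_singleton_iff.2 hst.symm⟩ k2) h3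
              have := K.mul_mem k1 h4
              simpa [mul_assoc] using this)
      obtain ⟨w, hw⟩ := hsurj φ
      obtain ⟨y, hy, hyK⟩ := hcon (rep w) (hrep w)
      have h1 := hw (cl y)
      have h2 : φ (cl y) = if y ∈ K then 0 else 1 := by
        show (if rep (cl y) ∈ K then (0 : ZMod 2) else 1) = _
        have htK : t ∈ K := ⟨H.data.mem, Subgroup.mem_centralizer_singleton_iff.2 hst.symm⟩
        rcases cl_eq y hy _ (hrep _) (hrep' _).symm with e | e <;> rw [e]
        exact if_congr ⟨fun h => by simpa [mul_assoc, H.data.zz] using K.mul_mem h htK, fun h => K.mul_mem h htK⟩ rfl rfl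
      rw [h2, ← hrep' w, hBQ _ (hrep w) _ hy] at h1
      rcases hyK with ⟨a1, a2⟩ | ⟨a1, a2⟩
      · rw [if_neg a2, if_pos a1.symm] at h1
        exact one_ne_zero h1
      · rw [if_pos a2, if_neg (fun e => a1 e.symm)] at h1
        exact zero_ne_one h1
    have hsw : s * w ∈ Q := by
      refine H.data.cent (Subgroup.mem_centralizer_iff.2 fun y hy => ?_)
      by_cases hyK : y ∈ K
      · have h1 := (hwc y hy).2 hyK
        have h2 := Subgroup.mem_centralizer_singleton_iff.1 hyK.2
        rw [← mul_assoc, h2, mul_assoc, h1, mul_assoc]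
      · have h1 : y * w = t * (w * y) := H.data.swap hw hy (fun e => hyK ((hwc y hy).1 e))
        have h2 : s * y * s⁻¹ = y * t := (hcl y hy).resolve_left fun e => hyK
          ⟨hy, Subgroup.mem_centralizer_singleton_iff.2 (mul_inv_eq_iff_eq_mul.1 e).symm⟩
        have h3 : s * y = y * t * s := mul_inv_eq_iff_eq_mul.1 h2
        calc y * (s * w) = (y * t * s) * t * w := by
              rw [mul_assoc (y * t) s t, hst]
              calc y * (s * w) = y * (t * t) * s * w := by rw [H.data.zz]; group
                _ = _ := by group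
          _ = s * y * t * w := by rw [h3]
          _ = s * (t * (y * w)) := by rw [mul_assoc s y t, H.Q_comm hy]; group
          _ = s * ((t * t) * (w * y)) := by rw [h1]; group
          _ = s * w * y := by rw [H.data.zz]; group
    have h5 := Q.mul_mem hsw (Q.inv_mem hw)
    rwa [mul_inv_cancel_right] at h5
  haveI : Finite V := inferInstanceAs (Finite U)
  have e3 : ∀ i : Fin 3, lrot i * lrot i * lrot i = 1 := by decide +kernel
  have xx : ∀ i : Fin 3, lref i * lref i = 1 := by decide +kernel
  have xe : ∀ i : Fin 3, lref i * lrot i = lrot i * (lrot i * lref i) := by decide +kernel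
  have ee : ∀ i j : Fin 3, lrot i * lrot j = lrot j * lrot i := by decide +kernel
  have xc : ∀ i j : Fin 3, lref i * lref j = lref j * lref i := by decide +kernel
  have xec : ∀ i j : Fin 3, i ≠ j → lref i * lrot j = lrot j * lref i := by decide +kernel
  have rne : ∀ i : Fin 3, lrot i ≠ 1 := by decide +kernel
  have rnp : ∀ i : Fin 3, lrot i ∉ stdP := by
    intro i
    show ¬ inP (lrot i)
    revert i
    unfold inP
    decide +kernel
  have fixa : ∀ l ∈ stdP, act l (cl a) = cl a := by
    intro l hl
    rw [← hsec l, ← act_cl _ _ S.pair.mem]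
    rcases H.stdP_fix S (c := sec l) (by rw [hsec]; exact hl) with e | e <;> rw [e]
    exact cl_xt _ S.pair.mem
  have hperp : ∀ v, B (cl a) v = 0 → ∀ r : ↥(Subgroup.centralizer ({t} : Set G)), (r : G) ∈ H.conjQ g →
      (r : G) * rep v * (r : G)⁻¹ * (rep v)⁻¹ ∈ Q ⊓ H.conjQ g := by
    intro v hv r hr
    have hva : rep v * a = a * rep v := by
      have h := hBQ a S.pair.mem _ (hrep v)
      rw [hrep' v, hv] at h
      by_contra hne
      rw [if_neg (fun e => hne e.symm)] at h
      exact zero_ne_one h
    refine ⟨Q.mul_mem (hcc r _ (hrep v)) (Q.inv_mem (hrep v)), ?_⟩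
    rw [show (r : G) * rep v * (r : G)⁻¹ * (rep v)⁻¹ = r * (rep v * (r : G)⁻¹ * (rep v)⁻¹) by group]
    exact (H.conjQ g).mul_mem hr (H.conjQ_normal S.pair.eq hva ((H.conjQ g).inv_mem hr))
  let M : Md V :=
    { e := fun i => act (lrot i)
      x := fun i => act (lref i)
      B := B
      a := cl a
      two := two
      card := by
        have h := Z.card_mul_index
        have hz : Nat.card Z = 2 := by
          rw [Nat.card_zpowers]
          exact orderOf_eq_prime (by rw [pow_two]; exact Subtype.ext H.data.zz)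
            (fun e => H.data.z_ne (congrArg Subtype.val e))
        rw [hz, Subgroup.index, H.cardQ] at h
        have h' : 2 * Nat.card U = 512 := h
        show Nat.card U = 256
        omega
      add_left := hadd
      symm := fun p q => by simp only [B]; exact if_congr ⟨Eq.symm, Eq.symm⟩ rfl rfl
      alt := fun v => if_pos rfl
      nd := fun v h => by
        have hc : ∀ y ∈ Q, rep v * y = y * rep v := fun y hy => by
          have h2 := h (cl y)
          rw [← hrep' v, hBQ _ (hrep v) _ hy] at h2
          by_contra hne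
          rw [if_neg hne] at h2
          exact one_ne_zero h2
        rcases H.data.central_eq_or (hrep v) hc with e | e <;> rw [← hrep' v, e]
        · exact cl_one
        · exact cl_t
      Be := fun i => act_B _
      Bx := fun i => act_B _
      e3 := fun i v => by rw [← act_mul, ← act_mul, e3, act_one]
      xx := fun i v => by rw [← act_mul, xx, act_one]
      xe := fun i v => by rw [← act_mul, ← act_mul, ← act_mul, xe, mul_assoc]
      ee := fun i j v => act_comp _ _ _ _ v (ee i j)
      xc := fun i j v => act_comp _ _ _ _ v (xc i j)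
      xec := fun i j h v => act_comp _ _ _ _ v (xec i j h)
      ne := fun i => by
        by_contra hcon
        push Not at hcon
        exact rne i (faithful _ hcon)
      fix := fun i => fixa _ (lref_mem i)
      move := fun i e => by
        refine rnp i ?_
        rw [← hsec (lrot i)]
        refine H.stab S (cl_eq a S.pair.mem _ (hcc _ _ S.pair.mem) ?_)
        rw [act_cl _ _ S.pair.mem, hsec]
        exact e.symm
      h1 := fun i v hv => by
        obtain ⟨r, hr, er⟩ := (S.std (lref i)).1 (lref_mem i)
        have hu := hperp v hv r hr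
        have e : B v (act (lref i) v) = B (cl (rep v)) (cl ((r : G) * rep v * (r : G)⁻¹)) := by
          rw [act_cl _ _ (hrep v), er, hrep']
        show B v (act (lref i) v) = 0
        rw [e, hBQ _ (hrep v) _ (hcc r _ (hrep v)), if_pos]
        set x := rep v
        set y := (r : G) * x * (r : G)⁻¹
        set w := y * x⁻¹
        have hw2 : w * w = 1 := by
          rcases H.data.sq hu.1 with e1 | e1
          · exact e1
          · rcases H.sq_conjQ S.pair.eq hu.2 with e2 | e2
            · exact e2
            · exact absurd (e2.symm.trans e1) S.pair.ne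
        have hyy : y * y = x * x := by
          rw [show y * y = (r : G) * (x * x) * (r : G)⁻¹ by simp only [y]; group]
          rcases H.data.sq (hrep v) with e1 | e1 <;> rw [e1]
          · group
          · exact H.conj_t (Subgroup.mem_centralizer_singleton_iff.1 r.2)
        -- equal squares and an involutory quotient force commuting
        by_contra hne
        have hs : y * x = t * (x * y) := H.data.swap (hrep v) (hcc r _ (hrep v)) (Ne.symm hne)
        refine H.data.z_ne ?_
        have hxt := H.Q_comm (hrep v)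
        calc t = t * (w * w)⁻¹ := by rw [hw2]; group
          _ = t * (x * y⁻¹ * x * y⁻¹) := by simp only [w]; group
          _ = t * (x * y⁻¹ * (x * y) * (y * y)⁻¹) := by group
          _ = x * y⁻¹ * (t * (x * y)) * (x * x)⁻¹ := by
            rw [hyy]
            have : (x * y⁻¹) * t = t * (x * y⁻¹) := H.Q_comm (Q.mul_mem (hrep v) (Q.inv_mem (hcc r _ (hrep v))))
            calc t * (x * y⁻¹ * (x * y) * (x * x)⁻¹) = (t * (x * y⁻¹)) * ((x * y) * (x * x)⁻¹) := by group
              _ = _ := by rw [← this]; group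
          _ = 1 := by rw [← hs]; group
      h2 := fun i j hij v hv => by
        obtain ⟨r, hr, er⟩ := (S.std (lref i)).1 (lref_mem i)
        obtain ⟨r', hr', er'⟩ := (S.std (lref j)).1 (lref_mem j)
        obtain ⟨hu1, hu2⟩ := hperp v hv r hr
        set u := (r : G) * rep v * (r : G)⁻¹ * (rep v)⁻¹
        have hneg : ∀ x ∈ Q, cl x⁻¹ = cl x := fun x hx => by
          have h := cl_mul x⁻¹ (Q.inv_mem hx) x hx
          rw [inv_mul_cancel, cl_one] at h
          exact (add_eq_zero_iff_eq_neg.1 h.symm).trans (neg_eq_of_add_eq_zero_left (two _))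
        have hu : cl u = v + act (lref i) v := by
          rw [cl_mul _ (hcc r _ (hrep v)) _ (Q.inv_mem (hrep v)), hneg _ (hrep v), act_cl _ _ (hrep v), er, hrep', add_comm]
        have hrel : cl ((r' : G) * u * (r' : G)⁻¹ * u⁻¹) = v + act (lref i) v + act (lref j) (v + act (lref i) v) := by
          rw [cl_mul _ (hcc r' _ hu1) _ (Q.inv_mem hu1), hneg _ hu1, act_cl _ _ hu1, er', hu, add_comm]
        show v + act (lref i) v + act (lref j) (v + act (lref i) v) = 0 ∨ _ = cl a
        rw [← hrel]
        rcases H.comm_conjQ S.pair.eq hr' hu2 with e | e <;> rw [e]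
        · exact Or.inl cl_one
        · exact Or.inr rfl }
  refine ⟨V, inferInstance, inferInstance, M, cl, cl_mul, cl_eq, cl_t,
    fun v => ⟨rep v, hrep v, hrep' v⟩, rfl, fun x hx y hy => ?_,
    fun i c hc q hq => by rw [act_cl c q hq, hc],
    fun i c hc q hq => by rw [act_cl c q hq, hc]⟩
  show B (cl x) (cl y) = 0 ↔ _
  rw [hBQ x hx y hy]
  split_ifs with h <;> simp [h]

end Hyp

end CfsgLib.OrthEightRecog
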