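import Cfsg.Agent.Lib.OrthEightRecog.Roots

/-!
The reflections of the Levi complement in the centraliser.
-/

set_option autoImplicit false
set_option linter.style.haveILetI false

namespace CfsgLib.OrthEightRecog

universe u v

variable {G : Type u} [Group G] [Finite G] {t : G} {Q : Subgroup G} {H : Hyp t Q} {g a : G}
  {V : Type v} [AddCommGroup V] [Finite V] {F : Fr H g a V}

/-- The reflection of a factor opposite to the standard one. -/
def lnu (i : Fin 3) : L3 := lrot i * (lrot i * (lref i * lrot i))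

/-- The odd part of the quotient. -/
def inE (l : L3) : Prop :=
  (l.1 = 1 ∨ l.1 = finRotate 3 ∨ l.1 = finRotate 3 * finRotate 3) ∧
    (l.2.1 = 1 ∨ l.2.1 = finRotate 3 ∨ l.2.1 = finRotate 3 * finRotate 3) ∧
    (l.2.2 = 1 ∨ l.2.2 = finRotate 3 ∨ l.2.2 = finRotate 3 * finRotate 3)

theorem lrot_inE (i : Fin 3) : inE (lrot i) := by
  revert i
  unfold inE
  decide +kernel

/-- The reflections of the Levi complement. -/
structure Levi (R : Rts F) where
  m : Fin 3 → G
  mC : ∀ i, m i * t = t * m i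
  π_m : ∀ i, H.π ⟨m i, H.mem_C.2 (mC i)⟩ = lnu i
  mm : ∀ i, m i * m i = 1
  mm' : ∀ i j, m i * m j = m j * m i
  mx : ∀ i j, i ≠ j → m i * R.x j = R.x j * m i
  mxm : ∀ i, m i * R.x i * m i = R.x i * m i * R.x i
  mp : ∀ i, m i * R.p * m i = R.w i

theorem Fr.cl_lnu (F : Fr H g a V) (i : Fin 3) {c : ↥(Subgroup.centralizer ({t} : Set G))} (hc : H.π c = lnu i)
    {q : G} (hq : q ∈ Q) (S : Fin 8) (hS : F.cl q = F.M.c S) :
    F.cl ((c : G) * q * (c : G)⁻¹) = F.M.c (Md.flipBit i S) := by
  obtain ⟨r, hr⟩ := H.surj (lrot i)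
  obtain ⟨x, hx⟩ := H.surj (lref i)
  set d := r * (r * (x * r))
  have hd : H.π d = H.π c := by rw [hc, map_mul, map_mul, map_mul, hr, hx]; rfl
  have hk : ((c * d⁻¹ : _) : G) ∈ Q := (H.ker _).1 (by rw [map_mul, map_inv, hd, mul_inv_cancel])
  have hdq : (d : G) * q * (d : G)⁻¹ ∈ Q := H.data.normal d d.2 q hq
  have e : F.cl ((c : G) * q * (c : G)⁻¹) = F.cl ((d : G) * q * (d : G)⁻¹) := by
    rw [show (c : G) * q * (c : G)⁻¹ = ((c * d⁻¹ : _) : G) * ((d : G) * q * (d : G)⁻¹) * ((c * d⁻¹ : _) : G)⁻¹ by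
      push_cast; group]
    rw [F.cl_mul _ (Q.mul_mem hk hdq) _ (Q.inv_mem hk), F.cl_mul _ hk _ hdq, F.cl_inv hk,
      add_comm (F.cl _), add_assoc, F.M.two, add_zero]
  rw [e]
  have q1 := H.data.normal r r.2 q hq
  have q2 := H.data.normal x x.2 _ q1
  have q3 := H.data.normal r r.2 _ q2
  rw [show (d : G) * q * (d : G)⁻¹ =
      (r : G) * ((r : G) * ((x : G) * ((r : G) * q * (r : G)⁻¹) * (x : G)⁻¹) * (r : G)⁻¹) * (r : G)⁻¹ by
    simp only [d]; push_cast; group,
    F.cl_e i r hr _ q3, F.cl_e i r hr _ q2, F.cl_x i x hx _ q1, F.cl_e i r hr _ hq, hS]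
  have hflip : ∀ (i : Fin 3) (S : Fin 8), (Md.flipBit i S).val.testBit i.val = !(S.val.testBit i.val) ∧
      Md.flipBit i (Md.flipBit i S) = S := by decide +kernel
  cases hb : S.val.testBit i.val
  · rw [F.M.xe, F.M.x_c_fix i S hb, F.M.e3]
    rw [F.M.c_eq_e i (Md.flipBit i S) (by rw [(hflip i S).1, hb]; rfl), (hflip i S).2]
  · rw [F.M.c_eq_e i S hb, F.M.xe, F.M.xe,
      F.M.x_c_fix i (Md.flipBit i S) (by rw [(hflip i S).1, hb]; rfl), F.M.e3, F.M.e3]

theorem exists_levi (R : Rts F) : Nonempty (Levi R) := by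
  classical
  set C := Subgroup.centralizer ({t} : Set G) with hCdef
  haveI : Fact (Nat.Prime 3) := ⟨Nat.prime_three⟩
  have hxinv : ∀ i, (R.x i)⁻¹ = R.x i := fun i => inv_eq_of_mul_eq_one_left (R.xx i)
  -- subgroups of order twenty-seven in the centraliser
  let IsE : Subgroup ↥C → Prop := fun E => Nat.card E = 27
  have hC : Nat.card ↥C = 512 * 216 := by
    have h := H.π.ker.card_mul_index
    rw [Subgroup.index_ker, MonoidHom.range_eq_top.2 H.surj, Subgroup.card_top] at h
    have hk : Nat.card H.π.ker = 512 := by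
      rw [← H.cardQ]
      exact Nat.card_congr ⟨fun c => ⟨(c : ↥C), (H.ker _).1 c.2⟩,
        fun q => ⟨⟨q, H.data.le q.2⟩, (H.ker _).2 q.2⟩, fun c => rfl, fun q => rfl⟩
    rw [hk, show Nat.card L3 = 216 by simp only [Nat.card_prod, Nat.card_perm, Nat.card_fin]; rfl] at h
    exact h.symm
  have himg : ∀ E, IsE E → (∀ e ∈ E, inE (H.π e)) ∧ (∀ e ∈ E, H.π e = 1 → e = 1) ∧
      ∀ l, inE l → ∃ e ∈ E, H.π e = l := by
    intro E hE
    have hinj : ∀ e ∈ E, H.π e = 1 → e = 1 := by
      intro e he h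
      have h27 : e ^ 27 = 1 := by
        have := pow_card_eq_one' (G := E) (x := ⟨e, he⟩)
        rw [hE] at this
        exact congrArg Subtype.val this
      have hq := (H.ker e).1 h
      have h4 : (e : G) ^ 4 = 1 := by
        rw [show (4 : ℕ) = 2 + 2 by norm_num, pow_add, pow_two]
        rcases H.data.sq hq with h2 | h2 <;> rw [h2]
        · group
        · exact H.data.zz
      refine Subtype.ext ?_
      have h27' : (e : G) ^ 27 = 1 := congrArg Subtype.val h27
      calc (e : G) = ((e : G) ^ 4) ^ 7 * ((e : G) ^ 27)⁻¹ := by rw [← pow_mul]; group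
        _ = 1 := by rw [h4, h27']; simp
    have hodd : ∀ e ∈ E, inE (H.π e) := by
      intro e he
      have h27 : (H.π e) ^ 27 = 1 := by
        rw [← map_pow]
        have := pow_card_eq_one' (G := E) (x := ⟨e, he⟩)
        rw [hE] at this
        have h' : e ^ 27 = 1 := congrArg Subtype.val this
        rw [h', map_one]
      have key : ∀ z : Equiv.Perm (Fin 3), z ^ 27 = 1 →
          (z = 1 ∨ z = finRotate 3 ∨ z = finRotate 3 * finRotate 3) := by decide +kernel
      exact ⟨key _ (congrArg Prod.fst h27), key _ (congrArg (fun p : L3 => p.2.1) h27),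
        key _ (congrArg (fun p : L3 => p.2.2) h27)⟩
    refine ⟨hodd, hinj, ?_⟩
    let T : Finset (Equiv.Perm (Fin 3)) := {1, finRotate 3, finRotate 3 * finRotate 3}
    have hmem : ∀ l, inE l ↔ l ∈ T ×ˢ (T ×ˢ T) := fun l => by simp [T, inE, Finset.mem_product]
    let f : E → (T ×ˢ (T ×ˢ T) : Finset L3) := fun e => ⟨H.π e, (hmem _).1 (hodd e e.2)⟩
    have hf : Function.Injective f := by
      intro e e' h
      have h' : H.π (e : ↥C) = H.π e' := congrArg Subtype.val h
      exact Subtype.ext (inv_mul_eq_one.1 (hinj _ (E.mul_mem (E.inv_mem e.2) e'.2)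
        (by rw [map_mul, map_inv, h', inv_mul_cancel])))
    have hbij := hf.bijective_of_nat_card_le (by
      rw [hE, Nat.card_eq_finsetCard, Finset.card_product, Finset.card_product, show T.card = 3 by decide +kernel])
    intro l hl
    obtain ⟨e, he⟩ := hbij.2 ⟨l, (hmem l).1 hl⟩
    exact ⟨e, e.2, congrArg Subtype.val he⟩
  obtain ⟨S0⟩ : Nonempty (Sylow 3 ↥C) := inferInstance
  have hsyl : ∀ S : Sylow 3 ↥C, IsE S.1 := by
    intro S
    show Nat.card S = 27
    rw [S.card_eq_multiplicity, hC, show (512 * 216 : ℕ).factorization 3 = 3 by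
      rw [show (512 * 216 : ℕ) = 3 ^ 3 * 4096 by norm_num, Nat.factorization_mul (by norm_num) (by norm_num),
        Nat.prime_three.factorization_pow, Finsupp.add_apply, Finsupp.single_eq_same,
        Nat.factorization_eq_zero_of_not_dvd (by norm_num)]]
    rfl
  -- conjugate by an element of `Q`
  have hconjQ : ∀ E E', IsE E → IsE E' →
      ∃ q : ↥C, (q : G) ∈ Q ∧ ∀ z, z ∈ E' ↔ q⁻¹ * z * q ∈ E := by
    intro E E' hE hE'
    let N : Subgroup ↥C := E ⊔ H.π.ker
    have hle : E' ≤ N := by
      intro z hz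
      obtain ⟨e, he, hez⟩ := (himg E hE).2.2 _ ((himg E' hE').1 z hz)
      have hk : e⁻¹ * z ∈ H.π.ker := by rw [MonoidHom.mem_ker, map_mul, map_inv, hez, inv_mul_cancel]
      have := Subgroup.mul_mem_sup he hk
      rwa [mul_inv_cancel_left] at this
    have hp : ∀ X : Subgroup ↥C, IsE X → IsPGroup 3 (X.subgroupOf N) := fun X hX =>
      (IsPGroup.of_card (n := 3) (by rw [hX]; rfl)).comap_of_injective N.subtype N.subtype_injective
    have hcard : ∀ X : Subgroup ↥C, IsE X → X ≤ N → Nat.card (X.subgroupOf N) = 27 := fun X hX hXN => by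
      rw [Nat.card_congr (Subgroup.subgroupOfEquivOfLe hXN).toEquiv]; exact hX
    obtain ⟨P1, hP1⟩ := (hp E hE).exists_le_sylow
    obtain ⟨P2, hP2⟩ := (hp E' hE').exists_le_sylow
    have hbound : ∀ P : Sylow 3 N, Nat.card P ≤ 27 := by
      intro P
      have h1 : IsPGroup 3 (P.1.map N.subtype) := P.2.map _
      obtain ⟨S, hS⟩ := h1.exists_le_sylow
      rw [← Subgroup.card_map_of_injective N.subtype_injective]
      exact le_trans (Nat.card_le_card_of_injective _ (Subgroup.inclusion_injective hS)) (hsyl S).le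
    have e1 : E.subgroupOf N = P1.1 := Subgroup.eq_of_le_of_card_ge hP1 (by rw [hcard E hE le_sup_left]; exact hbound P1)
    have e2 : E'.subgroupOf N = P2.1 := Subgroup.eq_of_le_of_card_ge hP2 (by rw [hcard E' hE' hle]; exact hbound P2)
    obtain ⟨n, hn⟩ := MulAction.exists_smul_eq N P1 P2
    have hN : ∀ z ∈ N, ∃ q ∈ H.π.ker, ∃ e ∈ E, z = q * e := by
      intro z hz
      have hz' : z ∈ H.π.ker ⊔ E := (le_of_eq (sup_comm E H.π.ker)) hz
      obtain ⟨q, hq, e, he, rfl⟩ := Subgroup.mem_sup_of_normal_left.1 hz'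
      exact ⟨q, hq, e, he, rfl⟩
    obtain ⟨q, hq, e, he, hne⟩ := hN n n.2
    refine ⟨q, (H.ker q).1 hq, fun z => ?_⟩
    have key : ∀ z : N, z ∈ E'.subgroupOf N ↔ n⁻¹ * z * n ∈ E.subgroupOf N := fun z => by
      rw [e2, e1, ← hn, Sylow.coe_subgroup_smul, Subgroup.mem_pointwise_smul_iff_inv_smul_mem, ← MulAut.conj.map_inv,
        MulAut.smul_def, MulAut.conj_apply, inv_inv]
    have hQE : ∀ z : ↥C, (q * e)⁻¹ * z * (q * e) ∈ E ↔ q⁻¹ * z * q ∈ E := fun z => by
      rw [show (q * e)⁻¹ * z * (q * e) = e⁻¹ * (q⁻¹ * z * q) * e by group, E.mul_mem_cancel_right he,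
        E.mul_mem_cancel_left (E.inv_mem he)]
    constructor
    · intro hz
      have := (key ⟨z, hle hz⟩).1 hz
      rw [Subgroup.mem_subgroupOf] at this
      push_cast at this
      rw [hne] at this
      exact (hQE z).1 this
    · intro hz
      have hzN : z ∈ N := by
        have h1 := Subgroup.mem_sup_left (T := H.π.ker) hz
        have hqN : q ∈ N := Subgroup.mem_sup_right hq
        have := N.mul_mem (N.mul_mem hqN h1) (N.inv_mem hqN)
        simpa [mul_assoc] using this
      have := (key ⟨z, hzN⟩).2 (by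
        rw [Subgroup.mem_subgroupOf]
        push_cast
        rw [hne]
        exact (hQE z).2 hz)
      exact this
  have hrot : ∀ E, IsE E → ∀ i, ∃ e ∈ E, H.π e = lrot i := fun E hE i => (himg E hE).2.2 _ (lrot_inE i)
  -- an element of `Q` normalising such a subgroup is central
  have hnorm : ∀ E, IsE E → ∀ q : ↥C, (q : G) ∈ Q → (∀ z ∈ E, q * z * q⁻¹ ∈ E) → F.cl (q : G) = 0 := by
    intro E hE q hq hn
    have hfix : ∀ i, F.M.e i (F.cl (q : G)) = F.cl (q : G) := by
      intro i
      obtain ⟨e, he, hei⟩ := hrot E hE i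
      have h1 : q * e * q⁻¹ * e⁻¹ = 1 := (himg E hE).2.1 _ (E.mul_mem (hn e he) (E.inv_mem he)) (by
        simp only [map_mul, map_inv, (H.ker q).2 hq]; group)
      have h2 : q * e = e * q := by
        calc q * e = (q * e * q⁻¹ * e⁻¹) * (e * q) := by group
          _ = e * q := by rw [h1, one_mul]
      rw [← F.cl_e i e hei _ hq]
      have h3 : (q : G) * (e : G) = (e : G) * (q : G) := congrArg Subtype.val h2
      rw [← h3, mul_inv_cancel_right]
    have hz := F.M.q_zero 0 (F.cl (q : G))
    rw [Md.q_apply, hfix, hfix, F.M.two, zero_add] at hz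
    exact hz
  let xC : Fin 3 → ↥C := fun i => ⟨R.x i, H.mem_C.2 (R.xC i)⟩
  have hxxC : ∀ i, xC i * xC i = 1 := fun i => Subtype.ext (R.xx i)
  have hxxC' : ∀ i j, xC i * xC j = xC j * xC i := fun i j => Subtype.ext (R.xx' i j)
  have hclx : ∀ i (q : ↥C), (q : G) ∈ Q → ((xC i * q * xC i : ↥C) : G) ∈ Q ∧
      F.cl ((xC i * q * xC i : ↥C) : G) = F.M.x i (F.cl (q : G)) := by
    intro i q hq
    have e : ((xC i * q * xC i : ↥C) : G) = R.x i * (q : G) * (R.x i)⁻¹ := by rw [hxinv]; rfl
    rw [e]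
    exact ⟨H.data.normal (R.x i) (xC i).2 _ hq, F.cl_x i _ (R.π_x i) _ hq⟩
  have hclprod : ∀ p q : ↥C, (p : G) ∈ Q → (q : G) ∈ Q → F.cl ((p * q : ↥C) : G) = F.cl (p : G) + F.cl (q : G) :=
    fun p q hp hq => F.cl_mul _ hp _ hq
  -- enlarge the set of reflections fixing such a subgroup
  have step : ∀ (s : List (Fin 3)) (i : Fin 3), i ∉ s → (∃ E, IsE E ∧ ∀ k ∈ s, ∀ z ∈ E, xC k * z * xC k ∈ E) →
      ∃ E, IsE E ∧ ∀ k ∈ i :: s, ∀ z ∈ E, xC k * z * xC k ∈ E := by
    rintro s i his ⟨E, hE, hs⟩
    have hEi : IsE (E.map (MulAut.conj (xC i)).toMonoidHom) := by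
      show Nat.card _ = 27
      rw [Subgroup.card_map_of_injective (MulAut.conj (xC i)).injective]; exact hE
    obtain ⟨q, hq, hqE⟩ := hconjQ E _ hE hEi
    have hmap : ∀ z, xC i * z * xC i ∈ E ↔ q⁻¹ * z * q ∈ E := by
      intro z
      rw [← hqE z, Subgroup.mem_map]
      constructor
      · intro h
        refine ⟨_, h, ?_⟩
        show xC i * (xC i * z * xC i) * (xC i)⁻¹ = z
        rw [show xC i * (xC i * z * xC i) * (xC i)⁻¹ = (xC i * xC i) * z by group, hxxC, one_mul]
      · rintro ⟨y, hy, rfl⟩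
        show xC i * (xC i * y * (xC i)⁻¹) * xC i ∈ E
        rwa [show xC i * (xC i * y * (xC i)⁻¹) * xC i = (xC i * xC i) * y by group, hxxC, one_mul]
    -- the class of `q` is fixed by the reflections
    have hfix_i : F.M.x i (F.cl (q : G)) = F.cl (q : G) := by
      obtain ⟨h1, h2⟩ := hclx i q hq
      have := hnorm E hE (xC i * q * xC i * q) (Q.mul_mem h1 hq) fun z hz => by
        have a1 : xC i * (q * z * q⁻¹) * xC i ∈ E := (hmap _).2 (by simpa [mul_assoc] using hz)
        have a2 : q⁻¹ * (xC i * (xC i * q * xC i * q * z * (xC i * q * xC i * q)⁻¹) * xC i) * q ∈ E := by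
          have hxi : (xC i)⁻¹ = xC i := inv_eq_of_mul_eq_one_left (hxxC i)
          rw [show q⁻¹ * (xC i * (xC i * q * xC i * q * z * (xC i * q * xC i * q)⁻¹) * xC i) * q =
            q⁻¹ * (xC i * xC i) * q * (xC i * (q * z * q⁻¹) * (xC i)⁻¹) * q⁻¹ * ((xC i)⁻¹ * xC i) * q by group,
            hxxC, hxi, hxxC]
          simpa [mul_assoc] using a1
        have a3 := (hmap _).2 a2
        rwa [show xC i * (xC i * (xC i * q * xC i * q * z * (xC i * q * xC i * q)⁻¹) * xC i) * xC i =
          (xC i * xC i) * (xC i * q * xC i * q * z * (xC i * q * xC i * q)⁻¹) * (xC i * xC i) by group, hxxC, one_mul,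
          mul_one] at a3
      rw [hclprod _ _ h1 hq, h2] at this
      exact F.M.eq_of_add this
    have hfix_k : ∀ k ∈ s, F.M.x k (F.cl (q : G)) = F.cl (q : G) := by
      intro k hk
      obtain ⟨h1, h2⟩ := hclx k q hq
      have hqi : ((q⁻¹ : ↥C) : G) ∈ Q := Q.inv_mem hq
      have := hnorm E hE (q⁻¹ * (xC k * q * xC k)) (Q.mul_mem hqi h1) fun z hz => by
        have hki : ∀ y, xC i * (xC k * y * xC k) * xC i = xC k * (xC i * y * xC i) * xC k := fun y => by
          calc xC i * (xC k * y * xC k) * xC i = (xC i * xC k) * y * (xC k * xC i) := by group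
            _ = (xC k * xC i) * y * (xC i * xC k) := by rw [hxxC' i k, hxxC' k i]
            _ = _ := by group
        have hxk : (xC k)⁻¹ = xC k := inv_eq_of_mul_eq_one_left (hxxC k)
        set y := q * (xC k * z * xC k) * q⁻¹
        have a1 : xC i * y * xC i ∈ E := (hmap _).2 (by simpa [y, mul_assoc] using hs k hk z hz)
        have a2 := hs k hk _ a1
        rw [← hki] at a2
        have a3 := (hmap _).1 a2
        have e : (q⁻¹ * (xC k * q * xC k)) * z * (q⁻¹ * (xC k * q * xC k))⁻¹ = q⁻¹ * (xC k * y * xC k) * q := by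
          simp only [y, mul_inv_rev, inv_inv, hxk]; group
        rwa [e]
      rw [hclprod _ _ hqi h1, show ((q⁻¹ : ↥C) : G) = (q : G)⁻¹ from rfl, F.cl_inv hq, h2] at this
      exact (F.M.eq_of_add this).symm
    -- the correcting element
    obtain ⟨e, he⟩ := H.surj (lrot i)
    set q' : ↥C := ⟨(e : G) * (q : G) * (e : G)⁻¹, H.data.le (H.data.normal e e.2 _ hq)⟩
    have hq' : (q' : G) ∈ Q := H.data.normal e e.2 _ hq
    have hcl' : F.cl (q' : G) = F.M.e i (F.cl (q : G)) := F.cl_e i e he _ hq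
    let E' := E.map (MulAut.conj q').toMonoidHom
    have hmem' : ∀ z, z ∈ E' ↔ q'⁻¹ * z * q' ∈ E := by
      intro z
      rw [Subgroup.mem_map]
      constructor
      · rintro ⟨y, hy, rfl⟩; simpa [mul_assoc] using hy
      · intro h; exact ⟨_, h, by simp [mul_assoc]⟩
    have hcentral : ∀ p p' : ↥C, (p : G) ∈ Q → (p' : G) ∈ Q → F.cl (p : G) = F.cl (p' : G) →
        ∀ z, p⁻¹ * z * p = p'⁻¹ * z * p' := by
      intro p p' hp hp' h z
      rcases F.cl_eq _ hp _ hp' h with e' | e'
      · rw [Subtype.ext e']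
      · have ez : (z : G) * t = t * (z : G) := Subgroup.mem_centralizer_singleton_iff.1 z.2
        refine Subtype.ext ?_
        push_cast
        rw [e', mul_inv_rev, H.t_inv]
        calc (p : G)⁻¹ * z * p = (p : G)⁻¹ * z * p * (t * t) := by rw [H.data.zz, mul_one]
          _ = (p : G)⁻¹ * z * (p * t) * t := by group
          _ = ((p : G)⁻¹ * z * p) * t * t := by group
          _ = t * ((p : G)⁻¹ * z * p) * t := by
            congr 1
            have e1 : (p : G) * t = t * p := H.Q_comm hp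
            have e2 : (p : G)⁻¹ * t = t * (p : G)⁻¹ := H.inv_comm e1
            calc (p : G)⁻¹ * z * p * t = (p : G)⁻¹ * z * (t * p) := by rw [mul_assoc ((p : G)⁻¹ * z), e1]
              _ = (p : G)⁻¹ * (t * z) * p := by rw [← ez]; group
              _ = ((p : G)⁻¹ * t) * z * p := by group
              _ = _ := by rw [e2]; group
          _ = _ := by group
    refine ⟨E', ?_, ?_⟩
    · show Nat.card _ = 27
      rw [Subgroup.card_map_of_injective (MulAut.conj q').injective]; exact hE
    intro k hk z hz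
    rw [hmem'] at hz ⊢
    rcases List.mem_cons.1 hk with rfl | hk
    · -- the new reflection
      obtain ⟨h1, h2⟩ := hclx k q' hq'
      have hcl2 : F.cl ((xC k * q' * xC k * q : ↥C) : G) = F.cl (q' : G) := by
        rw [hclprod _ _ h1 hq, h2, hcl', F.M.xe, hfix_i]
        have hp := F.M.p_self k (F.cl (q : G))
        calc F.M.e k (F.M.e k (F.cl (q : G))) + F.cl (q : G)
            = F.M.e k (F.M.e k (F.cl (q : G))) + (F.M.e k (F.cl (q : G)) + F.M.e k (F.M.e k (F.cl (q : G)))) := by rw [hp]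
          _ = F.M.e k (F.cl (q : G)) + (F.M.e k (F.M.e k (F.cl (q : G))) + F.M.e k (F.M.e k (F.cl (q : G)))) := by abel
          _ = _ := by rw [F.M.two, add_zero]
      rw [← hcentral (xC k * q' * xC k * q) q' (Q.mul_mem h1 hq) hq' hcl2]
      have hxi : (xC k)⁻¹ = xC k := inv_eq_of_mul_eq_one_left (hxxC k)
      have := (hmap (xC k * (q'⁻¹ * z * q') * xC k)).1 (by
        rw [show xC k * (xC k * (q'⁻¹ * z * q') * xC k) * xC k = (xC k * xC k) * (q'⁻¹ * z * q') * (xC k * xC k) by group,
          hxxC]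
        simpa using hz)
      rw [show (xC k * q' * xC k * q)⁻¹ * (xC k * z * xC k) * (xC k * q' * xC k * q) =
        q⁻¹ * ((xC k)⁻¹ * q'⁻¹ * ((xC k)⁻¹ * xC k) * z * (xC k * xC k) * q' * xC k) * q by group, hxi, hxxC]
      simpa [mul_assoc] using this
    · -- an old reflection
      obtain ⟨h1, h2⟩ := hclx k q' hq'
      have hki : k ≠ i := fun e' => his (e' ▸ hk)
      have hcl2 : F.cl ((xC k * q' * xC k : ↥C) : G) = F.cl (q' : G) := by
        rw [h2, hcl', F.M.xec k i hki, hfix_k k hk]
      rw [← hcentral _ _ h1 hq' hcl2]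
      have hxk : (xC k)⁻¹ = xC k := inv_eq_of_mul_eq_one_left (hxxC k)
      have := hs k hk _ hz
      rw [show (xC k * q' * xC k)⁻¹ * (xC k * z * xC k) * (xC k * q' * xC k) =
        (xC k)⁻¹ * q'⁻¹ * ((xC k)⁻¹ * xC k) * z * (xC k * xC k) * q' * xC k by group, hxk, hxxC]
      simpa [mul_assoc] using this
  obtain ⟨E, hE, hEx⟩ := step [1, 0] 2 (by decide) (step [0] 1 (by decide)
    (step [] 0 (by decide) ⟨S0.1, hsyl S0, by simp⟩))
  have hEx' : ∀ k, ∀ z ∈ E, xC k * z * xC k ∈ E := fun k => hEx k (by fin_cases k <;> simp)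
  choose ε hε hεπ using hrot E hE
  have hinj : ∀ y ∈ E, ∀ z ∈ E, H.π y = H.π z → y = z := fun y hy z hz h =>
    mul_inv_eq_one.1 ((himg E hE).2.1 _ (E.mul_mem hy (E.inv_mem hz)) (by rw [map_mul, map_inv, h, mul_inv_cancel]))
  have hπx : ∀ k, H.π (xC k) = lref k := R.π_x
  have hxε : ∀ k i, k ≠ i → xC k * ε i * xC k = ε i := fun k i h => hinj _ (hEx' k _ (hε i)) _ (hε i) (by
    have key : ∀ k i : Fin 3, k ≠ i → lref k * lrot i * lref k = lrot i := by decide +kernel
    rw [map_mul, map_mul, hπx, hεπ, key k i h])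
  have hxεi : ∀ i, xC i * ε i * xC i = ε i * ε i := fun i => hinj _ (hEx' i _ (hε i)) _ (E.mul_mem (hε i) (hε i)) (by
    have key : ∀ i : Fin 3, lref i * lrot i * lref i = lrot i * lrot i := by decide +kernel
    rw [map_mul, map_mul, map_mul, hπx, hεπ, key i])
  have hεε : ∀ i j, ε i * ε j = ε j * ε i := fun i j => hinj _ (E.mul_mem (hε i) (hε j)) _ (E.mul_mem (hε j) (hε i)) (by
    have key : ∀ i j : Fin 3, lrot i * lrot j = lrot j * lrot i := by decide +kernel
    rw [map_mul, map_mul, hεπ, hεπ, key i j])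
  have hε3 : ∀ i, ε i * ε i * ε i = 1 := fun i =>
    hinj _ (E.mul_mem (E.mul_mem (hε i) (hε i)) (hε i)) _ E.one_mem (by
      have key : ∀ i : Fin 3, lrot i * lrot i * lrot i = 1 := by decide +kernel
      rw [map_mul, map_mul, hεπ, map_one, key i])
  let N : Fin 3 → ↥C := fun i => (ε i)⁻¹ * xC i * ε i
  have hNN : ∀ i, N i * N i = 1 := fun i => by
    show (ε i)⁻¹ * xC i * ε i * ((ε i)⁻¹ * xC i * ε i) = 1
    rw [show (ε i)⁻¹ * xC i * ε i * ((ε i)⁻¹ * xC i * ε i) = (ε i)⁻¹ * (xC i * xC i) * ε i by group, hxxC]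
    group
  have hcx : ∀ k i, k ≠ i → xC k * ε i = ε i * xC k := fun k i h => by
    calc xC k * ε i = xC k * ε i * (xC k * xC k) := by rw [hxxC, mul_one]
      _ = (xC k * ε i * xC k) * xC k := by group
      _ = ε i * xC k := by rw [hxε k i h]
  have hNx : ∀ i j, i ≠ j → N i * xC j = xC j * N i := by
    intro i j h
    have c1 : Commute (xC j) (ε i) := hcx j i h.symm
    exact ((c1.inv_right.mul_right (hxxC' j i)).mul_right c1).symm.eq
  have hNN' : ∀ i j, N i * N j = N j * N i := by
    intro i j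
    by_cases h : i = j
    · rw [h]
    have c1 : Commute (N i) (xC j) := hNx i j h
    have c2 : Commute (N i) (ε j) := by
      have a1 : Commute (ε i) (ε j) := hεε i j
      have a2 : Commute (xC i) (ε j) := hcx i j h
      exact (a1.inv_left.mul_left a2).mul_left a1
    exact ((c2.inv_right.mul_right c1).mul_right c2).eq
  have hNxN : ∀ i, N i * xC i * N i = xC i * N i * xC i := by
    intro i
    have hxi : (xC i)⁻¹ = xC i := inv_eq_of_mul_eq_one_left (hxxC i)
    have e2 : (ε i)⁻¹ = ε i * ε i := by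
      calc (ε i)⁻¹ = (ε i)⁻¹ * (ε i * ε i * ε i) := by rw [hε3, mul_one]
        _ = ε i * ε i := by group
    have hcomm : xC i * ε i = ε i * ε i * xC i := by
      calc xC i * ε i = xC i * ε i * (xC i * xC i) := by rw [hxxC, mul_one]
        _ = (xC i * ε i * xC i) * xC i := by group
        _ = _ := by rw [hxεi]
    have eN : N i = ε i * xC i := by
      show (ε i)⁻¹ * xC i * ε i = _
      rw [e2, mul_assoc, hcomm]
      calc ε i * ε i * (ε i * ε i * xC i) = (ε i * ε i * ε i) * ε i * xC i := by group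
        _ = _ := by rw [hε3, one_mul]
    rw [eN]
    calc ε i * xC i * xC i * (ε i * xC i) = ε i * (xC i * xC i) * ε i * xC i := by group
      _ = ε i * ε i * xC i := by rw [hxxC, mul_one]
      _ = xC i * ε i := hcomm.symm
      _ = xC i * ε i * (xC i * xC i) := by rw [hxxC, mul_one]
      _ = _ := by group
  have hπN : ∀ i, H.π (N i) = lnu i := fun i => by
    have key : ∀ i : Fin 3, (lrot i)⁻¹ * lref i * lrot i = lnu i := by decide +kernel
    rw [map_mul, map_mul, map_inv, hεπ, hπx, key]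
  have haQ := F.S.pair.mem
  have haa := H.a_sq F.S
  have hat := H.a_t F.S
  -- the image of the lowest root element
  have hNp : ∀ i, (N i : G) * R.p * (N i : G) = R.w i ∨ (N i : G) * R.p * (N i : G) = R.w i * t := by
    intro i
    have hinv : ((N i : G))⁻¹ = N i := inv_eq_of_mul_eq_one_left (congrArg Subtype.val (hNN i))
    have h1 : (N i : G) * R.p * (N i : G)⁻¹ ∈ Q := H.data.normal (N i) (N i).2 _ R.pQ
    have := F.cl_lnu i (hπN i) R.pQ 7 R.cl_p
    rw [← show F.cl (R.w i) = F.M.c (Md.flipBit i 7) from R.cl_w i] at this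
    have h3 := F.cl_eq _ (R.wQ i) _ h1 this.symm
    rwa [hinv] at h3
  have hNt : ∀ i, (N i : G) * t = t * (N i : G) := fun i => Subgroup.mem_centralizer_singleton_iff.1 (N i).2
  have hNinv : ∀ i, ((N i : G))⁻¹ = N i := fun i => inv_eq_of_mul_eq_one_left (congrArg Subtype.val (hNN i))
  have hxinv' : ∀ i, ((xC i : ↥C) : G) = R.x i := fun i => rfl
  -- the reflection maps `w j` exactly
  have hNw : ∀ i j k, i ≠ j → i ≠ k → j ≠ k → (N i : G) * R.w j * (N i : G) = R.d k := by
    intro i j k hij hik hjk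
    have hnn : (N i : G) * (N i : G) = 1 := congrArg Subtype.val (hNN i)
    have hnx : (N i : G) * R.x j = R.x j * (N i : G) := congrArg Subtype.val (hNx i j hij)
    set n := (N i : G)
    have e : n * R.w j * n = R.x j * (n * R.p * n) * R.x j * (n * R.p * n) := by
      rw [← R.xp j]
      calc n * (R.x j * R.p * R.x j * R.p) * n = (n * R.x j) * R.p * R.x j * R.p * n := by group
        _ = R.x j * n * R.p * (n * n) * R.x j * R.p * n := by rw [hnx, hnn]; group
        _ = R.x j * n * R.p * n * (n * R.x j) * R.p * n := by group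
        _ = _ := by rw [hnx]; group
    rcases hNp i with h | h <;> rw [e, h]
    · exact R.xw j i k hij.symm hjk hik
    · have h1 := R.xw j i k hij.symm hjk hik
      have hwt := H.Q_comm (R.wQ i)
      have hxt := R.xC j
      calc R.x j * (R.w i * t) * R.x j * (R.w i * t)
          = R.x j * R.w i * (t * R.x j) * (R.w i * t) := by group
        _ = R.x j * R.w i * R.x j * (t * R.w i) * t := by rw [← hxt]; group
        _ = (R.x j * R.w i * R.x j * R.w i) * (t * t) := by rw [← hwt]; group
        _ = R.d k := by rw [h1, H.data.zz, mul_one]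
  -- all three signs agree
  have hsame : ∀ i j, i ≠ j → (N i : G) * R.p * (N i : G) = R.w i → (N j : G) * R.p * (N j : G) = R.w j := by
    intro i j hij h
    have key : ∀ i j : Fin 3, ∃ k : Fin 3, i ≠ k ∧ j ≠ k := by decide
    obtain ⟨k, hik, hjk⟩ := key i j
    rcases hNp j with hj | hj
    · exact hj
    exfalso
    have hnn' : (N i : G) * (N j : G) = (N j : G) * (N i : G) := congrArg Subtype.val (hNN' i j)
    have e : (N j : G) * ((N i : G) * R.p * (N i : G)) * (N j : G) =
        (N i : G) * ((N j : G) * R.p * (N j : G)) * (N i : G) := by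
      calc _ = ((N j : G) * (N i : G)) * R.p * ((N i : G) * (N j : G)) := by group
        _ = ((N i : G) * (N j : G)) * R.p * ((N j : G) * (N i : G)) := by rw [hnn']
        _ = _ := by group
    rw [h, hj, hNw j i k hij.symm hjk hik,
      show (N i : G) * (R.w j * t) * (N i : G) = (N i : G) * R.w j * (t * (N i : G)) by group, ← hNt,
      show (N i : G) * R.w j * ((N i : G) * t) = ((N i : G) * R.w j * (N i : G)) * t by group,
      hNw i j k hij hik hjk] at e
    exact H.data.z_ne (mul_left_cancel (e.symm.trans (mul_one (R.d k)).symm))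
  rcases hNp 0 with h0 | h0
  · refine ⟨⟨fun i => (N i : G), hNt, hπN, fun i => congrArg Subtype.val (hNN i),
      fun i j => congrArg Subtype.val (hNN' i j), fun i j h => congrArg Subtype.val (hNx i j h),
      fun i => congrArg Subtype.val (hNxN i), fun i => ?_⟩⟩
    by_cases hi : (0 : Fin 3) = i
    · rw [← hi]; exact h0
    · exact hsame 0 i hi h0
  · -- conjugate by `a`
    have hall : ∀ i, (N i : G) * R.p * (N i : G) = R.w i * t := by
      intro i
      rcases hNp i with h | h
      · by_cases hi : i = 0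
        · subst hi; exact h0
        · have := hsame i 0 hi h
          rw [h0] at this
          exact absurd (mul_eq_left.1 this) H.data.z_ne
      · exact h
    let A : ↥C := ⟨a, H.data.le haQ⟩
    have hA : A * A = 1 := Subtype.ext haa
    have hAi : A⁻¹ = A := inv_eq_of_mul_eq_one_left hA
    have hAx : ∀ i, A * xC i = xC i * A := fun i => Subtype.ext (R.xa i).symm
    let φ : ↥C →* ↥C := (MulAut.conj A).toMonoidHom
    have hφ : ∀ z : ↥C, φ z = A * z * A := fun z => by
      show A * z * A⁻¹ = _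
      rw [hAi]
    have hφx : ∀ i, φ (xC i) = xC i := fun i => by rw [hφ, hAx, mul_assoc, hA, mul_one]
    refine ⟨⟨fun i => (φ (N i) : G), fun i => Subgroup.mem_centralizer_singleton_iff.1 (φ (N i)).2, fun i => ?_,
      fun i => congrArg Subtype.val (show φ (N i) * φ (N i) = 1 by rw [← map_mul, hNN, map_one]),
      fun i j => congrArg Subtype.val (show φ (N i) * φ (N j) = φ (N j) * φ (N i) by rw [← map_mul, ← map_mul, hNN']),
      fun i j h => congrArg Subtype.val (show φ (N i) * xC j = xC j * φ (N i) by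
        rw [← hφx j, ← map_mul, ← map_mul, hNx i j h]),
      fun i => congrArg Subtype.val (show φ (N i) * xC i * φ (N i) = xC i * φ (N i) * xC i by
        rw [← hφx i, ← map_mul, ← map_mul, ← map_mul, ← map_mul, hNxN i]),
      fun i => ?_⟩⟩
    · show H.π (φ (N i)) = lnu i
      rw [hφ, map_mul, map_mul, (H.ker A).2 haQ, one_mul, mul_one, hπN]
    · show ((φ (N i) : ↥C) : G) * R.p * ((φ (N i) : ↥C) : G) = R.w i
      rw [hφ]
      show a * (N i : G) * a * R.p * (a * (N i : G) * a) = R.w i
      have hap : a * R.p * a = R.p * t := by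
        calc a * R.p * a = t * t * (a * R.p) * a := by rw [H.data.zz, one_mul]
          _ = t * (R.p * a) * a := by rw [R.pa]; group
          _ = t * R.p * (a * a) := by group
          _ = R.p * t := by rw [haa, mul_one, H.Q_comm R.pQ]
      calc a * (N i : G) * a * R.p * (a * (N i : G) * a)
          = a * (N i : G) * (a * R.p * a) * (N i : G) * a := by group
        _ = a * ((N i : G) * R.p * (N i : G)) * t * a := by
          rw [hap]
          calc a * (N i : G) * (R.p * t) * (N i : G) * a = a * (N i : G) * R.p * (t * (N i : G)) * a := by group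
            _ = _ := by rw [← hNt]; group
        _ = a * R.w i * (t * t) * a := by rw [hall]; group
        _ = R.w i * (a * a) := by rw [H.data.zz, mul_one, ← R.wa]; group
        _ = R.w i := by rw [haa, mul_one]

end CfsgLib.OrthEightRecog
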