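import Cfsg.Agent.Lib.OrthEightRecog.Cells
import Cfsg.Agent.Lib.OrthEightRecog.Bits
import Cfsg.Agent.Lib.SectRank.CTDOmega
import Cfsg.Agent.Lib.ClassicalForms.Ortho.Index

/-!
The relations of type `D₄` inside the commutator subgroup of the orthogonal group of plus type in dimension eight
over the field with two elements.
-/

set_option autoImplicit false

namespace CfsgLib.OrthEightRecog

open Matrix CfsgLib.SectRank.CT

local notation "IX" => Fin 4 ⊕ Fin 4
local notation "F2" => ZMod 2

/-- The group of the model. -/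
abbrev Om : Subgroup (Cfsg.isometryGroup F2 (Cfsg.quadFormPlus 4 F2)) :=
  Cfsg.Omega F2 (Cfsg.quadFormPlus 4 F2)

/-- The matrix of an element of the model. -/
noncomputable def matHom : ↥Om →* Matrix IX IX F2 :=
  ((Units.coeHom (Matrix IX IX F2)).comp (Cfsg.isometryGroup F2 (Cfsg.quadFormPlus 4 F2)).subtype).comp Om.subtype

theorem matHom_inj {g h : ↥Om} (e : matHom g = matHom h) : g = h :=
  Subtype.ext (isom_ext (m := 1) e)

/-- A Levi element in the model. -/
noncomputable def levEl (A : SpecialLinearGroup (Fin 4) F2) : ↥Om :=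
  ⟨levHom F2 1 A, (range_eq_omega (F := F2) (m := 1)).le (Subgroup.mem_sup_left ⟨A, rfl⟩)⟩

/-- A branch element in the model. -/
noncomputable def brEl (A : SpecialLinearGroup (Fin 3) F2) : ↥Om :=
  ⟨brHom F2 1 A, (range_eq_omega (F := F2) (m := 1)).le (Subgroup.mem_sup_right ⟨A, rfl⟩)⟩

/-- The simple root elements. -/
noncomputable def sx : Fin 4 → ↥Om :=
  ![levEl (tv 0 1 1), levEl (tv 2 3 1), brEl (el 1 2 1), levEl (tv 1 2 1)]

/-- Their opposites. -/
noncomputable def sy : Fin 4 → ↥Om :=
  ![levEl (tv 1 0 1), levEl (tv 3 2 1), brEl (el 2 1 1), levEl (tv 2 1 1)]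

/-- The codes of the simple root elements. -/
def sxc : Fin 4 → ℕ := ![9241421826029257473, 9277450485676376577, 9531903864555700737, 9241492057334612481]

/-- The codes of their opposites. -/
def syc : Fin 4 → ℕ := ![9241439280776348163, 13853107707018215937, 9241421689672434177, 9250428887845045761]

theorem matHom_levEl {a b : Fin 4} (hab : a ≠ b) (c : ℕ)
    (h : fromBlocks (1 + (1 : F2) • Matrix.single a b 1) 0 0 (1 + (-(1 : F2)) • Matrix.single b a 1) = toMat c) :
    matHom (levEl (tv a b 1)) = toMat c := by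
  rw [← h]
  exact (levHom_coe (F := F2) (m := 1) _).trans (levMat_tv hab 1)

theorem matHom_sx (i : Fin 4) : matHom (sx i) = toMat (sxc i) := by
  match i with
  | 0 => exact matHom_levEl (by decide) _ (by decide +kernel)
  | 1 => exact matHom_levEl (by decide) _ (by decide +kernel)
  | 2 =>
    refine ((br_el (F := F2) (m := 1) 1).1).trans ?_
    decide +kernel
  | 3 => exact matHom_levEl (by decide) _ (by decide +kernel)

theorem matHom_sy (i : Fin 4) : matHom (sy i) = toMat (syc i) := by
  match i with
  | 0 => exact matHom_levEl (by decide) _ (by decide +kernel)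
  | 1 => exact matHom_levEl (by decide) _ (by decide +kernel)
  | 2 =>
    refine ((br_el (F := F2) (m := 1) 1).2).trans ?_
    decide +kernel
  | 3 => exact matHom_levEl (by decide) _ (by decide +kernel)

/-- The reflections. -/
noncomputable def mn (i : Fin 4) : ↥Om := sx i * sy i * sx i

/-- The root elements. -/
noncomputable def mx : Fin 12 → ↥Om :=
  let v1 := mn 0 * sx 3 * mn 0
  let v3 := mn 1 * sx 3 * mn 1
  let v4 := mn 2 * sx 3 * mn 2
  let d1 := mn 1 * v4 * mn 1
  let d3 := mn 0 * v4 * mn 0
  let d4 := mn 0 * v3 * mn 0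
  let a := mn 0 * d1 * mn 0
  ![sx 0, sx 1, sx 2, sx 3, v1, v3, v4, d1, d3, d4, a, mn 3 * a * mn 3]

/-- The codes of the root elements. -/
def mxc : Fin 12 → ℕ :=
  ![9241421826029257473, 9277450485676376577, 9531903864555700737, 9241492057334612481, 9241421963468276225, 9241562426112213505, 9385545672759181825, 9241989036590236161, 9313479316987970049, 9241422238362894849, 9241703180746883585, 9241422796691866113]

/-- The codes of the reflections. -/
def mnc : Fin 4 → ℕ := ![9241404165123735810, 4647750068605551105, 290517430139093505, 9232449673707521025]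

/-- The system of the model. -/
noncomputable def msys : Sys ↥Om := ⟨mx, mn⟩

theorem matHom_mn (i : Fin 4) : matHom (mn i) = toMat (mnc i) := by
  rw [mn, map_mul, map_mul, matHom_sx, matHom_sy, ← toMat_bmul, ← toMat_bmul]
  congr 1
  revert i
  decide +kernel

theorem matHom_conj {i : Fin 4} {g : ↥Om} {c : ℕ} (h : matHom g = toMat c) {d : ℕ}
    (e : bmul (bmul (mnc i) c) (mnc i) = d) : matHom (mn i * g * mn i) = toMat d := by
  rw [map_mul, map_mul, matHom_mn, h, ← toMat_bmul, ← toMat_bmul, e]

theorem matHom_mx (b : Fin 12) : matHom (mx b) = toMat (mxc b) := by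
  have h4 := matHom_conj (i := 0) (matHom_sx 3) (d := mxc 4) (by decide +kernel)
  have h5 := matHom_conj (i := 1) (matHom_sx 3) (d := mxc 5) (by decide +kernel)
  have h6 := matHom_conj (i := 2) (matHom_sx 3) (d := mxc 6) (by decide +kernel)
  have h7 := matHom_conj (i := 1) h6 (d := mxc 7) (by decide +kernel)
  have h8 := matHom_conj (i := 0) h6 (d := mxc 8) (by decide +kernel)
  have h9 := matHom_conj (i := 0) h5 (d := mxc 9) (by decide +kernel)
  have h10 := matHom_conj (i := 0) h7 (d := mxc 10) (by decide +kernel)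
  have h11 := matHom_conj (i := 3) h10 (d := mxc 11) (by decide +kernel)
  match b with
  | 0 => exact matHom_sx 0
  | 1 => exact matHom_sx 1
  | 2 => exact matHom_sx 2
  | 3 => exact matHom_sx 3
  | 4 => exact h4
  | 5 => exact h5
  | 6 => exact h6
  | 7 => exact h7
  | 8 => exact h8
  | 9 => exact h9
  | 10 => exact h10
  | 11 => exact h11

/-- Letters: root elements, then reflections. -/
def lcode : Fin 12 ⊕ Fin 4 → ℕ := Sum.elim mxc mnc

/-- The code of a word. -/
def wcode : List (Fin 12 ⊕ Fin 4) → ℕ
  | [] => bone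
  | a :: w => bmul (lcode a) (wcode w)

/-- The value of a word in a system. -/
def wval {Γ : Type*} [Group Γ] (s : Sys Γ) (w : List (Fin 12 ⊕ Fin 4)) : Γ := (w.map (Sum.elim s.x s.n)).prod

theorem matHom_wval (w : List (Fin 12 ⊕ Fin 4)) : matHom (wval msys w) = toMat (wcode w) := by
  induction w with
  | nil => simp [wval, wcode, toMat_bone]
  | cons a w ih =>
    show matHom (Sum.elim mx mn a * wval msys w) = _
    rw [map_mul, ih, wcode, toMat_bmul]
    rcases a with b | i
    · rw [Sum.elim_inl, matHom_mx]; rfl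
    · rw [Sum.elim_inr, matHom_mn]; rfl

theorem wval_eq {w w' : List (Fin 12 ⊕ Fin 4)} (h : wcode w = wcode w') : wval msys w = wval msys w' :=
  matHom_inj (by rw [matHom_wval, matHom_wval, h])

theorem model_rel : Rel msys := by
  constructor
  · intro b
    have h : ∀ b : Fin 12, wcode [Sum.inl b, Sum.inl b] = wcode [] := by decide +kernel
    simpa [wval] using wval_eq (h b)
  · intro a b
    have h : ∀ a b : Fin 12, wcode [Sum.inl a, Sum.inl b, Sum.inl a, Sum.inl b] =
        wcode ((rootSum a b).elim [] fun c => [Sum.inl c]) := by decide +kernel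
    have h2 := wval_eq (h a b)
    cases hc : rootSum a b <;> simpa [wval, hc, mul_assoc] using h2
  · intro i
    have h : ∀ i : Fin 4, wcode [Sum.inr i, Sum.inr i] = wcode [] := by decide +kernel
    simpa [wval] using wval_eq (h i)
  · intro i b hb
    have h : ∀ i : Fin 4, ∀ b : Fin 12, b ≠ simp4 i →
        wcode [Sum.inr i, Sum.inl b, Sum.inr i] = wcode [Sum.inl (refl4 i b)] := by decide +kernel
    simpa [wval, mul_assoc] using wval_eq (h i b hb)
  · intro i
    have h : ∀ i : Fin 4, wcode [Sum.inr i, Sum.inl (simp4 i), Sum.inr i] =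
        wcode [Sum.inl (simp4 i), Sum.inr i, Sum.inl (simp4 i)] := by decide +kernel
    simpa [wval, mul_assoc] using wval_eq (h i)
  · intro i j hi hj
    have h : ∀ i j : Fin 4, i ≠ 3 → j ≠ 3 → wcode [Sum.inr i, Sum.inr j] = wcode [Sum.inr j, Sum.inr i] := by
      decide +kernel
    simpa [wval] using wval_eq (h i j hi hj)
  · intro i hi
    have h : ∀ i : Fin 4, i ≠ 3 → wcode [Sum.inr i, Sum.inr 3, Sum.inr i] =
        wcode [Sum.inr 3, Sum.inr i, Sum.inr 3] := by
      decide +kernel
    simpa [wval, mul_assoc] using wval_eq (h i hi)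

theorem model_gen : gen msys = ⊤ := by
  have hx : ∀ b, mx b ∈ gen msys := fun b => Subgroup.subset_closure (Or.inl ⟨b, rfl⟩)
  have hn : ∀ i, mn i ∈ gen msys := fun i => Subgroup.subset_closure (Or.inr ⟨i, rfl⟩)
  have hsx : ∀ i, sx i ∈ gen msys := by
    intro i
    match i with
    | 0 => exact hx 0
    | 1 => exact hx 1
    | 2 => exact hx 2
    | 3 => exact hx 3
  have hsy : ∀ i, sy i ∈ gen msys := by
    intro i
    have e : matHom (sy i) = matHom (mn i * sx i * mn i) := by
      rw [map_mul, map_mul, matHom_mn, matHom_sx, matHom_sy, ← toMat_bmul, ← toMat_bmul]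
      congr 1
      revert i
      decide +kernel
    rw [matHom_inj e]
    exact mul_mem (mul_mem (hn i) (hsx i)) (hn i)
  have hF : ∀ t : F2, t = 0 ∨ t = 1 := by decide
  have h1 : (⊤ : Subgroup (SpecialLinearGroup (Fin 4) F2)) ≤
      ((gen msys).map Om.subtype).comap (levHom F2 1) := by
    rw [← sln_eq_top (((gen msys).map Om.subtype).comap (levHom F2 1)) ?_ ?_]
    all_goals
      intro i j hij t
      rcases hF t with rfl | rfl
      · rw [show tv i j (0 : F2) = 1 by
          have h := tv_add (i := i) (j := j) (0 : F2) 0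
          rw [add_zero] at h
          exact mul_eq_left.1 h.symm]
        exact one_mem _
      · refine ⟨levEl (tv i j 1), ?_, rfl⟩
        fin_cases i <;> fin_cases j <;> simp at hij <;>
          first | exact hsx 0 | exact hsx 1 | exact hsx 3 | exact hsy 0 | exact hsy 1 | exact hsy 3
  have h2 : (⊤ : Subgroup (SpecialLinearGroup (Fin 3) F2)) ≤ ((gen msys).map Om.subtype).comap (brHom F2 1) := by
    rw [← sln_eq_top (((gen msys).map Om.subtype).comap (brHom F2 1)) ?_ ?_]
    all_goals
      intro i j hij t
      rcases hF t with rfl | rfl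
      · rw [show tv i j (0 : F2) = 1 by
          have h := tv_add (i := i) (j := j) (0 : F2) 0
          rw [add_zero] at h
          exact mul_eq_left.1 h.symm]
        exact one_mem _
      · refine ⟨brEl (tv i j 1), ?_, rfl⟩
        have c1 : brEl (tv 0 1 1) = sx 3 := by
          refine matHom_inj ?_
          rw [matHom_sx]
          refine Eq.trans (b := (levMat (tv (1 : Fin 4) 2 (1 : F2))).submatrix cSwap cSwap) ?_ ?_
          · show (levMat (tailHom (m := 1) (tv (0 : Fin 3) 1 (1 : F2)))).submatrix cSwap cSwap = _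
            rw [tailHom_tv (by decide)]
            rfl
          · rw [levMat_tv (by decide)]; decide +kernel
        have c2 : brEl (tv 1 0 1) = sy 3 := by
          refine matHom_inj ?_
          rw [matHom_sy]
          refine Eq.trans (b := (levMat (tv (2 : Fin 4) 1 (1 : F2))).submatrix cSwap cSwap) ?_ ?_
          · show (levMat (tailHom (m := 1) (tv (1 : Fin 3) 0 (1 : F2)))).submatrix cSwap cSwap = _
            rw [tailHom_tv (by decide)]
            rfl
          · rw [levMat_tv (by decide)]; decide +kernel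
        fin_cases i <;> fin_cases j <;> simp at hij <;>
          first | (exact c1 ▸ hsx 3) | (exact c2 ▸ hsy 3) | exact hsx 2 | exact hsy 2
  apply Subgroup.map_injective Om.subtype_injective
  apply le_antisymm (Subgroup.map_mono le_top)
  rw [← MonoidHom.range_eq_map, Subgroup.range_subtype]
  show Cfsg.Omega F2 (Cfsg.quadFormPlus 4 F2) ≤ _
  rw [← range_eq_omega (F := F2) (m := 1), sup_le_iff]
  constructor
  · rintro _ ⟨A, rfl⟩; exact h1 (Subgroup.mem_top A)
  · rintro _ ⟨A, rfl⟩; exact h2 (Subgroup.mem_top A)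

theorem model_simple : IsSimpleGroup ↥Om := by
  have hc := CfsgLib.ClassicalForms.isSimpleGroup_pOmega_plus (F := F2) 4 le_rfl
  have hfin : Module.finrank F2 (IX → F2) = 8 := by simp
  open CfsgLib.ClassicalForms in
  have e := (commutatorCongr (isoMat (qPlus 4 F2) (qPlus_apply 4))).trans (MulEquiv.subgroupCongr
    (commutator_eq_siegelGroup (nondeg_qPlus 4) (by rw [hfin]; norm_num) (isGen_qPlus 4)))
  have hb : Nat.card (Subgroup.center ↥Om) = 1 := by
    rw [Nat.card_congr (Subgroup.centerCongr e).toEquiv]
    exact CfsgLib.ClassicalForms.card_center_siegelGroup_even (by decide)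
      (CfsgLib.ClassicalForms.nondeg_qPlus 4) (by simp)
  have e2 : Cfsg.POmega F2 (Cfsg.quadFormPlus 4 F2) ≃* ↥Om :=
    (QuotientGroup.quotientMulEquivOfEq (Subgroup.card_eq_one.1 hb)).trans QuotientGroup.quotientBot
  exact e2.symm.isSimpleGroup

end CfsgLib.OrthEightRecog
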