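import Mathlib

/-!
The module of three commuting actions of the symmetric group of degree three on eight dimensions over the field
with two elements, with an invariant alternating form and a vector of small commutator behaviour: it is the tensor
product of the three natural modules.
-/

set_option autoImplicit false

namespace CfsgLib.OrthEightRecog

/-- The module data. -/
structure Md (V : Type*) [AddCommGroup V] where
  /-- The rotations. -/
  e : Fin 3 → (V →+ V)
  /-- The reflections. -/
  x : Fin 3 → (V →+ V)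
  /-- The form. -/
  B : V → V → ZMod 2
  /-- The distinguished vector. -/
  a : V
  two : ∀ v : V, v + v = 0
  card : Nat.card V = 256
  add_left : ∀ u v w, B (u + v) w = B u w + B v w
  symm : ∀ u v, B u v = B v u
  alt : ∀ v, B v v = 0
  nd : ∀ v, (∀ w, B v w = 0) → v = 0
  Be : ∀ i v w, B (e i v) (e i w) = B v w
  Bx : ∀ i v w, B (x i v) (x i w) = B v w
  e3 : ∀ i v, e i (e i (e i v)) = v
  xx : ∀ i v, x i (x i v) = v
  xe : ∀ i v, x i (e i v) = e i (e i (x i v))
  ee : ∀ i j v, e i (e j v) = e j (e i v)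
  xc : ∀ i j v, x i (x j v) = x j (x i v)
  xec : ∀ i j, i ≠ j → ∀ v, x i (e j v) = e j (x i v)
  ne : ∀ i, ∃ v, e i v ≠ v
  fix : ∀ i, x i a = a
  move : ∀ i, e i a ≠ a
  h1 : ∀ i v, B a v = 0 → B v (x i v) = 0
  h2 : ∀ i j, i ≠ j → ∀ v, B a v = 0 →
    v + x i v + x j (v + x i v) = 0 ∨ v + x i v + x j (v + x i v) = a

namespace Md

variable {V : Type*} [AddCommGroup V] (M : Md V)
include M

theorem add_right (u v w : V) : M.B u (v + w) = M.B u v + M.B u w := by
  rw [M.symm, M.add_left, M.symm v, M.symm w]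

theorem zero_right (u : V) : M.B u 0 = 0 := by
  have h := M.add_right u 0 0
  rw [add_zero] at h
  simpa using h

theorem eq_of_add {u v : V} (h : u + v = 0) : u = v :=
  (add_eq_zero_iff_eq_neg.1 h).trans (neg_eq_of_add_eq_zero_left (M.two v))

/-- The fixed part of a rotation. -/
def q (i : Fin 3) : V →+ V := AddMonoidHom.id V + M.e i + (M.e i).comp (M.e i)

/-- The moved part of a rotation. -/
def p (i : Fin 3) : V →+ V := M.e i + (M.e i).comp (M.e i)

theorem q_apply (i : Fin 3) (v : V) : M.q i v = v + M.e i v + M.e i (M.e i v) := rfl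

theorem p_apply (i : Fin 3) (v : V) : M.p i v = M.e i v + M.e i (M.e i v) := rfl

theorem p_add_q (i : Fin 3) (v : V) : M.p i v + M.q i v = v := by
  rw [p_apply, q_apply]
  have h1 := M.two (M.e i v)
  have h2 := M.two (M.e i (M.e i v))
  calc M.e i v + M.e i (M.e i v) + (v + M.e i v + M.e i (M.e i v))
      = v + (M.e i v + M.e i v) + (M.e i (M.e i v) + M.e i (M.e i v)) := by abel
    _ = v := by rw [h1, h2]; simp

theorem e_q (i : Fin 3) (v : V) : M.e i (M.q i v) = M.q i v := by
  simp only [q_apply, map_add, M.e3]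
  abel

theorem q_p (i : Fin 3) (v : V) : M.q i (M.p i v) = 0 := by
  simp only [p_apply, map_add, q_apply, M.e3]
  have h1 := M.two (M.e i v); have h2 := M.two (M.e i (M.e i v)); have h3 := M.two v
  calc M.e i v + M.e i (M.e i v) + v + (M.e i (M.e i v) + v + M.e i v)
      = (M.e i v + M.e i v) + (M.e i (M.e i v) + M.e i (M.e i v)) + (v + v) := by abel
    _ = 0 := by rw [h1, h2, h3]; simp

theorem p_q (i : Fin 3) (v : V) : M.p i (M.q i v) = 0 := by
  rw [p_apply, M.e_q, M.e_q, M.two]

theorem p_eq_self {i : Fin 3} {v : V} (h : M.q i v = 0) : M.p i v = v := by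
  have := M.p_add_q i v
  rwa [h, add_zero] at this

theorem q_eq_self {i : Fin 3} {v : V} (h : M.p i v = 0) : M.q i v = v := by
  have := M.p_add_q i v
  rwa [h, zero_add] at this

theorem e_of_p {i : Fin 3} {v : V} (h : M.p i v = 0) : M.e i v = v := by
  conv_lhs => rw [← M.q_eq_self h]
  rw [M.e_q, M.q_eq_self h]

theorem B_e_move (i : Fin 3) (v w : V) : M.B (M.e i v) w = M.B v (M.e i (M.e i w)) := by
  rw [← M.Be i v (M.e i (M.e i w)), M.e3]

theorem q_adj (i : Fin 3) (v w : V) : M.B (M.q i v) w = M.B v (M.q i w) := by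
  simp only [q_apply, M.add_left, M.add_right, M.B_e_move, map_add, M.e3]
  ring

theorem p_adj (i : Fin 3) (v w : V) : M.B (M.p i v) w = M.B v (M.p i w) := by
  simp only [p_apply, M.add_left, M.add_right, M.B_e_move, M.e3]
  ring

theorem x_q (i j : Fin 3) (v : V) : M.x i (M.q j v) = M.q j (M.x i v) := by
  by_cases h : i = j
  · subst h
    simp only [q_apply, map_add, M.xe, M.e3]
    abel
  · simp only [q_apply, map_add, M.xec i j h]

theorem x_p (i j : Fin 3) (v : V) : M.x i (M.p j v) = M.p j (M.x i v) := by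
  by_cases h : i = j
  · subst h
    simp only [p_apply, map_add, M.xe, M.e3]
    abel
  · simp only [p_apply, map_add, M.xec i j h]

theorem e_q' (i j : Fin 3) (v : V) : M.e i (M.q j v) = M.q j (M.e i v) := by
  simp only [q_apply, map_add, M.ee i j]

/-- A form value that is additive and invariant vanishes. -/
theorem l_zero (i : Fin 3) (v : V) : M.B v (M.x i v) = 0 := by
  obtain ⟨j, hij⟩ : ∃ j : Fin 3, i ≠ j := ⟨i + 1, by revert i; decide⟩
  have hadd : ∀ u w, M.B (u + w) (M.x i (u + w)) = M.B u (M.x i u) + M.B w (M.x i w) := by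
    intro u w
    have h : M.B w (M.x i u) = M.B u (M.x i w) := by
      rw [← M.Bx i w (M.x i u), M.xx, M.symm]
    rw [map_add, M.add_left, M.add_right, M.add_right, h]
    have h2 : M.B u (M.x i w) + M.B u (M.x i w) = 0 := CharTwo.add_self_eq_zero _
    linear_combination h2
  obtain ⟨w, hw⟩ : ∃ w, M.B M.a w = 1 := by
    by_contra hcon
    refine M.move 0 ?_
    have hz : M.a = 0 := M.nd _ fun w => by
      have : ∀ z : ZMod 2, z = 0 ∨ z = 1 := by decide
      exact (this _).resolve_right fun e => hcon ⟨w, e⟩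
    rw [hz, map_zero]
  have hd : ∀ u, M.B u (M.x i u) = M.B M.a u * M.B w (M.x i w) := by
    intro u
    have h01 : ∀ z : ZMod 2, z = 0 ∨ z = 1 := by decide
    rcases h01 (M.B M.a u) with h | h
    · rw [M.h1 i u h, h, zero_mul]
    · have h' : M.B M.a (u + w) = 0 := by rw [M.add_right, h, hw]; decide
      have := M.h1 i _ h'
      rw [hadd] at this
      rw [h, one_mul]
      exact CharTwo.add_eq_zero.1 this
  have h01 : ∀ z : ZMod 2, z = 0 ∨ z = 1 := by decide
  rcases h01 (M.B w (M.x i w)) with h | h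
  · rw [hd, h, mul_zero]
  · exfalso
    refine M.move j (M.eq_of_add (M.nd _ fun u => ?_))
    have h1 := hd (M.e j (M.e j u))
    rw [h, mul_one, M.xec i j hij, M.xec i j hij, M.Be, M.Be, hd u, h, mul_one] at h1
    rw [M.add_left, M.B_e_move, ← h1]
    exact CharTwo.add_self_eq_zero _

/-- The two step commutator of two reflections commutes into the moved part of the third rotation. -/
theorem two_step {i j k : Fin 3} (hij : i ≠ j) (hik : i ≠ k) (hjk : j ≠ k) (v : V) :
    M.q k (v + M.x i v + M.x j (v + M.x i v)) = 0 := by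
  set Φ : V → V := fun u => u + M.x i u + M.x j (u + M.x i u) with hΦ
  have hadd : ∀ u w, Φ (u + w) = Φ u + Φ w := by intro u w; simp only [hΦ, map_add]; abel
  have he : ∀ u, Φ (M.e k u) = M.e k (Φ u) := by
    intro u
    simp only [hΦ, map_add, M.xec i k hik, M.xec j k hjk]
  show M.q k (Φ v) = 0
  have hperp : ∀ u, M.B M.a u = 0 → Φ u = 0 ∨ Φ u = M.a := fun u hu => M.h2 i j hij u hu
  by_cases hz : ∀ u, M.B M.a u = 0 → Φ u = 0
  · obtain ⟨w, hw1, hw2⟩ : ∃ w, M.B M.a (M.e k w) = 0 ∧ M.B M.a w = 1 := by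
      by_contra hcon
      push Not at hcon
      have h01 : ∀ z : ZMod 2, z = 0 ∨ z = 1 := by decide
      have h' : ∀ z, M.B M.a (M.e k z) = 0 → M.B M.a z = 0 := fun z hz => (h01 _).resolve_right (hcon z hz)
      obtain ⟨w₀, hw₀⟩ : ∃ w₀, M.B M.a w₀ = 1 := by
        by_contra hc
        refine M.move k ?_
        rw [show M.a = 0 from M.nd _ fun w => (h01 _).resolve_right fun e => hc ⟨w, e⟩, map_zero]
      have key : ∀ z, M.B M.a (M.e k z) = M.B M.a z := by
        intro z
        rcases h01 (M.B M.a (M.e k z)) with h | h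
        · rw [h, h' z h]
        · rcases h01 (M.B M.a z) with h2 | h2
          · exfalso
            rcases h01 (M.B M.a (M.e k w₀)) with h3 | h3
            · exact zero_ne_one ((h' w₀ h3).symm.trans hw₀)
            · have h5 := h' (z + w₀) (by rw [map_add, M.add_right, h, h3]; decide)
              rw [M.add_right, h2, hw₀, zero_add] at h5
              exact one_ne_zero h5
          · rw [h, h2]
      refine M.move k (M.eq_of_add (M.nd _ fun u => ?_))
      rw [M.add_left, M.B_e_move, key, key]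
      exact CharTwo.add_self_eq_zero _
    have hall : Φ v = 0 := by
      have h01 : ∀ z : ZMod 2, z = 0 ∨ z = 1 := by decide
      rcases h01 (M.B M.a v) with h | h
      · exact hz v h
      · have h1 : Φ (v + w) = 0 := hz _ (by rw [M.add_right, h, hw2]; decide)
        have h2 : Φ w = 0 := by
          have := he w
          rw [hz _ hw1] at this
          have h3 := congrArg (fun z => M.e k (M.e k z)) this
          simpa [M.e3] using h3.symm
        rwa [hadd, h2, add_zero] at h1
    rw [hall, map_zero]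
  · push Not at hz
    obtain ⟨u₀, hu₀, hne⟩ := hz
    have hu1 : Φ u₀ = M.a := (hperp u₀ hu₀).resolve_left hne
    -- the image contains the orbit of the vector
    have h01 : ∀ z : ZMod 2, z = 0 ∨ z = 1 := by decide
    have hqa : M.q k M.a = 0 := by
      by_contra hq
      have key : M.B M.a (M.e k u₀) = 1 := by
        refine (h01 _).resolve_left fun h => ?_
        rcases hperp _ h with h' | h' <;> rw [he, hu1] at h'
        · exact M.move k (by
            have := congrArg (fun z => M.e k (M.e k z)) h'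
            simp [M.e3] at this
            rw [this, map_zero])
        · exact M.move k h'
      have key2 : M.B M.a (M.e k (M.e k u₀)) = 1 := by
        refine (h01 _).resolve_left fun h => ?_
        rcases hperp _ h with h' | h' <;> rw [he, he, hu1] at h'
        · exact M.move k (by
            have := congrArg (fun z => M.e k z) h'
            simp [M.e3] at this
            rw [this, map_zero])
        · exact M.move k (by conv_rhs => rw [← M.e3 k M.a]
                             rw [h'])
      have hs : M.B M.a (M.e k u₀ + M.e k (M.e k u₀)) = 0 := by rw [M.add_right, key, key2]; decide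
      rcases hperp _ hs with h' | h' <;> simp only [hadd, he, hu1] at h'
      · have := M.eq_of_add h'
        exact M.move k (by
          have h3 := congrArg (fun z => M.e k (M.e k z)) this
          simp only [M.e3] at h3
          exact h3.symm)
      · exact hq (by rw [q_apply, add_assoc, h', M.two])
    -- every value lies in the span of the orbit
    have hv : Φ v = 0 ∨ Φ v = M.a ∨ Φ v = M.e k M.a ∨ Φ v = M.a + M.e k M.a := by
      have key : M.B M.a (M.e k u₀) = 1 := by
        refine (h01 _).resolve_left fun h => ?_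
        rcases hperp _ h with h' | h' <;> rw [he, hu1] at h'
        · exact M.move k (by
            have := congrArg (fun z => M.e k (M.e k z)) h'
            simp [M.e3] at this
            rw [this, map_zero])
        · exact M.move k h'
      rcases h01 (M.B M.a v) with h | h
      · rcases hperp v h with h' | h'
        · exact Or.inl h'
        · exact Or.inr (Or.inl h')
      · have h1 := hperp (v + M.e k u₀) (by rw [M.add_right, h, key]; decide)
        rw [hadd, he, hu1] at h1
        rcases h1 with h' | h'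
        · exact Or.inr (Or.inr (Or.inl (M.eq_of_add h')))
        · refine Or.inr (Or.inr (Or.inr ?_))
          calc Φ v = (Φ v + M.e k M.a) + M.e k M.a := by rw [add_assoc, M.two, add_zero]
            _ = _ := by rw [h']
    have hqe : M.q k (M.e k M.a) = 0 := by rw [← M.e_q', hqa, map_zero]
    rcases hv with h | h | h | h <;> rw [h] <;> simp [hqa, hqe]

theorem p_comm (l l' : Fin 3) (u : V) : M.p l (M.p l' u) = M.p l' (M.p l u) := by
  simp only [p_apply, map_add, M.ee l l']
  abel

theorem exists_fixed {W : V → Prop} (hW : ∀ i v, W v → W (M.x i v)) (hadd : ∀ u v, W u → W v → W (u + v))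
    {v : V} (hv : W v) (hne : v ≠ 0) (s : List (Fin 3)) :
    ∃ m, W m ∧ m ≠ 0 ∧ ∀ i ∈ s, M.x i m = m := by
  induction s with
  | nil => exact ⟨v, hv, hne, by simp⟩
  | cons i s ih =>
    obtain ⟨m, hm, hm0, hs⟩ := ih
    by_cases h : M.x i m = m
    · exact ⟨m, hm, hm0, fun j hj => (List.mem_cons.1 hj).elim (fun e => e ▸ h) (hs j)⟩
    · refine ⟨m + M.x i m, hadd _ _ hm (hW i m hm), fun e => h (M.eq_of_add e).symm, fun j hj => ?_⟩
      rcases List.mem_cons.1 hj with rfl | hj
      · rw [map_add, M.xx, add_comm]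
      · rw [map_add, M.xc, hs j hj]

theorem pair_zero {i j k : Fin 3} (hij : i ≠ j) (hik : i ≠ k) (hjk : j ≠ k) (v : V) :
    M.p i (M.p j (M.q k v)) = 0 := by
  by_contra hne
  obtain ⟨m, ⟨hi, hj, hk⟩, hm0, hfix⟩ := M.exists_fixed
    (W := fun u => M.q i u = 0 ∧ M.q j u = 0 ∧ M.p k u = 0)
    (fun l u hu => ⟨by rw [← M.x_q, hu.1, map_zero], by rw [← M.x_q, hu.2.1, map_zero],
      by rw [← M.x_p, hu.2.2, map_zero]⟩)
    (fun u w hu hw => ⟨by rw [map_add, hu.1, hw.1, add_zero], by rw [map_add, hu.2.1, hw.2.1, add_zero],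
      by rw [map_add, hu.2.2, hw.2.2, add_zero]⟩) (v := M.p i (M.p j (M.q k v))) ⟨M.q_p _ _, by
      have : ∀ u, M.q j (M.p i u) = M.p i (M.q j u) := fun u => by
        simp only [p_apply, map_add, M.e_q']
      rw [this, M.q_p, map_zero], by
      rw [M.p_comm k i, M.p_comm k j, M.p_q, map_zero, map_zero]⟩ hne [i, j]
  have hxi : M.x i m = m := hfix i (by simp)
  have hxj : M.x j m = m := hfix j (by simp)
  have h := M.two_step hij hik hjk (M.e i (M.e j m))
  have e1 : M.e i (M.e j m) + M.x i (M.e i (M.e j m)) = M.e j m := by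
    rw [M.xe, M.xec i j hij, hxi]
    have := M.p_eq_self hi
    rw [p_apply] at this
    calc M.e i (M.e j m) + M.e i (M.e i (M.e j m)) = M.e j (M.e i m + M.e i (M.e i m)) := by
          rw [map_add, M.ee j i, M.ee j i, M.ee j i]
      _ = M.e j m := by rw [this]
  rw [e1, M.xe, hxj] at h
  have e2 := M.p_eq_self hj
  rw [p_apply] at e2
  rw [e2, M.q_eq_self hk] at h
  exact hm0 h

theorem single_big {i j k : Fin 3} (hij : i ≠ j) (hik : i ≠ k) {v : V}
    (hv : M.q i v = 0 ∧ M.p j v = 0 ∧ M.p k v = 0) (hne : v ≠ 0) :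
    ∃ f : Fin 16 → V, Function.Injective f ∧ ∀ c, M.q i (f c) = 0 ∧ M.p j (f c) = 0 ∧ M.p k (f c) = 0 := by
  set W : V → Prop := fun u => M.q i u = 0 ∧ M.p j u = 0 ∧ M.p k u = 0
  have hWadd : ∀ u w, W u → W w → W (u + w) := fun u w hu hw => ⟨by rw [map_add, hu.1, hw.1, add_zero],
    by rw [map_add, hu.2.1, hw.2.1, add_zero], by rw [map_add, hu.2.2, hw.2.2, add_zero]⟩
  have hpc : ∀ l u, M.p l (M.e i u) = M.e i (M.p l u) := fun l u => by simp only [p_apply, map_add, M.ee i l]
  have hWe : ∀ u, W u → W (M.e i u) := fun u hu => ⟨by rw [← M.e_q', hu.1, map_zero],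
    by rw [hpc, hu.2.1, map_zero], by rw [hpc, hu.2.2, map_zero]⟩
  obtain ⟨m, hm, hm0, hfix⟩ := M.exists_fixed (W := W)
    (fun l u hu => ⟨by rw [← M.x_q, hu.1, map_zero], by rw [← M.x_p, hu.2.1, map_zero],
      by rw [← M.x_p, hu.2.2, map_zero]⟩) hWadd hv hne [i]
  obtain ⟨w₀, hw₀⟩ : ∃ w, M.B m w ≠ 0 := by
    by_contra hcon
    push Not at hcon
    exact hm0 (M.nd m hcon)
  set w := M.p i (M.q j (M.q k w₀))
  have hqp : ∀ l l' u, M.p l (M.q l' u) = M.q l' (M.p l u) := fun l l' u => by
    simp only [p_apply, map_add, M.e_q']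
  have hw : W w := ⟨M.q_p _ _, by
      show M.p j (M.p i (M.q j (M.q k w₀))) = 0
      rw [M.p_comm j i, M.p_q, map_zero], by
      show M.p k (M.p i (M.q j (M.q k w₀))) = 0
      rw [M.p_comm k i, hqp, M.p_q, map_zero, map_zero]⟩
  have hBw : M.B m w = 1 := by
    show M.B m (M.p i (M.q j (M.q k w₀))) = 1
    rw [← M.p_adj, M.p_eq_self hm.1, ← M.q_adj, M.q_eq_self hm.2.1, ← M.q_adj, M.q_eq_self hm.2.2]
    have h01 : ∀ z : ZMod 2, z ≠ 0 → z = 1 := by decide
    exact h01 _ hw₀
  have hp : M.p i m = m := M.p_eq_self hm.1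
  rw [p_apply] at hp
  have hxm : M.x i m = m := hfix i (by simp)
  have hB2 : M.B m (M.e i m) = 0 := by
    have h := M.l_zero i (M.e i m)
    rw [M.xe, hxm, M.Be] at h
    exact h
  have hB3 : M.B m (M.e i (M.e i m)) = 0 := by
    rw [← M.B_e_move, M.symm, hB2]
  have hsum : M.B m w + M.B m (M.e i w) + M.B m (M.e i (M.e i w)) = 0 := by
    rw [← M.add_right, ← M.add_right, ← q_apply, hw.1, M.zero_right]
  let f : Fin 2 × Fin 2 × Fin 2 × Fin 2 → V := fun c =>
    (if c.1 = 1 then m else 0) + (if c.2.1 = 1 then M.e i m else 0) + (if c.2.2.1 = 1 then w else 0) +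
      (if c.2.2.2 = 1 then M.e i w else 0)
  have hfW : ∀ c, W (f c) := by
    intro c
    have h0 : W 0 := ⟨map_zero _, map_zero _, map_zero _⟩
    refine hWadd _ _ (hWadd _ _ (hWadd _ _ ?_ ?_) ?_) ?_ <;> split_ifs <;>
      first | exact h0 | exact hm | exact hWe m hm | exact hw | exact hWe w hw
  have hf : Function.Injective f := by
    have hker : ∀ a b c d : Bool, (if a then m else 0) + (if b then M.e i m else 0) + (if c then w else 0) +
        (if d then M.e i w else 0) = 0 → a = false ∧ b = false ∧ c = false ∧ d = false := by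
      intro a b c d h
      have k1 := congrArg (M.B m) h
      have k2 := congrArg (M.B (M.e i m)) h
      simp only [M.add_right, apply_ite, M.zero_right, M.alt, hB2, hBw, M.Be] at k1 k2
      have hB2' : M.B (M.e i m) m = 0 := by rw [M.symm, hB2]
      have hew : M.B (M.e i m) w = M.B m (M.e i (M.e i w)) := M.B_e_move i m w
      rw [hew] at k2
      simp only [hB2'] at k2
      rw [hBw] at hsum
      revert k1 k2 hsum
      generalize M.B m (M.e i w) = β
      generalize M.B m (M.e i (M.e i w)) = γ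
      intro hsum k1 k2
      have hcd : c = false ∧ d = false := by
        clear h
        revert hsum k1 k2
        revert β γ
        cases a <;> cases b <;> cases c <;> cases d <;> decide
      obtain ⟨rfl, rfl⟩ := hcd
      cases a <;> cases b
      · simp
      · simp at h
        exact absurd (by simpa [M.e3] using congrArg (fun z => M.e i (M.e i z)) h) hm0
      · simp at h
        exact absurd h hm0
      · simp at h
        have h3 := M.eq_of_add h
        rw [← h3, ← h3, M.two] at hp
        exact absurd hp.symm hm0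
    intro c d hcd
    have hdif : ∀ u v : Fin 2, ∀ z : V, (if u = 1 then z else 0) + (if v = 1 then z else 0) =
        if (u != v) = true then z else 0 := by
      intro u v z
      fin_cases u <;> fin_cases v <;> simp [M.two]
    have h : f c + f d = 0 := by rw [hcd, M.two]
    have h' := hker (c.1 != d.1) (c.2.1 != d.2.1) (c.2.2.1 != d.2.2.1) (c.2.2.2 != d.2.2.2) (by
      rw [← hdif, ← hdif, ← hdif, ← hdif]; refine Eq.trans ?_ h; simp only [f]; abel)
    simp only [bne_eq_false_iff_eq] at h'
    exact Prod.ext h'.1 (Prod.ext h'.2.1 (Prod.ext h'.2.2.1 h'.2.2.2))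
  let g : Fin 16 ≃ Fin 2 × Fin 2 × Fin 2 × Fin 2 := Fintype.equivOfCardEq (by simp)
  exact ⟨f ∘ g, hf.comp g.injective, fun c => hfW _⟩

theorem double_inj {i : Fin 3} {H : AddSubgroup V} (hx : ∀ h ∈ H, M.x i h = h) (hq : ∀ h ∈ H, M.q i h = 0) :
    Function.Injective fun c : H × H => (c.1 : V) + M.e i c.2 := by
  intro c d hcd
  have h : ((c.1 - d.1 : H) : V) + M.e i ((c.2 - d.2 : H) : V) = 0 := by
    simp only [AddSubgroup.coe_sub, map_sub]
    have e : (c.1 : V) + M.e i c.2 = d.1 + M.e i d.2 := hcd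
    calc (c.1 : V) - d.1 + (M.e i c.2 - M.e i d.2) = (c.1 + M.e i c.2) - (d.1 + M.e i d.2) := by abel
      _ = 0 := by rw [e, sub_self]
  set u : V := ((c.1 - d.1 : H) : V)
  set w : V := ((c.2 - d.2 : H) : V)
  have h2 := congrArg (M.x i) h
  rw [map_add, map_zero, M.xe, hx _ (c.1 - d.1).2, hx _ (c.2 - d.2).2] at h2
  have hp : M.e i w + M.e i (M.e i w) = w := M.p_eq_self (hq _ (c.2 - d.2).2)
  have hw : w = 0 := by
    rw [← hp]
    calc M.e i w + M.e i (M.e i w) = (u + M.e i w) + (u + M.e i (M.e i w)) := by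
          calc M.e i w + M.e i (M.e i w) = (u + u) + (M.e i w + M.e i (M.e i w)) := by rw [M.two, zero_add]
            _ = _ := by abel
      _ = 0 := by rw [h, h2, add_zero]
  have hu : u = 0 := by rwa [hw, map_zero, add_zero] at h
  exact Prod.ext (sub_eq_zero.1 (Subtype.ext hu)) (sub_eq_zero.1 (Subtype.ext hw))

/-- The rotations have no fixed vectors. -/
theorem q_zero [Finite V] : ∀ (i : Fin 3) (v : V), M.q i v = 0 := by
  classical
  have := Fintype.ofFinite V
  have hpq : ∀ l l' u, M.p l (M.q l' u) = M.q l' (M.p l u) := fun l l' u => by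
    simp only [p_apply, map_add, M.e_q']
  have hqq : ∀ l l' u, M.q l (M.q l' u) = M.q l' (M.q l u) := fun l l' u => by
    simp only [q_apply, map_add, M.ee l l']
    abel
  by_cases h3 : ∀ v, M.p 0 (M.p 1 (M.p 2 v)) = 0
  · exfalso
    have split : ∀ i j k : Fin 3, i ≠ j → i ≠ k → j ≠ k → (∀ v, M.p i (M.p j (M.p k v)) = 0) →
        ∃ v, (M.q i v = 0 ∧ M.p j v = 0 ∧ M.p k v = 0) ∧ v ≠ 0 := by
      intro i j k hij hik hjk h
      obtain ⟨v₀, hv₀⟩ := M.ne i
      refine ⟨M.p i (M.q j (M.q k v₀)), ⟨M.q_p _ _, ?_, ?_⟩, fun e => hv₀ (M.e_of_p ?_)⟩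
      · rw [M.p_comm, M.p_q, map_zero]
      · rw [M.p_comm, hpq k j, M.p_q, map_zero, map_zero]
      · have hqp2 : M.p i (M.q j (M.p k v₀)) = 0 := by
          have := M.pair_zero hik hij hjk.symm v₀
          rwa [hpq k j] at this
        calc M.p i v₀ = M.p i (M.p j (M.p k v₀ + M.q k v₀) + M.q j (M.p k v₀ + M.q k v₀)) := by
              rw [M.p_add_q, M.p_add_q]
          _ = 0 := by rw [map_add, map_add, map_add, map_add, map_add, h, M.pair_zero hij hik hjk, hqp2, e]; simp
    have hperm : ∀ v, M.p 1 (M.p 0 (M.p 2 v)) = 0 ∧ M.p 2 (M.p 0 (M.p 1 v)) = 0 := by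
      intro v
      constructor
      · rw [M.p_comm 1 0]; exact h3 v
      · rw [M.p_comm 2 0, M.p_comm 2 1]; exact h3 v
    obtain ⟨v₁, hv₁, hn₁⟩ := split 0 1 2 (by decide) (by decide) (by decide) h3
    obtain ⟨v₂, hv₂, hn₂⟩ := split 1 0 2 (by decide) (by decide) (by decide) fun v => (hperm v).1
    obtain ⟨v₃, hv₃, hn₃⟩ := split 2 0 1 (by decide) (by decide) (by decide) fun v => (hperm v).2
    obtain ⟨f₁, i₁, w₁⟩ := M.single_big (by decide) (by decide) hv₁ hn₁
    obtain ⟨f₂, i₂, w₂⟩ := M.single_big (by decide) (by decide) hv₂ hn₂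
    obtain ⟨f₃, i₃, w₃⟩ := M.single_big (by decide) (by decide) hv₃ hn₃
    have hinj : Function.Injective fun c : Fin 16 × Fin 16 × Fin 16 => f₁ c.1 + f₂ c.2.1 + f₃ c.2.2 := by
      intro c d h
      have k1 := congrArg (M.p 0) h
      have k2 := congrArg (M.p 1) h
      have k3 := congrArg (M.p 2) h
      simp only [map_add, M.p_eq_self (w₁ _).1, (w₂ _).2.1, (w₃ _).2.1, add_zero] at k1
      simp only [map_add, M.p_eq_self (w₂ _).1, (w₁ _).2.1, (w₃ _).2.2, add_zero, zero_add] at k2
      simp only [map_add, M.p_eq_self (w₃ _).1, (w₁ _).2.2, (w₂ _).2.2, zero_add] at k3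
      exact Prod.ext (i₁ k1) (Prod.ext (i₂ k2) (i₃ k3))
    have := Nat.card_le_card_of_injective _ hinj
    rw [M.card, Nat.card_prod, Nat.card_prod, Nat.card_fin] at this
    omega
  · push Not at h3
    obtain ⟨v₀, hv₀⟩ := h3
    let W : AddSubgroup V := (M.q 0).ker ⊓ (M.q 1).ker ⊓ (M.q 2).ker
    have hWmem : ∀ u, u ∈ W ↔ M.q 0 u = 0 ∧ M.q 1 u = 0 ∧ M.q 2 u = 0 := fun u => by
      simp [W, and_assoc]
    have hW : ∀ i u, u ∈ W → M.x i u ∈ W := fun i u hu => by
      rw [hWmem] at hu ⊢
      exact ⟨by rw [← M.x_q, hu.1, map_zero], by rw [← M.x_q, hu.2.1, map_zero], by rw [← M.x_q, hu.2.2, map_zero]⟩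
    have hWe : ∀ i u, u ∈ W → M.e i u ∈ W := fun i u hu => by
      rw [hWmem] at hu ⊢
      exact ⟨by rw [← M.e_q', hu.1, map_zero], by rw [← M.e_q', hu.2.1, map_zero], by rw [← M.e_q', hu.2.2, map_zero]⟩
    have hv : M.p 0 (M.p 1 (M.p 2 v₀)) ∈ W := by
      rw [hWmem]
      exact ⟨M.q_p _ _, by rw [← hpq, M.q_p, map_zero], by rw [← hpq, ← hpq, M.q_p, map_zero, map_zero]⟩
    obtain ⟨m, hm, hm0, hfix⟩ := M.exists_fixed (W := fun u => u ∈ W) hW (fun u v => W.add_mem) hv hv₀ [0, 1, 2]
    have hq : ∀ i u, u ∈ W → M.q i u = 0 := by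
      intro i u hu
      rw [hWmem] at hu
      fin_cases i
      · exact hu.1
      · exact hu.2.1
      · exact hu.2.2
    have step : ∀ (i : Fin 3) (H : AddSubgroup V), H ≤ W → (∀ h ∈ H, M.x i h = h) →
        ∃ H' : AddSubgroup V, H' ≤ W ∧ Nat.card H * Nat.card H ≤ Nat.card H' ∧
          ∀ j, j ≠ i → (∀ h ∈ H, M.x j h = h) → ∀ h ∈ H', M.x j h = h := by
      intro i H hH hx
      let F : H × H →+ V := ((H.subtype).comp (AddMonoidHom.fst H H)) +
        ((M.e i).comp (H.subtype.comp (AddMonoidHom.snd H H)))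
      refine ⟨F.range, ?_, ?_, ?_⟩
      · rintro _ ⟨c, rfl⟩
        exact W.add_mem (hH c.1.2) (hWe i _ (hH c.2.2))
      · rw [← Nat.card_prod]
        exact Nat.card_le_card_of_injective (fun c => (⟨F c, c, rfl⟩ : F.range))
          fun c d h => M.double_inj hx (fun h hh => hq i h (hH hh)) (congrArg Subtype.val h)
      · rintro j hj hxj _ ⟨c, rfl⟩
        show M.x j ((c.1 : V) + M.e i c.2) = c.1 + M.e i c.2
        rw [map_add, M.xec j i hj, hxj _ c.1.2, hxj _ c.2.2]
    let H₀ : AddSubgroup V := AddSubgroup.closure {m}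
    have hH0 : H₀ ≤ W := (AddSubgroup.closure_le _).2 (by simpa using hm)
    have hx0 : ∀ j, ∀ h ∈ H₀, M.x j h = h := by
      intro j
      have : H₀ ≤ (M.x j - AddMonoidHom.id V).ker := by
        refine (AddSubgroup.closure_le _).2 ?_
        simp only [Set.singleton_subset_iff, SetLike.mem_coe, AddMonoidHom.mem_ker, AddMonoidHom.sub_apply,
          AddMonoidHom.id_apply, sub_eq_zero]
        exact hfix j (by fin_cases j <;> simp)
      intro h hh
      simpa [sub_eq_zero] using this hh
    have h2 : 2 ≤ Nat.card H₀ := by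
      refine le_trans (le_of_eq (by simp)) (Nat.card_le_card_of_injective
        (fun b : Bool => (⟨if b then m else 0, by
          cases b
          · exact zero_mem _
          · exact AddSubgroup.subset_closure rfl⟩ : H₀)) ?_)
      intro b b' h
      have h' := congrArg Subtype.val h
      cases b <;> cases b' <;> simp at h' ⊢
      · exact hm0 h'.symm
      · exact hm0 h'
    obtain ⟨H₁, hW1, hc1, hx1⟩ := step 2 H₀ hH0 (hx0 2)
    obtain ⟨H₂, hW2, hc2, hx2⟩ := step 1 H₁ hW1 (hx1 1 (by decide) (hx0 1))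
    obtain ⟨H₃, hW3, hc3, -⟩ := step 0 H₂ hW2 (hx2 0 (by decide) (hx1 0 (by decide) (hx0 0)))
    have hbig : 256 ≤ Nat.card H₃ := by
      have a1 : 4 ≤ Nat.card H₁ := le_trans (Nat.mul_le_mul h2 h2) hc1
      have a2 : 16 ≤ Nat.card H₂ := le_trans (Nat.mul_le_mul a1 a1) hc2
      exact le_trans (Nat.mul_le_mul a2 a2) hc3
    have htop : H₃ = ⊤ := AddSubgroup.eq_top_of_card_eq _
      (le_antisymm (Nat.card_le_card_of_injective _ Subtype.val_injective) (by rw [M.card]; exact hbig))
    intro i v
    exact hq i v (hW3 (htop ▸ AddSubgroup.mem_top v))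

end Md

end CfsgLib.OrthEightRecog
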