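import Cfsg.Agent.Lib.OrthEightRecog.Frame

/-!
The conjugates of the involution inside the extraspecial subgroup form one orbit, and a conjugation exchanges the
involution with one of them.
-/

set_option autoImplicit false
set_option linter.style.haveILetI false

namespace CfsgLib.OrthEightRecog

universe u v

variable {G : Type u} [Group G] [Finite G] {t : G} {Q : Subgroup G}

/-- The frame: the pair in standard position with its module. -/
structure Fr (H : Hyp t Q) (g a : G) (V : Type v) [AddCommGroup V] where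
  S : H.Std g a
  M : Md V
  cl : G → V
  cl_mul : ∀ x ∈ Q, ∀ y ∈ Q, cl (x * y) = cl x + cl y
  cl_eq : ∀ x ∈ Q, ∀ y ∈ Q, cl x = cl y → y = x ∨ y = x * t
  cl_t : cl t = 0
  cl_surj : ∀ v, ∃ x ∈ Q, cl x = v
  cl_a : cl a = M.a
  cl_B : ∀ x ∈ Q, ∀ y ∈ Q, (M.B (cl x) (cl y) = 0 ↔ x * y = y * x)
  cl_e : ∀ i (c : ↥(Subgroup.centralizer ({t} : Set G))), H.π c = lrot i →
    ∀ q ∈ Q, cl ((c : G) * q * (c : G)⁻¹) = M.e i (cl q)
  cl_x : ∀ i (c : ↥(Subgroup.centralizer ({t} : Set G))), H.π c = lref i →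
    ∀ q ∈ Q, cl ((c : G) * q * (c : G)⁻¹) = M.x i (cl q)

namespace Fr

variable {H : Hyp t Q} {g a : G} {V : Type v} [AddCommGroup V] [Finite V] (F : Fr H g a V)
include F

theorem cl_one : F.cl 1 = 0 := by
  have h := F.cl_mul 1 Q.one_mem 1 Q.one_mem
  rw [one_mul] at h
  simpa using h

theorem cl_inv {x : G} (hx : x ∈ Q) : F.cl x⁻¹ = F.cl x := by
  have h := F.cl_mul x⁻¹ (Q.inv_mem hx) x hx
  rw [inv_mul_cancel, F.cl_one] at h
  exact F.M.eq_of_add h.symm

theorem cl_mul_t {x : G} (hx : x ∈ Q) : F.cl (x * t) = F.cl x := by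
  rw [F.cl_mul x hx t H.data.mem, F.cl_t, add_zero]

omit [Finite V] in
theorem comm_of_B {x y : G} (hx : x ∈ Q) (hy : y ∈ Q) (h : F.M.B (F.cl x) (F.cl y) = 0) : x * y = y * x :=
  (F.cl_B x hx y hy).1 h

theorem swap_of_B {x y : G} (hx : x ∈ Q) (hy : y ∈ Q) (h : F.M.B (F.cl x) (F.cl y) ≠ 0) :
    x * y = t * (y * x) :=
  H.data.swap hy hx fun e => h ((F.cl_B x hx y hy).2 e)

/-- An element of `Q` fixed by the standard Sylow subgroup modulo the centre. -/
theorem fixed_cl {x : G} (hx : x ∈ Q)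
    (h : ∀ i, ∀ c : ↥(Subgroup.centralizer ({t} : Set G)), H.π c = lref i →
      (c : G) * x * (c : G)⁻¹ = x ∨ (c : G) * x * (c : G)⁻¹ = x * t) :
    x = 1 ∨ x = t ∨ x = a ∨ x = a * t := by
  have hfix : ∀ i, F.M.x i (F.cl x) = F.cl x := by
    intro i
    obtain ⟨c, hc⟩ := H.surj (lref i)
    rw [← F.cl_x i c hc x hx]
    rcases h i c hc with e | e <;> rw [e]
    exact F.cl_mul_t hx
  rcases F.M.fixed_eq hfix with e | e
  · rcases F.cl_eq 1 Q.one_mem x hx (by rw [e, F.cl_one]) with r | r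
    · exact Or.inl r
    · exact Or.inr (Or.inl (by rw [r, one_mul]))
  · rcases F.cl_eq a F.S.pair.mem x hx (by rw [e, F.cl_a]) with r | r
    · exact Or.inr (Or.inr (Or.inl r))
    · exact Or.inr (Or.inr (Or.inr r))

/-- The conjugates of the involution in `Q` other than itself form one orbit. -/
theorem orbit {g' a' : G} (hg : g' * t * g'⁻¹ = a') (ha : a' ∈ Q) (hne : a' ≠ t) :
    ∃ c : G, c * t = t * c ∧ c * a' * c⁻¹ = a := by
  have P := H.pair hg ha hne
  obtain ⟨c, P', hstd⟩ := H.pair_std P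
  have hct : (c : G) * t = t * c := Subgroup.mem_centralizer_singleton_iff.1 c.2
  set b := (c : G) * a' * (c : G)⁻¹
  have S' : H.Std ((c : G) * g') b := ⟨P', hstd⟩
  have hb1 : b ≠ 1 := H.a_ne_one S'
  have hfix := F.fixed_cl P'.mem fun i d hd => H.stdP_fix S' (by rw [hd]; exact lref_mem i)
  rcases hfix with e | e | e | e
  · exact absurd e hb1
  · exact absurd e P'.ne
  · exact ⟨c, hct, e⟩
  · obtain ⟨q, hq, hqa⟩ := H.exists_moving F.S
    have hqt := H.Q_comm hq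
    refine ⟨q * c, by rw [mul_assoc, hct, ← mul_assoc, hqt, mul_assoc], ?_⟩
    calc q * (c : G) * a' * (q * (c : G))⁻¹ = q * b * q⁻¹ := by simp only [b]; group
      _ = (q * a * q⁻¹) * (q * t * q⁻¹) := by rw [e]; group
      _ = a * t * t := by rw [hqa, H.conj_t hqt]
      _ = a := by rw [mul_assoc, H.data.zz, mul_one]

/-- An element exchanging the two involutions. -/
theorem exists_swap : ∃ s : G, s * t * s⁻¹ = a ∧ s * a * s⁻¹ = t := by
  have hg := F.S.pair.eq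
  have hmem : g⁻¹ * t * g ∈ Q := (Hyp.mem_conjQ H).1 F.S.pair.t_mem
  have hne : g⁻¹ * t * g ≠ t := fun e => F.S.pair.ne (by
    rw [← hg]
    calc g * t * g⁻¹ = g * (g⁻¹ * t * g) * g⁻¹ := by rw [e]
      _ = t := by group)
  obtain ⟨c, hct, hc⟩ := F.orbit (g' := g⁻¹) (by group) hmem hne
  refine ⟨c * g⁻¹, ?_, ?_⟩
  · rw [← hc]; group
  · rw [← hg]
    calc c * g⁻¹ * (g * t * g⁻¹) * (c * g⁻¹)⁻¹ = c * t * c⁻¹ := by group
      _ = t := H.conj_t hct

end Fr

/-- A frame exists for a group with a second conjugate of the involution in `Q`. -/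
theorem exists_frame (H : Hyp t Q) {g₀ a₀ : G} (hg : g₀ * t * g₀⁻¹ = a₀) (ha : a₀ ∈ Q) (hne : a₀ ≠ t) :
    ∃ (g a : G) (V : Type u) (_ : AddCommGroup V) (_ : Finite V) (_ : Fr H g a V),
      g * t * g⁻¹ = a ∧ g * a * g⁻¹ = t := by
  obtain ⟨c, P', hstd⟩ := H.pair_std (H.pair hg ha hne)
  have S : H.Std _ _ := ⟨P', hstd⟩
  obtain ⟨V, iV, fV, M, cl, h1, h2, h3, h4, h5, h6, h7, h8⟩ := H.exists_module S
  let F : Fr H _ _ V := ⟨S, M, cl, h1, h2, h3, h4, h5, h6, h7, h8⟩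
  obtain ⟨s, hs, hs'⟩ := F.exists_swap
  have e := H.conjQ_eq P'.eq hs
  have S' : H.Std s ((c : G) * a₀ * (c : G)⁻¹) := by
    refine ⟨H.pair hs P'.mem P'.ne, fun l => ?_⟩
    rw [← e]
    exact hstd l
  exact ⟨s, _, V, iV, fV, ⟨S', M, cl, h1, h2, h3, h4, h5, h6, h7, h8⟩, hs, hs'⟩

end CfsgLib.OrthEightRecog
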