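import Cfsg.Agent.Lib.OrthEightRecog.Setting

/-!
Two commuting conjugate involutions, each in the extraspecial subgroup of the other's centraliser.
-/

set_option autoImplicit false
set_option linter.style.haveILetI false

namespace CfsgLib.OrthEightRecog

variable {G : Type*} [Group G] [Finite G] {t : G} {Q : Subgroup G}

/-- The standard four group generators inside one factor. -/
def inP (l : L3) : Prop :=
  (l.1 = 1 ∨ l.1 = Equiv.swap 0 1) ∧ (l.2.1 = 1 ∨ l.2.1 = Equiv.swap 0 1) ∧ (l.2.2 = 1 ∨ l.2.2 = Equiv.swap 0 1)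

/-- The standard Sylow subgroup of the quotient. -/
def stdP : Subgroup L3 where
  carrier := {l | inP l}
  one_mem' := ⟨Or.inl rfl, Or.inl rfl, Or.inl rfl⟩
  mul_mem' := by
    rintro p q ⟨a, b, c⟩ ⟨a', b', c'⟩
    have key : ∀ x y : Equiv.Perm (Fin 3), (x = 1 ∨ x = Equiv.swap 0 1) → (y = 1 ∨ y = Equiv.swap 0 1) →
        (x * y = 1 ∨ x * y = Equiv.swap 0 1) := by decide +kernel
    exact ⟨key _ _ a a', key _ _ b b', key _ _ c c'⟩
  inv_mem' := by
    rintro p ⟨a, b, c⟩
    have key : ∀ x : Equiv.Perm (Fin 3), (x = 1 ∨ x = Equiv.swap 0 1) → (x⁻¹ = 1 ∨ x⁻¹ = Equiv.swap 0 1) := by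
      decide +kernel
    exact ⟨key _ a, key _ b, key _ c⟩

theorem mem_stdP {l : L3} : l ∈ stdP ↔ inP l := Iff.rfl

theorem card_stdP : Nat.card stdP = 8 := by
  classical
  have h : ((Finset.univ : Finset L3).filter fun l => inP l) =
      ({1, Equiv.swap 0 1} : Finset (Equiv.Perm (Fin 3))) ×ˢ
        (({1, Equiv.swap 0 1} : Finset (Equiv.Perm (Fin 3))) ×ˢ ({1, Equiv.swap 0 1} : Finset (Equiv.Perm (Fin 3)))) := by
    ext ⟨a, b, c⟩
    simp only [Finset.mem_product, Finset.mem_insert, Finset.mem_singleton]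
    exact ⟨fun h => (Finset.mem_filter.1 h).2, fun h => Finset.mem_filter.2 ⟨Finset.mem_univ _, h⟩⟩
  have h2 : Nat.card stdP = ((Finset.univ : Finset L3).filter fun l => inP l).card := by
    rw [Nat.card_eq_fintype_card, Fintype.card_subtype]
    rfl
  rw [h2, h, Finset.card_product, Finset.card_product]
  rfl

/-- The normaliser of the standard Sylow subgroup is itself. -/
theorem norm_stdP {l : L3} (h : ∀ p ∈ stdP, l * p * l⁻¹ ∈ stdP) : l ∈ stdP := by
  have key : ∀ x : Equiv.Perm (Fin 3), (x * Equiv.swap 0 1 * x⁻¹ = 1 ∨ x * Equiv.swap 0 1 * x⁻¹ = Equiv.swap 0 1) →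
      (x = 1 ∨ x = Equiv.swap 0 1) := by decide +kernel
  have hs := h (Equiv.swap 0 1, Equiv.swap 0 1, Equiv.swap 0 1) ⟨Or.inr rfl, Or.inr rfl, Or.inr rfl⟩
  exact ⟨key _ hs.1, key _ hs.2.1, key _ hs.2.2⟩

namespace Hyp

variable (H : Hyp t Q)
include H

/-- A conjugate involution in `Q` and the conjugate of `Q`. -/
structure PairData (g a : G) : Prop where
  eq : g * t * g⁻¹ = a
  mem : a ∈ Q
  ne : a ≠ t
  t_mem : t ∈ H.conjQ g
  /-- The image of the opposite centraliser is a Sylow subgroup. -/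
  image : ∃ S : Subgroup L3, Nat.card S = 8 ∧ IsPGroup 2 S ∧
    ∀ l, l ∈ S ↔ ∃ c : ↥(Subgroup.centralizer ({t} : Set G)), (c : G) ∈ H.conjQ g ∧ H.π c = l
  inter : Nat.card ↥(Q ⊓ H.conjQ g) = 32

theorem sq_conjQ {g a x : G} (hg : g * t * g⁻¹ = a) (hx : x ∈ H.conjQ g) : x * x = 1 ∨ x * x = a := by
  rw [mem_conjQ] at hx
  rcases H.data.sq hx with h | h
  · left
    calc x * x = g * (g⁻¹ * x * g * (g⁻¹ * x * g)) * g⁻¹ := by group
      _ = 1 := by rw [h]; group
  · right
    calc x * x = g * (g⁻¹ * x * g * (g⁻¹ * x * g)) * g⁻¹ := by group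
      _ = a := by rw [h, hg]

theorem comm_conjQ {g a x y : G} (hg : g * t * g⁻¹ = a) (hx : x ∈ H.conjQ g) (hy : y ∈ H.conjQ g) :
    x * y * x⁻¹ * y⁻¹ = 1 ∨ x * y * x⁻¹ * y⁻¹ = a := by
  rw [mem_conjQ] at hx hy
  rcases H.comm_or hx hy with h | h
  · left
    calc x * y * x⁻¹ * y⁻¹ = g * (g⁻¹ * x * g * (g⁻¹ * y * g) * (g⁻¹ * x * g)⁻¹ * (g⁻¹ * y * g)⁻¹) * g⁻¹ := by group
      _ = 1 := by rw [h]; group
  · right
    calc x * y * x⁻¹ * y⁻¹ = g * (g⁻¹ * x * g * (g⁻¹ * y * g) * (g⁻¹ * x * g)⁻¹ * (g⁻¹ * y * g)⁻¹) * g⁻¹ := by group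
      _ = a := by rw [h, hg]

theorem conjQ_comm {g a x : G} (hg : g * t * g⁻¹ = a) (hx : x ∈ H.conjQ g) : x * a = a * x := by
  rw [mem_conjQ] at hx
  have h := H.Q_comm hx
  calc x * a = g * ((g⁻¹ * x * g) * t) * g⁻¹ := by rw [← hg]; group
    _ = g * (t * (g⁻¹ * x * g)) * g⁻¹ := by rw [h]
    _ = a * x := by rw [← hg]; group

theorem conjQ_normal {g a x c : G} (hg : g * t * g⁻¹ = a) (hc : c * a = a * c) (hx : x ∈ H.conjQ g) :
    c * x * c⁻¹ ∈ H.conjQ g := by
  have h : c * g * t * (c * g)⁻¹ = a := by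
    calc c * g * t * (c * g)⁻¹ = c * (g * t * g⁻¹) * c⁻¹ := by group
      _ = a := by rw [hg, hc, mul_inv_cancel_right]
  rw [mem_conjQ] at hx
  rw [H.conjQ_eq hg h, mem_conjQ]
  simpa [mul_assoc] using hx

/-- Each conjugate in `Q` gives pair data. -/
theorem pair {g a : G} (hg : g * t * g⁻¹ = a) (ha : a ∈ Q) (hne : a ≠ t) : H.PairData g a := by
  have ha1 : a ≠ 1 := fun e => H.data.z_ne (by
    calc t = g⁻¹ * (g * t * g⁻¹) * g := by group
      _ = 1 := by rw [hg, e]; group)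
  -- the conjugate hypotheses
  have haa : a * a = 1 := by
    calc a * a = g * (t * t) * g⁻¹ := by rw [← hg]; group
      _ = 1 := by rw [H.data.zz]; group
  let C := Subgroup.centralizer ({t} : Set G)
  let R : Subgroup G := Q ⊓ Subgroup.centralizer ({a} : Set G)
  have hR256 : Nat.card R = 256 := by
    have := H.data.card_centralizer ha ⟨ha1, hne⟩
    have := H.cardQ
    show Nat.card ↥(Q ⊓ Subgroup.centralizer ({a} : Set G)) = 256
    omega
  -- the projection of the centraliser of `a`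
  have hconj : ∀ x : G, x * a = a * x → g⁻¹ * x * g ∈ C := by
    intro x hx
    rw [Subgroup.mem_centralizer_singleton_iff]
    calc g⁻¹ * x * g * t = g⁻¹ * (x * (g * t * g⁻¹)) * g := by group
      _ = g⁻¹ * (a * x) * g := by rw [hg, hx]
      _ = t * (g⁻¹ * x * g) := by rw [← hg]; group
  let f : R →* L3 :=
    { toFun := fun r => H.π ⟨g⁻¹ * r * g, hconj r (Subgroup.mem_centralizer_singleton_iff.1 r.2.2)⟩
      map_one' := by
        rw [← map_one H.π]
        exact congrArg _ (Subtype.ext (by simp))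
      map_mul' := fun r r' => by
        rw [← map_mul]
        exact congrArg _ (Subtype.ext (by simp [mul_assoc])) }
  have hker : ∀ r : R, f r = 1 ↔ (r : G) ∈ H.conjQ g := fun r => by
    rw [mem_conjQ]; exact H.ker _
  haveI := Fact.mk Nat.prime_two
  have hRp : IsPGroup 2 R := IsPGroup.of_card (n := 8) (by rw [hR256]; norm_num)
  have hfr : IsPGroup 2 f.range := hRp.of_surjective f.rangeRestrict f.rangeRestrict_surjective
  obtain ⟨hexp, hle⟩ := H.two_subgroup f.range hfr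
  have hsq : ∀ r : R, (r : G) * r ∈ H.conjQ g := fun r => by
    have := (hker (r * r)).1 (by rw [map_mul]; exact hexp _ ⟨r, rfl⟩)
    exact this
  have ht : t ∈ H.conjQ g := by
    obtain ⟨u, hu, v, hv, hua, hva, hne'⟩ := H.data.exists_swap_pair (by rw [H.cardQ]; norm_num) ha ⟨ha1, hne⟩
    let u' : R := ⟨u, hu, Subgroup.mem_centralizer_singleton_iff.2 hua⟩
    let v' : R := ⟨v, hv, Subgroup.mem_centralizer_singleton_iff.2 hva⟩
    have h1 : u * v * (u * v) ∈ H.conjQ g := hsq (u' * v')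
    have h2 : v⁻¹ * (u * u)⁻¹ * v ∈ H.conjQ g := by
      have := H.conjQ_normal hg (show v⁻¹ * a = a * v⁻¹ by
        rw [eq_mul_inv_iff_mul_eq, mul_assoc, ← hva, inv_mul_cancel_left]) ((H.conjQ g).inv_mem (hsq u'))
      simpa using this
    have h3 : (v * v)⁻¹ ∈ H.conjQ g := (H.conjQ g).inv_mem (hsq v')
    have e : u * v * u⁻¹ * v⁻¹ = t := by
      rcases H.comm_or hu hv with h | h
      · exact absurd (by
          calc v * u = (u * v * u⁻¹ * v⁻¹)⁻¹ * (u * v) := by group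
            _ = u * v := by rw [h, inv_one, one_mul]) hne'
      · exact h
    have h4 := (H.conjQ g).mul_mem ((H.conjQ g).mul_mem h1 h2) h3
    rw [show (u * v * (u * v)) * (v⁻¹ * (u * u)⁻¹ * v) * (v * v)⁻¹ = u * v * u⁻¹ * v⁻¹ by group] at h4
    exact Eq.mp (congrArg (fun z => z ∈ H.conjQ g) e) h4
  -- the intersection
  let R' : Subgroup G := H.conjQ g ⊓ C
  have hR'256 : Nat.card R' = 256 := by
    have h2 := H.data.card_centralizer ((mem_conjQ H).1 ht)
      ⟨fun e => H.data.z_ne (by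
        calc t = g * (g⁻¹ * t * g) * g⁻¹ := by group
          _ = 1 := by rw [e]; group), fun e => hne (by
        rw [← hg]
        calc g * t * g⁻¹ = g * (g⁻¹ * t * g) * g⁻¹ := by rw [e]
          _ = t := by group)⟩
    have he : R' = (Q ⊓ Subgroup.centralizer ({g⁻¹ * t * g} : Set G)).map (MulAut.conj g).toMonoidHom := by
      ext x
      constructor
      · rintro ⟨h1, h3⟩
        refine ⟨g⁻¹ * x * g, ⟨(mem_conjQ H).1 h1, Subgroup.mem_centralizer_singleton_iff.2 ?_⟩, by simp [mul_assoc]⟩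
        have h4 := Subgroup.mem_centralizer_singleton_iff.1 h3
        calc g⁻¹ * x * g * (g⁻¹ * t * g) = g⁻¹ * (x * t) * g := by group
          _ = g⁻¹ * (t * x) * g := by rw [h4]
          _ = _ := by group
      · rintro ⟨q, ⟨h1, h3⟩, rfl⟩
        refine ⟨⟨q, h1, rfl⟩, Subgroup.mem_centralizer_singleton_iff.2 ?_⟩
        have h4 := Subgroup.mem_centralizer_singleton_iff.1 h3
        show g * q * g⁻¹ * t = t * (g * q * g⁻¹)
        calc g * q * g⁻¹ * t = g * (q * (g⁻¹ * t * g)) * g⁻¹ := by group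
          _ = g * ((g⁻¹ * t * g) * q) * g⁻¹ := by rw [h4]
          _ = _ := by group
    rw [he, Subgroup.card_map_of_injective (MulAut.conj g).injective]
    have := H.cardQ
    omega
  have habel : ∀ u ∈ Q ⊓ H.conjQ g, ∀ w ∈ Q ⊓ H.conjQ g, u * w = w * u := by
    rintro u ⟨hu, hu'⟩ w ⟨hw, hw'⟩
    rcases H.comm_or hu hw with h | h
    · calc u * w = (u * w * u⁻¹ * w⁻¹) * (w * u) := by group
        _ = w * u := by rw [h, one_mul]
    · rcases H.comm_conjQ hg hu' hw' with h' | h'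
      · exact absurd (h.symm.trans h') H.data.z_ne
      · exact absurd (h'.symm.trans h) hne
  have h32 := H.abelian_le inf_le_left habel
  let f' : R' →* L3 := H.π.comp (Subgroup.inclusion inf_le_right)
  have hker' : f'.ker.map R'.subtype ≤ Q ⊓ H.conjQ g := by
    rintro _ ⟨r, hr, rfl⟩
    exact ⟨(H.ker _).1 hr, r.2.1⟩
  have hp' : IsPGroup 2 R' := IsPGroup.of_card (n := 8) (by rw [hR'256]; norm_num)
  have hfr' : IsPGroup 2 f'.range := hp'.of_surjective f'.rangeRestrict f'.rangeRestrict_surjective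
  have hle' := (H.two_subgroup f'.range hfr').2
  have hk : Nat.card f'.ker ≤ 32 := by
    refine le_trans ?_ h32
    rw [← Subgroup.card_map_of_injective R'.subtype_injective]
    exact Nat.card_le_card_of_injective _ (Subgroup.inclusion_injective hker')
  have hmul := f'.ker.card_mul_index
  rw [Subgroup.index_ker, hR'256] at hmul
  have h8 : Nat.card f'.range = 8 := by
    have h1 := Nat.mul_le_mul hk (le_refl (Nat.card f'.range))
    omega
  have hinter : Nat.card ↥(Q ⊓ H.conjQ g) = 32 := by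
    refine le_antisymm h32 ?_
    have h1 : Nat.card f'.ker ≤ Nat.card ↥(Q ⊓ H.conjQ g) := by
      rw [← Subgroup.card_map_of_injective R'.subtype_injective]
      exact Nat.card_le_card_of_injective _ (Subgroup.inclusion_injective hker')
    rw [h8] at hmul
    omega
  refine ⟨hg, ha, hne, ht, ⟨f'.range, h8, hfr', fun l => ⟨?_, ?_⟩⟩, hinter⟩
  · rintro ⟨r, rfl⟩
    exact ⟨⟨r, r.2.2⟩, r.2.1, rfl⟩
  · rintro ⟨c, hc, rfl⟩
    exact ⟨⟨c, hc, c.2⟩, rfl⟩

/-- After conjugating in the centraliser, the image is the standard Sylow subgroup. -/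
theorem pair_std {g a : G} (P : H.PairData g a) :
    ∃ c : ↥(Subgroup.centralizer ({t} : Set G)), H.PairData ((c : G) * g) ((c : G) * a * (c : G)⁻¹) ∧
      ∀ l, l ∈ stdP ↔ ∃ r : ↥(Subgroup.centralizer ({t} : Set G)), (r : G) ∈ H.conjQ ((c : G) * g) ∧ H.π r = l := by
  obtain ⟨S, h8, hp, hS⟩ := P.image
  haveI := Fact.mk Nat.prime_two
  obtain ⟨PS, hPS⟩ := (IsPGroup.of_card (n := 3) (by rw [card_stdP]; norm_num : Nat.card stdP = 2 ^ 3)).exists_le_sylow
  obtain ⟨SS, hSS⟩ := hp.exists_le_sylow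
  have card_syl : ∀ X : Sylow 2 L3, Nat.card X = 8 := fun X => by
    have := H.two_subgroup X.1 X.2
    have h := X.card_eq_multiplicity
    rw [show Nat.card L3 = 216 by simp only [Nat.card_prod, Nat.card_perm, Nat.card_fin]; rfl] at h
    rw [h, show (216 : ℕ).factorization 2 = 3 by
      rw [show (216 : ℕ) = 2 ^ 3 * 27 by norm_num, Nat.factorization_mul (by norm_num) (by norm_num),
        Nat.prime_two.factorization_pow, Finsupp.add_apply, Finsupp.single_eq_same,
        Nat.factorization_eq_zero_of_not_dvd (by norm_num)]]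
    rfl
  have eP : stdP = PS.1 := Subgroup.eq_of_le_of_card_ge hPS (by rw [card_stdP, card_syl])
  have eS : S = SS.1 := Subgroup.eq_of_le_of_card_ge hSS (by rw [h8, card_syl])
  obtain ⟨l, hl⟩ := MulAction.exists_smul_eq L3 SS PS
  obtain ⟨c, hc⟩ := H.surj l
  have hmem : ∀ y, y ∈ stdP ↔ l⁻¹ * y * l ∈ S := by
    intro y
    rw [eP, eS, ← hl, Sylow.coe_subgroup_smul, Subgroup.mem_pointwise_smul_iff_inv_smul_mem,
      ← MulAut.conj.map_inv, MulAut.smul_def, MulAut.conj_apply, inv_inv]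
  have hct : (c : G) * t = t * c := Subgroup.mem_centralizer_singleton_iff.1 c.2
  refine ⟨c, H.pair ?_ (H.Q_normal hct P.mem) ?_, fun y => ?_⟩
  · rw [← P.eq]; group
  · intro e
    exact P.ne (by
      calc a = (c : G)⁻¹ * ((c : G) * a * (c : G)⁻¹) * c := by group
        _ = t := by rw [e, mul_assoc, ← hct, inv_mul_cancel_left])
  rw [hmem, hS]
  constructor
  · rintro ⟨r, hr, e⟩
    refine ⟨c * r * c⁻¹, ?_, by rw [map_mul, map_mul, map_inv, hc, e]; group⟩
    rw [mem_conjQ] at hr ⊢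
    push_cast
    simpa [mul_assoc] using hr
  · rintro ⟨r, hr, e⟩
    refine ⟨c⁻¹ * r * c, ?_, by rw [map_mul, map_mul, map_inv, hc, e]⟩
    rw [mem_conjQ] at hr ⊢
    push_cast
    simpa [mul_assoc] using hr

end Hyp

end CfsgLib.OrthEightRecog
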