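import Cfsg.Agent.Lib.OrthEightRecog.Tables

/-!
Systems of root involutions and reflections with the relations of a group of Chevalley type `D₄` over the field
with two elements.
-/

set_option autoImplicit false

namespace CfsgLib.OrthEightRecog

/-- Twelve root elements and four reflections. -/
structure Sys (Γ : Type*) where
  /-- The root elements. -/
  x : Fin 12 → Γ
  /-- The reflections. -/
  n : Fin 4 → Γ

variable {Γ : Type*} [Group Γ]

/-- The relations. -/
structure Rel (s : Sys Γ) : Prop where
  xx : ∀ b, s.x b * s.x b = 1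
  comm : ∀ a b, s.x a * s.x b * s.x a * s.x b = (rootSum a b).elim 1 s.x
  nn : ∀ i, s.n i * s.n i = 1
  nx : ∀ i b, b ≠ simp4 i → s.n i * s.x b * s.n i = s.x (refl4 i b)
  xn : ∀ i, s.n i * s.x (simp4 i) * s.n i = s.x (simp4 i) * s.n i * s.x (simp4 i)
  nc : ∀ i j : Fin 4, i ≠ 3 → j ≠ 3 → s.n i * s.n j = s.n j * s.n i
  br : ∀ i : Fin 4, i ≠ 3 → s.n i * s.n 3 * s.n i = s.n 3 * s.n i * s.n 3

namespace Rel

variable {s : Sys Γ} (R : Rel s)
include R

theorem x_inv (b : Fin 12) : (s.x b)⁻¹ = s.x b := inv_eq_of_mul_eq_one_left (R.xx b)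

theorem n_inv (i : Fin 4) : (s.n i)⁻¹ = s.n i := inv_eq_of_mul_eq_one_left (R.nn i)

end Rel

/-- A product of reflections. -/
def nprod (s : Sys Γ) (w : List (Fin 4)) : Γ := (w.map s.n).prod

theorem nprod_cons (s : Sys Γ) (i : Fin 4) (w : List (Fin 4)) : nprod s (i :: w) = s.n i * nprod s w := by
  simp [nprod]

theorem nprod_append (s : Sys Γ) (v w : List (Fin 4)) : nprod s (v ++ w) = nprod s v * nprod s w := by
  simp [nprod]

namespace Rel

variable {s : Sys Γ} (R : Rel s)
include R

theorem nprod_move {w w' : List (Fin 4)} {pm : ℕ × ℕ} (h : move w pm = some w') :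
    nprod s w' = nprod s w := by
  conv_rhs => rw [← List.take_append_drop pm.1 w]
  revert h
  unfold move
  split
  · rename_i a b r e _
    intro h
    split_ifs at h with hc
    cases h
    rw [e, nprod_append, nprod_append, nprod_cons, nprod_cons, nprod_cons, nprod_cons, ← mul_assoc (s.n b),
      ← mul_assoc (s.n a), R.nc a b hc.2.1 hc.2.2]
  · rename_i a b c r e _
    intro h
    split_ifs at h with hc
    cases h
    obtain ⟨rfl, hab, h3⟩ := hc
    have key : s.n a * s.n b * s.n a = s.n b * s.n a * s.n b := by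
      rcases h3 with rfl | rfl
      · exact (R.br b (Ne.symm hab)).symm
      · exact R.br a hab
    rw [e]
    simp only [nprod_append, nprod_cons]
    rw [← mul_assoc (s.n b) (s.n a), ← mul_assoc (s.n b * s.n a), ← key]
    simp only [mul_assoc]
  · intro h; cases h

theorem nprod_moves : ∀ (ps : List (ℕ × ℕ)) {w w' : List (Fin 4)}, moves w ps = some w' →
    nprod s w' = nprod s w := by
  intro ps
  induction ps with
  | nil => intro w w' h; cases h; rfl
  | cons p ps ih =>
    intro w w' h
    obtain ⟨v, hv, hw⟩ := Option.bind_eq_some_iff.1 h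
    rw [ih hw, R.nprod_move hv]

theorem conj_word : ∀ (w : List (Fin 4)) {b c : Fin 12}, actRoot w b = some c →
    nprod s w * s.x b * (nprod s w)⁻¹ = s.x c := by
  intro w
  induction w with
  | nil => intro b c h; cases h; simp [nprod]
  | cons i w ih =>
    intro b c h
    obtain ⟨d, hd, hc⟩ := Option.bind_eq_some_iff.1 h
    split_ifs at hc with e
    cases hc
    rw [nprod_cons, ← R.nx i d e, ← ih hd, mul_inv_rev, R.n_inv]
    group

end Rel

end CfsgLib.OrthEightRecog
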