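import Cfsg.Agent.Lib.OrthEightRecog.Orbit

/-!
The root elements in the centraliser and in the normaliser of the four group.
-/

set_option autoImplicit false
set_option linter.style.haveILetI false

namespace CfsgLib.OrthEightRecog

universe u v

variable {G : Type u} [Group G] [Finite G] {t : G} {Q : Subgroup G}

/-- The index of a single bit. -/
def bit1 (i : Fin 3) : Fin 8 := Md.flipBit i 0

/-- The index missing a single bit. -/
def bit2 (i : Fin 3) : Fin 8 := Md.flipBit i 7

/-- The root elements and the central reflection. -/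
structure Rts {H : Hyp t Q} {g a : G} {V : Type v} [AddCommGroup V] [Finite V] (F : Fr H g a V) where
  p : G
  n : G
  d : Fin 3 → G
  w : Fin 3 → G
  x : Fin 3 → G
  pQ : p ∈ Q
  dQ : ∀ i, d i ∈ Q
  wQ : ∀ i, w i ∈ Q
  cl_p : F.cl p = F.M.c 7
  cl_d : ∀ i, F.cl (d i) = F.M.c (bit1 i)
  cl_w : ∀ i, F.cl (w i) = F.M.c (bit2 i)
  xC : ∀ i, x i * t = t * x i
  π_x : ∀ i, H.π ⟨x i, H.mem_C.2 (xC i)⟩ = lref i
  pp : p * p = 1
  dd : ∀ i, d i * d i = 1
  ww : ∀ i, w i * w i = 1
  xx : ∀ i, x i * x i = 1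
  nn : n * n = 1
  pa : p * a = t * (a * p)
  dd' : ∀ i j, d i * d j = d j * d i
  ww' : ∀ i j, w i * w j = w j * w i
  xx' : ∀ i j, x i * x j = x j * x i
  da : ∀ i, d i * a = a * d i
  wa : ∀ i, w i * a = a * w i
  xa : ∀ i, x i * a = a * x i
  pd : ∀ i, p * d i = d i * p
  pw : ∀ i, p * w i = w i * p
  wd : ∀ i j, w i * d j = if i = j then t * (d j * w i) else d j * w i
  xd : ∀ i j, x i * d j = if i = j then a * (d j * x i) else d j * x i
  xw_eq : ∀ i, x i * w i = w i * x i
  xw : ∀ i j k, i ≠ j → i ≠ k → j ≠ k → x i * w j * x i * w j = d k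
  xp : ∀ i, x i * p * x i * p = w i
  nt : n * t * n = a
  na : n * a * n = t
  nd : ∀ i, n * d i * n = d i
  nw : ∀ i, n * w i * n = x i
  nx : ∀ i, n * x i * n = w i
  np : n * p * n = p * n * p

omit [Finite G] in
theorem invol_word {a b : G} (ha : a * a = 1) (hb : b * b = 1) : b * a * b * a = (a * b * a * b)⁻¹ := by
  rw [mul_inv_rev, mul_inv_rev, mul_inv_rev, inv_eq_of_mul_eq_one_left ha, inv_eq_of_mul_eq_one_left hb]
  group

theorem exists_roots {H : Hyp t Q} {g a : G} {V : Type v} [AddCommGroup V] [Finite V] (F : Fr H g a V)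
    (hga : g * a * g⁻¹ = t) : Nonempty (Rts F) := by
  classical
  have hgt := F.S.pair.eq
  have haQ := F.S.pair.mem
  have haa := H.a_sq F.S
  have hat := H.a_t F.S
  have htt := H.data.zz
  have h01 : ∀ z : ZMod 2, z ≠ 0 → z = 1 := by decide
  -- involutory lifts of the basis
  have hlift : ∀ S : Fin 8, ∃ x ∈ Q, x * x = 1 ∧ F.cl x = F.M.c S := by
    intro S
    have he : ∀ (i : Fin 3) (b : Bool), ∀ x : G, x ∈ Q → x * x = 1 →
        ∃ y ∈ Q, y * y = 1 ∧ F.cl y = (if b then ⇑(F.M.e i) else id) (F.cl x) := by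
      intro i b x hx hxx
      cases b
      · exact ⟨x, hx, hxx, rfl⟩
      · obtain ⟨c, hc⟩ := H.surj (lrot i)
        refine ⟨(c : G) * x * (c : G)⁻¹, H.data.normal c c.2 x hx, ?_, F.cl_e i c hc x hx⟩
        rw [show (c : G) * x * (c : G)⁻¹ * ((c : G) * x * (c : G)⁻¹) = (c : G) * (x * x) * (c : G)⁻¹ by group, hxx]
        group
    obtain ⟨y₂, h2, h2', e2⟩ := he 2 (S.val.testBit 2) a haQ haa
    obtain ⟨y₁, h1, h1', e1⟩ := he 1 (S.val.testBit 1) y₂ h2 h2'
    obtain ⟨y₀, h0, h0', e0⟩ := he 0 (S.val.testBit 0) y₁ h1 h1'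
    exact ⟨y₀, h0, h0', by rw [e0, e1, e2, F.cl_a]; rfl⟩
  choose q hqQ hqq hqc using hlift
  have hc0 : F.M.c 0 = F.cl a := by rw [F.cl_a]; simp [Md.c]
  have hBq : ∀ S T : Fin 8, S.val + T.val ≠ 7 → q S * q T = q T * q S := fun S T h =>
    F.comm_of_B (hqQ S) (hqQ T) (by rw [hqc, hqc, F.M.B_c, if_neg h])
  have hqa : ∀ S : Fin 8, S ≠ 7 → q S * a = a * q S := fun S h =>
    F.comm_of_B (hqQ S) haQ (by
      rw [hqc, ← hc0, F.M.B_c, if_neg]
      intro e
      exact h (Fin.ext (by simpa using e)))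
  set p := q 7 with hp
  have hpQ := hqQ 7
  have hpp := hqq 7
  have hpi : p⁻¹ = p := inv_eq_of_mul_eq_one_left hpp
  have hpt : p * t = t * p := H.Q_comm hpQ
  have hpa : p * a = t * (a * p) := F.swap_of_B hpQ haQ (by
    rw [hqc, ← hc0, F.M.B_c, if_pos (by rfl)]; exact one_ne_zero)
  have hpap : p * a * p = a * t := by
    rw [hpa, mul_assoc, mul_assoc, hpp, mul_one, hat]
  have hptp : p * t * p = t := by rw [hpt, mul_assoc, hpp, mul_one]
  -- the conjugate of `p`
  set y := g * p * g⁻¹ with hy
  have hyy : y * y = 1 := by rw [hy, show g * p * g⁻¹ * (g * p * g⁻¹) = g * (p * p) * g⁻¹ by group, hpp]; group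
  have hyty : y * t * y = t * a := by
    calc y * t * y = y * (g * a * g⁻¹) * y := by rw [hga]
      _ = g * (p * a * p) * g⁻¹ := by rw [hy]; group
      _ = (g * a * g⁻¹) * (g * t * g⁻¹) := by rw [hpap]; group
      _ = t * a := by rw [hga, hgt]
  have hyay : y * a * y = a := by
    calc y * a * y = y * (g * t * g⁻¹) * y := by rw [hgt]
      _ = g * (p * t * p) * g⁻¹ := by rw [hy]; group
      _ = a := by rw [hptp, hgt]
  have hyi : y⁻¹ = y := inv_eq_of_mul_eq_one_left hyy
  set u := p * y with hu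
  have hui : u⁻¹ = y * p := by rw [hu, mul_inv_rev, hpi, hyi]
  have hut : u * t * u⁻¹ = a := by
    calc u * t * u⁻¹ = p * (y * t * y) * p := by rw [hui, hu]; group
      _ = (p * t * p) * (p * a * p) := by
        rw [hyty]
        calc p * (t * a) * p = p * t * (p * p) * a * p := by rw [hpp]; group
          _ = _ := by group
      _ = t * (a * t) := by rw [hptp, hpap]
      _ = a := by rw [← mul_assoc, ← hat, mul_assoc, htt, mul_one]
  have hua : u * a * u⁻¹ = a * t := by
    calc u * a * u⁻¹ = p * (y * a * y) * p := by rw [hui, hu]; group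
      _ = a * t := by rw [hyay, hpap]
  have hconj : ∀ (m : G) {b c : G}, m * b * m⁻¹ = c → ∀ z, z * c * z⁻¹ = (z * m) * b * (z * m)⁻¹ := by
    intro m b c h z; rw [← h]; group
  have hmulc : ∀ m : G, ∀ b c : G, m * (b * c) * m⁻¹ = (m * b * m⁻¹) * (m * c * m⁻¹) := fun m b c => by group
  have h2t : u * u * t * (u * u)⁻¹ = a * t := by rw [← hconj u hut u, hua]
  have h2a : u * u * a * (u * u)⁻¹ = t := by
    rw [← hconj u hua u, hmulc, hua, hut, mul_assoc, ← hat, ← mul_assoc, haa, one_mul]
  have h3t : u * u * u * t * (u * u * u)⁻¹ = t := by rw [← hconj u hut (u * u), h2a]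
  have h3a : u * u * u * a * (u * u * u)⁻¹ = a := by
    rw [← hconj u hua (u * u), hmulc, h2a, h2t, ← mul_assoc, ← hat, mul_assoc, htt, mul_one]
  have hu3C : u * u * u * t = t * (u * u * u) := mul_inv_eq_iff_eq_mul.1 h3t
  have hu24 : u ^ 24 = 1 := by
    let cu : ↥(Subgroup.centralizer ({t} : Set G)) := ⟨u * u * u, H.mem_C.2 hu3C⟩
    have hP : H.π cu ∈ stdP := H.stab F.S (c := cu) (Or.inl h3a)
    have hsq : H.π cu * H.π cu = 1 := by
      have key : ∀ z : Equiv.Perm (Fin 3), (z = 1 ∨ z = Equiv.swap 0 1) → z * z = 1 := by decide +kernel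
      exact Prod.ext (key _ hP.1) (Prod.ext (key _ hP.2.1) (key _ hP.2.2))
    have h6 : u * u * u * (u * u * u) ∈ Q := (H.ker (cu * cu)).1 (by rw [map_mul, hsq])
    have h12 : (u * u * u * (u * u * u)) * (u * u * u * (u * u * u)) * ((u * u * u * (u * u * u)) * (u * u * u * (u * u * u))) = 1 := by
      rcases H.data.sq h6 with e | e <;> rw [e]
      · group
      · exact htt
    rw [← h12]
    simp only [pow_succ, pow_zero, one_mul, mul_assoc]
  set D := u ^ 8 with hD
  have hD3 : D * D * D = 1 := by rw [hD, ← pow_add, ← pow_add]; exact hu24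
  have hpD : p * D * p = D⁻¹ := by
    have h : p * u * p⁻¹ = u⁻¹ := by rw [hui, hu, hpi, ← mul_assoc p p y, hpp, one_mul]
    rw [hD, ← inv_pow, ← h, conj_pow, hpi]
  have h8t : D * t * D⁻¹ = a * t ∧ D * a * D⁻¹ = t := by
    have e : D = (u * u) * (u * u * u) * (u * u * u) := by
      rw [hD]; simp only [pow_succ, pow_zero, one_mul, mul_assoc]
    have fix3 : ∀ b : G, u * u * u * b * (u * u * u)⁻¹ = b → D * b * D⁻¹ = u * u * b * (u * u)⁻¹ := by
      intro b hb
      rw [e, mul_assoc (u * u) (u * u * u) (u * u * u), ← hconj _ rfl (u * u), ← hconj _ rfl (u * u * u), hb, hb]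
    exact ⟨(fix3 t h3t).trans h2t, (fix3 a h3a).trans h2a⟩
  obtain ⟨hDt, hDa⟩ := h8t
  set n := D * p * D⁻¹ with hn
  have hnn : n * n = 1 := by rw [hn, show D * p * D⁻¹ * (D * p * D⁻¹) = D * (p * p) * D⁻¹ by group, hpp]; group
  have hni : n⁻¹ = n := inv_eq_of_mul_eq_one_left hnn
  have hDat : D * (a * t) * D⁻¹ = a := by
    rw [hmulc, hDa, hDt, ← mul_assoc, ← hat, mul_assoc, htt, mul_one]
  have hnt : n * t * n = a := by
    have e : D⁻¹ * t * D = a := by
      calc D⁻¹ * t * D = D⁻¹ * (D * a * D⁻¹) * D := by rw [hDa]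
        _ = a := by group
    calc n * t * n = D * (p * (D⁻¹ * t * D) * p) * D⁻¹ := by rw [hn]; group
      _ = a := by rw [e, hpap, hDat]
  have hna : n * a * n = t := by
    calc n * a * n = n * (n * t * n) * n := by rw [hnt]
      _ = (n * n) * t * (n * n) := by group
      _ = t := by rw [hnn]; group
  have hDeq : D = p * n := by
    calc D = D⁻¹ * D⁻¹ := by
          calc D = D * D * D * (D⁻¹ * D⁻¹) := by group
            _ = _ := by rw [hD3, one_mul]
      _ = (p * D * p) * D⁻¹ := by rw [hpD]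
      _ = p * n := by rw [hn]; group
  have hnp : n * p * n = p * n * p := by
    have e1 : n = p * D := by rw [hDeq, ← mul_assoc, hpp, one_mul]
    have e2 : D⁻¹ = D * D := by
      calc D⁻¹ = D⁻¹ * (D * D * D) := by rw [hD3, mul_one]
        _ = D * D := by group
    rw [e1]
    calc p * D * p * (p * D) = p * D * (p * p) * D := by group
      _ = p * D⁻¹ := by rw [hpp, e2]; group
      _ = p * (p * D * p) := by rw [hpD]
      _ = p * (p * D) * p := by group
  -- the conjugation by `n` exchanges the two extraspecial subgroups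
  have hQn : ∀ z, z ∈ Q → n * z * n ∈ H.conjQ g := by
    intro z hz
    have h : n * t * n⁻¹ = a := by rw [hni]; exact hnt
    rw [H.conjQ_eq hgt h, Hyp.mem_conjQ, hni, show n * (n * z * n) * n = (n * n) * z * (n * n) by group, hnn]
    simpa using hz
  have hnQ : ∀ z, z ∈ H.conjQ g → n * z * n ∈ Q := by
    intro z hz
    have h : n * t * n⁻¹ = a := by rw [hni]; exact hnt
    rwa [H.conjQ_eq hgt h, Hyp.mem_conjQ, hni] at hz
  have hncomm : ∀ z b c : G, z * b = b * z → n * b * n = c → (n * z * n) * c = c * (n * z * n) := by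
    intro z b c h e
    rw [← e]
    calc n * z * n * (n * b * n) = n * (z * b) * n := by
          rw [show n * z * n * (n * b * n) = n * z * (n * n) * b * n by group, hnn]; group
      _ = n * (b * z) * n := by rw [h]
      _ = n * b * n * (n * z * n) := by
          rw [show n * b * n * (n * z * n) = n * b * (n * n) * z * n by group, hnn]; group
  -- the common part of the two extraspecial subgroups
  set Dd := Q ⊓ H.conjQ g
  have hDlow : ∀ z ∈ Dd, ∀ i, F.M.x i (F.cl z) + F.cl z = 0 ∨ F.M.x i (F.cl z) + F.cl z = F.M.a := by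
    intro z hz i
    obtain ⟨r, hr, er⟩ := (F.S.std (lref i)).1 (lref_mem i)
    have hrz := H.data.normal r r.2 z hz.1
    rw [← F.cl_x i r er z hz.1, ← F.cl_inv hz.1, ← F.cl_mul _ hrz _ (Q.inv_mem hz.1)]
    rcases H.comm_conjQ hgt hr hz.2 with e | e <;> rw [e]
    · exact Or.inl F.cl_one
    · exact Or.inr F.cl_a
  have hDlift : ∀ i : Fin 3, ∃ z ∈ Dd, F.cl z = F.M.c (bit1 i) := by
    intro i
    let U : Fin 4 → Fin 8 := ![3, 5, 6, 7]
    let Φ : ↥Dd →* Multiplicative (Fin 4 → ZMod 2) :=
      MonoidHom.mk' (fun z => Multiplicative.ofAdd (fun k => F.M.B (F.cl (z : G)) (F.M.c (U k)))) (fun z z' => by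
        rw [← ofAdd_add]
        congr 1
        funext k
        show F.M.B (F.cl ((z : G) * z')) _ = _
        rw [F.cl_mul _ z.2.1 _ z'.2.1, F.M.add_left]
        rfl)
    have hk : Nat.card Φ.ker ≤ 2 := by
      have hsub : ∀ z : Φ.ker, ((z : ↥Dd) : G) = 1 ∨ ((z : ↥Dd) : G) = t := by
        intro z
        have h0 : F.cl ((z : ↥Dd) : G) = 0 := by
          refine F.M.ext_zero fun S => ?_
          by_cases hS : S = 0 ∨ S = 1 ∨ S = 2 ∨ S = 4
          · exact F.M.low_mem (hDlow _ z.1.2) S hS
          · obtain ⟨k, rfl⟩ : ∃ k, U k = S := by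
              revert hS
              revert S
              decide
            have hz := z.2
            rw [MonoidHom.mem_ker] at hz
            exact congrFun (congrArg Multiplicative.toAdd hz) k
        rcases F.cl_eq 1 Q.one_mem _ z.1.2.1 (by rw [F.cl_one, h0]) with e | e
        · exact Or.inl e
        · exact Or.inr (by rw [e, one_mul])
      refine le_trans (Nat.card_le_card_of_injective
        (fun z : Φ.ker => decide (((z : ↥Dd) : G) = 1)) fun z z' h => ?_) (by simp)
      simp only [decide_eq_decide] at h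
      apply Subtype.ext; apply Subtype.ext
      rcases hsub z with e | e <;> rcases hsub z' with e' | e' <;> rw [e, e']
      · exact absurd ((h.1 e).symm.trans e') fun e => H.data.z_ne e.symm
      · exact absurd ((h.2 e').symm.trans e) fun e => H.data.z_ne e.symm
    have hmul := Φ.ker.card_mul_index
    rw [Subgroup.index_ker, F.S.pair.inter] at hmul
    have h16 : Nat.card (Multiplicative (Fin 4 → ZMod 2)) = 16 := by
      rw [Nat.card_congr Multiplicative.toAdd]
      simp
    have htop : Φ.range = ⊤ := by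
      refine Subgroup.eq_top_of_card_eq _ (le_antisymm ?_ ?_)
      · exact Nat.card_le_card_of_injective _ Subtype.val_injective
      · rw [h16]
        have := Nat.mul_le_mul hk (le_refl (Nat.card Φ.range))
        omega
    obtain ⟨z, hz⟩ : Multiplicative.ofAdd (fun k => F.M.B (F.M.c (bit1 i)) (F.M.c (U k))) ∈ Φ.range := by
      rw [htop]; exact Subgroup.mem_top _
    refine ⟨z, z.2, F.M.ext_basis fun S => ?_⟩
    by_cases hS : S = 0 ∨ S = 1 ∨ S = 2 ∨ S = 4
    · rw [F.M.low_mem (hDlow _ z.2) S hS, F.M.B_c, if_neg]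
      have key : ∀ (i : Fin 3) (S : Fin 8), (S = 0 ∨ S = 1 ∨ S = 2 ∨ S = 4) → ¬ (bit1 i).val + S.val = 7 := by decide
      exact key i S hS
    · obtain ⟨k, rfl⟩ : ∃ k, U k = S := by
        revert hS
        revert S
        decide
      exact congrFun (Multiplicative.ofAdd.injective hz) k
  choose d0 hd0 hd0c using hDlift
  have hDn : ∀ z ∈ Dd, n * z * n ∈ Dd := fun z hz => ⟨hnQ z hz.2, hQn z hz.1⟩
  have hDp : ∀ z ∈ Dd, n * z * n = z ∨ n * z * n = z * (a * t) := by
    intro z hz
    -- conjugation by `D` moves the commutator with `p`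
    have hcomp : ∀ z' ∈ Dd, p * z' * p = z' ∨ p * z' * p = z' * t := by
      intro z' hz'
      rcases H.comm_or hpQ hz'.1 with e | e
      · left
        calc p * z' * p = (p * z' * p⁻¹ * z'⁻¹) * z' := by rw [hpi]; group
          _ = z' := by rw [e, one_mul]
      · right
        calc p * z' * p = (p * z' * p⁻¹ * z'⁻¹) * z' := by rw [hpi]; group
          _ = z' * t := by rw [e, H.Q_comm hz'.1]
    have hDz : D⁻¹ * z * D ∈ Dd := by
      have e : D⁻¹ * z * D = n * (p * z * p) * n := by rw [hDeq, mul_inv_rev, hni, hpi]; group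
      rw [e]
      refine hDn _ ?_
      rcases hcomp z hz with e' | e' <;> rw [e']
      · exact hz
      · exact Dd.mul_mem hz ⟨H.data.mem, F.S.pair.t_mem⟩
    rcases hcomp _ hDz with e | e
    · left
      calc n * z * n = D * (p * (D⁻¹ * z * D) * p) * D⁻¹ := by rw [hn]; group
        _ = z := by rw [e]; group
    · right
      calc n * z * n = D * (p * (D⁻¹ * z * D) * p) * D⁻¹ := by rw [hn]; group
        _ = z * (D * t * D⁻¹) := by rw [e]; group
        _ = z * (a * t) := by rw [hDt]
  have hdch : ∀ i, ∃ z ∈ Dd, F.cl z = F.M.c (bit1 i) ∧ n * z * n = z := by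
    intro i
    rcases hDp _ (hd0 i) with e | e
    · exact ⟨_, hd0 i, hd0c i, e⟩
    · refine ⟨d0 i * t, Dd.mul_mem (hd0 i) ⟨H.data.mem, F.S.pair.t_mem⟩, by rw [F.cl_mul_t (hd0 i).1, hd0c], ?_⟩
      calc n * (d0 i * t) * n = (n * d0 i * n) * (n * t * n) := by
            rw [show n * d0 i * n * (n * t * n) = n * d0 i * (n * n) * t * n by group, hnn]; group
        _ = d0 i * (a * t) * a := by rw [e, hnt]
        _ = d0 i * t := by rw [mul_assoc (d0 i), mul_assoc a, ← hat, ← mul_assoc a, haa, one_mul]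
  choose d hdD hdc hdn using hdch
  have hdd : ∀ i, d i * d i = 1 := by
    intro i
    rcases H.data.sq (hdD i).1 with e | e
    · exact e
    · rcases H.sq_conjQ hgt (hdD i).2 with e' | e'
      · exact e'
      · exact absurd (e'.symm.trans e) F.S.pair.ne
  -- the elements `w` and their images
  set w : Fin 3 → G := fun i => q (bit2 i) with hw
  have hb7 : ∀ i, bit2 i ≠ 7 := by decide
  have hwQ : ∀ i, w i ∈ Q := fun i => hqQ _
  have hwa : ∀ i, w i * a = a * w i := fun i => hqa _ (hb7 i)
  set x : Fin 3 → G := fun i => n * w i * n with hx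
  have hxC : ∀ i, x i * t = t * x i := fun i => hncomm _ a t (hwa i) hna
  have hxa : ∀ i, x i * a = a * x i := fun i => hncomm _ t a (H.Q_comm (hwQ i)) hnt
  have hxR : ∀ i, x i ∈ H.conjQ g := fun i => hQn _ (hwQ i)
  have hnx : ∀ i, n * x i * n = w i := fun i => by
    show n * (n * w i * n) * n = w i
    rw [show n * (n * w i * n) * n = (n * n) * w i * (n * n) by group, hnn]; group
  have hwd : ∀ i j, w i * d j = if i = j then t * (d j * w i) else d j * w i := by
    intro i j
    have hval : ∀ i j : Fin 3, ((bit2 i).val + (bit1 j).val = 7 ↔ i = j) := by decide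
    have hB : F.M.B (F.cl (w i)) (F.cl (d j)) = if i = j then 1 else 0 := by
      rw [hqc, hdc, F.M.B_c]
      simp only [hval]
    split_ifs at hB ⊢ with hij
    · exact F.swap_of_B (hwQ i) (hdD j).1 (by rw [hB]; exact one_ne_zero)
    · exact F.comm_of_B (hwQ i) (hdD j).1 hB
  have hxd : ∀ i j, x i * d j = if i = j then a * (d j * x i) else d j * x i := by
    intro i j
    have e : x i * d j = n * (w i * d j) * n := by
      show n * w i * n * d j = _
      conv_lhs => rw [← hdn j]
      rw [show n * w i * n * (n * d j * n) = n * w i * (n * n) * d j * n by group, hnn]; group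
    have e2 : d j * x i = n * (d j * w i) * n := by
      show d j * (n * w i * n) = _
      conv_lhs => rw [← hdn j]
      rw [show n * d j * n * (n * w i * n) = n * d j * (n * n) * w i * n by group, hnn]; group
    rw [e, hwd]
    split_ifs
    · rw [e2, ← hnt, show n * t * n * (n * (d j * w i) * n) = n * t * (n * n) * (d j * w i) * n by group, hnn]
      group
    · rw [e2]
  have hπx : ∀ i, H.π ⟨x i, H.mem_C.2 (hxC i)⟩ = lref i := by
    intro i
    set c : ↥(Subgroup.centralizer ({t} : Set G)) := ⟨x i, H.mem_C.2 (hxC i)⟩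
    obtain ⟨h0, h1, h2⟩ : inP (H.π c) := (F.S.std _).2 ⟨c, hxR i, rfl⟩
    have key : ∀ z : Equiv.Perm (Fin 3), (z = 1 ∨ z = Equiv.swap 0 1) →
        ∃ b : Bool, z = if b then Equiv.swap 0 1 else 1 := by decide +kernel
    obtain ⟨b0, e0⟩ := key _ h0
    obtain ⟨b1, e1⟩ := key _ h1
    obtain ⟨b2, e2⟩ := key _ h2
    obtain ⟨r0, hr0⟩ := H.surj (lref 0)
    obtain ⟨r1, hr1⟩ := H.surj (lref 1)
    obtain ⟨r2, hr2⟩ := H.surj (lref 2)
    let pick : Bool → ↥(Subgroup.centralizer ({t} : Set G)) → ↥(Subgroup.centralizer ({t} : Set G)) :=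
      fun b r => if b then r else 1
    have hk : H.π c = H.π (pick b0 r0 * (pick b1 r1 * pick b2 r2)) := by
      have : ∀ (b : Bool) r, H.π (pick b r) = if b then H.π r else 1 := by
        intro b r; cases b <;> simp [pick]
      rw [map_mul, map_mul, this, this, this, hr0, hr1, hr2, show H.π c = ((H.π c).1, (H.π c).2.1, (H.π c).2.2) from rfl,
        e0, e1, e2]
      cases b0 <;> cases b1 <;> cases b2 <;> simp [lref, inFactor]
    -- the action on the elements of the middle layer
    have hcl : ∀ z ∈ Q, F.cl (x i * z * (x i)⁻¹) =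
        (if b0 then ⇑(F.M.x 0) else id) ((if b1 then ⇑(F.M.x 1) else id)
          ((if b2 then ⇑(F.M.x 2) else id) (F.cl z))) := by
      intro z hz
      have hk2 : ((c * (pick b0 r0 * (pick b1 r1 * pick b2 r2))⁻¹ : _) : G) ∈ Q :=
        (H.ker _).1 (by rw [map_mul, map_inv, hk, mul_inv_cancel])
      set k := pick b0 r0 * (pick b1 r1 * pick b2 r2) with hkdef
      set q0 := ((c * k⁻¹ : _) : G) with hq0
      set z' := (k : G) * z * (k : G)⁻¹
      have hz' : z' ∈ Q := H.data.normal k k.2 z hz
      have e : x i * z * (x i)⁻¹ = q0 * z' * q0⁻¹ := by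
        rw [hq0]; push_cast; simp only [z', c]; group
      have e' : F.cl (q0 * z' * q0⁻¹) = F.cl z' := by
        rw [F.cl_mul _ (Q.mul_mem hk2 hz') _ (Q.inv_mem hk2), F.cl_mul _ hk2 _ hz', F.cl_inv hk2,
          add_comm (F.cl q0), add_assoc, F.M.two, add_zero]
      rw [e, e']
      have hp1 : ∀ (b : Bool) (l : Fin 3) r, H.π r = lref l → ∀ z ∈ Q,
          F.cl ((pick b r : G) * z * (pick b r : G)⁻¹) = (if b then ⇑(F.M.x l) else id) (F.cl z) := by
        intro b l r hr z hz
        cases b
        · simp [pick]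
        · exact F.cl_x l r hr z hz
      have hz2 := H.data.normal _ (pick b2 r2).2 z hz
      have hz1 := H.data.normal _ (pick b1 r1).2 _ hz2
      rw [show z' = (pick b0 r0 : G) * ((pick b1 r1 : G) * ((pick b2 r2 : G) * z * (pick b2 r2 : G)⁻¹) *
          (pick b1 r1 : G)⁻¹) * (pick b0 r0 : G)⁻¹ by simp only [z', hkdef]; push_cast; group,
        hp1 b0 0 r0 hr0 _ hz1, hp1 b1 1 r1 hr1 _ hz2, hp1 b2 2 r2 hr2 _ hz]
    have hδ : ∀ j, F.cl (x i * d j * (x i)⁻¹) = F.M.c (bit1 j) + (if i = j then F.M.c 0 else 0) := by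
      intro j
      rw [hxd i j]
      split_ifs
      · rw [show a * (d j * x i) * (x i)⁻¹ = a * d j by group, F.cl_mul _ haQ _ (hdD j).1, hdc, ← hc0, add_comm]
      · rw [show d j * x i * (x i)⁻¹ = d j by group, hdc, add_zero]
    have hsplit : ∀ j, (if b0 then ⇑(F.M.x 0) else id) ((if b1 then ⇑(F.M.x 1) else id)
          ((if b2 then ⇑(F.M.x 2) else id) (F.M.c (bit1 j)))) =
        F.M.c (bit1 j) + (if (![b0, b1, b2] j) = true then F.M.c 0 else 0) := by
      intro j
      have hx' : ∀ k : Fin 3, F.M.x k (F.M.c (bit1 j)) = if k = j then F.M.c (bit1 j) + F.M.c 0 else F.M.c (bit1 j) := by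
        intro k
        have h1 : ∀ k j : Fin 3, ((bit1 j).val.testBit k.val = true ↔ k = j) := by decide
        have h2 : ∀ j : Fin 3, Md.flipBit j (bit1 j) = 0 := by decide
        rw [F.M.x_c]
        by_cases hkj : k = j
        · subst hkj; rw [if_pos ((h1 k k).2 rfl), h2, if_pos rfl]
        · rw [if_neg (fun e => hkj ((h1 k j).1 e)), if_neg hkj]
      have hxa' : ∀ k : Fin 3, F.M.x k (F.M.c 0) = F.M.c 0 := fun k => by rw [hc0, F.cl_a, F.M.fix]
      fin_cases j <;> simp at hx' ⊢ <;> cases b0 <;> cases b1 <;> cases b2 <;>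
        simp [hx', hxa']
    have hbits : ∀ j, ((![b0, b1, b2] j) = true ↔ i = j) := by
      intro j
      have h1 := hδ j
      rw [hcl _ (hdD j).1, hdc, hsplit, add_right_inj] at h1
      have ha0 : F.M.c 0 ≠ 0 := by
        rw [hc0, F.cl_a]
        exact fun e => F.M.move 0 (by rw [e, map_zero])
      split_ifs at h1 with u1 u2 u2
      · exact iff_of_true u1 u2
      · exact absurd h1 ha0
      · exact absurd h1.symm ha0
      · exact iff_of_false u1 u2
    have g0 := hbits 0
    have g1 := hbits 1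
    have g2 := hbits 2
    rw [show H.π c = ((H.π c).1, (H.π c).2.1, (H.π c).2.2) from rfl, e0, e1, e2]
    fin_cases i <;> simp at g0 g1 g2 <;> simp [g0, g1, g2, lref, inFactor]
  have hclx : ∀ i, ∀ z ∈ Q, F.cl (x i * z * (x i)⁻¹) = F.M.x i (F.cl z) := fun i z hz => F.cl_x i _ (hπx i) z hz
  have hxxi : ∀ i, x i * x i = 1 := fun i => by
    show n * w i * n * (n * w i * n) = 1
    rw [show n * w i * n * (n * w i * n) = n * w i * (n * n) * w i * n by group, hnn, mul_one,
      show n * w i * w i * n = n * (w i * w i) * n by group, hqq, mul_one, hnn]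
  have hxinv : ∀ i, (x i)⁻¹ = x i := fun i => inv_eq_of_mul_eq_one_left (hxxi i)
  have hwinv : ∀ i, (w i)⁻¹ = w i := fun i => inv_eq_of_mul_eq_one_left (hqq _)
  -- commutators of `x` with elements of `Q`
  have hxz : ∀ i, ∀ z ∈ Q, z * z = 1 → x i * z * x i * z ∈ Q ∧
      F.cl (x i * z * x i * z) = F.M.x i (F.cl z) + F.cl z := by
    intro i z hz hzz
    have h1 : x i * z * x i ∈ Q := by
      have := H.data.normal (x i) (H.mem_C.2 (hxC i)) z hz
      rwa [hxinv] at this
    refine ⟨Q.mul_mem h1 hz, ?_⟩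
    rw [F.cl_mul _ h1 _ hz]
    congr 1
    have := hclx i z hz
    rwa [hxinv] at this
  have hnconj2 : ∀ b c : G, n * (b * c * b * c) * n = (n * b * n) * (n * c * n) * (n * b * n) * (n * c * n) := by
    intro b c
    rw [show (n * b * n) * (n * c * n) * (n * b * n) * (n * c * n) =
      n * b * (n * n) * c * (n * n) * b * (n * n) * c * n by group, hnn]
    group
  have hxw : ∀ i, x i * w i = w i * x i := by
    intro i
    obtain ⟨h1, h2⟩ := hxz i (w i) (hwQ i) (hqq _)
    have hf : ∀ i : Fin 3, (bit2 i).val.testBit i.val = false := by decide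
    rw [hqc, F.M.x_c, if_neg (by simp [hf]), F.M.two] at h2
    rcases F.cl_eq 1 Q.one_mem _ h1 (by rw [F.cl_one, h2]) with e | e
    · calc x i * w i = (x i * w i * x i * w i) * (w i * x i) := by
            rw [show x i * w i * x i * w i * (w i * x i) = x i * w i * x i * (w i * w i) * x i by group, hqq, mul_one,
              mul_assoc (x i * w i), hxxi, mul_one]
        _ = w i * x i := by rw [e, one_mul]
    · exfalso
      rw [one_mul] at e
      have h3 := hnconj2 (x i) (w i)
      rw [e, hnt, hnx, show n * w i * n = x i from rfl] at h3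
      have h4 : w i * x i * w i * x i = (x i * w i * x i * w i)⁻¹ := invol_word (hxxi i) (hqq _)
      rw [h4, e, H.t_inv] at h3
      exact F.S.pair.ne h3
  have hxwk : ∀ i j k, i ≠ j → i ≠ k → j ≠ k → x i * w j * x i * w j = d k := by
    intro i j k hij hik hjk
    have one : ∀ i j k, i ≠ j → i ≠ k → j ≠ k → x i * w j * x i * w j = d k ∨ x i * w j * x i * w j = d k * t := by
      intro i j k hij hik hjk
      obtain ⟨h1, h2⟩ := hxz i (w j) (hwQ j) (hqq _)
      have hf : ∀ i j k : Fin 3, i ≠ j → i ≠ k → j ≠ k →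
          (bit2 j).val.testBit i.val = true ∧ Md.flipBit i (bit2 j) = bit1 k := by decide
      rw [hqc, F.M.x_c, if_pos (hf i j k hij hik hjk).1, (hf i j k hij hik hjk).2, add_comm, ← add_assoc, F.M.two,
        zero_add] at h2
      exact F.cl_eq _ (hdD k).1 _ h1 (by rw [h2, hdc])
    rcases one i j k hij hik hjk with e | e
    · exact e
    exfalso
    have h3 := hnconj2 (x i) (w j)
    rw [e, hnx, show n * w j * n = x j from rfl] at h3
    have h4 : n * (d k * t) * n = d k * a := by
      rw [show n * (d k * t) * n = (n * d k * n) * (n * t * n) by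
        rw [show n * d k * n * (n * t * n) = n * d k * (n * n) * t * n by group, hnn]; group, hdn, hnt]
    have h5 : w i * x j * w i * x j = (x j * w i * x j * w i)⁻¹ := invol_word (hxxi j) (hqq _)
    rw [h4, h5] at h3
    rcases one j i k hij.symm hjk hik with e2 | e2 <;> rw [e2] at h3
    · rw [inv_eq_of_mul_eq_one_left (hdd k)] at h3
      exact H.a_ne_one F.S (mul_eq_left.1 h3)
    · rw [mul_inv_rev, H.t_inv, inv_eq_of_mul_eq_one_left (hdd k), ← H.Q_comm (hdD k).1] at h3
      exact F.S.pair.ne (mul_left_cancel h3)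
  have hxp : ∀ i, x i * p * x i * p = w i := by
    intro i
    obtain ⟨h1, h2⟩ := hxz i p hpQ hpp
    have hf : ∀ i : Fin 3, (7 : Fin 8).val.testBit i.val = true := by decide
    rw [hqc, F.M.x_c, if_pos (hf i), add_comm, ← add_assoc, F.M.two, zero_add] at h2
    rcases F.cl_eq _ (hwQ i) _ h1 (by rw [h2, hqc]; rfl) with e | e
    · exact e
    exfalso
    have pwp : p * w i * p = w i := by
      have key : ∀ i : Fin 3, (7 : Fin 8).val + (bit2 i).val ≠ 7 := by decide
      rw [hBq 7 (bit2 i) (key i), mul_assoc]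
      show w i * (p * p) = w i
      rw [hpp, mul_one]
    have e1 : p * x i * p = x i * w i * t := by
      calc p * x i * p = x i * (x i * p * x i * p) := by
            rw [show x i * (x i * p * x i * p) = (x i * x i) * p * x i * p by group, hxxi, one_mul]
        _ = x i * w i * t := by rw [e]; group
    -- both sides of the braid relation applied to `w`
    have hA : n * p * n * w i * (n * p * n) = n * (x i * w i * t) * n := by
      rw [show n * p * n * w i * (n * p * n) = n * (p * (n * w i * n) * p) * n by group,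
        show n * w i * n = x i from rfl, e1]
    have hB : p * n * p * w i * (p * n * p) = x i * w i * t := by
      rw [show p * n * p * w i * (p * n * p) = p * (n * (p * w i * p) * n) * p by group, pwp]
      exact e1
    rw [← hnp, hA, show n * (x i * w i * t) * n = n * (x i * w i) * (n * n) * t * n by rw [hnn]; group,
      show n * (x i * w i) * (n * n) * t * n = n * x i * (w i * (n * n)) * t * n by group, hnn, mul_one,
      show n * x i * w i * t * n = n * x i * (n * n) * w i * (n * n) * t * n by rw [hnn]; group,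
      show n * x i * (n * n) * w i * (n * n) * t * n = (n * x i * n) * (n * w i * n) * (n * t * n) by group,
      hnx, hnt, show n * w i * n = x i from rfl, ← hxw i] at hB
    exact F.S.pair.ne (mul_left_cancel hB)
  have hwwc : ∀ i j, w i * w j = w j * w i := by
    have key : ∀ i j : Fin 3, (bit2 i).val + (bit2 j).val ≠ 7 := by decide
    exact fun i j => hBq _ _ (key i j)
  have hpw : ∀ i, p * w i = w i * p := by
    have key : ∀ i : Fin 3, (7 : Fin 8).val + (bit2 i).val ≠ 7 := by decide
    exact fun i => hBq _ _ (key i)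
  refine ⟨⟨p, n, d, w, x, hpQ, fun i => (hdD i).1, hwQ, hqc 7, hdc, fun i => hqc _, hxC, hπx, hpp, hdd,
    fun i => hqq _, hxxi, hnn, hpa, ?_, hwwc, ?_, fun i => H.conjQ_comm hgt (hdD i).2, hwa, hxa, ?_, hpw,
    hwd, hxd, hxw, hxwk, hxp, hnt, hna, hdn, fun i => rfl, hnx, hnp⟩⟩
  · intro i j
    exact F.comm_of_B (hdD i).1 (hdD j).1 (by
      have key : ∀ i j : Fin 3, ¬ (bit1 i).val + (bit1 j).val = 7 := by decide
      rw [hdc, hdc, F.M.B_c, if_neg (key i j)])
  · intro i j
    show n * w i * n * (n * w j * n) = n * w j * n * (n * w i * n)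
    rw [show n * w i * n * (n * w j * n) = n * w i * (n * n) * w j * n by group,
      show n * w j * n * (n * w i * n) = n * w j * (n * n) * w i * n by group, hnn, mul_one, mul_one]
    calc n * w i * w j * n = n * (w i * w j) * n := by group
      _ = n * (w j * w i) * n := by rw [hwwc]
      _ = n * w j * w i * n := by group
  · intro i
    have key : ∀ i : Fin 3, ¬ (7 : Fin 8).val + (bit1 i).val = 7 := by decide
    exact F.comm_of_B hpQ (hdD i).1 (by rw [hqc, hdc, F.M.B_c, if_neg (key i)])

end CfsgLib.OrthEightRecog
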