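import Cfsg.Agent.Lib.SectRank.LargeExtraIndexTwo

/-!
Groups with an involution centraliser of shape `2^{1+8}.(S₃ × S₃ × S₃)`: the conjugates of the involution in the
extraspecial subgroup.
-/

set_option autoImplicit false
set_option linter.style.haveILetI false

namespace CfsgLib.OrthEightRecog

open CfsgLib.SectRank

/-- The quotient group. -/
abbrev L3 : Type := Equiv.Perm (Fin 3) × Equiv.Perm (Fin 3) × Equiv.Perm (Fin 3)

variable {G : Type*} [Group G] [Finite G]

/-- The hypotheses. -/
structure Hyp (t : G) (Q : Subgroup G) where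
  data : LargeExtra.Data t Q
  cardQ : Nat.card Q = 512
  /-- The projection of the centraliser. -/
  π : ↥(Subgroup.centralizer ({t} : Set G)) →* L3
  surj : Function.Surjective π
  ker : ∀ c : ↥(Subgroup.centralizer ({t} : Set G)), π c = 1 ↔ (c : G) ∈ Q

variable {t : G} {Q : Subgroup G}

namespace Hyp

variable (H : Hyp t Q)
include H

theorem mem_C {c : G} : c ∈ Subgroup.centralizer ({t} : Set G) ↔ c * t = t * c :=
  Subgroup.mem_centralizer_singleton_iff

theorem t_inv : t⁻¹ = t := inv_eq_of_mul_eq_one_left H.data.zz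

theorem conj_t {c : G} (hc : c * t = t * c) : c * t * c⁻¹ = t := by rw [hc, mul_inv_cancel_right]

theorem inv_comm {c : G} (hc : c * t = t * c) : c⁻¹ * t = t * c⁻¹ := by
  rw [eq_mul_inv_iff_mul_eq, mul_assoc, ← hc, inv_mul_cancel_left]

theorem Q_normal {c q : G} (hc : c * t = t * c) (hq : q ∈ Q) : c * q * c⁻¹ ∈ Q :=
  H.data.normal c (H.mem_C.2 hc) q hq

theorem Q_normal' {c q : G} (hc : c * t = t * c) (hq : q ∈ Q) : c⁻¹ * q * c ∈ Q := by
  simpa using H.Q_normal (H.inv_comm hc) hq

theorem Q_comm {q : G} (hq : q ∈ Q) : q * t = t * q := H.data.comm hq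

/-- The commutator of two elements of the extraspecial subgroup. -/
theorem comm_or {x y : G} (hx : x ∈ Q) (hy : y ∈ Q) : x * y * x⁻¹ * y⁻¹ = 1 ∨ x * y * x⁻¹ * y⁻¹ = t := by
  by_cases h : y * x = x * y
  · left; rw [← h]; group
  · right
    have h2 := H.data.swap hy hx (Ne.symm h)
    rw [h2]
    group

/-- The conjugate of the extraspecial subgroup. -/
def conjQ (_ : Hyp t Q) (g : G) : Subgroup G := Q.map (MulAut.conj g).toMonoidHom

omit [Finite G] in
theorem mem_conjQ {g x : G} : x ∈ H.conjQ g ↔ g⁻¹ * x * g ∈ Q := by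
  rw [conjQ, Subgroup.mem_map]
  constructor
  · rintro ⟨q, hq, rfl⟩
    simpa [mul_assoc] using hq
  · intro h
    exact ⟨_, h, by simp [mul_assoc]⟩

theorem conjQ_eq {g g' a : G} (hg : g * t * g⁻¹ = a) (hg' : g' * t * g'⁻¹ = a) : H.conjQ g = H.conjQ g' := by
  have key : ∀ g g' : G, g * t * g⁻¹ = a → g' * t * g'⁻¹ = a → ∀ x, x ∈ H.conjQ g → x ∈ H.conjQ g' := by
    intro g g' hg hg' x hx
    rw [mem_conjQ] at hx ⊢
    have hc : (g'⁻¹ * g) * t = t * (g'⁻¹ * g) := by
      have h : g * t * g⁻¹ = g' * t * g'⁻¹ := hg.trans hg'.symm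
      calc g'⁻¹ * g * t = g'⁻¹ * (g * t * g⁻¹) * g := by group
        _ = g'⁻¹ * (g' * t * g'⁻¹) * g := by rw [h]
        _ = _ := by group
    have := H.Q_normal hc hx
    simpa [mul_assoc] using this
  ext x
  exact ⟨key g g' hg hg' x, key g' g hg' hg x⟩

/-- A subgroup of two-power order of the quotient has exponent two and order at most eight. -/
theorem two_subgroup (S : Subgroup L3) (hS : IsPGroup 2 S) :
    (∀ y ∈ S, y * y = 1) ∧ Nat.card S ≤ 8 := by
  refine ⟨fun y hy => ?_, ?_⟩
  · obtain ⟨k, hk⟩ := hS ⟨y, hy⟩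
    have h1 : y ^ 2 ^ k = 1 := congrArg Subtype.val hk
    have h6 : y ^ 6 = 1 := by
      have : ∀ p : Equiv.Perm (Fin 3), p ^ 6 = 1 := by decide +kernel
      exact Prod.ext (this _) (Prod.ext (this _) (this _))
    have hd : orderOf y ∣ 2 := by
      have h2 : orderOf y ∣ Nat.gcd (2 ^ k) 6 :=
        Nat.dvd_gcd (orderOf_dvd_of_pow_eq_one h1) (orderOf_dvd_of_pow_eq_one h6)
      refine h2.trans ?_
      have h3 : Nat.Coprime (Nat.gcd (2 ^ k) 6) 3 :=
        Nat.Coprime.coprime_dvd_left (Nat.gcd_dvd_left _ _) (Nat.Coprime.pow_left _ (by decide))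
      exact h3.dvd_of_dvd_mul_right (show Nat.gcd (2 ^ k) 6 ∣ 2 * 3 from Nat.gcd_dvd_right _ _)
    rw [← pow_two]
    exact orderOf_dvd_iff_pow_eq_one.1 hd
  · haveI := Fact.mk Nat.prime_two
    obtain ⟨n, hn⟩ := IsPGroup.iff_card.1 hS
    have hd := Subgroup.card_subgroup_dvd_card S
    rw [show Nat.card L3 = 216 by simp only [Nat.card_prod, Nat.card_perm, Nat.card_fin]; rfl, hn] at hd
    have : n ≤ 3 := by
      by_contra hcon
      have h4 : 2 ^ 4 ∣ 216 := (pow_dvd_pow 2 (by omega)).trans hd
      omega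
    rw [hn]
    exact le_trans (Nat.pow_le_pow_right (by norm_num) this) (by norm_num)

/-- An abelian subgroup of the extraspecial subgroup has order at most thirty-two. -/
theorem abelian_le {A : Subgroup G} (hA : A ≤ Q) (hab : ∀ u ∈ A, ∀ w ∈ A, u * w = w * u) : Nat.card A ≤ 32 := by
  classical
  have := Fintype.ofFinite G
  let sgn : G → G → ℤ := fun v w => if v * w = w * v then 1 else -1
  let SQ : Finset G := Finset.univ.filter (· ∈ Q)
  let SA : Finset G := Finset.univ.filter (· ∈ A)
  have hSA : SA.card = Nat.card A := by rw [Nat.card_eq_fintype_card, Fintype.card_subtype]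
  have hSQ : SQ.card = 512 := by rw [← H.cardQ, Nat.card_eq_fintype_card, Fintype.card_subtype]
  have hcol : ∀ w ∈ SA, ∑ v ∈ SQ, sgn v w = if w = 1 ∨ w = t then 512 else 0 := by
    intro w hw
    have hwA : w ∈ A := (Finset.mem_filter.1 hw).2
    split_ifs with h
    · rw [Finset.sum_congr rfl (fun v hv => if_pos ?_)]
      · simp [hSQ]
      · rcases h with rfl | rfl
        · simp
        · exact H.Q_comm (Finset.mem_filter.1 hv).2
    · push Not at h
      have hc := H.data.card_centralizer (hA hwA) h
      have hcc : (SQ.filter fun v => v * w = w * v).card = 256 := by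
        have e : (SQ.filter fun v => v * w = w * v).card =
            Nat.card ↥(Q ⊓ Subgroup.centralizer ({w} : Set G)) := by
          rw [Nat.card_eq_fintype_card, Fintype.card_subtype, Finset.filter_filter]
          refine congrArg _ (Finset.filter_congr fun v _ => ?_)
          rw [Subgroup.mem_inf, Subgroup.mem_centralizer_singleton_iff]
        have := H.cardQ
        omega
      have hsplit := Finset.card_filter_add_card_filter_not (s := SQ) (fun v => v * w = w * v)
      rw [Finset.sum_ite, Finset.sum_const, Finset.sum_const, hcc]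
      have : (SQ.filter fun v => ¬ v * w = w * v).card = 256 := by omega
      rw [this]
      norm_num
  have hrow : ∀ v ∈ SQ, ∑ w ∈ SA, sgn v w = if v ∈ Subgroup.centralizer (A : Set G) then (Nat.card A : ℤ) else 0 := by
    intro v hv
    split_ifs with h
    · have h1 : ∀ w ∈ SA, sgn v w = 1 := fun w hw =>
        if_pos (Subgroup.mem_centralizer_iff.1 h w (Finset.mem_filter.1 hw).2).symm
      rw [Finset.sum_congr rfl h1]
      simp [hSA]
    · obtain ⟨w₀, hw₀, hne⟩ : ∃ w₀ ∈ A, v * w₀ ≠ w₀ * v := by
        by_contra hcon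
        push Not at hcon
        exact h (Subgroup.mem_centralizer_iff.2 fun w hw => (hcon w hw).symm)
      have key : ∀ w ∈ SA, sgn v (w * w₀) = - sgn v w := by
        intro w hw
        have hwA : w ∈ A := (Finset.mem_filter.1 hw).2
        have hvQ : v ∈ Q := (Finset.mem_filter.1 hv).2
        have hz : v * w₀ = t * (w₀ * v) := H.data.swap (hA hw₀) hvQ hne
        have hwt : w * t = t * w := H.Q_comm (hA hwA)
        simp only [sgn]
        by_cases h1 : v * w = w * v
        · rw [if_pos h1, if_neg]
          intro h2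
          refine hne (mul_left_cancel (a := w) ?_)
          rw [← mul_assoc, ← h1, mul_assoc, h2, mul_assoc]
        · have h1' : v * w = t * (w * v) := H.data.swap (hA hwA) hvQ h1
          rw [if_neg h1, if_pos]
          · norm_num
          · calc v * (w * w₀) = (v * w) * w₀ := by group
              _ = t * w * (v * w₀) := by rw [h1']; group
              _ = t * (w * t) * (w₀ * v) := by rw [hz]; group
              _ = (t * t) * w * (w₀ * v) := by rw [hwt]; group
              _ = w * w₀ * v := by rw [H.data.zz]; group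
      have hS : ∑ w ∈ SA, sgn v (w * w₀) = ∑ w ∈ SA, sgn v w := by
        refine Finset.sum_equiv (Equiv.mulRight w₀) (fun w => ?_) (fun w _ => rfl)
        simp only [SA, Finset.mem_filter, Finset.mem_univ, true_and, Equiv.coe_mulRight]
        exact ⟨fun h => A.mul_mem h hw₀, fun h => by simpa using A.mul_mem h (A.inv_mem hw₀)⟩
      rw [Finset.sum_congr rfl key, Finset.sum_neg_distrib] at hS
      omega
  have htot : ∑ w ∈ SA, ∑ v ∈ SQ, sgn v w ≤ 1024 := by
    rw [Finset.sum_congr rfl hcol, Finset.sum_ite, Finset.sum_const_zero, add_zero, Finset.sum_const]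
    have : (SA.filter fun w => w = 1 ∨ w = t).card ≤ 2 := by
      refine le_trans (Finset.card_le_card (t := {1, t}) fun w hw => ?_) Finset.card_le_two
      simpa using (Finset.mem_filter.1 hw).2
    simp only [nsmul_eq_mul]
    omega
  rw [Finset.sum_comm, Finset.sum_congr rfl hrow, Finset.sum_ite, Finset.sum_const_zero, add_zero,
    Finset.sum_const, nsmul_eq_mul] at htot
  have hle : Nat.card A ≤ (SQ.filter fun v => v ∈ Subgroup.centralizer (A : Set G)).card := by
    rw [← hSA]
    refine Finset.card_le_card fun w hw => ?_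
    have hwA : w ∈ A := (Finset.mem_filter.1 hw).2
    exact Finset.mem_filter.2 ⟨Finset.mem_filter.2 ⟨Finset.mem_univ _, hA hwA⟩,
      Subgroup.mem_centralizer_iff.2 fun u hu => hab u hu w hwA⟩
  have h1 : Nat.card A * Nat.card A ≤ 1024 := by
    have h2 : (SQ.filter fun v => v ∈ Subgroup.centralizer (A : Set G)).card * Nat.card A ≤ 1024 := by
      exact_mod_cast htot
    exact le_trans (Nat.mul_le_mul hle le_rfl) h2
  by_contra hcon
  have := Nat.mul_le_mul (show 33 ≤ Nat.card A by omega) (show 33 ≤ Nat.card A by omega)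
  omega

end Hyp

end CfsgLib.OrthEightRecog
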