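import Cfsg.Agent.Lib.OrthEightRecog.Levi
import Cfsg.Agent.Lib.OrthEightRecog.Cells

/-!
The root elements and reflections satisfy the relations of type `D₄`, and the system is centre-free and contains
the centraliser of the involution.
-/

set_option autoImplicit false
set_option linter.style.haveILetI false

namespace CfsgLib.OrthEightRecog

universe u v

variable {G : Type u} [Group G] [Finite G] {t : G} {Q : Subgroup G} {H : Hyp t Q} {g a : G}
  {V : Type v} [AddCommGroup V] [Finite V] {F : Fr H g a V} {R : Rts F}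

/-- The system of root elements and reflections. -/
def gsys (L : Levi R) : Sys G :=
  ⟨![R.x 0, R.x 1, R.x 2, R.p, R.w 0, R.w 1, R.w 2, R.d 0, R.d 1, R.d 2, a, t],
    ![L.m 0, L.m 1, L.m 2, R.n]⟩

omit [Finite G] in
theorem conj_word' {s : Sys G} (nn : ∀ i, s.n i * s.n i = 1)
    (nx : ∀ i b, b ≠ simp4 i → s.n i * s.x b * s.n i = s.x (refl4 i b)) :
    ∀ (w : List (Fin 4)) {b c : Fin 12}, actRoot w b = some c → nprod s w * s.x b * (nprod s w)⁻¹ = s.x c := by
  intro w
  induction w with
  | nil => intro b c h; cases h; simp [nprod]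
  | cons i w ih =>
    intro b c h
    obtain ⟨d, hd, hc⟩ := Option.bind_eq_some_iff.1 h
    split_ifs at hc with e
    cases hc
    rw [nprod_cons, ← nx i d e, ← ih hd, mul_inv_rev, inv_eq_of_mul_eq_one_left (nn i)]
    group

theorem inFactor_gen (i : Fin 3) (p : Equiv.Perm (Fin 3)) : inFactor p i = 1 ∨ inFactor p i = lref i ∨
    inFactor p i = lnu i ∨ inFactor p i = lref i * lnu i ∨ inFactor p i = lnu i * lref i ∨
    inFactor p i = lref i * lnu i * lref i := by
  have key : ∀ p : Equiv.Perm (Fin 3),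
      p = 1 ∨ p = Equiv.swap 0 1 ∨ p = finRotate 3 * (finRotate 3 * (Equiv.swap 0 1 * finRotate 3)) ∨
      p = Equiv.swap 0 1 * (finRotate 3 * (finRotate 3 * (Equiv.swap 0 1 * finRotate 3))) ∨
      p = (finRotate 3 * (finRotate 3 * (Equiv.swap 0 1 * finRotate 3))) * Equiv.swap 0 1 ∨
      p = Equiv.swap 0 1 * (finRotate 3 * (finRotate 3 * (Equiv.swap 0 1 * finRotate 3))) * Equiv.swap 0 1 := by
    decide +kernel
  rcases key p with rfl | rfl | rfl | rfl | rfl | rfl <;> fin_cases i <;> simp [inFactor, lref, lrot, lnu]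

namespace Levi

variable (L : Levi R)
include L

theorem m_t (i : Fin 3) : L.m i * t * L.m i = t := by
  rw [L.mC, mul_assoc, L.mm, mul_one]

omit L in
theorem flip_conj {m x y : G} (hm : m * m = 1) (h : m * x * m = y) : m * y * m = x := by
  rw [← h, show m * (m * x * m) * m = (m * m) * x * (m * m) by group, hm, one_mul, mul_one]

theorem m_w (i : Fin 3) : L.m i * R.w i * L.m i = R.p := flip_conj (L.mm i) (L.mp i)

theorem m_x (i j : Fin 3) (h : i ≠ j) : L.m i * R.x j * L.m i = R.x j := by
  rw [L.mx i j h, mul_assoc, L.mm, mul_one]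

omit L in
theorem conj_word4 {m x y : G} (hm : m * m = 1) :
    m * (x * y * x * y) * m = (m * x * m) * (m * y * m) * (m * x * m) * (m * y * m) := by
  rw [show (m * x * m) * (m * y * m) * (m * x * m) * (m * y * m) =
    m * x * (m * m) * y * (m * m) * x * (m * m) * y * m by group, hm]
  group

theorem m_wd (i j k : Fin 3) (hij : i ≠ j) (hik : i ≠ k) (hjk : j ≠ k) : L.m i * R.w j * L.m i = R.d k := by
  rw [← R.xp j, conj_word4 (L.mm i), L.m_x i j hij, L.mp, R.xw j i k hij.symm hjk hik]

theorem m_dw (i j k : Fin 3) (hij : i ≠ j) (hik : i ≠ k) (hjk : j ≠ k) : L.m i * R.d k * L.m i = R.w j :=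
  flip_conj (L.mm i) (L.m_wd i j k hij hik hjk)

theorem m_da (i : Fin 3) : L.m i * R.d i * L.m i = a := by
  obtain ⟨j, k, hij, hik, hjk⟩ : ∃ j k : Fin 3, i ≠ j ∧ i ≠ k ∧ j ≠ k := by revert i; decide
  rw [← R.xw j k i hjk hij.symm hik.symm, conj_word4 (L.mm i), L.m_x i j hij, L.m_wd i k j hik hij hjk.symm]
  have h := R.xd j j
  rw [if_pos rfl] at h
  calc R.x j * R.d j * R.x j * R.d j = a * (R.d j * R.x j) * R.x j * R.d j := by rw [h]
    _ = a * (R.d j * (R.x j * R.x j) * R.d j) := by group
    _ = a := by rw [R.xx, mul_one, R.dd, mul_one]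

theorem m_ad (i : Fin 3) : L.m i * a * L.m i = R.d i := flip_conj (L.mm i) (L.m_da i)

theorem nx_rel : ∀ i b, b ≠ simp4 i → (gsys L).n i * (gsys L).x b * (gsys L).n i = (gsys L).x (refl4 i b) := by
  intro i b hb
  fin_cases i
  · fin_cases b <;> first
      | exact absurd rfl hb
      | exact L.m_x 0 1 (by decide)
      | exact L.m_x 0 2 (by decide)
      | exact L.mp 0
      | exact L.m_w 0
      | exact L.m_wd 0 1 2 (by decide) (by decide) (by decide)
      | exact L.m_wd 0 2 1 (by decide) (by decide) (by decide)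
      | exact L.m_da 0
      | exact L.m_dw 0 2 1 (by decide) (by decide) (by decide)
      | exact L.m_dw 0 1 2 (by decide) (by decide) (by decide)
      | exact L.m_ad 0
      | exact L.m_t 0
  · fin_cases b <;> first
      | exact absurd rfl hb
      | exact L.m_x 1 0 (by decide)
      | exact L.m_x 1 2 (by decide)
      | exact L.mp 1
      | exact L.m_w 1
      | exact L.m_wd 1 0 2 (by decide) (by decide) (by decide)
      | exact L.m_wd 1 2 0 (by decide) (by decide) (by decide)
      | exact L.m_da 1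
      | exact L.m_dw 1 2 0 (by decide) (by decide) (by decide)
      | exact L.m_dw 1 0 2 (by decide) (by decide) (by decide)
      | exact L.m_ad 1
      | exact L.m_t 1
  · fin_cases b <;> first
      | exact absurd rfl hb
      | exact L.m_x 2 0 (by decide)
      | exact L.m_x 2 1 (by decide)
      | exact L.mp 2
      | exact L.m_w 2
      | exact L.m_wd 2 0 1 (by decide) (by decide) (by decide)
      | exact L.m_wd 2 1 0 (by decide) (by decide) (by decide)
      | exact L.m_da 2
      | exact L.m_dw 2 1 0 (by decide) (by decide) (by decide)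
      | exact L.m_dw 2 0 1 (by decide) (by decide) (by decide)
      | exact L.m_ad 2
      | exact L.m_t 2
  · fin_cases b <;> first
      | exact absurd rfl hb
      | exact R.nx 0
      | exact R.nx 1
      | exact R.nx 2
      | exact R.nw 0
      | exact R.nw 1
      | exact R.nw 2
      | exact R.nd 0
      | exact R.nd 1
      | exact R.nd 2
      | exact R.na
      | exact R.nt

theorem nn_rel : ∀ i, (gsys L).n i * (gsys L).n i = 1 := by
  intro i
  fin_cases i
  exacts [L.mm 0, L.mm 1, L.mm 2, R.nn]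

/-- The root of the outer node `j`, of its sum with the central node and of the sum of the other two. -/
def rootX (j : Fin 3) : Fin 12 := ![0, 1, 2] j
@[inherit_doc rootX] def rootW (j : Fin 3) : Fin 12 := ![4, 5, 6] j
@[inherit_doc rootX] def rootD (j : Fin 3) : Fin 12 := ![7, 8, 9] j

/-- An element of the centraliser acting trivially on the middle layer. -/
theorem mem_Q {c : G} (hct : c * t = t * c) (hca : c * a = a * c) (hd : ∀ j, c * R.d j = R.d j * c) : c ∈ Q := by
  classical
  set c' : ↥(Subgroup.centralizer ({t} : Set G)) := ⟨c, H.mem_C.2 hct⟩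
  obtain ⟨h0, h1, h2⟩ : inP (H.π c') := H.stab F.S (c := c') (Or.inl (by
    show c * a * c⁻¹ = a
    rw [hca, mul_inv_cancel_right]))
  have key : ∀ z : Equiv.Perm (Fin 3), (z = 1 ∨ z = Equiv.swap 0 1) →
      ∃ b : Bool, z = if b then Equiv.swap 0 1 else 1 := by decide +kernel
  obtain ⟨b0, e0⟩ := key _ h0
  obtain ⟨b1, e1⟩ := key _ h1
  obtain ⟨b2, e2⟩ := key _ h2
  let xC : Fin 3 → ↥(Subgroup.centralizer ({t} : Set G)) := fun i => ⟨R.x i, H.mem_C.2 (R.xC i)⟩
  let X : ↥(Subgroup.centralizer ({t} : Set G)) :=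
    (if b0 then xC 0 else 1) * ((if b1 then xC 1 else 1) * (if b2 then xC 2 else 1))
  have hπ : H.π c' = H.π X := by
    rw [show H.π c' = ((H.π c').1, (H.π c').2.1, (H.π c').2.2) from rfl, e0, e1, e2]
    simp only [X, map_mul, apply_ite, map_one, show ∀ i, H.π (xC i) = lref i from R.π_x]
    cases b0 <;> cases b1 <;> cases b2 <;> simp [lref, inFactor]
  have hq : ((c' * X⁻¹ : _) : G) ∈ Q := (H.ker _).1 (by rw [map_mul, map_inv, hπ, mul_inv_cancel])
  push_cast at hq
  set q := c * (X : G)⁻¹
  -- the outer elements multiply the middle layer by `a`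
  have hone : ∀ j (z : G), (z = R.d j ∨ z = a * R.d j) → ∀ i,
      R.x i * z * (R.x i)⁻¹ = if i = j then a * z else z := by
    intro j z hz i
    have hxi : (R.x i)⁻¹ = R.x i := inv_eq_of_mul_eq_one_left (R.xx i)
    have hd' : R.x i * R.d j * R.x i = if i = j then a * R.d j else R.d j := by
      rw [R.xd]
      split_ifs
      · rw [mul_assoc, mul_assoc (R.d j), R.xx, mul_one]
      · rw [mul_assoc, R.xx, mul_one]
    have hxa : R.x i * a * R.x i = a := by rw [R.xa, mul_assoc, R.xx, mul_one]
    rw [hxi]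
    rcases hz with rfl | rfl
    · exact hd'
    · rw [show R.x i * (a * R.d j) * R.x i = (R.x i * a * R.x i) * (R.x i * R.d j * R.x i) by
        rw [show R.x i * a * R.x i * (R.x i * R.d j * R.x i) = R.x i * a * (R.x i * R.x i) * R.d j * R.x i by group,
          R.xx]; group, hxa, hd']
      split_ifs <;> rfl
  have hX : ∀ j, (X : G) * R.d j * (X : G)⁻¹ = if (![b0, b1, b2] j) = true then a * R.d j else R.d j := by
    intro j
    have haad : a * (a * R.d j) = R.d j := by rw [← mul_assoc, H.a_sq F.S, one_mul]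
    have hcomp : ∀ (A B : G) z, (A * B) * z * (A * B)⁻¹ = A * (B * z * B⁻¹) * A⁻¹ := fun A B z => by group
    let tw : Bool → Fin 3 → G → G := fun b i z => if b = true ∧ i = j then a * z else z
    have hs : ∀ (b : Bool) (i : Fin 3) (z : G), (z = R.d j ∨ z = a * R.d j) →
        ((if b then xC i else 1 : ↥(Subgroup.centralizer ({t} : Set G))) : G) * z *
          ((if b then xC i else 1 : ↥(Subgroup.centralizer ({t} : Set G))) : G)⁻¹ = tw b i z ∧
        (tw b i z = R.d j ∨ tw b i z = a * R.d j) := by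
      intro b i z hz
      refine ⟨?_, ?_⟩
      · cases b
        · simp [tw]
        · show R.x i * z * (R.x i)⁻¹ = tw true i z
          rw [hone j z hz i]
          simp [tw]
      · simp only [tw]
        split_ifs
        · rcases hz with rfl | rfl
          · exact Or.inr rfl
          · exact Or.inl haad
        · exact hz
    obtain ⟨e2, m2⟩ := hs b2 2 (R.d j) (Or.inl rfl)
    obtain ⟨e1, m1⟩ := hs b1 1 _ m2
    obtain ⟨e0, -⟩ := hs b0 0 _ m1
    have hXv : (X : G) = ((if b0 then xC 0 else 1 : ↥(Subgroup.centralizer ({t} : Set G))) : G) *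
        (((if b1 then xC 1 else 1 : ↥(Subgroup.centralizer ({t} : Set G))) : G) *
          ((if b2 then xC 2 else 1 : ↥(Subgroup.centralizer ({t} : Set G))) : G)) := rfl
    rw [hXv, hcomp, hcomp, e2, e1, e0]
    fin_cases j <;> cases b0 <;> cases b1 <;> cases b2 <;> simp [tw]
  have hfalse : ∀ j, (![b0, b1, b2] j) = false := by
    intro j
    by_contra hne
    have htrue : (![b0, b1, b2] j) = true := by simpa using hne
    have h := hX j
    rw [if_pos htrue] at h
    have h3 : q * (a * R.d j) * q⁻¹ = R.d j := by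
      rw [← h]
      calc q * ((X : G) * R.d j * (X : G)⁻¹) * q⁻¹ = c * R.d j * c⁻¹ := by simp only [q]; group
        _ = R.d j := by rw [hd, mul_inv_cancel_right]
    have haQ := F.S.pair.mem
    have h4 : F.cl (R.d j) = F.cl (a * R.d j) := by
      conv_lhs => rw [← h3]
      rw [F.cl_mul _ (Q.mul_mem hq (Q.mul_mem haQ (R.dQ j))) _ (Q.inv_mem hq),
        F.cl_mul _ hq _ (Q.mul_mem haQ (R.dQ j)), F.cl_inv hq, add_comm (F.cl q), add_assoc, F.M.two, add_zero]
    rw [F.cl_mul _ haQ _ (R.dQ j), F.cl_a] at h4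
    have h5 : F.M.a = 0 := add_eq_right.1 h4.symm
    exact F.M.move 0 (by rw [h5, map_zero])
  have f0 : b0 = false := hfalse 0
  have f1 : b1 = false := hfalse 1
  have f2 : b2 = false := hfalse 2
  subst f0; subst f1; subst f2
  simpa [q, X] using hq

theorem braid (i : Fin 3) : L.m i * R.n * L.m i = R.n * L.m i * R.n := by
  classical
  have haQ := F.S.pair.mem
  have haa := H.a_sq F.S
  have htt := H.data.zz
  have hat := H.a_t F.S
  have hdt : R.d i * t = t * R.d i := H.Q_comm (R.dQ i)
  have hda := R.da i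
  set m := L.m i with hm
  set n := R.n
  set W := m * n * m * n * m * n with hW
  -- fixed root elements
  set wd : List (Fin 4) := [Fin.castSucc i, 3, Fin.castSucc i, 3, Fin.castSucc i, 3]
  have hwd : nprod (gsys L) wd = W := by
    have : (gsys L).n (Fin.castSucc i) = m := by rw [hm]; fin_cases i <;> rfl
    simp only [wd, nprod, List.map_cons, List.map_nil, List.prod_cons, List.prod_nil, this, mul_one, hW]
    show m * (n * (m * (n * (m * n)))) = _
    simp only [mul_assoc]
  have hfix : ∀ b : Fin 12, actRoot wd b = some b → W * (gsys L).x b = (gsys L).x b * W := by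
    intro b hb
    have := conj_word' L.nn_rel L.nx_rel wd hb
    rw [hwd] at this
    exact mul_inv_eq_iff_eq_mul.1 this
  have key : ∀ i : Fin 3, ∀ b : Fin 12, b ≠ rootX i ∧ b ≠ 3 ∧ b ≠ rootW i →
      actRoot [Fin.castSucc i, 3, Fin.castSucc i, 3, Fin.castSucc i, 3] b = some b := by decide +kernel
  have kb : ∀ i : Fin 3, (11 : Fin 12) ≠ rootX i ∧ (11 : Fin 12) ≠ 3 ∧ (11 : Fin 12) ≠ rootW i := by decide
  have ka : ∀ i : Fin 3, (10 : Fin 12) ≠ rootX i ∧ (10 : Fin 12) ≠ 3 ∧ (10 : Fin 12) ≠ rootW i := by decide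
  have kd : ∀ i j : Fin 3, rootD j ≠ rootX i ∧ rootD j ≠ 3 ∧ rootD j ≠ rootW i := by decide
  have kw : ∀ i j : Fin 3, j ≠ i → rootW j ≠ rootX i ∧ rootW j ≠ 3 ∧ rootW j ≠ rootW i := by decide
  have hWt : W * t = t * W := hfix 11 (key i 11 (kb i))
  have hWa : W * a = a * W := hfix 10 (key i 10 (ka i))
  have hWd : ∀ j, W * R.d j = R.d j * W := fun j => by
    have h := hfix _ (key i _ (kd i j))
    fin_cases j <;> exact h
  have hWw : ∀ j, j ≠ i → W * R.w j = R.w j * W := fun j hj => by
    have h := hfix _ (key i _ (kw i j hj))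
    fin_cases j <;> exact h
  have hWQ : W ∈ Q := L.mem_Q hWt hWa hWd
  -- the element lies in the four group extended by one middle element
  let el : Bool → Bool → Bool → G := fun i' j' k' =>
    (if i' then t else 1) * (if j' then a else 1) * (if k' then R.d i else 1)
  obtain ⟨i', j', k', hel⟩ : ∃ i' j' k', W = el i' j' k' := by
    have hcases : ∀ S : Fin 8, (S ≠ 7 ∧ S ≠ bit2 i) → F.M.B (F.cl W) (F.M.c S) = 0 := by
      intro S hS
      have hlist : ∀ i : Fin 3, ∀ S : Fin 8, (S ≠ 7 ∧ S ≠ bit2 i) →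
          S = 0 ∨ (∃ j, S = bit1 j) ∨ (∃ j, j ≠ i ∧ S = bit2 j) := by decide
      rcases hlist i S hS with rfl | ⟨j, rfl⟩ | ⟨j, hj, rfl⟩
      · rw [show F.M.c 0 = F.cl a by rw [F.cl_a]; simp [Md.c]]
        exact (F.cl_B W hWQ a haQ).2 hWa
      · rw [← R.cl_d]; exact (F.cl_B W hWQ _ (R.dQ j)).2 (hWd j)
      · rw [← R.cl_w]; exact (F.cl_B W hWQ _ (R.wQ j)).2 (hWw j hj)
    set β := F.M.B (F.cl W) (F.M.c 7)
    set γ := F.M.B (F.cl W) (F.M.c (bit2 i))
    let z : G := (if β = 1 then a else 1) * (if γ = 1 then R.d i else 1)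
    have hzQ : z ∈ Q := by
      refine Q.mul_mem ?_ ?_ <;> split_ifs
      exacts [haQ, Q.one_mem, R.dQ i, Q.one_mem]
    have hclz : F.cl z = (if β = 1 then F.M.c 0 else 0) + (if γ = 1 then F.M.c (bit1 i) else 0) := by
      simp only [z]
      rw [F.cl_mul _ (by split_ifs; exacts [haQ, Q.one_mem]) _ (by split_ifs; exacts [R.dQ i, Q.one_mem])]
      congr 1 <;> split_ifs
      · rw [F.cl_a]; simp [Md.c]
      · exact F.cl_one
      · exact R.cl_d i
      · exact F.cl_one
    have hB0 : ∀ S : Fin 8, F.M.B 0 (F.M.c S) = 0 := fun S => by rw [F.M.symm, F.M.zero_right]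
    have hcl : F.cl z = F.cl W := by
      refine F.M.ext_basis fun S => ?_
      have h01 : ∀ w : ZMod 2, w = 0 ∨ w = 1 := by decide
      have hB : ∀ S, F.M.B (F.cl z) (F.M.c S) =
          (if S = 7 then β else 0) + (if S = bit2 i then γ else 0) := by
        intro S
        have f1 : ∀ i : Fin 3, ∀ S : Fin 8, ((0 : Fin 8).val + S.val = 7 ↔ S = 7) ∧
            ((bit1 i).val + S.val = 7 ↔ S = bit2 i) := by decide
        rw [hclz, F.M.add_left]
        congr 1
        · rcases h01 β with h | h <;> rw [h]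
          · simp [hB0]
          · rw [if_pos rfl, F.M.B_c]; simp only [(f1 i S).1]
        · rcases h01 γ with h | h <;> rw [h]
          · simp [hB0]
          · rw [if_pos rfl, F.M.B_c]; simp only [(f1 i S).2]
      have hne' : ∀ i : Fin 3, (7 : Fin 8) ≠ bit2 i := by decide
      have hne := hne' i
      rw [hB]
      by_cases h7 : S = 7
      · subst h7; rw [if_pos rfl, if_neg hne, add_zero]
      · by_cases hb : S = bit2 i
        · subst hb; rw [if_neg h7, if_pos rfl, zero_add]
        · rw [if_neg h7, if_neg hb, add_zero, hcases S ⟨h7, hb⟩]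
    have hzt := H.Q_comm hzQ
    rcases F.cl_eq _ hzQ _ hWQ hcl with e | e
    · exact ⟨false, decide (β = 1), decide (γ = 1), by rw [e]; simp [el, z]⟩
    · refine ⟨true, decide (β = 1), decide (γ = 1), ?_⟩
      rw [e, hzt]
      simp [el, z, mul_assoc]
  -- arithmetic in the elementary group
  have ct : ∀ b : Bool, ∀ z, z * t = t * z → z * (if b then t else 1) = (if b then t else 1) * z := by
    intro b z h; cases b <;> simp [h]
  have hmul : ∀ p1 p2 p3 r1 r2 r3, el p1 p2 p3 * el r1 r2 r3 = el (p1 ^^ r1) (p2 ^^ r2) (p3 ^^ r3) := by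
    intro p1 p2 p3 r1 r2 r3
    have dT : ∀ z : G, R.d i * (t * z) = t * (R.d i * z) := fun z => by rw [← mul_assoc, hdt, mul_assoc]
    have dA : ∀ z : G, R.d i * (a * z) = a * (R.d i * z) := fun z => by rw [← mul_assoc, hda, mul_assoc]
    have aT : ∀ z : G, a * (t * z) = t * (a * z) := fun z => by rw [← mul_assoc, hat, mul_assoc]
    have tt2 : ∀ z : G, t * (t * z) = z := fun z => by rw [← mul_assoc, htt, one_mul]
    have aa2 : ∀ z : G, a * (a * z) = z := fun z => by rw [← mul_assoc, haa, one_mul]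
    cases p1 <;> cases p2 <;> cases p3 <;> cases r1 <;> cases r2 <;> cases r3 <;>
      simp [el, mul_assoc, dT, dA, aT, tt2, aa2, hdt, hda, hat, htt, haa, R.dd]
  have hinj : ∀ p1 p2 p3, el p1 p2 p3 = 1 → p1 = false ∧ p2 = false ∧ p3 = false := by
    intro p1 p2 p3 h
    have hQs : ∀ b : Bool, ∀ x ∈ Q, (if b then x else 1) ∈ Q := fun b x hx => by
      cases b
      exacts [Q.one_mem, hx]
    have hcl := congrArg F.cl h
    simp only [el] at hcl
    rw [F.cl_mul _ (Q.mul_mem (hQs _ _ H.data.mem) (hQs _ _ haQ)) _ (hQs _ _ (R.dQ i)),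
      F.cl_mul _ (hQs _ _ H.data.mem) _ (hQs _ _ haQ), F.cl_one] at hcl
    have hp2 : p2 = false := by
      cases p2
      · rfl
      exfalso
      have k1 := congrArg (fun w => F.M.B w (F.M.c 7)) hcl
      have f1 : ∀ i : Fin 3, ¬ (bit1 i).val + (7 : Fin 8).val = 7 := by decide
      have hc0 : F.cl a = F.M.c 0 := by rw [F.cl_a]; simp [Md.c]
      have f2 : ∀ i : Fin 3, bit1 i ≠ 0 := by decide
      cases p1 <;> cases p3 <;>
        simp [F.M.add_left, F.cl_t, F.cl_one, hc0, R.cl_d, F.M.B_c, f1, f2, F.M.symm (0 : V), F.M.zero_right] at k1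
    subst hp2
    have hp3 : p3 = false := by
      cases p3
      · rfl
      exfalso
      have k1 := congrArg (fun w => F.M.B w (F.M.c (bit2 i))) hcl
      have f1 : ∀ i : Fin 3, (bit1 i).val + (bit2 i).val = 7 := by decide
      cases p1 <;>
        simp [F.M.add_left, F.cl_t, F.cl_one, R.cl_d, F.M.B_c, f1, F.M.symm (0 : V), F.M.zero_right] at k1
    subst hp3
    cases p1
    · exact ⟨rfl, rfl, rfl⟩
    · exfalso; exact H.data.z_ne (by simpa [el] using h)
  have hconj : ∀ (c : G) (hc : c * c = 1) p1 p2 p3, c * el p1 p2 p3 * c =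
      (if p1 then c * t * c else 1) * (if p2 then c * a * c else 1) * (if p3 then c * R.d i * c else 1) := by
    intro c hc p1 p2 p3
    have hh : ∀ x y : G, c * (x * y) * c = (c * x * c) * (c * y * c) := fun x y => by
      rw [show c * x * c * (c * y * c) = c * x * (c * c) * y * c by group, hc]; group
    have hh1 : c * (1 : G) * c = 1 := by rw [mul_one, hc]
    simp only [el, hh]
    cases p1 <;> cases p2 <;> cases p3 <;> simp [hh1, hc]
  -- the two conjugated products
  set v := R.w i
  have hvv : v * v = 1 := R.ww i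
  have hnn : n * n = 1 := R.nn
  have hmm : m * m = 1 := L.mm i
  set y := n * m * n with hy
  set y' := m * n * m with hy'
  have hyy : y * y = 1 := by
    rw [hy, show n * m * n * (n * m * n) = n * m * (n * n) * m * n by group, hnn, mul_one,
      show n * m * m * n = n * (m * m) * n by group, hmm, mul_one, hnn]
  have hyv : y = v * y * v * y * v := by
    have hx : m = R.x i * m * R.x i * m * R.x i := by
      calc m = R.x i * (R.x i * m * R.x i) * R.x i := by
            rw [show R.x i * (R.x i * m * R.x i) * R.x i = (R.x i * R.x i) * m * (R.x i * R.x i) by group, R.xx]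
            group
        _ = R.x i * (m * R.x i * m) * R.x i := by rw [L.mxm]
        _ = _ := by group
    conv_lhs => rw [hy, hx]
    rw [show n * (R.x i * m * R.x i * m * R.x i) * n = n * R.x i * (n * n) * m * (n * n) * R.x i * (n * n) * m *
      (n * n) * R.x i * n by rw [hnn]; group]
    rw [show v = n * R.x i * n from (R.nx i).symm, hy]
    group
  have hy'v : y' = v * y' * v * y' * v := by
    have hx : n = R.p * n * R.p * n * R.p := by
      calc n = R.p * (R.p * n * R.p) * R.p := by
            rw [show R.p * (R.p * n * R.p) * R.p = (R.p * R.p) * n * (R.p * R.p) by group, R.pp]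
            group
        _ = R.p * (n * R.p * n) * R.p := by rw [R.np]
        _ = _ := by group
    conv_lhs => rw [hy', hx]
    rw [show m * (R.p * n * R.p * n * R.p) * m = m * R.p * (m * m) * n * (m * m) * R.p * (m * m) * n *
      (m * m) * R.p * m by rw [hmm]; group]
    rw [show v = m * R.p * m from (L.mp i).symm, hy']
    group
  have hy'W : y' = W * y := by
    rw [hW, hy', hy, show m * n * m * n * m * n * (n * m * n) = m * n * m * n * m * (n * n) * m * n by group, hnn,
      mul_one, show m * n * m * n * m * m * n = m * n * m * n * (m * m) * n by group, hmm, mul_one,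
      show m * n * m * n * n = m * n * m * (n * n) by group, hnn, mul_one]
  have heq : W = (v * W * v) * (y * (v * (y * W * y) * v) * y) := by
    rw [hy'W] at hy'v
    have e : v * (W * y) * v * (W * y) * v = (v * W * v) * (v * y * v * y * v) * (v * (y * W * y) * v) := by
      symm
      calc v * W * v * (v * y * v * y * v) * (v * (y * W * y) * v)
          = v * W * (v * v) * y * v * y * (v * v) * y * W * y * v := by group
        _ = v * W * y * v * (y * y) * W * y * v := by rw [hvv]; group
        _ = _ := by rw [hyy]; group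
    rw [e, ← hyv] at hy'v
    calc W = W * y * y := by rw [mul_assoc, hyy, mul_one]
      _ = v * W * v * y * (v * (y * W * y) * v) * y := by rw [hy'v]
      _ = _ := by group
  -- evaluate
  have v_t : v * t * v = t := by rw [H.Q_comm (R.wQ i), mul_assoc, hvv, mul_one]
  have v_a : v * a * v = a := by rw [R.wa, mul_assoc, hvv, mul_one]
  have v_d : v * R.d i * v = t * R.d i := by
    rw [R.wd i i, if_pos rfl, mul_assoc, mul_assoc (R.d i), hvv, mul_one]
  have hn_t : n * t * n = a := R.nt
  have y_t : y * t * y = R.d i := by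
    rw [hy, show n * m * n * t * (n * m * n) = n * (m * (n * t * n) * m) * n by group, hn_t, hm, L.m_ad, R.nd]
  have y_a : y * a * y = a := by
    rw [hy, show n * m * n * a * (n * m * n) = n * (m * (n * a * n) * m) * n by group, R.na, hm, L.m_t, R.nt]
  have y_d : y * R.d i * y = t := by
    rw [hy, show n * m * n * R.d i * (n * m * n) = n * (m * (n * R.d i * n) * m) * n by group, R.nd, hm, L.m_da, R.na]
  have hv_el : ∀ p1 p2 p3, v * el p1 p2 p3 * v = el (p1 ^^ p3) p2 p3 := by
    intro p1 p2 p3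
    rw [hconj v hvv, v_t, v_a, v_d]
    cases p1 <;> cases p2 <;> cases p3 <;> simp [el, mul_assoc] <;>
      simp [← mul_assoc, hat, htt] <;> simp [mul_assoc, htt, ← hat]
  have hy_el : ∀ p1 p2 p3, y * el p1 p2 p3 * y = el p3 p2 p1 := by
    intro p1 p2 p3
    rw [hconj y hyy, y_t, y_a, y_d]
    cases p1 <;> cases p2 <;> cases p3 <;> simp [el, mul_assoc] <;>
      simp [← mul_assoc, hat, hda, hdt] <;> simp [mul_assoc, hda, hdt, hat]
  rw [hel, hy_el, hv_el, hv_el, hy_el, hmul] at heq
  have hzero := hmul i' j' k' i' j' k'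
  have hall : ∀ q1 q2 q3, el i' j' k' = el q1 q2 q3 → i' = q1 ∧ j' = q2 ∧ k' = q3 := by
    intro q1 q2 q3 h
    have h1 := hinj (i' ^^ q1) (j' ^^ q2) (k' ^^ q3) (by rw [← hmul, ← h, hzero]; simp [el])
    revert h1
    cases i' <;> cases j' <;> cases k' <;> cases q1 <;> cases q2 <;> cases q3 <;> decide
  obtain ⟨e1, e2, e3⟩ := hall _ _ _ heq
  have hjf : j' = false ∧ i' = k' := by
    revert e1 e2 e3
    cases i' <;> cases j' <;> cases k' <;> decide
  obtain ⟨rfl, rfl⟩ := hjf
  cases i'
  · have hW1 : W = 1 := by rw [hel]; simp [el]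
    show y' = y
    rw [hy'W, hW1, one_mul]
  · exfalso
    -- conjugation by `m` moves the product
    have hmW : m * W * m = W⁻¹ := by
      rw [hW, mul_inv_rev, mul_inv_rev, mul_inv_rev, mul_inv_rev, mul_inv_rev,
        inv_eq_of_mul_eq_one_left hmm, inv_eq_of_mul_eq_one_left hnn]
      calc m * (m * n * m * n * m * n) * m = (m * m) * n * m * n * m * n * m := by group
        _ = _ := by rw [hmm]; group
    have hWinv : W⁻¹ = W := by
      refine inv_eq_of_mul_eq_one_left ?_
      rw [hel, hmul]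
      simp [el]
    rw [hWinv, hel, hconj m hmm, show m * R.d i * m = a from L.m_da i, show m * t * m = t from L.m_t i] at hmW
    have h1 := hinj false true true (by
      simp [el] at hmW
      show (if false = true then t else 1) * a * R.d i = 1
      simp only [Bool.false_eq_true, if_false, one_mul]
      exact (congrArg (fun z => z * R.d i) hmW).trans (R.dd i))
    exact Bool.noConfusion h1.2.1

theorem rel : Rel (gsys L) where
  xx b := by
    fin_cases b <;> first | exact R.xx 0 | exact R.xx 1 | exact R.xx 2 | exact R.pp | exact R.ww 0 | exact R.ww 1 | exact R.ww 2 | exact R.dd 0 | exact R.dd 1 | exact R.dd 2 | exact H.a_sq F.S | exact H.data.zz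
  comm a' b' := by
    have hQt : ∀ z ∈ Q, z * t = t * z := fun z hz => H.Q_comm hz
    have cz : ∀ {A B : G}, A * A = 1 → B * B = 1 → A * B = B * A → A * B * A * B = 1 := fun {A B} hA hB h => by
      rw [h, mul_assoc B A A, hA, mul_one, hB]
    have cz' : ∀ {A B C : G}, A * A = 1 → B * B = 1 → C * C = 1 → A * B * A * B = C → B * A * B * A = C :=
      fun {A B C} hA hB hC h => by rw [invol_word hA hB, h, inv_eq_of_mul_eq_one_left hC]
    have cs : ∀ {A B C : G}, A * A = 1 → B * B = 1 → A * B = C * (B * A) → A * B * A * B = C := fun {A B C} hA hB h => by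
      calc A * B * A * B = C * (B * (A * A) * B) := by rw [h]; group
        _ = C := by rw [hA, mul_one, hB, mul_one]
    have aa := H.a_sq F.S
    have tt := H.data.zz
    -- the pairs with a sum
    have hsum : ∀ p ∈ sumList, (gsys L).x p.1 * (gsys L).x p.2.1 * (gsys L).x p.1 * (gsys L).x p.2.1 =
        (gsys L).x p.2.2 := by
      intro p hp
      simp only [sumList, List.mem_cons, List.not_mem_nil, or_false] at hp
      have hd : ∀ i, R.x i * R.d i = a * (R.d i * R.x i) := fun i => by
        have := R.xd i i; rwa [if_pos rfl] at this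
      have hwd : ∀ i, R.w i * R.d i = t * (R.d i * R.w i) := fun i => by
        have := R.wd i i; rwa [if_pos rfl] at this
      rcases hp with rfl | rfl | rfl | rfl | rfl | rfl | rfl | rfl | rfl | rfl | rfl | rfl | rfl | rfl | rfl | rfl
      · exact R.xp 0
      · exact R.xw 0 1 2 (by decide) (by decide) (by decide)
      · exact R.xw 0 2 1 (by decide) (by decide) (by decide)
      · exact cs (R.xx 0) (R.dd 0) (hd 0)
      · exact R.xp 1
      · exact R.xw 1 0 2 (by decide) (by decide) (by decide)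
      · exact R.xw 1 2 0 (by decide) (by decide) (by decide)
      · exact cs (R.xx 1) (R.dd 1) (hd 1)
      · exact R.xp 2
      · exact R.xw 2 0 1 (by decide) (by decide) (by decide)
      · exact R.xw 2 1 0 (by decide) (by decide) (by decide)
      · exact cs (R.xx 2) (R.dd 2) (hd 2)
      · exact cs R.pp aa R.pa
      · exact cs (R.ww 0) (R.dd 0) (hwd 0)
      · exact cs (R.ww 1) (R.dd 1) (hwd 1)
      · exact cs (R.ww 2) (R.dd 2) (hwd 2)
    cases hs : rootSum a' b' with
    | some c =>
      obtain ⟨p, hp, hpp⟩ : ∃ p ∈ sumList, ((a' = p.1 ∧ b' = p.2.1) ∨ (a' = p.2.1 ∧ b' = p.1)) ∧ c = p.2.2 := by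
        revert hs
        revert a' b' c
        decide +kernel
      obtain ⟨hor, rfl⟩ := hpp
      have sq : ∀ b, (gsys L).x b * (gsys L).x b = 1 := by
        intro b
        fin_cases b <;> first | exact R.xx 0 | exact R.xx 1 | exact R.xx 2 | exact R.pp | exact R.ww 0 | exact R.ww 1 | exact R.ww 2 | exact R.dd 0 | exact R.dd 1 | exact R.dd 2 | exact aa | exact tt
      rcases hor with ⟨rfl, rfl⟩ | ⟨rfl, rfl⟩
      · exact hsum p hp
      · exact cz' (sq _) (sq _) (sq _) (hsum p hp)
    | none =>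
      show _ = (1 : G)
      have sq : ∀ b, (gsys L).x b * (gsys L).x b = 1 := by
        intro b
        fin_cases b <;> first | exact R.xx 0 | exact R.xx 1 | exact R.xx 2 | exact R.pp | exact R.ww 0 | exact R.ww 1 | exact R.ww 2 | exact R.dd 0 | exact R.dd 1 | exact R.dd 2 | exact aa | exact tt
      refine cz (sq _) (sq _) ?_
      have at' := H.a_t F.S
      have xd' : ∀ i j, i ≠ j → R.x i * R.d j = R.d j * R.x i := fun i j h => by
        have := R.xd i j; rwa [if_neg h] at this
      have wd' : ∀ i j, i ≠ j → R.w i * R.d j = R.d j * R.w i := fun i j h => by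
        have := R.wd i j; rwa [if_neg h] at this
      have wt := fun i => hQt _ (R.wQ i)
      have dt := fun i => hQt _ (R.dQ i)
      have pt := hQt _ R.pQ
      fin_cases a' <;> fin_cases b' <;> first
        | rfl
        | exact absurd hs (by decide +kernel)
        | exact R.xx' _ _
        | exact R.ww' _ _
        | exact R.dd' _ _
        | exact R.xa _ | exact (R.xa _).symm
        | exact R.xC _ | exact (R.xC _).symm
        | exact R.wa _ | exact (R.wa _).symm
        | exact R.da _ | exact (R.da _).symm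
        | exact wt _ | exact (wt _).symm
        | exact dt _ | exact (dt _).symm
        | exact at' | exact at'.symm
        | exact pt | exact pt.symm
        | exact R.pw _ | exact (R.pw _).symm
        | exact R.pd _ | exact (R.pd _).symm
        | exact R.xw_eq _ | exact (R.xw_eq _).symm
        | exact xd' _ _ (by decide) | exact (xd' _ _ (by decide)).symm
        | exact wd' _ _ (by decide) | exact (wd' _ _ (by decide)).symm
  nn := L.nn_rel
  nx := L.nx_rel
  xn i := by
    fin_cases i
    exacts [L.mxm 0, L.mxm 1, L.mxm 2, R.np]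
  nc i j hi hj := by
    fin_cases i <;> fin_cases j <;> first | exact absurd rfl hi | exact absurd rfl hj | exact L.mm' _ _
  br i hi := by
    fin_cases i
    exacts [L.braid 0, L.braid 1, L.braid 2, absurd rfl hi]

/-- The subgroup of the root elements. -/
def uGen : Subgroup G := Subgroup.closure (Set.range (gsys L).x)

/-- The subgroup of the root elements and the outer reflections. -/
def cGen : Subgroup G :=
  Subgroup.closure (Set.range (gsys L).x ∪ Set.range fun i : Fin 3 => (gsys L).n (Fin.castSucc i))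

theorem cGen_le_gen : L.cGen ≤ gen (gsys L) := by
  refine Subgroup.closure_mono (Set.union_subset_union_right _ ?_)
  rintro _ ⟨i, rfl⟩
  exact ⟨_, rfl⟩

/-- The extraspecial subgroup lies in the root subgroup. -/
theorem Q_le_uGen : ∀ z ∈ Q, z ∈ L.uGen := by
  classical
  have hx : ∀ b, (gsys L).x b ∈ L.uGen := fun b => Subgroup.subset_closure ⟨b, rfl⟩
  have hlift : ∀ S : Fin 8, ∃ q ∈ Q, q ∈ L.uGen ∧ F.cl q = F.M.c S := by
    intro S
    have h8 : ∀ S : Fin 8, S = 0 ∨ S = 7 ∨ (∃ j, S = bit1 j) ∨ (∃ j, S = bit2 j) := by decide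
    rcases h8 S with rfl | rfl | ⟨j, rfl⟩ | ⟨j, rfl⟩
    · exact ⟨a, F.S.pair.mem, hx 10, by rw [F.cl_a]; simp [Md.c]⟩
    · exact ⟨R.p, R.pQ, hx 3, R.cl_p⟩
    · refine ⟨R.d j, R.dQ j, ?_, R.cl_d j⟩
      fin_cases j
      exacts [hx 7, hx 8, hx 9]
    · refine ⟨R.w j, R.wQ j, ?_, R.cl_w j⟩
      fin_cases j
      exacts [hx 4, hx 5, hx 6]
  choose q hqQ hqg hqc using hlift
  intro z hz
  let pr : Fin 8 → G := fun S => if F.M.B (F.cl z) (F.M.c (Fin.rev S)) = 1 then q S else 1
  have hpQ : ∀ S, pr S ∈ Q := fun S => by simp only [pr]; split_ifs; exacts [hqQ S, Q.one_mem]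
  have hpg : ∀ S, pr S ∈ L.uGen := fun S => by simp only [pr]; split_ifs; exacts [hqg S, one_mem _]
  set P := pr 0 * pr 1 * pr 2 * pr 3 * pr 4 * pr 5 * pr 6 * pr 7
  have h1 : pr 0 * pr 1 ∈ Q := Q.mul_mem (hpQ 0) (hpQ 1)
  have h2 := Q.mul_mem h1 (hpQ 2)
  have h3 := Q.mul_mem h2 (hpQ 3)
  have h4 := Q.mul_mem h3 (hpQ 4)
  have h5 := Q.mul_mem h4 (hpQ 5)
  have h6 := Q.mul_mem h5 (hpQ 6)
  have hPQ : P ∈ Q := Q.mul_mem h6 (hpQ 7)
  have hPg : P ∈ L.uGen :=
    mul_mem (mul_mem (mul_mem (mul_mem (mul_mem (mul_mem (mul_mem (hpg 0) (hpg 1)) (hpg 2)) (hpg 3)) (hpg 4))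
      (hpg 5)) (hpg 6)) (hpg 7)
  have hB : ∀ S T : Fin 8, F.M.B (F.cl (pr S)) (F.M.c T) =
      if T = Fin.rev S then F.M.B (F.cl z) (F.M.c T) else 0 := by
    intro S T
    have h01 : ∀ w : ZMod 2, w ≠ 1 → w = 0 := by decide
    have hrev : ∀ S T : Fin 8, S.val + T.val = 7 ↔ T = Fin.rev S := by decide
    simp only [pr]
    by_cases h : F.M.B (F.cl z) (F.M.c (Fin.rev S)) = 1
    · rw [if_pos h, hqc, F.M.B_c]
      simp only [hrev]
      split_ifs with e
      · rw [e, h]
      · rfl
    · rw [if_neg h, F.cl_one, F.M.symm, F.M.zero_right]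
      split_ifs with e
      · rw [e, h01 _ h]
      · rfl
  have hcl : F.cl P = F.cl z := by
    refine F.M.ext_basis fun T => ?_
    rw [F.cl_mul _ h6 _ (hpQ 7), F.cl_mul _ h5 _ (hpQ 6), F.cl_mul _ h4 _ (hpQ 5), F.cl_mul _ h3 _ (hpQ 4),
      F.cl_mul _ h2 _ (hpQ 3), F.cl_mul _ h1 _ (hpQ 2), F.cl_mul _ (hpQ 0) _ (hpQ 1)]
    simp only [F.M.add_left, hB]
    fin_cases T <;> simp (config := { decide := true })
  rcases F.cl_eq _ hPQ _ hz hcl with e | e <;> rw [e]
  · exact hPg
  · exact mul_mem hPg (hx 11)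

/-- The centraliser is generated by root elements and outer reflections. -/
theorem centralizer_le_cGen {c : G} (hc : c * t = t * c) : c ∈ L.cGen := by
  classical
  have hx : ∀ b, (gsys L).x b ∈ L.cGen := fun b => Subgroup.subset_closure (Or.inl ⟨b, rfl⟩)
  have hn : ∀ i : Fin 3, (gsys L).n (Fin.castSucc i) ∈ L.cGen := fun i => Subgroup.subset_closure (Or.inr ⟨i, rfl⟩)
  have hQ : ∀ z ∈ Q, z ∈ L.cGen := fun z hz =>
    Subgroup.closure_mono Set.subset_union_left (L.Q_le_uGen z hz)
  set K := ((L.cGen).comap (Subgroup.centralizer ({t} : Set G)).subtype).map H.π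
  have hl : ∀ i, lref i ∈ K ∧ lnu i ∈ K := fun i => by
    refine ⟨⟨⟨R.x i, H.mem_C.2 (R.xC i)⟩, ?_, R.π_x i⟩, ⟨⟨L.m i, H.mem_C.2 (L.mC i)⟩, ?_, L.π_m i⟩⟩
    · fin_cases i
      exacts [hx 0, hx 1, hx 2]
    · fin_cases i
      exacts [hn 0, hn 1, hn 2]
  obtain ⟨r, hr, hrc⟩ : H.π ⟨c, H.mem_C.2 hc⟩ ∈ K := by
    have hin : ∀ i p, inFactor p i ∈ K := fun i p => by
      rcases inFactor_gen i p with h | h | h | h | h | h <;> rw [h]
      exacts [one_mem _, (hl i).1, (hl i).2, mul_mem (hl i).1 (hl i).2, mul_mem (hl i).2 (hl i).1,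
        mul_mem (mul_mem (hl i).1 (hl i).2) (hl i).1]
    set l := H.π ⟨c, H.mem_C.2 hc⟩
    rw [show l = inFactor l.1 0 * inFactor l.2.1 1 * inFactor l.2.2 2 from
      Prod.ext (by simp [inFactor]) (Prod.ext (by simp [inFactor]) (by simp [inFactor]))]
    exact mul_mem (mul_mem (hin _ _) (hin _ _)) (hin _ _)
  have hk := (H.ker (⟨c, H.mem_C.2 hc⟩ * r⁻¹)).1 (by rw [map_mul, map_inv, hrc, mul_inv_cancel])
  push_cast at hk
  have hrG : (r : G) ∈ L.cGen := hr
  have := mul_mem (hQ _ hk) hrG
  rwa [inv_mul_cancel_right] at this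

/-- The centraliser lies in the generated group. -/
theorem centralizer_le {c : G} (hc : c * t = t * c) : c ∈ gen (gsys L) := L.cGen_le_gen (L.centralizer_le_cGen hc)

/-- The root elements centralise the involution. -/
theorem x_comm (b : Fin 12) : (gsys L).x b * t = t * (gsys L).x b := by
  fin_cases b <;> first | exact R.xC 0 | exact R.xC 1 | exact R.xC 2 | exact H.Q_comm R.pQ | exact H.Q_comm (R.wQ 0) |
    exact H.Q_comm (R.wQ 1) | exact H.Q_comm (R.wQ 2) | exact H.Q_comm (R.dQ 0) | exact H.Q_comm (R.dQ 1) |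
    exact H.Q_comm (R.dQ 2) | exact H.a_t F.S | rfl

/-- The images of the root elements lie in the standard Sylow subgroup. -/
theorem x_stdP (b : Fin 12) : H.π ⟨(gsys L).x b, H.mem_C.2 (L.x_comm b)⟩ ∈ stdP := by
  have hq : ∀ z (hz : z * t = t * z), z ∈ Q → H.π ⟨z, H.mem_C.2 hz⟩ ∈ stdP := fun z hz hzQ => by
    rw [(H.ker _).2 (by exact hzQ)]; exact one_mem _
  fin_cases b <;> first
    | exact (R.π_x 0).symm ▸ lref_mem 0 | exact (R.π_x 1).symm ▸ lref_mem 1 | exact (R.π_x 2).symm ▸ lref_mem 2
    | exact hq R.p (H.Q_comm R.pQ) R.pQ | exact hq (R.w 0) (H.Q_comm (R.wQ 0)) (R.wQ 0)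
    | exact hq (R.w 1) (H.Q_comm (R.wQ 1)) (R.wQ 1) | exact hq (R.w 2) (H.Q_comm (R.wQ 2)) (R.wQ 2)
    | exact hq (R.d 0) (H.Q_comm (R.dQ 0)) (R.dQ 0) | exact hq (R.d 1) (H.Q_comm (R.dQ 1)) (R.dQ 1)
    | exact hq (R.d 2) (H.Q_comm (R.dQ 2)) (R.dQ 2) | exact hq a (H.a_t F.S) F.S.pair.mem
    | exact hq t rfl H.data.mem

/-- The generated group has trivial centre. -/
theorem center_free : ∀ z ∈ gen (gsys L), (∀ b, z * (gsys L).x b = (gsys L).x b * z) →
    (∀ i, z * (gsys L).n i = (gsys L).n i * z) → z = 1 := by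
  intro z _ hzx hzn
  have hcen : ∀ y ∈ gen (gsys L), z * y = y * z := by
    intro y hy
    have hle : gen (gsys L) ≤ Subgroup.centralizer ({z} : Set G) := by
      refine (Subgroup.closure_le _).2 ?_
      rintro _ (⟨b, rfl⟩ | ⟨i, rfl⟩) <;> rw [SetLike.mem_coe, Subgroup.mem_centralizer_singleton_iff]
      exacts [(hzx b).symm, (hzn i).symm]
    exact (Subgroup.mem_centralizer_singleton_iff.1 (hle hy)).symm
  have hzt : z * t = t * z := hzx 11
  have hzQ : z ∈ Q := H.data.cent (Subgroup.mem_centralizer_iff.2 fun y hy =>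
    (hcen y (L.centralizer_le (H.Q_comm hy))).symm)
  rcases H.data.central_eq_or hzQ (fun y hy => hcen y (L.centralizer_le (H.Q_comm hy))) with e | e
  · exact e
  · exfalso
    subst e
    have h : z * R.n = R.n * z := hzn 3
    have h1 := R.nt
    rw [← h, mul_assoc, R.nn, mul_one] at h1
    exact F.S.pair.ne h1.symm

end Levi

end CfsgLib.OrthEightRecog
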