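import Mathlib

/-!
Tables of the root system of type `D₄` over the field with two elements.

The positive roots are numbered `0 … 11`: the simple outer roots `0, 1, 2`, the central simple root `3`, then
`4, 5, 6` the sums of the central root with one outer root, `7, 8, 9` those with two outer roots, `10` the sum of
all four simple roots and `11` the highest root.
-/

set_option autoImplicit false

namespace CfsgLib.OrthEightRecog

/-- The simple root of a node. -/
def simp4 (i : Fin 4) : Fin 12 := Fin.castLE (by omega) i

/-- The simple reflections on positive roots (fixing their own root). -/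
def refl4 : Fin 4 → Fin 12 → Fin 12
  | 0 => ![0, 1, 2, 4, 3, 9, 8, 10, 6, 5, 7, 11]
  | 1 => ![0, 1, 2, 5, 9, 3, 7, 6, 10, 4, 8, 11]
  | 2 => ![0, 1, 2, 6, 8, 7, 3, 5, 4, 10, 9, 11]
  | 3 => ![4, 5, 6, 3, 0, 1, 2, 7, 8, 9, 11, 10]

/-- The pairs of positive roots whose sum is a root, with the sum. -/
def sumList : List (Fin 12 × Fin 12 × Fin 12) :=
  [(0, 3, 4), (0, 5, 9), (0, 6, 8), (0, 7, 10), (1, 3, 5), (1, 4, 9), (1, 6, 7), (1, 8, 10),
    (2, 3, 6), (2, 4, 8), (2, 5, 7), (2, 9, 10), (3, 10, 11), (4, 7, 11), (5, 8, 11), (6, 9, 11)]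

/-- The sum of two roots, if it is a root. -/
def rootSum (a b : Fin 12) : Option (Fin 12) :=
  (sumList.find? fun p => (p.1 == a && p.2.1 == b) || (p.1 == b && p.2.1 == a)).map fun p => p.2.2

/-- The word of the longest element. -/
def longWord : List (Fin 4) := [0, 1, 2, 3, 0, 1, 2, 3, 0, 1, 2, 3]

/-- A rewriting move: at a position, exchange two commuting letters or apply a braid move. -/
def move (w : List (Fin 4)) (pm : ℕ × ℕ) : Option (List (Fin 4)) :=
  match w.drop pm.1, pm.2 with
  | a :: b :: r, 2 => if a ≠ b ∧ a ≠ 3 ∧ b ≠ 3 then some (w.take pm.1 ++ b :: a :: r) else none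
  | a :: b :: c :: r, 3 =>
      if a = c ∧ a ≠ b ∧ (a = 3 ∨ b = 3) then some (w.take pm.1 ++ b :: a :: b :: r) else none
  | _, _ => none

/-- A chain of moves. -/
def moves : List (Fin 4) → List (ℕ × ℕ) → Option (List (Fin 4))
  | w, [] => some w
  | w, p :: ps => (move w p).bind fun w' => moves w' ps

/-- The image of a positive root under a word, read from the right, if all steps stay positive. -/
def actRoot : List (Fin 4) → Fin 12 → Option (Fin 12)
  | [], b => some b
  | i :: w, b => (actRoot w b).bind fun c => if c = simp4 i then none else some (refl4 i c)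

end CfsgLib.OrthEightRecog
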